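import Mathlib
import Cfsg.Agent.Lib.H3.ClassTwo
import Cfsg.Agent.Lib.H1.Cores

/-!
# Automorphisms of groups with a derived group of the smallest possible order
-/

set_option autoImplicit false

namespace H71.AutClassTwo

open Subgroup
open scoped commutatorElement

variable {G : Type*} [Group G] [Finite G]

/-- a normal subgroup of order the smallest prime divisor is central -/
theorem le_center {p : ℕ} (hp : p.Prime) (hmin : ∀ d : ℕ, d ∣ Nat.card G → d ≠ 1 → p ≤ d) (N : Subgroup G) [N.Normal]
    (hN : Nat.card N = p) : N ≤ center G := by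
  have := Fact.mk hp
  have hc : IsCyclic N := isCyclic_of_prime_card hN
  let f : G →* MulAut N := MulAut.conjNormal
  have h1 : Nat.card f.range ∣ p.totient := by
    rw [← hN, ← IsCyclic.card_mulAut]
    exact Subgroup.card_subgroup_dvd_card f.range
  have h2 : Nat.card f.range ∣ Nat.card G := Subgroup.card_range_dvd f
  have h3 : Nat.card f.range = 1 := by
    by_contra hne
    have h4 := hmin _ h2 hne
    rw [Nat.totient_prime hp] at h1
    have h5 := Nat.le_of_dvd (by have := hp.two_le; omega) h1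
    have := hp.two_le
    omega
  have h4 : f.range = ⊥ := Subgroup.card_eq_one.mp h3
  intro n hn
  rw [Subgroup.mem_center_iff]
  intro g
  have h5 : f g = 1 := by
    have : f g ∈ f.range := ⟨g, rfl⟩
    rw [h4] at this
    exact this
  have h6 := congrArg Subtype.val (DFunLike.congr_fun h5 ⟨n, hn⟩)
  change g * n * g⁻¹ = n at h6
  rw [mul_inv_eq_iff_eq_mul] at h6
  exact h6

variable (hZ : commutator G ≤ center G)

/-- the homomorphism `x ↦ ⁅x, y⁆` -/
def kap (hZ : commutator G ≤ center G) (y : G) : G →* commutator G :=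
  MonoidHom.mk' (fun x => ⟨⁅x, y⁆, Subgroup.commutator_mem_commutator (Subgroup.mem_top x) (Subgroup.mem_top y)⟩)
    (fun a b => Subtype.ext (H3.ClassTwo.mul_left hZ a b y))

theorem kap_apply (y x : G) : ((kap hZ y x : commutator G) : G) = ⁅x, y⁆ := rfl

theorem kap_surjective {p : ℕ} (hp : p.Prime) (hG' : Nat.card (commutator G) = p) {y : G} (hy : y ∉ center G) :
    Function.Surjective (kap hZ y) := by
  have := Fact.mk hp
  rw [← MonoidHom.range_eq_top]
  have h1 : Nat.card (kap hZ y).range ∣ p := by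
    rw [← hG']; exact Subgroup.card_subgroup_dvd_card _
  rcases (Nat.dvd_prime hp).mp h1 with h | h
  · exfalso
    apply hy
    rw [Subgroup.mem_center_iff]
    intro g
    have h2 : (kap hZ y).range = ⊥ := Subgroup.card_eq_one.mp h
    have h3 : kap hZ y g = 1 := by
      have : kap hZ y g ∈ (kap hZ y).range := ⟨g, rfl⟩
      rw [h2] at this
      exact this
    have h4 := congrArg Subtype.val h3
    rw [kap_apply] at h4
    exact commutatorElement_eq_one_iff_mul_comm.mp h4
  · exact Subgroup.eq_top_of_card_eq _ (by rw [h, hG'])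

theorem mem_ker_kap (y x : G) : x ∈ (kap hZ y).ker ↔ x * y = y * x := by
  rw [MonoidHom.mem_ker, ← commutatorElement_eq_one_iff_mul_comm, ← kap_apply hZ]
  constructor
  · intro h; rw [h]; rfl
  · intro h; exact Subtype.ext h

theorem index_ker_kap {p : ℕ} (hp : p.Prime) (hG' : Nat.card (commutator G) = p) {y : G} (hy : y ∉ center G) :
    (kap hZ y).ker.index = p := by
  rw [Subgroup.index_ker, MonoidHom.range_eq_top.mpr (kap_surjective hZ hp hG' hy), Subgroup.card_top, hG']

include hZ in
/-- all elements of `x G'` are conjugate for `x` noncentral -/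
theorem exists_conj {p : ℕ} (hp : p.Prime) (hG' : Nat.card (commutator G) = p) {x c : G} (hx : x ∉ center G)
    (hc : c ∈ commutator G) : ∃ g : G, g * x * g⁻¹ = x * c := by
  obtain ⟨g, hg⟩ := kap_surjective hZ hp hG' hx ⟨c, hc⟩
  refine ⟨g, ?_⟩
  have h1 := congrArg Subtype.val hg
  rw [kap_apply, commutatorElement_def] at h1
  change g * x * g⁻¹ * x⁻¹ = c at h1
  rw [mul_inv_eq_iff_eq_mul] at h1
  rw [h1]
  exact ((Subgroup.mem_center_iff.mp (hZ hc)) x).symm

theorem mem_of_pow {p : ℕ} (hp : p.Prime) (hG' : Nat.card (commutator G) = p) {c : G} (hc : c ∈ commutator G) : c ^ p = 1 := by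
  rw [← hG']
  have := pow_card_eq_one' (x := (⟨c, hc⟩ : commutator G))
  exact congrArg Subtype.val this

include hZ in
/-- the orbit of a noncentral element has at least `p` elements -/
theorem orbit_ge_p {p : ℕ} (hp : p.Prime) (hG' : Nat.card (commutator G) = p) {x : G} (hx : x ∉ center G) :
    p ≤ Nat.card (MulAction.orbit (MulAut G) x) := by
  rw [← hG']
  apply Nat.card_le_card_of_injective (fun c : commutator G => (⟨x * c, by
    obtain ⟨g, hg⟩ := exists_conj hZ hp hG' hx c.2
    exact ⟨MulAut.conj g, hg⟩⟩ : MulAction.orbit (MulAut G) x))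
  intro c d hcd
  have := congrArg Subtype.val hcd
  exact Subtype.ext (mul_left_cancel this)

theorem map_comm (τ : MulAut G) {c : G} (hc : c ∈ commutator G) : τ c ∈ commutator G := by
  have h1 : (commutator G).map τ.toMonoidHom ≤ commutator G := by
    rw [commutator_def, Subgroup.map_commutator, Subgroup.map_top_of_surjective _ τ.surjective]
  exact h1 ⟨c, hc, rfl⟩

theorem map_center (τ : MulAut G) {c : G} (hc : τ c ∈ center G) : c ∈ center G := by
  rw [Subgroup.mem_center_iff] at hc ⊢
  intro g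
  apply τ.injective
  rw [map_mul, map_mul]
  exact hc (τ g)

include hZ in
/-- an automorphism moving `x` outside `x G'` -/
theorem orbit_ge_sq {p : ℕ} (hp : p.Prime) (hG' : Nat.card (commutator G) = p) {x : G} (hx : x ∉ center G)
    (τ : MulAut G) (u c : G) (hc : c ∈ commutator G) (hτx : τ x = x * u * c) (hτu : τ u = u)
    (hu : ∀ i, 0 < i → i < p → u ^ i ∉ commutator G) :
    p ^ 2 ≤ Nat.card (MulAction.orbit (MulAut G) x) := by
  have hcen : ∀ d ∈ commutator G, ∀ g : G, g * d = d * g := fun d hd g => (Subgroup.mem_center_iff.mp (hZ hd)) g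
  have hpow : ∀ i : ℕ, ∃ d ∈ commutator G, (τ ^ i) x = x * u ^ i * d := by
    intro i
    induction i with
    | zero => exact ⟨1, one_mem _, by simp⟩
    | succ i ih =>
      obtain ⟨d, hd, hdi⟩ := ih
      refine ⟨c * τ d, mul_mem hc (map_comm τ hd), ?_⟩
      rw [pow_succ', MulAut.mul_apply, hdi, map_mul, map_mul, map_pow, hτu, hτx]
      calc x * u * c * u ^ i * τ d = x * u * (c * u ^ i) * τ d := by group
        _ = x * u * (u ^ i * c) * τ d := by rw [hcen c hc]
        _ = x * u ^ (i + 1) * (c * τ d) := by rw [pow_succ']; group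
  have hnc : ∀ i : ℕ, (τ ^ i) x ∉ center G := fun i h => hx (map_center (τ ^ i) h)
  have hcard : p ^ 2 = Nat.card (Fin p × commutator G) := by
    rw [Nat.card_prod, hG', Nat.card_eq_fintype_card, Fintype.card_fin, pow_two]
  rw [hcard]
  apply Nat.card_le_card_of_injective (fun a : Fin p × commutator G => (⟨(τ ^ (a.1 : ℕ)) x * a.2, by
    obtain ⟨g, hg⟩ := exists_conj hZ hp hG' (hnc a.1) a.2.2
    exact ⟨MulAut.conj g * τ ^ (a.1 : ℕ), hg⟩⟩ : MulAction.orbit (MulAut G) x))
  -- injectivity
  have key : ∀ (i j : ℕ) (c d : G), c ∈ commutator G → d ∈ commutator G → i < p → j < p → i ≤ j → (τ ^ i) x * c = (τ ^ j) x * d → i = j := by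
    intro i j c d hc hd hi hj hij h
    by_contra hne
    obtain ⟨ci, hci, hi'⟩ := hpow i
    obtain ⟨cj, hcj, hj'⟩ := hpow j
    apply hu (j - i) (by omega) (by omega)
    rw [hi', hj'] at h
    have h1 : u ^ j = u ^ i * u ^ (j - i) := by rw [← pow_add]; congr 1; omega
    have h2 : u ^ (j - i) = ci * c * d⁻¹ * cj⁻¹ := by
      have h3 : u ^ i * (ci * c) = u ^ i * (u ^ (j - i) * cj * d) := by
        apply mul_left_cancel (a := x)
        calc x * (u ^ i * (ci * c)) = x * u ^ i * ci * c := by group
          _ = x * u ^ j * cj * d := h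
          _ = x * (u ^ i * (u ^ (j - i) * cj * d)) := by rw [h1]; group
      have h4 := mul_left_cancel h3
      rw [h4]; group
    rw [h2]
    exact mul_mem (mul_mem (mul_mem hci hc) (inv_mem hd)) (inv_mem hcj)
  rintro ⟨i, c⟩ ⟨j, d⟩ h
  have h' : (τ ^ (i : ℕ)) x * c = (τ ^ (j : ℕ)) x * d := congrArg Subtype.val h
  have hij : (i : ℕ) = j := by
    rcases le_total (i : ℕ) j with hle | hle
    · exact key i j c d c.2 d.2 i.2 j.2 hle h'
    · exact (key j i d c d.2 c.2 j.2 i.2 hle h'.symm).symm
  have hij' : i = j := Fin.ext hij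
  subst hij'
  have := mul_left_cancel h'
  rw [Subtype.ext this]

/-- the basic construction of an automorphism -/
theorem exists_auto {p : ℕ} [NeZero p] (β : G → ZMod p) (hβ : ∀ x y, β (x * y) = β x + β y)
    (Zf : ZMod p → G) (hZ0 : Zf 0 = 1) (hZadd : ∀ a b, Zf a * Zf b = Zf (a + b)) (hZc : ∀ a x, Zf a * x = x * Zf a)
    (hβZ : ∀ a, β (Zf a) = 0)
    (Y : ZMod p → G) (hY0 : Y 0 = 1) (hβY : ∀ a, β (Y a) = 0)
    (hYx : ∀ a x, Y a * x = x * Y a * Zf (-(a * β x)))
    (B : ZMod p → ZMod p → ZMod p) (hYY : ∀ a b, Y a * Y b = Y (a + b) * Zf (B a b))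
    (q : ZMod p → ZMod p) (hq0 : q 0 = 0) (hq : ∀ a b, q (a + b) = q a + q b + B a b - a * b) :
    ∃ τ : MulAut G, ∀ x, τ x = x * Y (β x) * Zf (q (β x)) := by
  let t : G →* G := MonoidHom.mk' (fun x => x * Y (β x) * Zf (q (β x))) (by
    intro x y
    change x * y * Y (β (x * y)) * Zf (q (β (x * y))) = x * Y (β x) * Zf (q (β x)) * (y * Y (β y) * Zf (q (β y)))
    symm
    calc x * Y (β x) * Zf (q (β x)) * (y * Y (β y) * Zf (q (β y)))
        = x * Y (β x) * (Zf (q (β x)) * (y * Y (β y))) * Zf (q (β y)) := by group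
      _ = x * (Y (β x) * y) * Y (β y) * (Zf (q (β x)) * Zf (q (β y))) := by rw [hZc]; group
      _ = x * y * Y (β x) * (Zf (-(β x * β y)) * Y (β y)) * Zf (q (β x) + q (β y)) := by rw [hYx, hZadd]; group
      _ = x * y * (Y (β x) * Y (β y)) * (Zf (-(β x * β y)) * Zf (q (β x) + q (β y))) := by rw [hZc]; group
      _ = x * y * (Y (β x + β y)) * (Zf (B (β x) (β y)) * Zf (-(β x * β y) + (q (β x) + q (β y)))) := by
        rw [hYY, hZadd]; group
      _ = x * y * Y (β (x * y)) * Zf (q (β (x * y))) := by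
        rw [hZadd, hβ, hq]
        congr 2
        ring)
  have ht : ∀ x, t x = x * Y (β x) * Zf (q (β x)) := fun _ => rfl
  have hinj : Function.Injective t := by
    rw [injective_iff_map_eq_one]
    intro x hx
    rw [ht] at hx
    have h1 : β x = 0 := by
      have h2 := congrArg β hx
      rw [hβ, hβ, hβY, hβZ, add_zero, add_zero] at h2
      have h3 : β 1 = 0 := by
        have := hβ 1 1
        rw [mul_one] at this
        exact left_eq_add.mp this
      rw [h2, h3]
    rw [h1, hY0, hq0, hZ0, mul_one, mul_one] at hx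
    exact hx
  exact ⟨MulEquiv.ofBijective t ⟨hinj, Finite.surjective_of_injective hinj⟩, ht⟩

end H71.AutClassTwo
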