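import Mathlib
import Cfsg.Agent.Lib.H3.ClassTwo
import Cfsg.Agent.Lib.H1.Cores
import Cfsg.Agent.Lib.H77.Degree
import Cfsg.Agent.Lib.H18.CharInd
import Cfsg.Agent.Lib.H18.CharQuot
import Cfsg.Agent.Lib.H18.CharOrtho

/-!
# Counting automorphism orbits
-/

set_option autoImplicit false

namespace H71.AutCount

open Subgroup Cfsg

/-- the number of orbits is the sum of the reciprocals of the orbit lengths -/
theorem card_orbits_eq_sum {A X : Type*} [Group A] [MulAction A X] [Fintype X] :
    (Nat.card (MulAction.orbitRel.Quotient A X) : ℚ) = ∑ x : X, (1 / (Nat.card (MulAction.orbit A x)) : ℚ) := by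
  classical
  have hf : Fintype (MulAction.orbitRel.Quotient A X) := Fintype.ofFinite _
  have hf2 : ∀ ω : MulAction.orbitRel.Quotient A X, Fintype (MulAction.orbit A (Quotient.out ω)) := fun ω => Fintype.ofFinite _
  rw [← Equiv.sum_comp (MulAction.selfEquivSigmaOrbits A X).symm, Fintype.sum_sigma, Nat.card_eq_fintype_card]
  have h1 : ∀ ω : MulAction.orbitRel.Quotient A X, ∑ y : MulAction.orbit A (Quotient.out ω),
      (1 / (Nat.card (MulAction.orbit A ((MulAction.selfEquivSigmaOrbits A X).symm ⟨ω, y⟩))) : ℚ) = 1 := by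
    intro ω
    have h2 : ∀ y : MulAction.orbit A (Quotient.out ω), (1 / (Nat.card (MulAction.orbit A ((MulAction.selfEquivSigmaOrbits A X).symm ⟨ω, y⟩))) : ℚ)
        = 1 / (Nat.card (MulAction.orbit A (Quotient.out ω))) := by
      intro y
      have h3 : (MulAction.selfEquivSigmaOrbits A X).symm ⟨ω, y⟩ = (y : X) := rfl
      rw [h3, MulAction.orbit_eq_iff.mpr y.2]
    rw [Finset.sum_congr rfl (fun y _ => h2 y), Finset.sum_const, Finset.card_univ, nsmul_eq_mul, ← Nat.card_eq_fintype_card]
    have h4 : (Nat.card (MulAction.orbit A (Quotient.out ω)) : ℚ) ≠ 0 := by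
      have : Nonempty (MulAction.orbit A (Quotient.out ω)) := ⟨⟨_, MulAction.mem_orbit_self _⟩⟩
      exact_mod_cast Nat.card_pos.ne'
    field_simp
  rw [Finset.sum_congr rfl (fun ω _ => h1 ω), Finset.sum_const, Finset.card_univ, nsmul_eq_mul, mul_one]

variable {G : Type*} [Group G] [Finite G]

/-- the counting argument -/
theorem orbits_mul_le {A : Type*} [Group A] [MulAction A G] {p : ℕ} (hp : 2 ≤ p) (Z M : Subgroup G)
    (hM : M.index = p) (hZ : p ^ 2 ≤ Z.index)
    (h1 : ∀ x ∉ Z, p ≤ Nat.card (MulAction.orbit A x)) (h2 : ∀ x ∉ M, p ^ 2 ≤ Nat.card (MulAction.orbit A x)) (hZM : Z ≤ M) :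
    Nat.card (MulAction.orbitRel.Quotient A G) * p ≤ Nat.card G := by
  classical
  have : Fintype G := Fintype.ofFinite G
  have hp0 : (0 : ℚ) < p := by exact_mod_cast (by omega : 0 < p)
  have hp2 : (2 : ℚ) ≤ p := by exact_mod_cast hp
  have key : (Nat.card (MulAction.orbitRel.Quotient A G) : ℚ) * p ≤ Nat.card G := by
    rw [card_orbits_eq_sum]
    have hb : ∀ x : G, (1 / (Nat.card (MulAction.orbit A x)) : ℚ) ≤
        1 / p ^ 2 + (if x ∈ M then (1 / p - 1 / p ^ 2 : ℚ) else 0) + (if x ∈ Z then (1 - 1 / p : ℚ) else 0) := by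
      intro x
      have hpos : (0 : ℚ) < Nat.card (MulAction.orbit A x) := by
        have : Nonempty (MulAction.orbit A x) := ⟨⟨_, MulAction.mem_orbit_self _⟩⟩
        exact_mod_cast Nat.card_pos
      by_cases hxZ : x ∈ Z
      · rw [if_pos hxZ, if_pos (hZM hxZ)]
        have h3 : (1 : ℚ) ≤ Nat.card (MulAction.orbit A x) := by exact_mod_cast hpos
        have : (1 / (Nat.card (MulAction.orbit A x)) : ℚ) ≤ 1 := by
          rw [div_le_one hpos]; exact h3
        linarith
      · rw [if_neg hxZ]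
        by_cases hxM : x ∈ M
        · rw [if_pos hxM]
          have h3 : (p : ℚ) ≤ Nat.card (MulAction.orbit A x) := by exact_mod_cast h1 x hxZ
          have : (1 / (Nat.card (MulAction.orbit A x)) : ℚ) ≤ 1 / p := one_div_le_one_div_of_le hp0 h3
          linarith
        · rw [if_neg hxM]
          have h3 : ((p : ℚ) ^ 2) ≤ Nat.card (MulAction.orbit A x) := by exact_mod_cast h2 x hxM
          have : (1 / (Nat.card (MulAction.orbit A x)) : ℚ) ≤ 1 / p ^ 2 := one_div_le_one_div_of_le (by positivity) h3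
          linarith
    have hsum := Finset.sum_le_sum (fun x (_ : x ∈ (Finset.univ : Finset G)) => hb x)
    have hcM : (∑ x : G, (if x ∈ M then (1 / p - 1 / p ^ 2 : ℚ) else 0)) = Nat.card M * (1 / p - 1 / p ^ 2) := by
      rw [Finset.sum_ite, Finset.sum_const, Finset.sum_const_zero, add_zero, nsmul_eq_mul, Nat.card_eq_fintype_card,
        Fintype.card_subtype]
    have hcZ : (∑ x : G, (if x ∈ Z then (1 - 1 / p : ℚ) else 0)) = Nat.card Z * (1 - 1 / p) := by
      rw [Finset.sum_ite, Finset.sum_const, Finset.sum_const_zero, add_zero, nsmul_eq_mul, Nat.card_eq_fintype_card,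
        Fintype.card_subtype]
    rw [Finset.sum_add_distrib, Finset.sum_add_distrib, hcM, hcZ, Finset.sum_const, Finset.card_univ, nsmul_eq_mul,
      ← Nat.card_eq_fintype_card] at hsum
    have hMG : (Nat.card M : ℚ) * p = Nat.card G := by
      have := M.card_mul_index
      rw [hM] at this
      exact_mod_cast this
    have hZG : (Nat.card Z : ℚ) * p ^ 2 ≤ Nat.card G := by
      have h3 := Z.card_mul_index
      have h4 : Nat.card Z * p ^ 2 ≤ Nat.card G := by
        rw [← h3]; exact Nat.mul_le_mul_left _ hZ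
      exact_mod_cast h4
    set g : ℚ := (Nat.card G : ℚ) with hg
    have hg0 : 0 < g := by rw [hg]; exact_mod_cast Nat.card_pos
    have hM' : (Nat.card M : ℚ) = g / p := by
      rw [eq_div_iff hp0.ne']; exact hMG
    have hZ' : (Nat.card Z : ℚ) ≤ g / p ^ 2 := by
      rw [le_div_iff₀ (by positivity)]; exact hZG
    rw [hM'] at hsum
    have h5 : (0 : ℚ) ≤ 1 - 1 / p := by
      rw [sub_nonneg, div_le_one hp0]; linarith
    have h6 : (Nat.card Z : ℚ) * (1 - 1 / p) ≤ g / p ^ 2 * (1 - 1 / p) := mul_le_mul_of_nonneg_right hZ' h5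
    have h7 : (∑ x : G, (1 / (Nat.card (MulAction.orbit A x)) : ℚ)) ≤
        g * (1 / p ^ 2) + g / p * (1 / p - 1 / p ^ 2) + g / p ^ 2 * (1 - 1 / p) := by linarith
    have h8 : g * (1 / p ^ 2) + g / p * (1 / p - 1 / p ^ 2) + g / p ^ 2 * (1 - 1 / p) ≤ g / p := by
      rw [← sub_nonneg]
      have : g / p - (g * (1 / p ^ 2) + g / p * (1 / p - 1 / p ^ 2) + g / p ^ 2 * (1 - 1 / p)) =
          g * (((p : ℚ) - 1) * (p - 2)) / p ^ 3 := by
        field_simp; ring
      rw [this]
      apply div_nonneg _ (by positivity)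
      apply mul_nonneg hg0.le
      apply mul_nonneg <;> linarith
    calc (∑ x : G, (1 / (Nat.card (MulAction.orbit A x)) : ℚ)) * p ≤ (g / p) * p :=
          mul_le_mul_of_nonneg_right (h7.trans h8) hp0.le
      _ = g := div_mul_cancel₀ g hp0.ne'
  exact_mod_cast key

/-- if the derived group has more than `p` elements then `k(G) p ≤ |G|` -/
theorem card_conjClasses_mul_le {p : ℕ} (hp : 2 ≤ p) (hmin : ∀ d : ℕ, d ∣ Nat.card G → d ≠ 1 → p ≤ d)
    (hG' : p < Nat.card (commutator G)) : Nat.card (ConjClasses G) * p ≤ Nat.card G := by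
  classical
  have : Fintype G := Fintype.ofFinite G
  have : Fintype (IrrCharacter G) := Fintype.ofFinite _
  rw [← H18.CharOrtho.card_irr_eq_card_conjClasses, Nat.card_eq_fintype_card]
  choose d hd0 hd using fun χ : IrrCharacter G => H18.CharBasic.exists_degree_pos χ.2
  have hsum : ∑ χ : IrrCharacter G, d χ ^ 2 = Nat.card G := by
    have := H18.CharInd.sum_degree_sq (G := G)
    simp_rw [hd] at this
    exact_mod_cast this
  have hdvd : ∀ χ, d χ ∣ Nat.card G := fun χ => H77.Degree.degree_dvd_card χ.2 (hd χ)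
  -- linear characters
  have hlin : Nat.card {χ : IrrCharacter G // d χ = 1} ≤ (commutator G).index := by
    have hex : ∀ χ : {χ : IrrCharacter G // d χ = 1}, ∃ f : G →* ℂˣ, ((χ : IrrCharacter G) : G → ℂ) = fun g => (f g : ℂ) := by
      rintro ⟨χ, hχ⟩
      apply H18.CharQuot.exists_hom_of_degree_one (H18.CharBasic.isCharacter_of_isIrr χ.2)
      rw [hd χ, hχ]; simp
    choose f hf using hex
    have hfi : Function.Injective f := by
      intro a b hab
      apply Subtype.ext
      apply Subtype.ext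
      rw [hf a, hf b, hab]
    have h1 : Nat.card (G →* ℂˣ) = (commutator G).index := by
      have h2 : Nat.card (G →* ℂˣ) = Nat.card (Abelianization G →* ℂˣ) :=
        Nat.card_congr (Abelianization.lift (A := ℂˣ) (G := G))
      rw [h2, CommGroup.card_monoidHom_of_hasEnoughRootsOfUnity, Subgroup.index_eq_card]
      rfl
    have hfin : Finite (G →* ℂˣ) := Nat.finite_of_card_ne_zero (by rw [h1]; exact Subgroup.index_ne_zero_of_finite)
    rw [← h1]
    exact Nat.card_le_card_of_injective f hfi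
  set a := Nat.card {χ : IrrCharacter G // d χ = 1} with ha
  set b := Nat.card {χ : IrrCharacter G // ¬ d χ = 1} with hb
  have hab : Fintype.card (IrrCharacter G) = a + b := by
    rw [ha, hb, Nat.card_eq_fintype_card, Nat.card_eq_fintype_card, Fintype.card_subtype_compl]
    have := Fintype.card_subtype_le (fun χ : IrrCharacter G => d χ = 1)
    omega
  have hge : a + p ^ 2 * b ≤ Nat.card G := by
    rw [← hsum]
    have h1 : ∀ χ : IrrCharacter G, (if d χ = 1 then 1 else 0) + (if ¬ d χ = 1 then p ^ 2 else 0) ≤ d χ ^ 2 := by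
      intro χ
      by_cases h : d χ = 1
      · simp [h]
      · simp only [h, if_false, not_false_eq_true, if_true, zero_add]
        exact Nat.pow_le_pow_left (hmin _ (hdvd χ) h) 2
    calc a + p ^ 2 * b = ∑ χ : IrrCharacter G, ((if d χ = 1 then 1 else 0) + (if ¬ d χ = 1 then p ^ 2 else 0)) := by
          have hA : (∑ χ : IrrCharacter G, (if d χ = 1 then 1 else 0)) = a := by
            rw [Finset.sum_ite, Finset.sum_const, Finset.sum_const_zero, add_zero, ha, Nat.card_eq_fintype_card,
              Fintype.card_subtype, smul_eq_mul, mul_one]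
          have hB : (∑ χ : IrrCharacter G, (if ¬ d χ = 1 then p ^ 2 else 0)) = p ^ 2 * b := by
            rw [Finset.sum_ite, Finset.sum_const, Finset.sum_const_zero, add_zero, hb, Nat.card_eq_fintype_card,
              Fintype.card_subtype, smul_eq_mul, mul_comm]
          rw [Finset.sum_add_distrib, hA, hB]
      _ ≤ _ := Finset.sum_le_sum (fun χ _ => h1 χ)
  rw [hab]
  set m := (commutator G).index with hm
  have hmc : Nat.card (commutator G) * m = Nat.card G := (commutator G).card_mul_index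
  set c := Nat.card (commutator G) with hc
  obtain ⟨q, rfl⟩ : ∃ q, p = q + 1 := ⟨p - 1, by omega⟩
  -- `(q+1)^2 (a+b) ≤ |G| + ((q+1)^2-1) a ≤ (q+1)|G|`
  have h1 : (q + 1) ^ 2 * (a + b) ≤ Nat.card G + (q ^ 2 + 2 * q) * a := by nlinarith
  have h2 : (q ^ 2 + 2 * q) * a ≤ (q ^ 2 + 2 * q) * m := Nat.mul_le_mul_left _ hlin
  have h3 : (q ^ 2 + 2 * q) * m ≤ q * Nat.card G := by
    rw [← hmc]
    have h4 : q + 2 ≤ c := by omega
    calc (q ^ 2 + 2 * q) * m = q * ((q + 2) * m) := by ring
      _ ≤ q * (c * m) := Nat.mul_le_mul_left _ (Nat.mul_le_mul_right _ h4)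
  have h4 : (q + 1) * ((a + b) * (q + 1)) ≤ (q + 1) * Nat.card G := by
    calc (q + 1) * ((a + b) * (q + 1)) = (q + 1) ^ 2 * (a + b) := by ring
      _ ≤ Nat.card G + (q ^ 2 + 2 * q) * a := h1
      _ ≤ Nat.card G + q * Nat.card G := by omega
      _ = (q + 1) * Nat.card G := by ring
  exact Nat.le_of_mul_le_mul_left h4 (by omega)

end H71.AutCount
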