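import Mathlib

set_option autoImplicit false

/-! Orbits of `Aut G` on `G`: bookkeeping. -/

namespace H71.AutOrbit

variable {G : Type*} [Group G]

/-- two elements have the same class iff an automorphism carries one to the other -/
theorem mk_eq_iff (x y : G) :
    (Quotient.mk (MulAction.orbitRel (MulAut G) G) x = Quotient.mk (MulAction.orbitRel (MulAut G) G) y) ↔
      ∃ α : MulAut G, α x = y := by
  rw [Quotient.eq, MulAction.orbitRel_apply, MulAction.mem_orbit_iff]
  constructor
  · rintro ⟨α, hα⟩
    refine ⟨α⁻¹, ?_⟩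
    rw [MulAut.inv_apply, MulEquiv.symm_apply_eq]
    exact hα.symm
  · rintro ⟨α, hα⟩
    refine ⟨α⁻¹, ?_⟩
    rw [MulAut.smul_def, MulAut.inv_apply, MulEquiv.symm_apply_eq]
    exact hα.symm

/-- when elements of the same order are `Aut G`-conjugate, the orbits are counted by the element orders -/
theorem card_eq_of_conj [Finite G] (h : ∀ x y : G, orderOf x = orderOf y → ∃ α : MulAut G, α x = y) :
    Nat.card (MulAction.orbitRel.Quotient (MulAut G) G) = (Set.range (fun g : G => orderOf g)).ncard := by
  let F : MulAction.orbitRel.Quotient (MulAut G) G → ℕ := Quotient.lift (fun g : G => orderOf g) (by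
    intro a b hab
    obtain ⟨α, hα⟩ := (mk_eq_iff a b).1 (Quotient.sound hab)
    rw [← hα]
    exact (MulEquiv.orderOf_eq α a).symm)
  have hF : Function.Injective F := by
    intro a b
    refine Quotient.inductionOn₂ a b ?_
    intro x y hxy
    exact (mk_eq_iff x y).2 (h x y hxy)
  have hr : Set.range F = Set.range (fun g : G => orderOf g) := by
    ext n
    constructor
    · rintro ⟨a, rfl⟩
      refine Quotient.inductionOn a ?_
      intro x
      exact ⟨x, rfl⟩
    · rintro ⟨x, rfl⟩
      exact ⟨Quotient.mk _ x, rfl⟩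
  rw [Nat.card_congr (Equiv.ofInjective F hF), ← hr]
  rfl

/-- a list of pairwise non-conjugate elements of length the number of orbits is exhaustive -/
theorem exists_of_card_eq [Finite G] {ι : Type*} [Finite ι] (f : ι → G)
    (hcard : Nat.card (MulAction.orbitRel.Quotient (MulAut G) G) = Nat.card ι)
    (hf : ∀ i j, (∃ α : MulAut G, α (f i) = f j) → i = j) (g : G) : ∃ i, ∃ α : MulAut G, α (f i) = g := by
  let F : ι → MulAction.orbitRel.Quotient (MulAut G) G := fun i => Quotient.mk _ (f i)
  have hF : Function.Injective F := fun i j hij => hf i j ((mk_eq_iff _ _).1 hij)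
  have hb : Function.Bijective F := by
    rw [Nat.bijective_iff_injective_and_card]
    exact ⟨hF, hcard.symm⟩
  obtain ⟨i, hi⟩ := hb.2 (Quotient.mk _ g)
  exact ⟨i, (mk_eq_iff _ _).1 hi⟩

end H71.AutOrbit
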