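import Mathlib
import Cfsg.Agent.Lib.H2.GenCent
import Cfsg.Agent.Lib.H1.Hall
import Cfsg.Agent.Lib.H13.CoresQuot

/-! S3219, piece BB3: the arithmetic of the point stabilizer (helper71). -/

set_option autoImplicit false

namespace H71.BB3

open Subgroup Cfsg

theorem core {B : Type*} [Group B] [Finite B] {f k : ℕ} (hf2 : 2 ≤ f) (hfk : f = 2 ^ k) (V : Subgroup B)
    (hV : Nat.card V = 4) (hVe : ∀ v ∈ V, v * v = 1) (hVc : ∀ v ∈ V, ∀ w ∈ V, v * w = w * v)
    (hB : Nat.card B = 12 * (f * f - 1))
    (hN : Nat.card (normalizer (V : Set B)) = 12 * (f - 1))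
    (hC : ∀ w ∈ V, w ≠ 1 → centralizer ({w} : Set B) ≤ normalizer (V : Set B))
    (hpsl : ¬ Group.IsSolvable B → Nat.card (B ⧸ pPrimeCore 2 B) = 60) : f = 4 := by
  have h2 : Fact (Nat.Prime 2) := ⟨Nat.prime_two⟩
  have hk1 : 1 ≤ k := by
    rcases Nat.eq_zero_or_pos k with h0 | h0
    · rw [h0] at hfk; omega
    · exact h0
  obtain ⟨j, rfl⟩ : ∃ j, k = j + 1 := ⟨k - 1, by omega⟩
  have hfe : f = 2 * 2 ^ j := by rw [hfk, pow_succ]; ring
  have hff : ∃ c, f * f = 4 * c ∧ 1 ≤ c := ⟨2 ^ j * 2 ^ j, by rw [hfe]; ring, Nat.mul_pos (by positivity) (by positivity)⟩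
  obtain ⟨c, hc, hc1⟩ := hff
  have hVp : IsPGroup 2 V := IsPGroup.of_card (n := 2) (by rw [hV]; norm_num)
  have hVi : V.index = 3 * (f * f - 1) := by
    have := card_mul_index V
    rw [hV, hB] at this
    omega
  have hidx : ¬ 2 ∣ V.index := by
    rw [hVi, hc]
    omega
  set P : Sylow 2 B := hVp.toSylow hidx with hP
  have hPV : (P : Subgroup B) = V := rfl
  set X := pPrimeCore 2 B with hX
  have hXcop : (Nat.card X).Coprime 2 := H13.Cores.coprime_card_pPrimeCore
  have hVN : V ≤ normalizer (V : Set B) := le_normalizer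
  have hXN : X ≤ normalizer (V : Set B) := by
    have h1 : H2.GenCent.gen V X = X := by
      apply H2.GenCent.main
      · exact ⟨⟨fun a b => Subtype.ext (hVc a a.2 b b.2)⟩⟩
      · intro hcyc
        obtain ⟨g, hg⟩ := hcyc.exists_generator
        have h3 : orderOf g = Nat.card V := orderOf_eq_card_of_forall_mem_zpowers hg
        have h4 : g * g = 1 := Subtype.ext (hVe g g.2)
        have h5 : orderOf g ∣ 2 := orderOf_dvd_of_pow_eq_one (by rw [pow_two]; exact h4)
        rw [h3, hV] at h5
        norm_num at h5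
      · rw [normalizer_eq_top]; exact le_top
      · rw [hV]
        have : (4 : ℕ) = 2 ^ 2 := by norm_num
        rw [this]
        exact Nat.Coprime.pow_left 2 hXcop.symm
    rw [← h1]
    refine iSup₂_le fun a ha => ?_
    exact inf_le_right.trans (hC a ha.1 ha.2)
  -- the normalizer is proper
  have hNtop : normalizer (V : Set B) ≠ ⊤ := by
    intro h
    rw [h, Subgroup.card_top, hB] at hN
    have h1 : f * 2 ≤ f * f := Nat.mul_le_mul_left f hf2
    omega
  have hns : ¬ Group.IsSolvable B := by
    intro hs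
    apply hNtop
    have hsQ : Group.IsSolvable (B ⧸ X) := by
      have := hs
      exact Group.isSolvable_of_surjective (QuotientGroup.mk'_surjective X)
    have hnt : Nontrivial (B ⧸ X) := by
      rw [← not_subsingleton_iff_nontrivial]
      intro hsub
      have h1 : X = ⊤ := QuotientGroup.subgroup_eq_top_of_subsingleton X hsub
      rw [h1, Subgroup.card_top, hB] at hXcop
      have : 2 ∣ 12 * (f * f - 1) := ⟨6 * (f * f - 1), by ring⟩
      have h3 := Nat.Coprime.eq_one_of_dvd hXcop.symm this
      omega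
    obtain ⟨p, hp, hne⟩ := H1.Hall.exists_pCore_ne_bot hsQ
    have hp2 : p = 2 := by
      by_contra hp2
      apply hne
      rw [eq_bot_iff]
      have h4 : pPrimeCore 2 (B ⧸ X) = ⊥ := H13.CoresQuot.pPrimeCore_quotient
      rw [← h4]
      have : Fact p.Prime := ⟨hp⟩
      apply H13.Cores.le_pPrimeCore
      · infer_instance
      · obtain ⟨n, hn⟩ := IsPGroup.iff_card.mp (H13.Cores.isPGroup_pCore (p := p) (G := B ⧸ X))
        rw [hn]
        exact Nat.Coprime.pow_left n ((Nat.coprime_primes hp Nat.prime_two).mpr hp2)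
    subst hp2
    set M := (pCore 2 (B ⧸ X)).comap (QuotientGroup.mk' X) with hM
    have hMdec : ∀ m ∈ M, ∃ v ∈ V ⊓ M, m * v⁻¹ ∈ X := by
      intro m hm
      have h5 : pCore 2 (B ⧸ X) ≤ ((P.mapSurjective (QuotientGroup.mk'_surjective X) : Sylow 2 (B ⧸ X)) : Subgroup (B ⧸ X)) :=
        H13.Cores.pCore_le_sylow _
      obtain ⟨v, hv, hvm⟩ := h5 hm
      have hvV : v ∈ V := hv
      refine ⟨v, ⟨hvV, ?_⟩, ?_⟩
      · show (QuotientGroup.mk' X) v ∈ pCore 2 (B ⧸ X)
        rw [hvm]; exact hm
      · rw [← QuotientGroup.ker_mk' X, MonoidHom.mem_ker, map_mul, map_inv, hvm, mul_inv_cancel]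
    set V0 := V ⊓ M with hV0
    have hMN : M ≤ normalizer (V : Set B) := by
      intro m hm
      obtain ⟨v, hv, hmv⟩ := hMdec m hm
      have := mul_mem (hXN hmv) (hVN hv.1)
      rwa [inv_mul_cancel_right] at this
    obtain ⟨w, hw, hw1⟩ : ∃ w ∈ V0, w ≠ 1 := by
      obtain ⟨⟨y, hy⟩, hy1'⟩ := Subgroup.ne_bot_iff_exists_ne_one.mp hne
      have hy1 : y ≠ 1 := fun h => hy1' (Subtype.ext h)
      obtain ⟨m, rfl⟩ := QuotientGroup.mk'_surjective X y
      obtain ⟨v, hv, hmv⟩ := hMdec m hy
      refine ⟨v, hv, ?_⟩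
      rintro rfl
      apply hy1
      rw [inv_one, mul_one] at hmv
      exact (QuotientGroup.eq_one_iff m).mpr hmv
    have hNV0 : normalizer (V0 : Set B) ≤ normalizer (V : Set B) := by
      intro g hg
      by_cases hV0V : V0 = V
      · rw [← hV0V]; exact hg
      · have h6 : Nat.card V0 = 2 := by
          have h7 : Nat.card V0 ∣ 4 := hV ▸ card_dvd_of_le (inf_le_left : V0 ≤ V)
          have h8 : Nat.card V0 ≠ 4 := fun h9 => hV0V (eq_of_le_of_card_ge inf_le_left (by rw [hV, h9]))
          have h9 : Nat.card V0 ≠ 1 := by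
            intro h10
            have := card_eq_one.mp h10
            rw [this, mem_bot] at hw
            exact hw1 hw
          have h10 : Nat.card V0 ≤ 4 := Nat.le_of_dvd (by norm_num) h7
          interval_cases hh : Nat.card V0 <;> omega
        have h11 : g * w * g⁻¹ ∈ V0 := (mem_normalizer_iff.mp hg w).mp hw
        have h12 : g * w * g⁻¹ = w := by
          rw [Nat.card_eq_two_iff' (1 : V0)] at h6
          obtain ⟨y, -, hy⟩ := h6
          have e1 := hy ⟨_, h11⟩ (fun hh => hw1 (by
            have h13 : g * w * g⁻¹ = 1 := congrArg Subtype.val hh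
            rw [mul_inv_eq_one] at h13
            exact mul_eq_left.mp h13))
          have e2 := hy ⟨w, hw⟩ (fun hh => hw1 (congrArg Subtype.val hh))
          exact congrArg Subtype.val (e1.trans e2.symm)
        apply hC w hw.1 hw1
        rw [mem_centralizer_singleton_iff]
        exact mul_inv_eq_iff_eq_mul.mp h12
    -- Frattini
    have hMn : M.Normal := by infer_instance
    have hV0p : IsPGroup 2 (V0.subgroupOf M) := (hVp.to_le inf_le_left).comap_subtype
    have hMcard : Nat.card M ∣ Nat.card X * Nat.card V0 := by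
      have hMsup : M ≤ X ⊔ V0 := by
        intro m hm
        obtain ⟨v, hv, hmv⟩ := hMdec m hm
        have := mul_mem_sup hmv hv
        rwa [inv_mul_cancel_right] at this
      have h15 := H13.Cores.card_sup_dvd V0 X
      have h16 := card_dvd_of_le hMsup
      rw [sup_comm] at h16
      rw [mul_comm]
      exact h16.trans h15
    have hV0i : ¬ 2 ∣ (V0.subgroupOf M).index := by
      intro h16
      have h17 : Nat.card (V0.subgroupOf M) * (V0.subgroupOf M).index = Nat.card M := card_mul_index _
      have h18 : Nat.card (V0.subgroupOf M) = Nat.card V0 :=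
        Nat.card_congr (subgroupOfEquivOfLe (inf_le_right : V0 ≤ M)).toEquiv
      rw [h18] at h17
      rw [← h17, mul_comm (Nat.card X)] at hMcard
      have h19 := Nat.dvd_of_mul_dvd_mul_left Nat.card_pos hMcard
      have h20 := Nat.Coprime.eq_one_of_dvd hXcop.symm (h16.trans h19)
      omega
    have hfr := Sylow.normalizer_sup_eq_top (N := M) (hV0p.toSylow hV0i)
    have h21 : ((hV0p.toSylow hV0i : Sylow 2 M) : Subgroup M).map M.subtype = V0 := by
      show (V0.subgroupOf M).map M.subtype = V0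
      rw [subgroupOf_map_subtype]
      exact inf_of_le_left inf_le_right
    rw [h21] at hfr
    rw [eq_top_iff, ← hfr]
    exact sup_le hNV0 hMN
  have h60 := hpsl hns
  have hXi : X.index = 60 := by rw [← h60]; rfl
  have h7 : (normalizer (V : Set B)).index = f + 1 := by
    have h8 := card_mul_index (normalizer (V : Set B))
    rw [hN, hB] at h8
    have h9 : f * f - 1 = (f - 1) * (f + 1) := by
      obtain ⟨g, rfl⟩ : ∃ g, f = g + 1 := ⟨f - 1, by omega⟩
      simp only [Nat.add_sub_cancel]
      have : (g + 1) * (g + 1) = g * (g + 1 + 1) + 1 := by ring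
      rw [this, Nat.add_sub_cancel]
    rw [h9, ← mul_assoc] at h8
    exact Nat.eq_of_mul_eq_mul_left (by omega) h8
  have h10 : f + 1 ∣ 60 := by
    rw [← h7, ← hXi]
    exact index_dvd_of_le hXN
  have h11 : f + 1 ≤ 60 := Nat.le_of_dvd (by norm_num) h10
  have h12 : 60 ∣ 12 * (f * f - 1) := by
    rw [← hB, ← hXi]
    exact index_dvd_card X
  have hj : j ≤ 4 := by
    by_contra hj
    have : 2 ^ 5 ≤ 2 ^ j := Nat.pow_le_pow_right (by norm_num) (by omega)
    omega
  interval_cases j
  · rw [hfe] at h12; norm_num at h12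
  · rw [hfe]; norm_num
  · rw [hfe] at h10; norm_num at h10
  · rw [hfe] at h10; norm_num at h10
  · rw [hfe] at h10; norm_num at h10

end H71.BB3
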