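import Cfsg.Agent.Lib.H39.DBD2
import Cfsg.Agent.Lib.H39.DBD3
import Cfsg.Agent.Lib.H71.BB3core

/-! S3219, piece BB3: the plug (helper71). -/

set_option autoImplicit false

open MulAction

universe u v

namespace H71.BB3plug

open H39.DA

variable {G : Type u} {Ω : Type v} [Group G] [Finite G] [MulAction G Ω] [Finite Ω]

theorem plug (hpsl : ∀ {B : Type u} [Group B] [Finite B] (S : Sylow 2 B) (_ : Nat.card (S : Subgroup B) = 4)
      (_ : ∀ s ∈ (S : Subgroup B), s * s = 1)
      (_ : ∀ w ∈ (S : Subgroup B), w ≠ 1 → ∀ g, g * w = w * g → g ∈ Subgroup.normalizer ((S : Subgroup B) : Set B))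
      (_ : ¬ Group.IsSolvable B), Nat.card (B ⧸ Cfsg.oddCore B) = 60)
    (h : B4 G Ω) {a b : Ω} (hab : a ≠ b) {t : G} (ht : Inv t) (hts : t ∈ St G a b)
    (hn : Nat.card Ω = fx G Ω t * fx G Ω t) (hk : ∃ k : ℕ, fS G Ω (VV a b t) = 2 ^ k) (hm : fx G Ω t = fS G Ω (VV a b t)) :
    Nat.card Ω = 16 := by
  classical
  obtain ⟨c1, c2, c3, c4, -, -⟩ := count4 h hab ht hts
  obtain ⟨m1, m2, m3, m4, m5, m6⟩ := countV4 h hab ht hts
  obtain ⟨v1, v2, v3, v4, v5, v6, v7, v8⟩ := vfacts4 h hab ht hts
  obtain ⟨k, hk⟩ := hk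
  set f := fx G Ω t with hf
  rw [← hm] at m1 m2 m3 m4 hk
  set B := stabilizer G a with hBdef
  have hVB : VV a b t ≤ B := fun g hg => hg.1.1
  have htr : IsPretransitive G Ω := by
    constructor
    intro x y
    by_cases hxy : x = y
    · exact ⟨1, by rw [one_smul, hxy]⟩
    · obtain ⟨g, g1, -⟩ := h.tr x y y x hxy (Ne.symm hxy)
      exact ⟨g, g1⟩
  have hBcard : Nat.card B = 12 * (f * f - 1) := by
    have h1 := Subgroup.card_mul_index B
    rw [hBdef, index_stabilizer_of_transitive G a, c1, hn] at h1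
    have hpos : 0 < f * f := Nat.mul_pos (by omega) (by omega)
    apply Nat.eq_of_mul_eq_mul_right hpos
    rw [hBdef, h1]
    ring
  -- centralizers
  have hCt : Subgroup.centralizer ({t} : Set G) ≤ Subgroup.normalizer (VV a b t : Set G) := by
    have h1 : NT (VV a b t) t = Subgroup.centralizer ({t} : Set G) :=
      Subgroup.eq_of_le_of_card_ge inf_le_right (by rw [c2, m4])
    rw [← h1]
    exact inf_le_left
  have hCw : ∀ w ∈ VV a b t, w ≠ 1 → ∀ g : G, g * w = w * g → g ∈ Subgroup.normalizer (VV a b t : Set G) := by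
    intro w hw hw1 g hg
    obtain ⟨x, -, hx, hxw⟩ := v5 w hw hw1
    have h1 : x⁻¹ * g * x ∈ Subgroup.centralizer ({t} : Set G) := by
      rw [Subgroup.mem_centralizer_singleton_iff]
      rw [← hxw] at hg
      calc x⁻¹ * g * x * t = x⁻¹ * (g * (x * t * x⁻¹)) * x := by group
        _ = x⁻¹ * ((x * t * x⁻¹) * g) * x := by rw [hg]
        _ = _ := by group
    have h2 := hCt h1
    have h3 := mul_mem (mul_mem hx h2) (inv_mem hx)
    have h4 : x * (x⁻¹ * g * x) * x⁻¹ = g := by group
    rwa [h4] at h3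
  -- the subgroup of the point stabilizer
  set V : Subgroup B := (VV a b t).subgroupOf B with hV
  have hVcard : Nat.card V = 4 := by
    rw [← v1]
    exact Nat.card_congr (Subgroup.subgroupOfEquivOfLe hVB).toEquiv
  have hnorm : ∀ g : B, g ∈ Subgroup.normalizer (V : Set B) ↔ (g : G) ∈ Subgroup.normalizer (VV a b t : Set G) := by
    intro g
    constructor
    · intro hg
      rw [Subgroup.mem_normalizer_iff] at hg ⊢
      intro x
      constructor
      · intro hx
        exact (hg ⟨x, hVB hx⟩).mp hx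
      · intro hx
        have hxB : x ∈ B := by
          have h1 := hVB hx
          have h2 := mul_mem (mul_mem (inv_mem g.2) h1) g.2
          have h3 : (g : G)⁻¹ * ((g : G) * x * (g : G)⁻¹) * g = x := by group
          rwa [h3] at h2
        exact (hg ⟨x, hxB⟩).mpr hx
    · intro hg
      rw [Subgroup.mem_normalizer_iff] at hg ⊢
      intro x
      exact hg x
  have hNcard : Nat.card (Subgroup.normalizer (V : Set B)) = 12 * (f - 1) := by
    set M := Subgroup.normalizer (VV a b t : Set G) with hM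
    have h1 := Subgroup.card_mul_index (stabilizer M a)
    rw [index_stabilizer] at h1
    have haF : a ∈ Fx G (Ω := Ω) (VV a b t : Set G) := fun g hg => hg.1.1
    have hbF : b ∈ Fx G (Ω := Ω) (VV a b t : Set G) := fun g hg => hg.1.2
    have h2 : orbit M a = Fx G (Ω := Ω) (VV a b t : Set G) := by
      ext x
      constructor
      · rintro ⟨g, rfl⟩
        refine smul_Fx (fun s hs => ?_) haF
        have h3 := (Subgroup.mem_normalizer_iff.1 (Subgroup.inv_mem _ g.2) s).1 hs
        rwa [inv_inv] at h3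
      · intro hx
        by_cases hxa : x = a
        · rw [hxa]; exact mem_orbit_self a
        · obtain ⟨g, hg, g1, -⟩ := m5 a haF b hbF hab x hx a haF hxa
          exact ⟨⟨g, hg.1⟩, g1⟩
    have h3 : (orbit M a).ncard = f := by
      rw [h2, hm]
      rfl
    have h4 : Nat.card (stabilizer M a) = Nat.card (Subgroup.normalizer (V : Set B)) := by
      refine Nat.card_congr ⟨fun g => ⟨⟨(g : M), g.2⟩, (hnorm _).mpr (g : M).2⟩,
        fun g => ⟨⟨(g : B), (hnorm _).mp g.2⟩, (g : B).2⟩, fun g => rfl, fun g => rfl⟩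
    rw [h3, h4, m3] at h1
    apply Nat.eq_of_mul_eq_mul_right (show 0 < f by omega)
    rw [h1]
    ring
  have hVe : ∀ v ∈ V, v * v = 1 := fun v hv => Subtype.ext (v2 v hv)
  have hVc : ∀ v ∈ V, ∀ w ∈ V, v * w = w * v := fun v hv w hw => Subtype.ext (v3 v hv w hw)
  have hCV : ∀ w ∈ V, w ≠ 1 → ∀ g : B, g * w = w * g → g ∈ Subgroup.normalizer (V : Set B) := by
    intro w hw hw1 g hg
    rw [hnorm]
    exact hCw w hw (fun hh => hw1 (Subtype.ext hh)) g (congrArg Subtype.val hg)
  have hfk4 : f = 4 := by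
    refine H71.BB3.core (B := B) c3 hk V hVcard hVe hVc hBcard hNcard ?_ ?_
    · intro w hw hw1 g hg
      rw [Subgroup.mem_centralizer_singleton_iff] at hg
      exact hCV w hw hw1 g hg
    · intro hns
      have h2 : Fact (Nat.Prime 2) := ⟨Nat.prime_two⟩
      have hVp : IsPGroup 2 V := IsPGroup.of_card (n := 2) (by rw [hVcard]; norm_num)
      have hk1 : 1 ≤ k := by
        rcases Nat.eq_zero_or_pos k with h0 | h0
        · rw [h0] at hk; omega
        · exact h0
      have hff : ∃ c, f * f = 4 * c ∧ 1 ≤ c := by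
        obtain ⟨j, rfl⟩ : ∃ j, k = j + 1 := ⟨k - 1, by omega⟩
        exact ⟨2 ^ j * 2 ^ j, by rw [hk, pow_succ]; ring, Nat.mul_pos (by positivity) (by positivity)⟩
      obtain ⟨c, hc, hc1⟩ := hff
      have hidx : ¬ 2 ∣ V.index := by
        have h5 := Subgroup.card_mul_index V
        rw [hVcard, hBcard] at h5
        omega
      exact hpsl (hVp.toSylow hidx) hVcard hVe hCV hns
  rw [hn, hfk4]

end H71.BB3plug
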