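import Mathlib
import Cfsg.Agent.Lib.H72.CoprimeIndex
import Cfsg.Agent.Lib.H72.ClassSize
import Cfsg.Agent.Lib.H1.Cores
import Cfsg.Agent.Lib.H1.SZ

/-!
Groups in which every `q`-element has a conjugacy class of prime power size (Baer): uniqueness of the prime.
-/

set_option autoImplicit false
open Subgroup Cfsg

namespace H71.Baer1

variable {G : Type*} [Group G]

/-- size of the class of `x` -/
noncomputable abbrev sz (x : G) : ℕ := (centralizer ({x} : Set G)).index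

/-- elements of `q`-power order -/
def IsQ (q : ℕ) (x : G) : Prop := ∃ k : ℕ, orderOf x = q ^ k

theorem isQ_iff_pow {q : ℕ} [hq : Fact q.Prime] {x : G} : IsQ q x ↔ ∃ k : ℕ, x ^ q ^ k = 1 := by
  constructor
  · rintro ⟨k, hk⟩
    exact ⟨k, by rw [← hk]; exact pow_orderOf_eq_one x⟩
  · rintro ⟨k, hk⟩
    obtain ⟨j, _, hj⟩ := (Nat.dvd_prime_pow hq.out).mp (orderOf_dvd_of_pow_eq_one hk)
    exact ⟨j, hj⟩

theorem IsQ.mul {q : ℕ} [hq : Fact q.Prime] {x y : G} (hx : IsQ q x) (hy : IsQ q y)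
    (h : Commute x y) : IsQ q (x * y) := by
  rw [isQ_iff_pow] at *
  obtain ⟨a, ha⟩ := hx
  obtain ⟨b, hb⟩ := hy
  refine ⟨a + b, ?_⟩
  rw [h.mul_pow, pow_add, pow_mul, ha, one_pow, mul_comm, pow_mul, hb, one_pow, mul_one]

theorem IsQ.inv {q : ℕ} {x : G} (hx : IsQ q x) : IsQ q x⁻¹ := by
  obtain ⟨a, ha⟩ := hx
  exact ⟨a, by rw [orderOf_inv, ha]⟩

theorem IsQ.conj {q : ℕ} [hq : Fact q.Prime] {x : G} (hx : IsQ q x) (g : G) : IsQ q (g * x * g⁻¹) := by
  rw [isQ_iff_pow] at *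
  obtain ⟨a, ha⟩ := hx
  exact ⟨a, by rw [conj_pow, ha]; simp⟩

theorem isQ_of_mem {q : ℕ} [hq : Fact q.Prime] {P : Subgroup G} (hP : IsPGroup q P) {x : G} (hx : x ∈ P) :
    IsQ q x := by
  rw [isQ_iff_pow]
  obtain ⟨k, hk⟩ := hP ⟨x, hx⟩
  exact ⟨k, congrArg Subtype.val hk⟩

theorem isPGroup_zpowers {q : ℕ} [hq : Fact q.Prime] {x : G} (hx : IsQ q x) : IsPGroup q (zpowers x) := by
  obtain ⟨k, hk⟩ := hx
  exact IsPGroup.of_card (n := k) (by rw [Nat.card_zpowers, hk])

variable [Finite G]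

theorem exists_sylow_mem {q : ℕ} [hq : Fact q.Prime] {x : G} (hx : IsQ q x) : ∃ P : Sylow q G, x ∈ (P : Subgroup G) := by
  obtain ⟨P, hP⟩ := (isPGroup_zpowers hx).exists_le_sylow
  exact ⟨P, hP (mem_zpowers x)⟩

theorem conj_pair {x y : G} (h : (sz x).Coprime (sz y)) (g k : G) :
    ∃ t : G, g * x * g⁻¹ = t * x * t⁻¹ ∧ k * y * k⁻¹ = t * y * t⁻¹ := by
  obtain ⟨b, hb, a, ha, he⟩ := H72.CoprimeIndex.exists_mul_of_coprime_index _ _ h (k⁻¹ * g)
  refine ⟨k * b, ?_, ?_⟩
  · have e : k * b = g * a⁻¹ := by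
      rw [eq_mul_inv_iff_mul_eq, mul_assoc, ← he]; group
    have ha' : a⁻¹ * x * a = x := by
      have := H72.ClassSize.mem_cent_comm (inv_mem ha)
      rw [this]; group
    rw [e, mul_inv_rev, inv_inv]
    calc g * x * g⁻¹ = g * (a⁻¹ * x * a) * g⁻¹ := by rw [ha']
      _ = _ := by group
  · have hb' : b * y * b⁻¹ = y := (H72.ClassSize.mem_cent_iff y b).mp hb
    rw [mul_inv_rev]
    calc k * y * k⁻¹ = k * (b * y * b⁻¹) * k⁻¹ := by rw [hb']
      _ = _ := by group

/-- key lemma -/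
theorem key {q : ℕ} [hq : Fact q.Prime] {x y : G} (hy : IsQ q y)
    (hxy : (sz x).Coprime (sz y)) (hcomm : ∀ g : G, Commute (g * x * g⁻¹) y)
    (hx1 : sz x ≠ 1) (hxxy : (sz x).Coprime (sz (x * y))) : q ∣ sz y := by
  have hcomm2 : ∀ g k : G, Commute (g * x * g⁻¹) (k * y * k⁻¹) := by
    intro g k
    have h1 := (hcomm (k⁻¹ * g)).map (MulAut.conj k).toMonoidHom
    have e1 : (MulAut.conj k).toMonoidHom (k⁻¹ * g * x * (k⁻¹ * g)⁻¹) = g * x * g⁻¹ := by
      simp [MulAut.conj_apply]; group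
    have e2 : (MulAut.conj k).toMonoidHom y = k * y * k⁻¹ := by
      simp [MulAut.conj_apply]
    rwa [e1, e2] at h1
  -- main computation
  have hmain : ∀ g₁ g₂ k : G, ∃ t : G, (g₁ * x * g₁⁻¹)⁻¹ * (g₂ * x * g₂⁻¹) * (k * y * k⁻¹) = t * y * t⁻¹ := by
    intro g₁ g₂ k
    obtain ⟨s, hs1, hs2⟩ := conj_pair hxy g₂ k
    obtain ⟨t, ht1, ht2⟩ := conj_pair hxxy g₁ s
    refine ⟨t, ?_⟩
    have e1 : (g₂ * x * g₂⁻¹) * (k * y * k⁻¹) = s * (x * y) * s⁻¹ := by rw [hs1, hs2]; group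
    rw [mul_assoc, e1, ht1, ht2]; group
  -- a noncommuting element
  have hg : ∃ g : G, g * x * g⁻¹ ≠ x := by
    by_contra hcon
    push Not at hcon
    apply hx1
    rw [sz, index_eq_one, eq_top_iff]
    intro g _
    exact (H72.ClassSize.mem_cent_iff x g).mpr (hcon g)
  obtain ⟨g, hg⟩ := hg
  set n : G := (g * x * g⁻¹)⁻¹ * x with hn
  have hn1 : n ≠ 1 := by
    intro h
    rw [hn, inv_mul_eq_one] at h
    exact hg h
  have hny : Commute n y := by
    have h1 := hcomm2 g 1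
    have h2 := hcomm2 1 1
    simp only [one_mul, inv_one, mul_one] at h1 h2
    exact Commute.mul_left h1.inv_left h2
  have hmem : ∀ k : G, ∃ t : G, n * (k * y * k⁻¹) = t * y * t⁻¹ := by
    intro k
    have := hmain g 1 k
    simpa only [one_mul, inv_one, mul_one] using this
  have hnQ : IsQ q n := by
    obtain ⟨t, ht⟩ := hmem 1
    simp only [one_mul, inv_one, mul_one] at ht
    have e : n = (t * y * t⁻¹) * y⁻¹ := by rw [← ht]; group
    have hc : Commute (t * y * t⁻¹) y := by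
      rw [← ht]
      exact Commute.mul_left hny (Commute.refl y)
    rw [e]
    exact (hy.conj t).mul hy.inv hc.inv_right
  -- count
  classical
  let S := {z : G // ∃ k : G, k * y * k⁻¹ = z}
  have hfin : Finite S := inferInstance
  have : Fintype S := Fintype.ofFinite S
  let f : Function.End S := fun z => ⟨n * z.1, by
    obtain ⟨k, hk⟩ := z.2
    obtain ⟨t, ht⟩ := hmem k
    exact ⟨t, by rw [← ht, hk]⟩⟩
  have hf : ∀ j : ℕ, ∀ z : S, ((f ^ j) z).1 = n ^ j * z.1 := by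
    intro j
    induction j with
    | zero =>
      intro z
      rw [pow_zero, pow_zero, one_mul]
      rfl
    | succ j ih =>
      intro z
      have e : (f ^ (j + 1)) z = (f ^ j) (f z) := by rw [pow_succ]; rfl
      rw [e, ih, pow_succ, mul_assoc]
  obtain ⟨m, hm⟩ := isQ_iff_pow.mp hnQ
  have hfm : f ^ q ^ m = 1 := by
    funext z
    apply Subtype.ext
    rw [hf, hm, one_mul]
    rfl
  have hcard := Equiv.Perm.card_fixedPoints_modEq hfm
  have h0 : Fintype.card f.fixedPoints = 0 := by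
    rw [Fintype.card_eq_zero_iff]
    constructor
    rintro ⟨z, hz⟩
    have h1 : n * z.1 = z.1 := congrArg Subtype.val hz
    exact hn1 (by simpa using h1)
  rw [h0] at hcard
  rw [sz, H72.ClassSize.index_eq_card_conj, Nat.card_eq_fintype_card]
  exact (Nat.modEq_zero_iff_dvd).mp hcard

/-- `x` with class size prime to `q`, `y` a `q`-element, coprime class sizes: all conjugates commute -/
theorem commute_of {q : ℕ} [hq : Fact q.Prime] {x y : G} (hx : ¬ q ∣ sz x) (hy : IsQ q y)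
    (hxy : (sz x).Coprime (sz y)) (g : G) : Commute (g * x * g⁻¹) y := by
  obtain ⟨P, hP⟩ := (H72.ClassSize.not_dvd_index_iff q x).mp hx
  obtain ⟨R, hR⟩ := exists_sylow_mem hy
  obtain ⟨k, hk⟩ := MulAction.exists_smul_eq G R P
  have hky : k * y * k⁻¹ ∈ (P : Subgroup G) := by
    rw [← hk]
    exact Sylow.smul_def (g := k) (P := R) ▸ Subgroup.smul_mem_pointwise_smul _ _ _ hR
  have h1 : Commute x (k * y * k⁻¹) := (H72.ClassSize.mem_cent_comm (hP hky)).symm
  obtain ⟨s, hs1, hs2⟩ := conj_pair hxy 1 k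
  obtain ⟨t, ht1, ht2⟩ := conj_pair hxy g 1
  simp only [one_mul, inv_one, mul_one] at hs1 ht2
  rw [hs1, hs2] at h1
  have h2 : Commute x y := by
    have := h1.map (MulAut.conj s⁻¹).toMonoidHom
    simp only [MulEquiv.toMonoidHom_eq_coe, MonoidHom.coe_coe, MulAut.conj_apply, inv_inv] at this
    have e1 : s⁻¹ * (s * x * s⁻¹) * s = x := by group
    have e2 : s⁻¹ * (s * y * s⁻¹) * s = y := by group
    rwa [e1, e2] at this
  have h3 := h2.map (MulAut.conj t).toMonoidHom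
  simp only [MulEquiv.toMonoidHom_eq_coe, MonoidHom.coe_coe, MulAut.conj_apply] at h3
  rw [ht1]
  rwa [← ht2] at h3

/-- a `q`-element with class size a power of `q` lies in `O_q(G)` -/
theorem mem_pCore {q : ℕ} [hq : Fact q.Prime] {y : G} (hy : IsQ q y) {b : ℕ} (h : sz y = q ^ b) :
    y ∈ pCore q G := by
  obtain ⟨P, hP⟩ := exists_sylow_mem hy
  have hle : normalClosure ({y} : Set G) ≤ (P : Subgroup G) := by
    rw [normalClosure, closure_le]
    intro z hz
    rw [Group.mem_conjugatesOfSet_iff] at hz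
    obtain ⟨a, ha, hz⟩ := hz
    rw [Set.mem_singleton_iff] at ha
    subst ha
    obtain ⟨g, rfl⟩ := isConj_iff.mp hz
    have hcop : (centralizer ({a} : Set G)).index.Coprime (P : Subgroup G).index := by
      rw [show (centralizer ({a} : Set G)).index = q ^ b from h]
      exact Nat.Coprime.pow_left b ((Nat.Prime.coprime_iff_not_dvd hq.out).mpr P.not_dvd_index)
    obtain ⟨c, hc, d, hd, he⟩ := H72.CoprimeIndex.exists_mul_of_coprime_index _ _ hcop g
    have h1 : d * a * d⁻¹ = a := (H72.ClassSize.mem_cent_iff a d).mp hd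
    have h2 : g * a * g⁻¹ = c * a * c⁻¹ := by
      rw [he, mul_inv_rev]
      calc c * d * a * (d⁻¹ * c⁻¹) = c * (d * a * d⁻¹) * c⁻¹ := by group
        _ = _ := by rw [h1]
    change g * a * g⁻¹ ∈ (P : Subgroup G)
    rw [h2]
    exact mul_mem (mul_mem hc hP) (inv_mem hc)
  have h1 : normalClosure ({y} : Set G) ≤ pCore q G :=
    H1.Cores.le_pCore inferInstance (P.isPGroup'.to_le hle)
  exact h1 (subset_normalClosure rfl)

end H71.Baer1
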