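import Mathlib
import Cfsg.Agent.Lib.H72.CoprimeIndex
import Cfsg.Agent.Lib.H11.NormalRankOne
import Cfsg.Agent.Lib.H3.ThompsonTransfer
import Cfsg.Agent.Lib.H3.UniqueSub
import Cfsg.Agent.Lib.H5.IndexTwo

/-!
Perfect groups acting irreducibly with all orbits of `2`-power size, part 1.
-/

set_option autoImplicit false
open Subgroup

namespace H71.Baer4

section Basic

variable {H : Type*} [Group H] [Finite H] {V : Type*} [AddCommGroup V] [Finite V] [DistribMulAction H V]

/-- irreducibility -/
def Irr (H V : Type*) [Group H] [AddCommGroup V] [DistribMulAction H V] : Prop :=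
  ∀ W : AddSubgroup V, (∀ h : H, ∀ v ∈ W, h • v ∈ W) → W = ⊥ ∨ W = ⊤

omit [Finite V] in
theorem exists_sylow_smul (horb : ∀ v : V, ∃ a : ℕ, (MulAction.stabilizer H v).index = 2 ^ a) (P : Sylow 2 H)
    (h : H) (v : V) : ∃ p ∈ (P : Subgroup H), p • v = h • v := by
  have : Fact (Nat.Prime 2) := ⟨Nat.prime_two⟩
  obtain ⟨a, ha⟩ := horb v
  have hcop : (MulAction.stabilizer H v).index.Coprime (P : Subgroup H).index := by
    rw [ha]
    exact Nat.Coprime.pow_left a ((Nat.Prime.coprime_iff_not_dvd Nat.prime_two).mpr P.not_dvd_index)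
  obtain ⟨b, hb, c, hc, he⟩ := H72.CoprimeIndex.exists_mul_of_coprime_index _ _ hcop h
  refine ⟨b, hb, ?_⟩
  rw [he, mul_smul, MulAction.mem_stabilizer_iff.mp hc]

omit [Finite H] in
theorem no_index_two (hperf : commutator H = ⊤) (N : Subgroup H) : N.index ≠ 2 := by
  intro h
  have hN : N.Normal := normal_of_index_eq_two h
  have hcard : Nat.card (H ⧸ N) = 2 := h
  have : Fact (Nat.Prime 2) := ⟨Nat.prime_two⟩
  have hcyc : IsCyclic (H ⧸ N) := isCyclic_of_prime_card hcard
  have hle : commutator H ≤ N := by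
    rw [commutator_def, commutator_le]
    intro x _ y _
    rw [← QuotientGroup.eq_one_iff]
    have h1 : (QuotientGroup.mk' N) (x * y * x⁻¹ * y⁻¹) = 1 := by
      rw [map_mul, map_mul, map_mul, map_inv, map_inv]
      have := IsCyclic.commGroup.mul_comm (QuotientGroup.mk' N x) (QuotientGroup.mk' N y)
      rw [this]; group
    exact h1
  rw [hperf, top_le_iff] at hle
  rw [hle, index_top] at h
  omega

variable (hirr : Irr H V) (horb : ∀ v : V, ∃ a : ℕ, (MulAction.stabilizer H v).index = 2 ^ a)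
  (P : Sylow 2 H)

include hirr horb in
omit [Finite V] in
theorem irr_sylow (W : AddSubgroup V) (h : ∀ p ∈ (P : Subgroup H), ∀ v ∈ W, p • v ∈ W) : W = ⊥ ∨ W = ⊤ := by
  apply hirr
  intro g v hv
  obtain ⟨p, hp, he⟩ := exists_sylow_smul horb P g v
  rw [← he]
  exact h p hp v hv

/-- the fixed points of `t` -/
def fixed (t : H) : AddSubgroup V where
  carrier := {v | t • v = v}
  zero_mem' := smul_zero t
  add_mem' := by
    intro a b ha hb
    change t • (a + b) = a + b
    rw [smul_add, show t • a = a from ha, show t • b = b from hb]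
  neg_mem' := by
    intro a ha
    change t • (-a) = -a
    rw [smul_neg, show t • a = a from ha]

omit [Finite H] [Finite V] in
theorem mem_fixed {t : H} {v : V} : v ∈ (fixed t : AddSubgroup V) ↔ t • v = v := Iff.rfl

/-- the antifixed points of `t` -/
def anti (t : H) : AddSubgroup V where
  carrier := {v | t • v = -v}
  zero_mem' := by
    change t • (0 : V) = - (0 : V)
    rw [smul_zero, neg_zero]
  add_mem' := by
    intro a b ha hb
    change t • (a + b) = -(a + b)
    rw [smul_add, show t • a = -a from ha, show t • b = -b from hb, neg_add]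
  neg_mem' := by
    intro a ha
    change t • (-a) = - -a
    rw [smul_neg, show t • a = -a from ha]

omit [Finite H] [Finite V] in
theorem mem_anti {t : H} {v : V} : v ∈ (anti t : AddSubgroup V) ↔ t • v = -v := Iff.rfl

omit [Finite H] [Finite V] in
theorem neg_of_fixed_bot {t : H} (ht : t * t = 1) (h : (fixed t : AddSubgroup V) = ⊥) (v : V) : t • v = -v := by
  have h1 : v + t • v ∈ (fixed t : AddSubgroup V) := by
    rw [mem_fixed, smul_add, smul_smul, ht, one_smul, add_comm]
  rw [h, AddSubgroup.mem_bot] at h1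
  exact (neg_eq_of_add_eq_zero_right h1).symm

variable (hfaith : ∀ h : H, (∀ v : V, h • v = v) → h = 1)

include hirr horb hfaith in
omit [Finite V] in
theorem neg_of_central {t : H} (ht : t * t = 1) (ht1 : t ≠ 1) (hc : ∀ p ∈ (P : Subgroup H), p * t = t * p) (v : V) :
    t • v = -v := by
  apply neg_of_fixed_bot ht
  rcases irr_sylow hirr horb P (fixed t) (by
    intro p hp v hv
    rw [mem_fixed] at hv ⊢
    rw [← mul_smul, ← hc p hp, mul_smul, hv]) with h | h
  · exact h
  · exfalso
    apply ht1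
    apply hfaith
    intro v
    have : v ∈ (fixed t : AddSubgroup V) := by rw [h]; trivial
    exact this

include hirr horb in
/-- no system of imprimitivity with two blocks -/
theorem imprim (hperf : commutator H = ⊤) (V₁ V₂ : AddSubgroup V)
    (h : ∀ p ∈ (P : Subgroup H), ((∀ v ∈ V₁, p • v ∈ V₁) ∧ (∀ v ∈ V₂, p • v ∈ V₂)) ∨
      ((∀ v ∈ V₁, p • v ∈ V₂) ∧ (∀ v ∈ V₂, p • v ∈ V₁))) : V₁ = ⊥ ∨ V₁ = ⊤ := by
  classical
  by_cases hall : ∀ p ∈ (P : Subgroup H), ∀ v ∈ V₁, p • v ∈ V₁
  · exact irr_sylow hirr horb P V₁ hall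
  push Not at hall
  obtain ⟨p₀, hp₀, v₀, hv₀, hv₀'⟩ := hall
  have hsw : (∀ v ∈ V₁, p₀ • v ∈ V₂) ∧ (∀ v ∈ V₂, p₀ • v ∈ V₁) := by
    rcases h p₀ hp₀ with h1 | h1
    · exact absurd (h1.1 v₀ hv₀) hv₀'
    · exact h1
  have hc1 : Nat.card V₁ ≤ Nat.card V₂ :=
    Nat.card_le_card_of_injective (fun v : V₁ => (⟨p₀ • v.1, hsw.1 v.1 v.2⟩ : V₂)) (by
      intro a b hab
      have := congrArg Subtype.val hab
      exact Subtype.ext (smul_left_cancel p₀ this))
  have hc2 : Nat.card V₂ ≤ Nat.card V₁ :=
    Nat.card_le_card_of_injective (fun v : V₂ => (⟨p₀ • v.1, hsw.2 v.1 v.2⟩ : V₁)) (by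
      intro a b hab
      have := congrArg Subtype.val hab
      exact Subtype.ext (smul_left_cancel p₀ this))
  have hcard : Nat.card V₁ = Nat.card V₂ := le_antisymm hc1 hc2
  -- every `h` maps `V₁` into `V₁` or into `V₂`
  have key : ∀ g : H, (∀ v ∈ V₁, g • v ∈ V₁) ∨ (∀ v ∈ V₁, g • v ∈ V₂) := by
    intro g
    let U : AddSubgroup V := V₁.map (DistribSMul.toAddMonoidHom V g)
    have hU : (U : Set V) ⊆ (V₁ : Set V) ∪ (V₂ : Set V) := by
      rintro _ ⟨v, hv, rfl⟩
      obtain ⟨p, hp, he⟩ := exists_sylow_smul horb P g v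
      change g • v ∈ _
      rw [← he]
      rcases h p hp with h1 | h1
      · exact Or.inl (h1.1 v hv)
      · exact Or.inr (h1.1 v hv)
    rcases AddSubgroupClass.subset_union.mp hU with h1 | h1
    · left; intro v hv; exact h1 ⟨v, hv, rfl⟩
    · right; intro v hv; exact h1 ⟨v, hv, rfl⟩
  -- the stabilizer of `V₁`
  let S : Subgroup H :=
    { carrier := {g | ∀ v : V, v ∈ V₁ ↔ g • v ∈ V₁}
      one_mem' := by intro v; rw [one_smul]
      mul_mem' := by
        intro a b ha hb v
        rw [hb v, ha (b • v), mul_smul]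
      inv_mem' := by
        intro a ha v
        rw [ha (a⁻¹ • v), smul_inv_smul] }
  have hSmem : ∀ g : H, (∀ v ∈ V₁, g • v ∈ V₁) → g ∈ S := by
    intro g hg v
    refine ⟨fun hv => hg v hv, fun hv => ?_⟩
    have hinj : Function.Injective (fun v : V₁ => (⟨g • v.1, hg v.1 v.2⟩ : V₁)) := by
      intro a b hab
      have := congrArg Subtype.val hab
      exact Subtype.ext (smul_left_cancel g this)
    obtain ⟨w, hw⟩ := (Finite.injective_iff_surjective.mp hinj) ⟨g • v, hv⟩
    have := congrArg Subtype.val hw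
    have h2 : w.1 = v := smul_left_cancel g this
    rw [← h2]; exact w.2
  have hSmem' : ∀ g : H, g ∉ S → (∀ v : V, v ∈ V₁ ↔ g • v ∈ V₂) := by
    intro g hg
    have h1 : ∀ v ∈ V₁, g • v ∈ V₂ := (key g).resolve_left (fun h => hg (hSmem g h))
    intro v
    refine ⟨fun hv => h1 v hv, fun hv => ?_⟩
    have hinj : Function.Injective (fun v : V₁ => (⟨g • v.1, h1 v.1 v.2⟩ : V₂)) := by
      intro a b hab
      have := congrArg Subtype.val hab
      exact Subtype.ext (smul_left_cancel g this)
    have hbij := (Nat.bijective_iff_injective_and_card _).mpr ⟨hinj, hcard⟩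
    obtain ⟨w, hw⟩ := hbij.2 ⟨g • v, hv⟩
    have := congrArg Subtype.val hw
    have h2 : w.1 = v := smul_left_cancel g this
    rw [← h2]; exact w.2
  have hStop : S = ⊤ := by
    by_contra hne
    apply no_index_two hperf S
    rw [index_eq_two_iff]
    obtain ⟨a, ha⟩ : ∃ a, a ∉ S := by
      by_contra hcon
      push Not at hcon
      exact hne (eq_top_iff.mpr fun x _ => hcon x)
    refine ⟨a, ?_⟩
    intro b
    have ha' := hSmem' a ha
    by_cases hb : b ∈ S
    · right
      refine ⟨hb, ?_⟩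
      intro hba
      have h1 : a ∈ S := by
        have := S.mul_mem (S.inv_mem hb) hba
        simpa using this
      exact ha h1
    · left
      refine ⟨?_, hb⟩
      by_contra hba
      apply ha
      intro v
      rw [hSmem' (b * a) hba v, mul_smul, ← hSmem' b hb (a • v)]
  apply hirr
  intro g v hv
  have : g ∈ S := by rw [hStop]; trivial
  exact (this v).mp hv

end Basic

end H71.Baer4
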