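import Mathlib
import Cfsg.Agent.Lib.H71.Baer4
import Cfsg.Agent.Lib.H72.PGroupCenter
import Cfsg.Agent.Lib.H5.InvTools

/-!
Perfect groups acting irreducibly with all orbits of `2`-power size, part 2: the structure of the Sylow `2`-subgroup.
-/

set_option autoImplicit false
open Subgroup

namespace H71.Baer5

open H71.Baer4

theorem exists_four {R : Type*} [Group R] [Finite R] (hR : IsPGroup 2 R) (A : Subgroup R) [A.Normal]
    (hAc : IsMulCommutative A) (hA : ¬ IsCyclic A) {z : R} (hz : z ∈ center R) (hz1 : z ≠ 1) (hz2 : z * z = 1)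
    (huniq : ∀ w ∈ center R, w ≠ 1 → w * w = 1 → w = z) :
    ∃ a : R, a * a = 1 ∧ a ≠ 1 ∧ a ≠ z ∧ ∀ p : R, p * a = a * p ∨ p * a = a * z * p := by
  have : Fact (Nat.Prime 2) := ⟨Nat.prime_two⟩
  have hcomm : ∀ x ∈ A, ∀ y ∈ A, x * y = y * x := fun x hx y hy => setLike_mul_comm hx hy
  let E : Subgroup R :=
    { carrier := {x | x ∈ A ∧ x * x = 1}
      one_mem' := ⟨one_mem _, mul_one _⟩
      mul_mem' := by
        rintro x y ⟨hx, hx2⟩ ⟨hy, hy2⟩
        refine ⟨mul_mem hx hy, ?_⟩
        calc x * y * (x * y) = x * (y * x) * y := by group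
          _ = (x * x) * (y * y) := by rw [hcomm y hy x hx]; group
          _ = 1 := by rw [hx2, hy2, mul_one]
      inv_mem' := by
        rintro x ⟨hx, hx2⟩
        exact ⟨inv_mem hx, by rw [← mul_inv_rev, hx2, inv_one]⟩ }
  have hEmem : ∀ x : R, x ∈ E ↔ x ∈ A ∧ x * x = 1 := fun x => Iff.rfl
  have hEn : E.Normal := by
    constructor
    intro x hx g
    rw [hEmem] at hx ⊢
    refine ⟨Subgroup.Normal.conj_mem inferInstance x hx.1 g, ?_⟩
    calc g * x * g⁻¹ * (g * x * g⁻¹) = g * (x * x) * g⁻¹ := by group
      _ = 1 := by rw [hx.2]; group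
  have hzn : (zpowers z).Normal := by
    constructor
    intro x hx g
    obtain ⟨i, rfl⟩ := mem_zpowers_iff.mp hx
    have : g * z ^ i * g⁻¹ = z ^ i := by
      have h1 : z ^ i ∈ center R := zpow_mem hz i
      rw [mem_center_iff.mp h1 g]; group
    rw [this]; exact hx
  have hzmem : ∀ x ∈ zpowers z, x = 1 ∨ x = z := by
    intro x hx
    obtain ⟨i, rfl⟩ := mem_zpowers_iff.mp hx
    rcases Int.even_or_odd' i with ⟨j, rfl | rfl⟩
    · left; rw [zpow_mul, zpow_two, hz2, one_zpow]
    · right; rw [zpow_add, zpow_mul, zpow_two, hz2, one_zpow, one_mul, zpow_one]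
  have hE : ¬ E ≤ zpowers z := by
    intro hle
    apply hA
    refine H3.UniqueSub.isCyclic_of_comm (p := 2) (hR.to_subgroup A) (fun x y => ?_)
      ((zpowers z).subgroupOf A) ?_ ?_
    · exact Subtype.ext (hcomm x x.2 y y.2)
    · calc Nat.card ((zpowers z).subgroupOf A) ≤ Nat.card (zpowers z) := by
            apply Nat.card_le_card_of_injective (fun x : (zpowers z).subgroupOf A => (⟨(x : A), x.2⟩ : zpowers z))
            intro x y hxy
            have := congrArg Subtype.val hxy
            exact Subtype.ext (Subtype.ext this)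
        _ = orderOf z := Nat.card_zpowers z
        _ ≤ 2 := orderOf_le_of_pow_eq_one (by norm_num) (by rw [pow_two, hz2])
    · intro x hx
      rw [mem_subgroupOf]
      apply hle
      rw [hEmem]
      exact ⟨x.2, by have := congrArg Subtype.val hx; rw [pow_two] at this; exact this⟩
  have hne : E.map (QuotientGroup.mk' (zpowers z)) ≠ ⊥ := by
    intro h
    apply hE
    rw [Subgroup.map_eq_bot_iff, QuotientGroup.ker_mk'] at h
    exact h
  have hEn' : (E.map (QuotientGroup.mk' (zpowers z))).Normal :=
    Subgroup.Normal.map hEn _ (QuotientGroup.mk'_surjective _)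
  have hne2 := H72.PGroupCenter.normal_inf_center_ne_bot (hR.to_quotient (zpowers z))
    (E.map (QuotientGroup.mk' (zpowers z))) hne
  obtain ⟨w, hw, hw1⟩ := (Subgroup.bot_or_exists_ne_one _).resolve_left hne2
  obtain ⟨⟨a, haE, rfl⟩, hac⟩ := mem_inf.mp hw
  have haz : a ∉ zpowers z := by
    intro h
    exact hw1 ((QuotientGroup.eq_one_iff a).mpr h)
  refine ⟨a, ((hEmem a).mp haE).2, ?_, ?_, ?_⟩
  · rintro rfl; exact haz (one_mem _)
  · rintro rfl; exact haz (mem_zpowers _)
  · intro p
    have h1 := mem_center_iff.mp hac (QuotientGroup.mk' (zpowers z) p)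
    have h2 : (a * p)⁻¹ * (p * a) ∈ zpowers z := by
      rw [← QuotientGroup.eq_one_iff]
      change QuotientGroup.mk' (zpowers z) _ = 1
      rw [map_mul, map_inv, map_mul, map_mul, h1]; group
    rcases hzmem _ h2 with h3 | h3
    · left
      exact (inv_mul_eq_one.mp h3).symm
    · right
      rw [inv_mul_eq_iff_eq_mul] at h3
      rw [h3, mul_assoc, mem_center_iff.mp hz p, mul_assoc]

variable {H : Type*} [Group H] [Finite H] {V : Type*} [AddCommGroup V] [Finite V] [DistribMulAction H V]

theorem struct (hirr : Irr H V) (horb : ∀ v : V, ∃ a : ℕ, (MulAction.stabilizer H v).index = 2 ^ a)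
    (P : Sylow 2 H) (hfaith : ∀ h : H, (∀ v : V, h • v = v) → h = 1) (hperf : commutator H = ⊤)
    (hnt : Nontrivial H) :
    ∃ (a t : (P : Subgroup H)) (k : ℕ), orderOf a = 2 ^ (k + 2) ∧ (zpowers a).index = 2 ∧ t ∉ zpowers a ∧
      (∀ x ∈ zpowers a, t * x = x * t → x ^ 2 = 1) ∧
      (∀ x : (P : Subgroup H), x * x = 1 → x ≠ 1 → ∀ v : V, (x : H) • v = -v) := by
  have : Fact (Nat.Prime 2) := ⟨Nat.prime_two⟩
  have hR : IsPGroup 2 (P : Subgroup H) := P.isPGroup'
  have hPne : (P : Subgroup H) ≠ ⊥ := by
    intro hP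
    obtain ⟨h, hh⟩ := exists_ne (1 : H)
    apply hh
    apply hfaith
    intro v
    obtain ⟨p, hp, he⟩ := exists_sylow_smul horb P h v
    rw [hP, mem_bot] at hp
    rw [← he, hp, one_smul]
  have hPnt : Nontrivial (P : Subgroup H) := (Subgroup.nontrivial_iff_ne_bot _).mpr hPne
  have hcn : Nontrivial (center (P : Subgroup H)) := hR.center_nontrivial
  obtain ⟨z', hz'⟩ : ∃ z' : center (P : Subgroup H), orderOf z' = 2 := by
    apply exists_prime_orderOf_dvd_card'
    obtain ⟨n, hn, hn'⟩ := (hR.to_subgroup (center (P : Subgroup H))).nontrivial_iff_card.mp hcn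
    rw [hn']
    exact dvd_pow_self 2 (by omega)
  have hz'2 : z' * z' = 1 := by
    have h := pow_orderOf_eq_one z'
    rw [hz', pow_two] at h
    exact h
  have hz'1 : z' ≠ 1 := by rintro rfl; rw [orderOf_one] at hz'; omega
  obtain ⟨z, hz⟩ : ∃ z : (P : Subgroup H), z = (z' : (P : Subgroup H)) := ⟨_, rfl⟩
  have hzc : z ∈ center (P : Subgroup H) := by rw [hz]; exact z'.2
  have hz2 : z * z = 1 := by rw [hz]; exact congrArg Subtype.val hz'2
  have hz1 : z ≠ 1 := by rw [hz]; exact fun h => hz'1 (Subtype.ext h)
  have hneg : ∀ w ∈ center (P : Subgroup H), w ≠ 1 → w * w = 1 → ∀ v : V, (w : H) • v = -v := by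
    intro w hw hw1 hw2 v
    refine neg_of_central hirr horb P hfaith (t := (w : H)) (congrArg Subtype.val hw2)
      (fun h => hw1 (Subtype.ext h)) ?_ v
    intro p hp
    exact congrArg Subtype.val (mem_center_iff.mp hw ⟨p, hp⟩)
  have hznegv := hneg z hzc hz1 hz2
  have heqz : ∀ w : H, (∀ v : V, w • v = -v) → w = z := by
    intro w hw
    have h1 : w * (z : H)⁻¹ = 1 := by
      apply hfaith
      intro v
      have h3 : (z : H)⁻¹ • v = -v := by
        rw [inv_smul_eq_iff, smul_neg, hznegv, neg_neg]
      rw [mul_smul, h3, smul_neg, hw, neg_neg]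
    exact mul_inv_eq_one.mp h1
  have huniq : ∀ w ∈ center (P : Subgroup H), w ≠ 1 → w * w = 1 → w = z := by
    intro w hw hw1 hw2
    exact Subtype.ext (heqz w (hneg w hw hw1 hw2))
  -- normal abelian subgroups are cyclic
  have hn : ∀ A : Subgroup (P : Subgroup H), A.Normal → IsMulCommutative A → IsCyclic A := by
    intro A hAn hAc
    by_contra hA
    obtain ⟨a, ha2, ha1, haz, hap⟩ := exists_four hR A hAc hA hzc hz1 hz2 huniq
    have ha2' : (a : H) * a = 1 := congrArg Subtype.val ha2
    rcases imprim hirr horb P hperf (fixed (a : H)) (anti (a : H)) (by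
      intro p hp
      rcases hap ⟨p, hp⟩ with h | h
      · left
        have h' : p * (a : H) = a * p := congrArg Subtype.val h
        constructor
        · intro v hv
          rw [mem_fixed] at hv ⊢
          rw [← mul_smul, ← h', mul_smul, hv]
        · intro v hv
          rw [mem_anti] at hv ⊢
          rw [← mul_smul, ← h', mul_smul, hv, smul_neg]
      · right
        have h' : p * (a : H) = a * z * p := congrArg Subtype.val h
        constructor
        · intro v hv
          rw [mem_fixed] at hv
          rw [mem_anti]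
          have h3 : (p * (a : H)) • v = p • v := by rw [mul_smul, hv]
          rw [h', mul_smul, mul_smul, hznegv, smul_neg] at h3
          rw [← h3, neg_neg, h3]
        · intro v hv
          rw [mem_anti] at hv
          rw [mem_fixed]
          have h3 : (p * (a : H)) • v = -(p • v) := by rw [mul_smul, hv, smul_neg]
          rw [h', mul_smul, mul_smul, hznegv, smul_neg, neg_inj] at h3
          exact h3) with h | h
    · exact haz (Subtype.ext (heqz a (neg_of_fixed_bot ha2' h)))
    · apply ha1
      apply Subtype.ext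
      apply hfaith
      intro v
      have : v ∈ (fixed (a : H) : AddSubgroup V) := by rw [h]; trivial
      exact this
  have heven : Even (Nat.card H) := by
    rw [even_iff_two_dvd]
    obtain ⟨n, hn, hn'⟩ := hR.nontrivial_iff_card.mp hPnt
    have h3 : 2 ∣ Nat.card (P : Subgroup H) := by rw [hn']; exact dvd_pow_self 2 (by omega)
    exact h3.trans (card_subgroup_dvd_card _)
  have hnc : ¬ IsCyclic (P : Subgroup H) := by
    intro hc
    obtain ⟨N, hN⟩ := H5.IndexTwo.exists_index_two_of_cyclic_sylow heven P hc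
    exact no_index_two hperf N hN
  obtain ⟨a, t, k, ha, hidx, ht, hC⟩ := H11.NormalRankOne.exists_data hR hnc hn
  refine ⟨a, t, k, ha, hidx, ht, hC, ?_⟩
  have hzan : (zpowers a).Normal := normal_of_index_eq_two hidx
  -- `z ∈ ⟨a⟩`
  have hza : z ∈ zpowers a := by
    have hne : zpowers a ≠ ⊥ := by
      intro h
      rw [zpowers_eq_bot] at h
      rw [h, orderOf_one] at ha
      have : 1 < 2 ^ (k + 2) := Nat.one_lt_two_pow (by omega)
      omega
    have h3 := H72.PGroupCenter.normal_inf_center_ne_bot hR (zpowers a) hne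
    have h4 : Nontrivial (zpowers a ⊓ center (P : Subgroup H) : Subgroup (P : Subgroup H)) :=
      (Subgroup.nontrivial_iff_ne_bot _).mpr h3
    obtain ⟨w, hw⟩ : ∃ w : (zpowers a ⊓ center (P : Subgroup H) : Subgroup (P : Subgroup H)), orderOf w = 2 := by
      apply exists_prime_orderOf_dvd_card'
      obtain ⟨n, hn, hn'⟩ := (hR.to_subgroup (zpowers a ⊓ center (P : Subgroup H))).nontrivial_iff_card.mp h4
      rw [hn']
      exact dvd_pow_self 2 (by omega)
    have hw2 : w * w = 1 := by
      have h := pow_orderOf_eq_one w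
      rw [hw, pow_two] at h
      exact h
    have hw1 : w ≠ 1 := by rintro rfl; rw [orderOf_one] at hw; omega
    have h5 := huniq w w.2.2 (fun h => hw1 (Subtype.ext h)) (congrArg Subtype.val hw2)
    rw [← h5]; exact w.2.1
  have hcyc_uniq : ∀ x ∈ zpowers a, x * x = 1 → x ≠ 1 → x = z := by
    intro x hx hx2 hx1
    have hxo : orderOf x = 2 := orderOf_eq_prime (by rw [pow_two, hx2]) hx1
    have hzo : orderOf z = 2 := orderOf_eq_prime (by rw [pow_two, hz2]) hz1
    exact H5.InvTools.cyclic_involution_unique_mem (zpowers a) inferInstance hx hza hxo hzo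
  intro x hx2 hx1 v
  by_cases hxa : x ∈ zpowers a
  · rw [hcyc_uniq x hxa hx2 hx1]; exact hznegv v
  · exfalso
    obtain ⟨M, hMn, hMi, -⟩ := H3.ThompsonTransfer.exists_index_two (P : Subgroup H)
      ((zpowers a).map (P : Subgroup H).subtype) (map_subtype_le _) (H3.ThompsonTransfer.odd_index_sylow P)
      (by
        rw [Subgroup.relIndex, Subgroup.subgroupOf, Subgroup.comap_map_eq_self_of_injective (P : Subgroup H).subtype_injective]
        exact hidx) (x : H)
      (by rw [pow_two]; exact congrArg Subtype.val hx2) (by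
        intro g hg
        obtain ⟨y, hy, hy'⟩ := hg
        have hy'' : (y : H) = g * x * g⁻¹ := hy'
        have hxx : (x : H) * x = 1 := congrArg Subtype.val hx2
        have hyz : y = z := by
          apply hcyc_uniq y hy
          · apply Subtype.ext
            change (y : H) * y = 1
            rw [hy'']
            calc g * x * g⁻¹ * (g * x * g⁻¹) = g * (x * x) * g⁻¹ := by group
              _ = 1 := by rw [hxx]; group
          · rintro rfl
            apply hx1
            apply Subtype.ext
            change (x : H) = 1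
            have h5 : g * (x : H) * g⁻¹ = 1 := hy''.symm
            have h6 : (x : H) = g⁻¹ * (g * (x : H) * g⁻¹) * g := by group
            rw [h6, h5]; group
        rw [hyz] at hy''
        have h5 : (x : H) = z := by
          apply heqz
          intro v
          have h6 : (x : H) = g⁻¹ * z * g := by rw [hy'']; group
          rw [h6, mul_smul, mul_smul, hznegv, smul_neg, inv_smul_smul]
        apply hxa
        rw [show x = z from Subtype.ext h5]
        exact hza)
    exact no_index_two hperf M hMi

end H71.Baer5
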