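import Mathlib

/-!
The commutant of an irreducible cyclic group and an involutory automorphism.
-/

set_option autoImplicit false

namespace H71.Baer6

variable {V : Type*} [AddCommGroup V] [Finite V]

theorem inj_of_ne {β : AddMonoid.End V} (hirr : ∀ W : AddSubgroup V, (∀ v ∈ W, β v ∈ W) → W = ⊥ ∨ W = ⊤)
    {f : AddMonoid.End V} (hf : f * β = β * f) (hf0 : f ≠ 0) : Function.Injective f := by
  rw [injective_iff_map_eq_zero]
  intro v hv
  let K : AddSubgroup V :=
    { carrier := {v | f v = 0}
      zero_mem' := map_zero f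
      add_mem' := by
        intro a b ha hb
        change f (a + b) = 0
        rw [map_add, show f a = 0 from ha, show f b = 0 from hb, add_zero]
      neg_mem' := by
        intro a ha
        change f (-a) = 0
        rw [map_neg, show f a = 0 from ha, neg_zero] }
  have hinv : ∀ w ∈ K, β w ∈ K := by
    intro w hw
    have h1 : (f * β) w = (β * f) w := by rw [hf]
    change f (β w) = β (f w) at h1
    change f (β w) = 0
    rw [h1, show f w = 0 from hw, map_zero]
  rcases hirr _ hinv with h | h
  · have : v ∈ K := hv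
    rw [h] at this
    exact this
  · exfalso
    apply hf0
    ext w
    have : w ∈ K := by rw [h]; trivial
    exact this

theorem main [Nontrivial V] (h2 : ∀ v : V, v + v = 0 → v = 0) (β τ τi ι : AddMonoid.End V)
    (hτ : τ * τi = 1) (hτ' : τi * τ = 1)
    (hirr : ∀ W : AddSubgroup V, (∀ v ∈ W, β v ∈ W) → W = ⊥ ∨ W = ⊤)
    (hι : ι * ι = -1) (hιβ : ι * β = β * ι)
    (hc : ∀ f : AddMonoid.End V, f * β = β * f → (τ * f * τi) * β = β * (τ * f * τi))
    (hτ2 : ∀ f : AddMonoid.End V, f * β = β * f → f * (τ * τ) = (τ * τ) * f)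
    (hne : τ * ι * τi ≠ ι) : ∃ Q : ℕ, Nat.card V = Q ^ 2 ∧ Q % 4 = 3 := by
  classical
  let D : Subring (AddMonoid.End V) := Subring.centralizer {β}
  have hDm : ∀ f, f ∈ D ↔ f * β = β * f := by
    intro f
    rw [Subring.mem_centralizer_iff]
    constructor
    · intro h; exact (h β rfl).symm
    · rintro h g rfl; exact h.symm
  have hfinE : Finite (AddMonoid.End V) := Finite.of_injective (fun f : AddMonoid.End V => (f : V → V)) DFunLike.coe_injective
  have hDfin : Finite D := inferInstance
  have hnt : Nontrivial D := ⟨⟨0, 1, by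
    intro h
    have h1 : (0 : AddMonoid.End V) = 1 := congrArg Subtype.val h
    obtain ⟨v, hv⟩ := exists_ne (0 : V)
    exact hv (by have := DFunLike.congr_fun h1 v; exact this.symm)⟩⟩
  have hnzd : NoZeroDivisors D := ⟨by
    intro f g hfg
    by_contra hcon
    push Not at hcon
    have hfi := inj_of_ne hirr ((hDm f).mp f.2) (fun h => hcon.1 (Subtype.ext h))
    have hgi := inj_of_ne hirr ((hDm g).mp g.2) (fun h => hcon.2 (Subtype.ext h))
    obtain ⟨v, hv⟩ := exists_ne (0 : V)
    apply hv
    apply hgi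
    apply hfi
    have h1 : (f : AddMonoid.End V) * g = 0 := congrArg Subtype.val hfg
    have h3 := DFunLike.congr_fun h1 v
    change f.1 (g.1 v) = 0 at h3
    rw [h3, map_zero, map_zero]⟩
  have hdom : IsDomain D := NoZeroDivisors.to_isDomain D
  have hDf : IsField D := Finite.isDomain_to_isField D
  have hDcomm : ∀ f g : AddMonoid.End V, f ∈ D → g ∈ D → f * g = g * f := by
    intro f g hf hg
    exact congrArg Subtype.val (hDf.mul_comm ⟨f, hf⟩ ⟨g, hg⟩)
  have hDz : ∀ f g : AddMonoid.End V, f ∈ D → g ∈ D → f * g = 0 → f = 0 ∨ g = 0 := by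
    intro f g hf hg h
    have h1 : (⟨f, hf⟩ : D) * ⟨g, hg⟩ = 0 := Subtype.ext h
    rcases mul_eq_zero.mp h1 with h3 | h3
    · left; exact congrArg Subtype.val h3
    · right; exact congrArg Subtype.val h3
  have hβD : β ∈ D := (hDm β).mpr rfl
  have hιD : ι ∈ D := (hDm ι).mpr hιβ
  -- `|V| = |D|`
  obtain ⟨v₀, hv₀⟩ := exists_ne (0 : V)
  have hVD : Nat.card D = Nat.card V := by
    apply Nat.card_eq_of_bijective (fun f : D => f.1 v₀)
    constructor
    · intro f g hfg
      by_contra hne'
      have h1 : (f - g : D).1 ≠ 0 := fun h => hne' (sub_eq_zero.mp (Subtype.ext h))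
      have h3 := inj_of_ne hirr ((hDm (f - g : D).1).mp (f - g : D).2) h1
      apply hv₀
      apply h3
      rw [map_zero]
      change f.1 v₀ - g.1 v₀ = 0
      rw [sub_eq_zero]
      exact hfg
    · let W : AddSubgroup V :=
        { carrier := {v | ∃ f : D, f.1 v₀ = v}
          zero_mem' := ⟨0, rfl⟩
          add_mem' := by
            rintro _ _ ⟨f, rfl⟩ ⟨g, rfl⟩
            exact ⟨f + g, rfl⟩
          neg_mem' := by
            rintro _ ⟨f, rfl⟩
            exact ⟨-f, rfl⟩ }
      have hW : W = ⊤ := by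
        rcases hirr W (by
          rintro _ ⟨f, rfl⟩
          exact ⟨⟨β, hβD⟩ * f, rfl⟩) with h | h
        · exfalso
          have : v₀ ∈ W := ⟨1, rfl⟩
          rw [h] at this
          exact hv₀ this
        · exact h
      intro v
      have : v ∈ W := by rw [hW]; trivial
      exact this
  -- the automorphism
  let σ : AddMonoid.End V → AddMonoid.End V := fun f => τ * f * τi
  have hσD : ∀ f ∈ D, σ f ∈ D := fun f hf => (hDm _).mpr (hc f ((hDm f).mp hf))
  have hσmul : ∀ f g, σ (f * g) = σ f * σ g := by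
    intro f g
    change τ * (f * g) * τi = (τ * f * τi) * (τ * g * τi)
    calc τ * (f * g) * τi = τ * f * 1 * g * τi := by rw [mul_one, mul_assoc τ f g]
      _ = _ := by rw [← hτ']; simp only [mul_assoc]
  have hσadd : ∀ f g, σ (f + g) = σ f + σ g := by
    intro f g
    change τ * (f + g) * τi = _
    rw [mul_add, add_mul]
  have hσneg : ∀ f, σ (-f) = - σ f := by
    intro f
    change τ * (-f) * τi = _
    rw [mul_neg, neg_mul]
  have hσ1 : σ 1 = 1 := by
    change τ * 1 * τi = 1
    rw [mul_one, hτ]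
  have hσσ : ∀ f ∈ D, σ (σ f) = f := by
    intro f hf
    change τ * (τ * f * τi) * τi = f
    have h1 := hτ2 f ((hDm f).mp hf)
    calc τ * (τ * f * τi) * τi = (τ * τ * f) * τi * τi := by simp only [mul_assoc]
      _ = (f * (τ * τ)) * τi * τi := by rw [h1]
      _ = f * τ * (τ * τi) * τi := by simp only [mul_assoc]
      _ = f * (τ * τi) := by rw [hτ, mul_one, mul_assoc, hτ]
      _ = f := by rw [hτ, mul_one]
  have hfix : ∀ f, σ f = f ↔ f * τ = τ * f := by
    intro f
    constructor
    · intro h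
      calc f * τ = (τ * f * τi) * τ := by rw [show τ * f * τi = f from h]
        _ = τ * f * (τi * τ) := by simp only [mul_assoc]
        _ = τ * f := by rw [hτ', mul_one]
    · intro h
      change τ * f * τi = f
      rw [← h, mul_assoc, hτ, mul_one]
  have hσι : σ ι = -ι := by
    have h1 : σ ι * σ ι = -1 := by rw [← hσmul, hι, hσneg, hσ1]
    have h3 : (σ ι - ι) * (σ ι + ι) = 0 := by
      rw [sub_mul, mul_add, mul_add, h1, hι, hDcomm ι (σ ι) hιD (hσD ι hιD)]
      abel
    rcases hDz _ _ (D.sub_mem (hσD ι hιD) hιD) (D.add_mem (hσD ι hιD) hιD) h3 with h4 | h4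
    · exact absurd (sub_eq_zero.mp h4) hne
    · exact eq_neg_of_add_eq_zero_left h4
  -- the fixed field
  let D₀ : Subring (AddMonoid.End V) := Subring.centralizer {β, τ}
  have hD₀m : ∀ f, f ∈ D₀ ↔ f ∈ D ∧ σ f = f := by
    intro f
    rw [Subring.mem_centralizer_iff, hDm, hfix]
    constructor
    · intro h
      exact ⟨(h β (by simp)).symm, (h τ (by simp)).symm⟩
    · rintro ⟨h, h'⟩ g hg
      rcases hg with rfl | hg
      · exact h.symm
      · rw [Set.mem_singleton_iff] at hg
        subst hg
        exact h'.symm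
  have hD₀nt : Nontrivial D₀ := ⟨⟨0, 1, by
    intro h
    have h1 : (0 : AddMonoid.End V) = 1 := congrArg Subtype.val h
    exact hv₀ (by have := DFunLike.congr_fun h1 v₀; exact this.symm)⟩⟩
  have hD₀nzd : NoZeroDivisors D₀ := ⟨by
    intro f g hfg
    have h1 : (f : AddMonoid.End V) * g = 0 := congrArg Subtype.val hfg
    rcases hDz f g ((hD₀m f).mp f.2).1 ((hD₀m g).mp g.2).1 h1 with h | h
    · left; exact Subtype.ext h
    · right; exact Subtype.ext h⟩
  have hD₀dom : IsDomain D₀ := NoZeroDivisors.to_isDomain D₀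
  -- doubling is bijective
  have hdbl : Function.Bijective (fun f : D => f + f) := by
    have hinj : Function.Injective (fun f : D => f + f) := by
      intro f g hfg
      apply Subtype.ext
      ext v
      have h1 : (f : AddMonoid.End V) + f = g + g := congrArg Subtype.val hfg
      have h3 := DFunLike.congr_fun h1 v
      change f.1 v + f.1 v = g.1 v + g.1 v at h3
      have h4 : (f.1 v - g.1 v) + (f.1 v - g.1 v) = 0 := by
        rw [sub_add_sub_comm, h3, sub_self]
      exact sub_eq_zero.mp (h2 _ h4)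
    exact ⟨hinj, Finite.injective_iff_surjective.mp hinj⟩
  have hDD₀ : Nat.card D = Nat.card D₀ ^ 2 := by
    rw [pow_two, ← Nat.card_prod]
    symm
    apply Nat.card_eq_of_bijective (fun x : D₀ × D₀ =>
      (⟨x.1.1 + x.2.1 * ι, D.add_mem ((hD₀m x.1.1).mp x.1.2).1 (D.mul_mem ((hD₀m x.2.1).mp x.2.2).1 hιD)⟩ : D))
    constructor
    · rintro ⟨⟨f, hf⟩, ⟨g, hg⟩⟩ ⟨⟨f', hf'⟩, ⟨g', hg'⟩⟩ h
      have h1 : f + g * ι = f' + g' * ι := congrArg Subtype.val h
      rw [hD₀m] at hf hg hf' hg'
      have h3 : f - g * ι = f' - g' * ι := by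
        have := congrArg σ h1
        rw [hσadd, hσadd, hσmul, hσmul, hσι, hf.2, hg.2, hf'.2, hg'.2, mul_neg, mul_neg] at this
        rw [sub_eq_add_neg, sub_eq_add_neg]
        exact this
      have h4 : (⟨f, hf.1⟩ : D) = ⟨f', hf'.1⟩ := by
        apply hdbl.1
        apply Subtype.ext
        change f + f = f' + f'
        calc f + f = (f + g * ι) + (f - g * ι) := by abel
          _ = (f' + g' * ι) + (f' - g' * ι) := by rw [h1, h3]
          _ = f' + f' := by abel
      have h5 : f = f' := congrArg Subtype.val h4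
      subst h5
      have h6 : g * ι = g' * ι := add_left_cancel h1
      have h7 : g = g' := by
        have : g * ι * ι = g' * ι * ι := by rw [h6]
        rw [mul_assoc, mul_assoc, hι, mul_neg, mul_neg, mul_one, mul_one, neg_inj] at this
        exact this
      subst h7
      rfl
    · intro f
      obtain ⟨h, hh⟩ := hdbl.2 f
      have hh' : (h : AddMonoid.End V) + h = f := congrArg Subtype.val hh
      have hhD := h.2
      have hA : (h : AddMonoid.End V) + σ h ∈ D₀ := by
        rw [hD₀m]
        refine ⟨D.add_mem h.2 (hσD _ h.2), ?_⟩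
        rw [hσadd, hσσ _ h.2, add_comm]
      have hB : ((h : AddMonoid.End V) - σ h) * (-ι) ∈ D₀ := by
        rw [hD₀m]
        refine ⟨D.mul_mem (D.sub_mem h.2 (hσD _ h.2)) (D.neg_mem hιD), ?_⟩
        rw [hσmul, hσneg, hσι, sub_eq_add_neg, hσadd, hσneg, hσσ _ h.2, neg_neg]
        rw [mul_neg, ← neg_mul]
        congr 1
        abel
      refine ⟨(⟨_, hA⟩, ⟨_, hB⟩), ?_⟩
      apply Subtype.ext
      change ((h : AddMonoid.End V) + σ h) + (((h : AddMonoid.End V) - σ h) * (-ι)) * ι = f
      have : (((h : AddMonoid.End V) - σ h) * (-ι)) * ι = (h : AddMonoid.End V) - σ h := by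
        rw [mul_assoc, neg_mul, hι, neg_neg, mul_one]
      rw [this, ← hh']
      abel
  refine ⟨Nat.card D₀, by rw [← hVD, hDD₀], ?_⟩
  by_contra hmod
  have hD₀f : IsField D₀ := Finite.isDomain_to_isField D₀
  let _ : Field D₀ := hD₀f.toField
  let _ : Fintype D₀ := Fintype.ofFinite D₀
  have hsq : IsSquare (-1 : D₀) := by
    rw [FiniteField.isSquare_neg_one_iff, ← Nat.card_eq_fintype_card]
    exact hmod
  obtain ⟨j, hj⟩ := hsq
  have hj' : (j : AddMonoid.End V) * j = -1 := (congrArg Subtype.val hj).symm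
  have hjD := (hD₀m j.1).mp j.2
  have h3 : ((j : AddMonoid.End V) - ι) * (j + ι) = 0 := by
    rw [sub_mul, mul_add, mul_add, hj', hι, hDcomm ι j hιD hjD.1]
    abel
  have hιfix : σ ι = ι := by
    rcases hDz _ _ (D.sub_mem hjD.1 hιD) (D.add_mem hjD.1 hιD) h3 with h4 | h4
    · rw [← sub_eq_zero.mp h4]; exact hjD.2
    · have h5 : ι = -(j : AddMonoid.End V) := eq_neg_of_add_eq_zero_right h4
      rw [h5, hσneg, hjD.2]
  exact hne hιfix

end H71.Baer6
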