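import Mathlib

/-!
Auxiliary facts: partitions by subgroups, a numerical lemma, perfect groups on spaces of order `q ^ 2`.
-/

set_option autoImplicit false

namespace H71.Baer7

/-- number of components of a partition of an abelian group of order `Q ^ 2` by proper subgroups -/
theorem cover_bound {V : Type*} [AddCommGroup V] [Finite V] {ι : Type*} [Finite ι] (W : ι → AddSubgroup V) (Q : ℕ)
    (hV : Nat.card V = Q ^ 2) (hdisj : ∀ i j, i ≠ j → W i ⊓ W j = ⊥) (hcov : ∀ v, ∃ i, v ∈ W i)
    (hne : ∀ i, W i ≠ ⊤) : Q + 1 ≤ Nat.card ι := by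
  classical
  have : Fintype V := Fintype.ofFinite V
  have : Fintype ι := Fintype.ofFinite ι
  let F : ι → Finset V := fun i => Finset.univ.filter (fun v => v ∈ W i ∧ v ≠ 0)
  have hF : ∀ i, (F i).card + 1 = Nat.card (W i) := by
    intro i
    have h1 : Nat.card (W i) = (Finset.univ.filter (fun v => v ∈ W i)).card := by
      rw [Nat.card_eq_fintype_card, Fintype.card_subtype]
    have h2 : F i = (Finset.univ.filter (fun v => v ∈ W i)).erase 0 := by
      ext v
      simp only [F, Finset.mem_filter, Finset.mem_univ, true_and, Finset.mem_erase]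
      tauto
    rw [h1, h2, Finset.card_erase_of_mem (by simp [zero_mem])]
    have : 0 < (Finset.univ.filter (fun v => v ∈ W i)).card := Finset.card_pos.mpr ⟨0, by simp [zero_mem]⟩
    omega
  have hprod : ∀ i j, i ≠ j → Nat.card (W i) * Nat.card (W j) ≤ Q ^ 2 := by
    intro i j hij
    rw [← hV, ← Nat.card_prod]
    apply Nat.card_le_card_of_injective (fun x : W i × W j => (x.1 : V) + x.2)
    rintro ⟨⟨a, ha⟩, ⟨b, hb⟩⟩ ⟨⟨c, hc⟩, ⟨d, hd⟩⟩ h
    have h' : a + b = c + d := h
    have h1 : a - c = d - b := by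
      rw [sub_eq_sub_iff_add_eq_add, h', add_comm]
    have h2 : a - c ∈ W i ⊓ W j := ⟨(W i).sub_mem ha hc, by rw [h1]; exact (W j).sub_mem hd hb⟩
    rw [hdisj i j hij, AddSubgroup.mem_bot, sub_eq_zero] at h2
    subst h2
    have h3 : b = d := add_left_cancel h'
    subst h3
    rfl
  obtain ⟨i₁, hi₁⟩ := hcov 0
  have hQ : 2 ≤ Q := by
    by_contra hQ
    have h1 : Nat.card V ≤ 1 := by
      rw [hV]
      interval_cases Q <;> norm_num
    have h2 : Subsingleton V := (Finite.card_le_one_iff_subsingleton).mp h1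
    exact hne i₁ (eq_top_iff.mpr fun v _ => by rw [Subsingleton.elim v 0]; exact zero_mem _)
  rw [Nat.card_eq_fintype_card]
  by_cases hall : ∀ i, Nat.card (W i) ≤ Q
  · have h1 : (Finset.univ.erase (0 : V)) ⊆ Finset.univ.biUnion F := by
      intro v hv
      rw [Finset.mem_erase] at hv
      obtain ⟨i, hi⟩ := hcov v
      exact Finset.mem_biUnion.mpr ⟨i, Finset.mem_univ _, by simp [F, hi, hv.1]⟩
    have h2 := (Finset.card_le_card h1).trans (Finset.card_biUnion_le_card_mul Finset.univ F (Q - 1) (fun i _ => by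
      have := hF i
      have := hall i
      omega))
    rw [Finset.card_erase_of_mem (Finset.mem_univ _), Finset.card_univ, Finset.card_univ, ← Nat.card_eq_fintype_card,
      hV] at h2
    have h3 : Q ^ 2 - 1 = (Q + 1) * (Q - 1) := by
      obtain ⟨k, rfl⟩ : ∃ k, Q = k + 1 := ⟨Q - 1, by omega⟩
      have : (k + 1) ^ 2 - 1 = (k + 1 + 1) * k := by
        have : (k + 1) ^ 2 = (k + 1 + 1) * k + 1 := by ring
        omega
      simpa using this
    rw [h3] at h2
    exact Nat.le_of_mul_le_mul_right h2 (by omega)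
  · push Not at hall
    obtain ⟨i₀, hi₀⟩ := hall
    have hm : Nat.card (W i₀) * (W i₀).index = Q ^ 2 := by rw [← hV]; exact (W i₀).card_mul_index
    set m := Nat.card (W i₀) with hmdef
    set c := (W i₀).index with hcdef
    have hc2 : 2 ≤ c := by
      have h1 : c ≠ 0 := AddSubgroup.index_ne_zero_of_finite
      have h2 : c ≠ 1 := by
        rw [hcdef, Ne, AddSubgroup.index_eq_one]
        exact hne i₀
      omega
    have hle : ∀ i, i ≠ i₀ → (F i).card ≤ c - 1 := by
      intro i hi
      have h1 := hprod i i₀ hi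
      rw [← hmdef, ← hm, mul_comm m c] at h1
      have h2 := Nat.le_of_mul_le_mul_right h1 (by omega)
      have := hF i
      omega
    have h1 : (Finset.univ.filter (fun v => v ∉ W i₀)) ⊆ (Finset.univ.erase i₀).biUnion F := by
      intro v hv
      simp only [Finset.mem_filter, Finset.mem_univ, true_and] at hv
      obtain ⟨i, hi⟩ := hcov v
      refine Finset.mem_biUnion.mpr ⟨i, ?_, ?_⟩
      · rw [Finset.mem_erase]
        refine ⟨?_, Finset.mem_univ _⟩
        rintro rfl
        exact hv hi
      · simp only [F, Finset.mem_filter, Finset.mem_univ, true_and]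
        refine ⟨hi, ?_⟩
        rintro rfl
        exact hv (zero_mem _)
    have h2 := (Finset.card_le_card h1).trans (Finset.card_biUnion_le_card_mul (Finset.univ.erase i₀) F (c - 1)
      (fun i hi => hle i (Finset.mem_erase.mp hi).1))
    have h3 : (Finset.univ.filter (fun v => v ∉ W i₀)).card + m = m * c := by
      have h4 : m = (Finset.univ.filter (fun v => v ∈ W i₀)).card := by
        rw [hmdef, Nat.card_eq_fintype_card, Fintype.card_subtype]
      have h5 := Finset.card_filter_add_card_filter_not (s := (Finset.univ : Finset V)) (fun v => v ∈ W i₀)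
      rw [← h4, Finset.card_univ, ← Nat.card_eq_fintype_card, hV, ← hm] at h5
      omega
    rw [Finset.card_erase_of_mem (Finset.mem_univ _), Finset.card_univ] at h2
    have h4 : m * (c - 1) ≤ (Fintype.card ι - 1) * (c - 1) := by
      have h5 : m * (c - 1) + m = m * c := by
        obtain ⟨k, hk⟩ : ∃ k, c = k + 1 := ⟨c - 1, by omega⟩
        rw [hk, Nat.add_sub_cancel]; ring
      omega
    have h5 := Nat.le_of_mul_le_mul_right h4 (by omega)
    have h6 : 0 < Fintype.card ι := Fintype.card_pos_iff.mpr ⟨i₁⟩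
    omega

/-- `q ^ j + 1 = 2 ^ s` with `q ^ j ≡ 3 mod 4` forces `j = 1` -/
theorem pow_add_one {q j s : ℕ} (hq : 3 ≤ q) (h : q ^ j + 1 = 2 ^ s) (hmod : q ^ j % 4 = 3) : j = 1 := by
  have hj : Odd j := by
    by_contra hcon
    rw [Nat.not_odd_iff_even] at hcon
    obtain ⟨i, rfl⟩ := hcon
    rw [pow_add] at hmod
    have : (q ^ i * q ^ i) % 4 ≠ 3 := by
      rw [Nat.mul_mod]
      have : q ^ i % 4 < 4 := Nat.mod_lt _ (by norm_num)
      interval_cases (q ^ i % 4) <;> norm_num
    exact this hmod
  have hqodd : ¬ 2 ∣ q := by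
    intro h2
    have : 2 ∣ q ^ j := h2.trans (dvd_pow_self q hj.pos.ne')
    omega
  have hnd := not_dvd_geom_sum₂ (R := ℤ) Int.prime_two (x := (q : ℤ)) (y := -1) (n := j)
    (by
      rw [sub_neg_eq_add]
      have : 2 ∣ q + 1 := by omega
      exact_mod_cast this)
    (by exact_mod_cast hqodd) (by
      intro hcon
      have : 2 ∣ j := by exact_mod_cast hcon
      rcases hj with ⟨i, rfl⟩
      omega)
  set S : ℤ := ∑ i ∈ Finset.range j, (q : ℤ) ^ i * (-1) ^ (j - 1 - i) with hS
  have hmul : S * ((q : ℤ) - (-1)) = (q : ℤ) ^ j - (-1) ^ j := (Commute.all (q : ℤ) (-1)).geom_sum₂_mul j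
  rw [hj.neg_one_pow, sub_neg_eq_add, sub_neg_eq_add] at hmul
  have hz : (q : ℤ) ^ j + 1 = 2 ^ s := by exact_mod_cast h
  rw [hz] at hmul
  have hSd : S ∣ 2 ^ s := ⟨_, hmul.symm⟩
  have hScop : IsCoprime S ((2 : ℤ) ^ s) := by
    apply IsCoprime.pow_right
    exact ((Int.prime_two.coprime_iff_not_dvd).mpr hnd).symm
  have hSu : IsUnit S := hScop.isUnit_of_dvd' dvd_rfl hSd
  have hpos : 0 < S := by
    have h1 : 0 < S * ((q : ℤ) + 1) := by rw [hmul]; positivity
    have h2 : (0 : ℤ) < (q : ℤ) + 1 := by positivity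
    exact (pos_iff_pos_of_mul_pos h1).mpr h2
  have hS1 : S = 1 := by
    rcases Int.isUnit_iff.mp hSu with h1 | h1
    · exact h1
    · omega
  rw [hS1, one_mul, ← hz] at hmul
  have h3 : q ^ j = q ^ 1 := by
    have : (q : ℤ) ^ j = q := by linarith
    rw [pow_one]
    exact_mod_cast this
  exact Nat.pow_right_injective (by omega) h3

end H71.Baer7
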