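import Mathlib
import Cfsg.Agent.Lib.H71.Baer4

/-!
Perfect groups acting on groups of order `q ^ 2`.
-/

set_option autoImplicit false
open Subgroup

namespace H71.Baer8

open H71.Baer4

theorem stab_trivial' {H : Type*} [Group H] [Finite H] {V : Type*} [AddCommGroup V] [Finite V] [DistribMulAction H V]
    {q : ℕ} [hq : Fact q.Prime] [Module (ZMod q) V] (hel : ∀ v : V, q • v = 0) (hV : Nat.card V = q ^ 2)
    (hcop : (Nat.card H).Coprime q) (hperf : commutator H = ⊤) (hfaith : ∀ h : H, (∀ v : V, h • v = v) → h = 1)
    {v : V} (hv : v ≠ 0) {h : H} (hh : h • v = v) : h = 1 := by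
  classical
  have : Fintype V := Fintype.ofFinite V
  have hfd : Module.Finite (ZMod q) V := Module.Finite.of_finite
  have hfr : Module.finrank (ZMod q) V = 2 := by
    have h1 := Module.card_eq_pow_finrank (K := ZMod q) (V := V)
    rw [ZMod.card, ← Nat.card_eq_fintype_card, hV] at h1
    exact (Nat.pow_right_injective hq.out.two_le h1).symm
  let ρ : H →* Module.End (ZMod q) V :=
    { toFun := fun g =>
        { toFun := fun w => g • w
          map_add' := smul_add g
          map_smul' := fun c w => ZMod.map_smul (DistribSMul.toAddMonoidHom V g) c w }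
      map_one' := by
        ext w
        exact one_smul H w
      map_mul' := by
        intro a b
        ext w
        exact mul_smul a b w }
  have hρ : ∀ (g : H) (w : V), ρ g w = g • w := fun g w => rfl
  let δ : H →* ZMod q := (LinearMap.det (M := V) (A := ZMod q)).comp ρ
  have hδ : ∀ g : H, δ g = 1 := by
    intro g
    have h1 : commutator H ≤ (MonoidHom.toHomUnits δ).ker := Abelianization.commutator_subset_ker _
    rw [hperf] at h1
    have h2 : g ∈ (MonoidHom.toHomUnits δ).ker := h1 trivial
    rw [MonoidHom.mem_ker] at h2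
    exact congrArg Units.val h2
  -- a second vector
  obtain ⟨w, hw⟩ : ∃ w : V, w ∉ Submodule.span (ZMod q) {v} := by
    by_contra hcon
    push Not at hcon
    have h1 : Submodule.span (ZMod q) {v} = ⊤ := eq_top_iff.mpr fun w _ => hcon w
    have h2 := finrank_span_singleton (K := ZMod q) hv
    rw [h1, finrank_top, hfr] at h2
    omega
  have hli : LinearIndependent (ZMod q) ![v, w] := by
    rw [LinearIndependent.pair_iff' hv]
    intro a ha
    exact hw (ha ▸ Submodule.smul_mem _ a (Submodule.mem_span_singleton_self v))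
  let b := basisOfLinearIndependentOfCardEqFinrank hli (by rw [hfr]; rfl)
  have hb0 : b 0 = v := by simp [b]
  have hb1 : b 1 = w := by simp [b]
  have hdet : LinearMap.det (ρ h) = (LinearMap.toMatrix b b (ρ h)).det := (LinearMap.det_toMatrix b (ρ h)).symm
  have h00 : LinearMap.toMatrix b b (ρ h) 0 0 = 1 := by
    rw [LinearMap.toMatrix_apply, hb0, hρ, hh, ← hb0, b.repr_self]; simp
  have h10 : LinearMap.toMatrix b b (ρ h) 1 0 = 0 := by
    rw [LinearMap.toMatrix_apply, hb0, hρ, hh, ← hb0, b.repr_self]; simp
  have h11 : LinearMap.toMatrix b b (ρ h) 1 1 = 1 := by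
    have h1 : LinearMap.det (ρ h) = 1 := hδ h
    rw [hdet, Matrix.det_fin_two, h00, h10, one_mul, mul_zero, sub_zero] at h1
    exact h1
  set c := LinearMap.toMatrix b b (ρ h) 0 1 with hc
  have hhw : h • w = c • v + w := by
    have h1 : ρ h w = ∑ i, (b.repr (ρ h w)) i • b i := (b.sum_repr _).symm
    rw [Fin.sum_univ_two, hb0, hb1] at h1
    rw [← hρ, h1]
    have e0 : (b.repr (ρ h w)) 0 = c := by rw [hc, LinearMap.toMatrix_apply, hb1]
    have e1 : (b.repr (ρ h w)) 1 = 1 := by rw [← h11, LinearMap.toMatrix_apply, hb1]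
    rw [e0, e1, one_smul]
  have hpow : ∀ n : ℕ, h ^ n • w = n • (c • v) + w := by
    intro n
    induction n with
    | zero => simp
    | succ n ih =>
      rw [pow_succ', mul_smul, ih, smul_add, hhw, succ_nsmul]
      have : h • (n • (c • v)) = n • (c • v) := by
        have h1 : ρ h (n • (c • v)) = n • (c • v) := by
          rw [map_nsmul, map_smul, hρ, hh]
        exact h1
      rw [this]; abel
  have hpv : ∀ n : ℕ, h ^ n • v = v := by
    intro n
    induction n with
    | zero => simp
    | succ n ih => rw [pow_succ', mul_smul, ih, hh]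
  have hq1 : h ^ q = 1 := by
    apply hfaith
    intro u
    have h1 : ρ (h ^ q) = LinearMap.id := by
      apply b.ext
      intro i
      fin_cases i
      · change ρ (h ^ q) (b 0) = b 0
        rw [hb0, hρ, hpv]
      · change ρ (h ^ q) (b 1) = b 1
        rw [hb1, hρ, hpow, hel, zero_add]
    have h2 := LinearMap.congr_fun h1 u
    exact h2
  have ho : orderOf h ∣ q := orderOf_dvd_of_pow_eq_one hq1
  have ho2 : orderOf h ∣ Nat.card H := orderOf_dvd_natCard h
  exact orderOf_eq_one_iff.mp (Nat.eq_one_of_dvd_coprimes hcop ho2 ho)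

/-- perfect group acting on an elementary abelian group of order `q ^ 2`: stabilizers are trivial -/
theorem stab_trivial {H : Type*} [Group H] [Finite H] {V : Type*} [AddCommGroup V] [Finite V] [DistribMulAction H V]
    {q : ℕ} [hq : Fact q.Prime] (hel : ∀ v : V, q • v = 0) (hV : Nat.card V = q ^ 2)
    (hcop : (Nat.card H).Coprime q) (hperf : commutator H = ⊤) (hfaith : ∀ h : H, (∀ v : V, h • v = v) → h = 1)
    {v : V} (hv : v ≠ 0) {h : H} (hh : h • v = v) : h = 1 :=
  @stab_trivial' H _ _ V _ _ _ q hq (AddCommGroup.zmodModule hel) hel hV hcop hperf hfaith v hv h hh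

end H71.Baer8
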