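import Mathlib
import Cfsg.Agent.Lib.H71.Baer5
import Cfsg.Agent.Lib.H71.Baer6
import Cfsg.Agent.Lib.H71.Baer7
import Cfsg.Agent.Lib.H71.Baer8

/-!
There is no nontrivial perfect group acting faithfully and irreducibly with all orbits of `2`-power size.
-/

set_option autoImplicit false
open Subgroup

namespace H71.Baer9

open H71.Baer4 H71.Baer5

variable {H : Type*} [Group H] [Finite H] {V : Type*} [AddCommGroup V] [Finite V] [DistribMulAction H V]

theorem smul_mem_of_powers {b : H} {W : AddSubgroup V} (hW : ∀ v ∈ W, b • v ∈ W) {x : H} (hx : x ∈ zpowers b) :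
    ∀ v ∈ W, x • v ∈ W := by
  obtain ⟨n, rfl⟩ : x ∈ Submonoid.powers b := mem_powers_iff_mem_zpowers.mpr hx
  induction n with
  | zero => intro v hv; simpa using hv
  | succ n ih =>
    intro v hv
    change b ^ (n + 1) • v ∈ W
    rw [pow_succ, mul_smul]
    exact ih (by exact (mem_powers_iff_mem_zpowers.mp ⟨n, rfl⟩)) _ (hW v hv)

theorem false_of (q : ℕ) [hq : Fact q.Prime] (hq2 : q ≠ 2) (hVq : ∃ n, Nat.card V = q ^ n) (hVnt : Nontrivial V)
    (hcop : (Nat.card H).Coprime q)
    (hirr : Irr H V) (horb : ∀ v : V, ∃ a : ℕ, (MulAction.stabilizer H v).index = 2 ^ a)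
    (hfaith : ∀ h : H, (∀ v : V, h • v = v) → h = 1) (hperf : commutator H = ⊤)
    (hnt : Nontrivial H) : False := by
  classical
  have : Fact (Nat.Prime 2) := ⟨Nat.prime_two⟩
  obtain ⟨nV, hnV⟩ := hVq
  have hqodd : Odd q := hq.out.odd_of_ne_two hq2
  have hcopV : (Nat.card V).Coprime 2 := by
    rw [hnV]
    exact Nat.Coprime.pow_left _ (Nat.coprime_two_right.mpr hqodd)
  have h2 : ∀ v : V, v + v = 0 → v = 0 := by
    intro v hv
    have h1 : addOrderOf v ∣ 2 := addOrderOf_dvd_of_nsmul_eq_zero (by rw [two_nsmul, hv])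
    have h3 : addOrderOf v ∣ Nat.card V := addOrderOf_dvd_natCard v
    exact AddMonoid.addOrderOf_eq_one_iff.mp (Nat.eq_one_of_dvd_coprimes hcopV h3 h1)
  obtain ⟨P⟩ : Nonempty (Sylow 2 H) := inferInstance
  obtain ⟨a, t, k, ha, hidx, ht, hC, hneg⟩ := struct hirr horb P hfaith hperf hnt
  have han : (zpowers a).Normal := normal_of_index_eq_two hidx
  have hmul : ∀ x y : (P : Subgroup H), x * y ∈ zpowers a ↔ (x ∈ zpowers a ↔ y ∈ zpowers a) :=
    fun x y => mul_mem_iff_of_index_two hidx
  -- powers of `a` as elements of `H`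
  have hzp : ∀ x : (P : Subgroup H), x ∈ zpowers a → (x : H) ∈ zpowers (a : H) := by
    rintro x ⟨i, rfl⟩
    exact ⟨i, by simp⟩
  -- `⟨a⟩` is irreducible
  have hairr : ∀ W : AddSubgroup V, (∀ v ∈ W, (a : H) • v ∈ W) → W = ⊥ ∨ W = ⊤ := by
    intro W hW
    have hW' : ∀ x : (P : Subgroup H), x ∈ zpowers a → ∀ v ∈ W, (x : H) • v ∈ W :=
      fun x hx => smul_mem_of_powers hW (hzp x hx)
    refine imprim hirr horb P hperf W (W.comap (DistribSMul.toAddMonoidHom V (t : H)⁻¹)) ?_
    intro p hp
    have hmem : ∀ v, v ∈ W.comap (DistribSMul.toAddMonoidHom V (t : H)⁻¹) ↔ (t : H)⁻¹ • v ∈ W := fun v => Iff.rfl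
    by_cases hpa : (⟨p, hp⟩ : (P : Subgroup H)) ∈ zpowers a
    · left
      refine ⟨hW' _ hpa, ?_⟩
      intro v hv
      rw [hmem] at hv ⊢
      have h1 := hW' (t⁻¹ * ⟨p, hp⟩ * t) (by simpa using han.conj_mem _ hpa t⁻¹) _ hv
      have e : ((t⁻¹ * ⟨p, hp⟩ * t : (P : Subgroup H)) : H) = (t : H)⁻¹ * p * t := rfl
      rw [e, mul_smul, smul_inv_smul, mul_smul] at h1
      exact h1
    · right
      constructor
      · intro v hv
        rw [hmem]
        have h1 : t⁻¹ * (⟨p, hp⟩ : (P : Subgroup H)) ∈ zpowers a := by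
          rw [hmul, inv_mem_iff]; tauto
        have h3 := hW' _ h1 v hv
        have e : ((t⁻¹ * ⟨p, hp⟩ : (P : Subgroup H)) : H) = (t : H)⁻¹ * p := rfl
        rw [e, mul_smul] at h3
        exact h3
      · intro v hv
        rw [hmem] at hv
        have h1 : (⟨p, hp⟩ : (P : Subgroup H)) * t ∈ zpowers a := by
          rw [hmul]; tauto
        have h3 := hW' _ h1 _ hv
        have e : ((⟨p, hp⟩ * t : (P : Subgroup H)) : H) = p * t := rfl
        rw [e, mul_smul, smul_inv_smul] at h3
        exact h3
  -- the commutant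
  let E : H →* AddMonoid.End V := DistribMulAction.toAddMonoidEnd H V
  have hE : ∀ (g : H) (v : V), E g v = g • v := fun g v => rfl
  have hEinj : ∀ g g' : H, E g = E g' → g = g' := by
    intro g g' h
    have h1 : g'⁻¹ * g = 1 := by
      apply hfaith
      intro v
      rw [mul_smul]
      have : g • v = g' • v := by rw [← hE, ← hE, h]
      rw [this, inv_smul_smul]
    exact (inv_mul_eq_one.mp h1).symm
  -- an endomorphism commuting with `E a` commutes with `E x`, `x ∈ ⟨a⟩`
  have hcomm : ∀ f : AddMonoid.End V, f * E a = E a * f → ∀ x : (P : Subgroup H), x ∈ zpowers a → f * E x = E x * f := by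
    intro f hf x hx
    obtain ⟨n, rfl⟩ : x ∈ Submonoid.powers a := mem_powers_iff_mem_zpowers.mpr hx
    have e : ((a ^ n : (P : Subgroup H)) : H) = (a : H) ^ n := by simp
    change f * E ((a ^ n : (P : Subgroup H)) : H) = E ((a ^ n : (P : Subgroup H)) : H) * f
    rw [e, map_pow]
    exact Commute.pow_right hf n
  have ha4 : orderOf (a ^ (2 ^ k)) = 4 := by
    rw [orderOf_pow_of_dvd (by positivity) (by rw [ha]; exact pow_dvd_pow 2 (by omega)), ha,
      Nat.pow_div (by omega) (by norm_num)]
    norm_num [Nat.add_sub_cancel_left]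
  set i := a ^ (2 ^ k) with hi
  have hiz : i ∈ zpowers a := pow_mem (mem_zpowers a) _
  have hi2 : (i * i) * (i * i) = 1 := by
    have := pow_orderOf_eq_one i
    rw [ha4] at this
    have e : (i * i) * (i * i) = i ^ 4 := by
      rw [pow_succ, pow_succ, pow_succ, pow_one]
      simp only [mul_assoc]
    rw [e, this]
  have hi2' : i * i ≠ 1 := by
    intro h
    have h1 : orderOf i ∣ 2 := orderOf_dvd_of_pow_eq_one (by rw [pow_two, h])
    rw [ha4] at h1
    omega
  have hineg : ∀ v : V, ((i * i : (P : Subgroup H)) : H) • v = -v := hneg _ hi2 hi2'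
  obtain ⟨Q, hQV, hQ4⟩ := H71.Baer6.main h2 (E a) (E t) (E (t : H)⁻¹) (E i)
    (by rw [← map_mul, mul_inv_cancel, map_one]) (by rw [← map_mul, inv_mul_cancel, map_one]) hairr
    (by
      ext v
      have h1 := hineg v
      have e : ((i * i : (P : Subgroup H)) : H) = (i : H) * i := rfl
      rw [e, mul_smul] at h1
      exact h1)
    (by
      rw [← map_mul, ← map_mul]
      congr 1
      have : i * a = a * i := by rw [hi]; exact ((Commute.refl a).pow_left _).eq
      exact congrArg Subtype.val this)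
    (by
      intro f hf
      have h1 := hcomm f hf (t⁻¹ * a * t) (by simpa using han.conj_mem a (mem_zpowers a) t⁻¹)
      have e : E ((t⁻¹ * a * t : (P : Subgroup H)) : H) = E (t : H)⁻¹ * E a * E t := by
        rw [← map_mul, ← map_mul]; rfl
      rw [e] at h1
      have e1 : E (t : H) * E (t : H)⁻¹ = 1 := by rw [← map_mul, mul_inv_cancel, map_one]
      have e2 : E (t : H)⁻¹ * E (t : H) = 1 := by rw [← map_mul, inv_mul_cancel, map_one]
      calc E (t : H) * f * E (t : H)⁻¹ * E a = E (t : H) * (f * (E (t : H)⁻¹ * E a * E t)) * E (t : H)⁻¹ := by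
            rw [mul_assoc (E (t : H)) (f * _) _]
            simp only [mul_assoc, e1, mul_one]
        _ = E (t : H) * ((E (t : H)⁻¹ * E a * E t) * f) * E (t : H)⁻¹ := by rw [h1]
        _ = (E (t : H) * E (t : H)⁻¹) * E a * E t * f * E (t : H)⁻¹ := by simp only [mul_assoc]
        _ = E a * (E (t : H) * f * E (t : H)⁻¹) := by rw [e1, one_mul]; simp only [mul_assoc])
    (by
      intro f hf
      have h1 := hcomm f hf (t * t) (by rw [hmul])
      have e : E ((t * t : (P : Subgroup H)) : H) = E t * E t := by rw [← map_mul]; rfl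
      rwa [e] at h1)
    (by
      intro h
      rw [← map_mul, ← map_mul] at h
      have h1 := hEinj _ _ h
      have h3 : t * i = i * t := by
        apply Subtype.ext
        change (t : H) * i = i * t
        rw [← mul_inv_eq_iff_eq_mul]
        exact h1
      have h4 := hC i hiz h3
      rw [pow_two] at h4
      exact hi2' h4)
  -- `|P|`
  have hPcard : Nat.card (P : Subgroup H) = 2 ^ (k + 3) := by
    rw [← card_mul_index (zpowers a), Nat.card_zpowers, ha, hidx, ← pow_succ]
  -- free action
  have hfree : ∀ p : (P : Subgroup H), p ≠ 1 → ∀ v : V, (p : H) • v = v → v = 0 := by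
    intro p hp v hv
    obtain ⟨m, hm⟩ := (IsPGroup.iff_orderOf.mp P.isPGroup') p
    have hm0 : m ≠ 0 := by
      rintro rfl
      rw [pow_zero, orderOf_eq_one_iff] at hm
      exact hp hm
    obtain ⟨m, rfl⟩ := Nat.exists_eq_succ_of_ne_zero hm0
    set w := p ^ (2 ^ m) with hw
    have hwo : orderOf w = 2 := by
      rw [hw, orderOf_pow_of_dvd (by positivity) (by rw [hm]; exact pow_dvd_pow 2 (by omega)), hm,
        Nat.pow_div (by omega) (by norm_num)]
      norm_num
    have hw2 : w * w = 1 := by
      have := pow_orderOf_eq_one w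
      rwa [hwo, pow_two] at this
    have hw1 : w ≠ 1 := by
      intro h
      rw [h, orderOf_one] at hwo
      omega
    have h3 := hneg w hw2 hw1 v
    have h4 : (w : H) • v = v := by
      have h5 : ∀ n : ℕ, ((p : H) ^ n) • v = v := by
        intro n
        induction n with
        | zero => simp
        | succ n ih => rw [pow_succ, mul_smul, hv, ih]
      have := h5 (2 ^ m)
      rw [hw]
      simpa using this
    apply h2
    rw [h4] at h3
    nth_rewrite 1 [h3]
    exact neg_add_cancel v
  -- the bound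
  have hPne : (P : Subgroup H) ≠ ⊤ := by
    intro hP
    have hsolv : Group.IsSolvable (P : Subgroup H) := by
      have := P.isPGroup'.isNilpotent
      infer_instance
    have hsolvH : Group.IsSolvable H :=
      Group.isSolvable_of_surjective (f := (P : Subgroup H).subtype) (by
        intro x
        exact ⟨⟨x, by rw [hP]; trivial⟩, rfl⟩)
    exact absurd hperf (Group.IsSolvable.commutator_lt_top_of_nontrivial H).ne
  obtain ⟨g, hg⟩ : ∃ g : H, g ∉ (P : Subgroup H) := by
    by_contra hcon
    push Not at hcon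
    exact hPne (eq_top_iff.mpr fun x _ => hcon x)
  have hbound := H71.Baer7.cover_bound (V := V) (ι := (P : Subgroup H))
    (fun p => ((DistribSMul.toAddMonoidHom V g - DistribSMul.toAddMonoidHom V (p : H)) : V →+ V).ker) Q hQV
    (by
      intro p p' hpp
      rw [eq_bot_iff]
      rintro v ⟨h1, h3⟩
      have h1' : g • v - (p : H) • v = 0 := h1
      have h3' : g • v - (p' : H) • v = 0 := h3
      rw [sub_eq_zero] at h1' h3'
      rw [AddSubgroup.mem_bot]
      refine hfree (p'⁻¹ * p) ?_ v ?_
      · intro h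
        exact hpp (inv_mul_eq_one.mp h).symm
      · change ((p' : H)⁻¹ * p) • v = v
        rw [mul_smul, ← h1', h3', inv_smul_smul])
    (by
      intro v
      obtain ⟨p, hp, he⟩ := exists_sylow_smul horb P g v
      refine ⟨⟨p, hp⟩, ?_⟩
      change g • v - p • v = 0
      rw [he, sub_self])
    (by
      intro p hp
      apply hg
      have h1 : g = p := by
        apply hEinj
        ext v
        have h3 : v ∈ ((DistribSMul.toAddMonoidHom V g - DistribSMul.toAddMonoidHom V (p : H)) : V →+ V).ker := by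
          rw [hp]; trivial
        have h4 : g • v - (p : H) • v = 0 := h3
        exact sub_eq_zero.mp h4
      rw [h1]; exact p.2)
  rw [hPcard] at hbound
  -- divisibility
  have hdiv : 2 ^ (k + 3) ∣ Q ^ 2 - 1 := by
    let act : MulAction (P : Subgroup H) {v : V // v ≠ 0} :=
      { smul := fun p v => ⟨(p : H) • v.1, fun h => v.2 (by
          have : v.1 = (p : H)⁻¹ • ((p : H) • v.1) := by rw [inv_smul_smul]
          rw [this, h, smul_zero])⟩
        one_smul := fun v => Subtype.ext (one_smul H v.1)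
        mul_smul := fun p p' v => Subtype.ext (mul_smul (p : H) (p' : H) v.1) }
    have hst : ∀ b : {v : V // v ≠ 0}, MulAction.stabilizer (P : Subgroup H) b = ⊥ := by
      rintro ⟨v, hv⟩
      rw [eq_bot_iff]
      intro p hp
      rw [Subgroup.mem_bot]
      by_contra hp1
      apply hv
      have h1 : p • (⟨v, hv⟩ : {v : V // v ≠ 0}) = ⟨v, hv⟩ := hp
      exact hfree p hp1 v (congrArg Subtype.val h1)
    have h1 := Nat.card_congr (MulAction.selfEquivOrbitsQuotientProd hst)
    rw [Nat.card_prod, hPcard] at h1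
    have h3 : Nat.card {v : V // v ≠ 0} = Q ^ 2 - 1 := by
      rw [← hQV]
      have : Fintype V := Fintype.ofFinite V
      rw [Nat.card_eq_fintype_card, Nat.card_eq_fintype_card, Fintype.card_subtype_compl, Fintype.card_subtype_eq]
    rw [← h3, h1]
    exact dvd_mul_left _ _
  -- `2 ^ (k + 2) ∣ Q + 1`
  have hQdiv : 2 ^ (k + 2) ∣ Q + 1 := by
    obtain ⟨m, hm⟩ : ∃ m, Q = 4 * m + 3 := ⟨Q / 4, by omega⟩
    have h1 : Q ^ 2 - 1 = 2 * ((2 * m + 1) * (Q + 1)) := by
      rw [hm]
      have : (4 * m + 3) ^ 2 = 2 * ((2 * m + 1) * (4 * m + 3 + 1)) + 1 := by ring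
      omega
    rw [h1, pow_succ 2 (k + 2), mul_comm (2 ^ (k + 2)) 2] at hdiv
    have h3 := Nat.dvd_of_mul_dvd_mul_left (by norm_num) hdiv
    have h4 : (2 ^ (k + 2)).Coprime (2 * m + 1) := by
      apply Nat.Coprime.pow_left
      rw [Nat.coprime_two_left]
      exact ⟨m, rfl⟩
    exact h4.dvd_of_dvd_mul_left h3
  have hQpow : ∃ s, Q + 1 = 2 ^ s := by
    obtain ⟨c, hc⟩ := hQdiv
    have h1 : c ≤ 2 := by
      rw [hc, pow_succ 2 (k + 2)] at hbound
      exact Nat.le_of_mul_le_mul_left hbound (by positivity)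
    have h3 : c ≠ 0 := by rintro rfl; omega
    have h4 : c = 1 ∨ c = 2 := by omega
    rcases h4 with rfl | rfl
    · exact ⟨k + 2, by rw [hc, mul_one]⟩
    · exact ⟨k + 3, by rw [hc, ← pow_succ]⟩
  obtain ⟨s, hs⟩ := hQpow
  obtain ⟨j, hj⟩ : ∃ j, Q = q ^ j := by
    have h1 : Q ∣ q ^ nV := by rw [← hnV, hQV]; exact dvd_pow_self Q (by norm_num)
    obtain ⟨j, _, hj⟩ := (Nat.dvd_prime_pow hq.out).mp h1
    exact ⟨j, hj⟩
  have hq3 : 3 ≤ q := by
    have := hq.out.two_le
    omega
  have hj1 : j = 1 := by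
    apply H71.Baer7.pow_add_one hq3 (s := s)
    · rw [← hj, hs]
    · rw [← hj]; exact hQ4
  rw [hj1, pow_one] at hj
  rw [hj] at hQV
  -- `V` is elementary
  have hel : ∀ v : V, q • v = 0 := by
    let W : AddSubgroup V :=
      { carrier := {v | q • v = 0}
        zero_mem' := smul_zero _
        add_mem' := by
          intro a b ha hb
          change q • (a + b) = 0
          rw [smul_add, show q • a = 0 from ha, show q • b = 0 from hb, add_zero]
        neg_mem' := by
          intro a ha
          change q • (-a) = 0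
          rw [smul_neg, show q • a = 0 from ha, neg_zero] }
    have hW : W = ⊤ := by
      rcases hirr W (by
        intro h v hv
        change q • (h • v) = 0
        have e : q • (h • v) = h • (q • v) := (map_nsmul (DistribSMul.toAddMonoidHom V h) q v).symm
        rw [e, show q • v = 0 from hv, smul_zero]) with h | h
      · exfalso
        obtain ⟨v, hv⟩ := exists_prime_addOrderOf_dvd_card' (G := V) q (by
          rw [hQV]; exact dvd_pow_self q (by norm_num))
        have h1 : v ∈ W := by
          change q • v = 0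
          rw [← hv]; exact addOrderOf_nsmul_eq_zero v
        rw [h, AddSubgroup.mem_bot] at h1
        rw [h1, addOrderOf_zero] at hv
        omega
      · exact h
    intro v
    have : v ∈ W := by rw [hW]; trivial
    exact this
  -- conclusion
  obtain ⟨v, hv⟩ := exists_ne (0 : V)
  apply hPne
  rw [eq_top_iff]
  intro h _
  obtain ⟨p, hp, he⟩ := exists_sylow_smul horb P h v
  have h1 : p⁻¹ * h = 1 := H71.Baer8.stab_trivial hel hQV hcop hperf hfaith hv (h := p⁻¹ * h) (by
    rw [mul_smul, ← he, inv_smul_smul])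
  rw [inv_mul_eq_one] at h1
  rw [← h1]; exact hp

end H71.Baer9
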