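import Mathlib
import Cfsg.Agent.Lib.H71.Baer9
import Cfsg.Agent.Lib.H70.ClassSize

/-!
Groups acting faithfully and coprimely on an abelian group of odd order with all orbits of `2`-power size are solvable.
-/

set_option autoImplicit false
open Subgroup

namespace H71.Baer10

open H71.Baer4

universe u w

/-- restricted action on an invariant subgroup -/
@[reducible] def subAct {H : Type u} [Group H] {V : Type w} [AddCommGroup V] [DistribMulAction H V] (W : AddSubgroup V)
    (hW : ∀ h : H, ∀ v ∈ W, h • v ∈ W) : DistribMulAction H W where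
  smul h v := ⟨h • v.1, hW h v.1 v.2⟩
  one_smul v := Subtype.ext (one_smul H v.1)
  mul_smul a b v := Subtype.ext (mul_smul a b v.1)
  smul_zero a := Subtype.ext (smul_zero a)
  smul_add a v v' := Subtype.ext (smul_add a v.1 v'.1)

/-- action on the quotient by an invariant subgroup -/
@[reducible] def quotAct {H : Type u} [Group H] {V : Type w} [AddCommGroup V] [DistribMulAction H V] (W : AddSubgroup V)
    (hW : ∀ h : H, ∀ v ∈ W, h • v ∈ W) : DistribMulAction H (V ⧸ W) where
  smul h := QuotientAddGroup.map W W (DistribSMul.toAddMonoidHom V h) (fun v hv => hW h v hv)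
  one_smul v := by
    induction v using QuotientAddGroup.induction_on with
    | H v => exact congrArg (QuotientAddGroup.mk) (one_smul H v)
  mul_smul a b v := by
    induction v using QuotientAddGroup.induction_on with
    | H v => exact congrArg (QuotientAddGroup.mk) (mul_smul a b v)
  smul_zero a := map_zero _
  smul_add a v v' := map_add _ v v'

/-- the action of the image of `H` -/
@[reducible] def rangeAct {H : Type u} [Group H] {V : Type w} [AddCommGroup V] [DistribMulAction H V] :
    DistribMulAction (MulAction.toPermHom H V).range V where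
  smul g v := g.1 v
  one_smul v := rfl
  mul_smul a b v := rfl
  smul_zero a := by
    obtain ⟨_, h, rfl⟩ := a
    exact smul_zero h
  smul_add a v v' := by
    obtain ⟨_, h, rfl⟩ := a
    exact smul_add h v v'

theorem trivial_of_perfect (q : ℕ) [hq : Fact q.Prime] (hq2 : q ≠ 2) (n : ℕ) :
    ∀ (V : Type w) [AddCommGroup V] [Finite V], Nat.card V = n → ∀ (H : Type u) [Group H] [Finite H]
      [DistribMulAction H V], (∃ m, Nat.card V = q ^ m) → (Nat.card H).Coprime q →
      (∀ v : V, ∃ a : ℕ, (MulAction.stabilizer H v).index = 2 ^ a) → commutator H = ⊤ →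
      ∀ (h : H) (v : V), h • v = v := by
  induction n using Nat.strong_induction_on with
  | _ n ih =>
  intro V _ _ hn H _ _ _ hVq hcop horb hperf h v
  by_cases hVnt : Nontrivial V
  swap
  · rw [not_nontrivial_iff_subsingleton] at hVnt
    exact Subsingleton.elim _ _
  by_cases hirr : Irr H V
  · -- irreducible case
    let φ : H →* Equiv.Perm V := MulAction.toPermHom H V
    let _ : DistribMulAction φ.range V := rangeAct
    have hφ : ∀ (g : H) (v : V), φ g v = g • v := fun g v => rfl
    by_cases hRnt : Nontrivial φ.range
    · exfalso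
      have hst : ∀ v : V, (MulAction.stabilizer φ.range v).comap φ.rangeRestrict = MulAction.stabilizer H v := by
        intro v
        ext g
        rw [mem_comap, MulAction.mem_stabilizer_iff, MulAction.mem_stabilizer_iff]
        rfl
      have : Finite φ.range := inferInstance
      refine H71.Baer9.false_of (H := φ.range) (V := V) q hq2 hVq hVnt ?_ ?_ ?_ ?_ ?_ hRnt
      · exact Nat.Coprime.coprime_dvd_left (Subgroup.card_range_dvd φ) hcop
      · intro W hW
        apply hirr W
        intro g v hv
        exact hW ⟨φ g, ⟨g, rfl⟩⟩ v hv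
      · intro v
        obtain ⟨a, ha⟩ := horb v
        refine ⟨a, ?_⟩
        rw [← ha, ← hst v, index_comap_of_surjective _ φ.rangeRestrict_surjective]
      · rintro ⟨g, hg⟩ hh
        apply Subtype.ext
        ext v
        exact hh v
      · have h1 : (commutator H).map φ.rangeRestrict = commutator φ.range := by
          rw [commutator_def, commutator_def, map_commutator, ← MonoidHom.range_eq_map,
            MonoidHom.range_eq_top.mpr φ.rangeRestrict_surjective]
        rw [← h1, hperf, ← MonoidHom.range_eq_map, MonoidHom.range_eq_top.mpr φ.rangeRestrict_surjective]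
    · rw [not_nontrivial_iff_subsingleton] at hRnt
      have h1 : (⟨φ h, ⟨h, rfl⟩⟩ : φ.range) = 1 := Subsingleton.elim _ _
      have h2 : φ h = 1 := congrArg Subtype.val h1
      rw [← hφ, h2]
      rfl
  · -- reducible case
    unfold Irr at hirr
    push Not at hirr
    obtain ⟨W, hW, hW1, hW2⟩ := hirr
    obtain ⟨m, hm⟩ := hVq
    have hWc : Nat.card W < n := by
      rw [← hn]
      exact lt_of_le_of_ne (Nat.le_of_dvd Nat.card_pos (AddSubgroup.card_addSubgroup_dvd_card W)) (fun h => hW2 (AddSubgroup.eq_top_of_card_eq W h))
    have hQc : Nat.card (V ⧸ W) < n := by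
      rw [← hn, ← AddSubgroup.card_mul_index W, AddSubgroup.index_eq_card]
      have h1 : 1 < Nat.card W := by
        rw [AddSubgroup.one_lt_card_iff_ne_bot]; exact hW1
      have h2 : 0 < Nat.card (V ⧸ W) := Nat.card_pos
      nlinarith
    -- action on `W`
    have hWt : ∀ (g : H) (v : V), v ∈ W → g • v = v := by
      let _ := subAct W hW
      intro g v hv
      have h1 := ih _ hWc W rfl H (by
        have h2 : Nat.card W ∣ q ^ m := by rw [← hm]; exact AddSubgroup.card_addSubgroup_dvd_card W
        obtain ⟨j, _, hj⟩ := (Nat.dvd_prime_pow hq.out).mp h2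
        exact ⟨j, hj⟩) hcop (by
        intro v
        obtain ⟨a, ha⟩ := horb v.1
        refine ⟨a, ?_⟩
        rw [← ha]
        congr 1
        ext g
        rw [MulAction.mem_stabilizer_iff, MulAction.mem_stabilizer_iff]
        exact Subtype.ext_iff) hperf g ⟨v, hv⟩
      exact congrArg Subtype.val h1
    -- action on `V ⧸ W`
    have hQt : ∀ (g : H) (v : V), g • v - v ∈ W := by
      let _ := quotAct W hW
      intro g v
      have h1 := ih _ hQc (V ⧸ W) rfl H (by
        have h2 : Nat.card (V ⧸ W) ∣ q ^ m := by
          rw [← hm, ← AddSubgroup.index_eq_card]; exact AddSubgroup.index_dvd_card W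
        obtain ⟨j, _, hj⟩ := (Nat.dvd_prime_pow hq.out).mp h2
        exact ⟨j, hj⟩) hcop (by
        intro v
        induction v using QuotientAddGroup.induction_on with
        | H v =>
          obtain ⟨a, ha⟩ := horb v
          have h2 : MulAction.stabilizer H v ≤ MulAction.stabilizer H (QuotientAddGroup.mk v : V ⧸ W) := by
            intro g hg
            rw [MulAction.mem_stabilizer_iff] at hg ⊢
            exact congrArg QuotientAddGroup.mk hg
          have h3 := Subgroup.index_dvd_of_le h2
          rw [ha] at h3
          obtain ⟨j, _, hj⟩ := (Nat.dvd_prime_pow Nat.prime_two).mp h3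
          exact ⟨j, hj⟩) hperf g (QuotientAddGroup.mk v)
      have h2 : (QuotientAddGroup.mk (g • v) : V ⧸ W) = QuotientAddGroup.mk v := h1
      have h3 := QuotientAddGroup.eq.mp h2.symm
      rwa [neg_add_eq_sub] at h3
    -- coprime
    set d := h • v - v with hd
    have hdW : d ∈ W := hQt h v
    have hpow : ∀ k : ℕ, h ^ k • v = v + k • d := by
      intro k
      induction k with
      | zero => simp
      | succ k ihk =>
        rw [pow_succ', mul_smul, ihk, smul_add]
        have e1 : h • (k • d) = k • d := hWt h _ (W.nsmul_mem hdW k)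
        have e2 : h • v = v + d := by rw [hd]; abel
        rw [e1, e2, succ_nsmul]; abel
    have h1 := hpow (orderOf h)
    rw [pow_orderOf_eq_one, one_smul] at h1
    have h2 : orderOf h • d = 0 := by
      have : v + 0 = v + orderOf h • d := by rw [add_zero]; exact h1
      exact (add_left_cancel this).symm
    have h3 : addOrderOf d ∣ orderOf h := addOrderOf_dvd_of_nsmul_eq_zero h2
    have h4 : addOrderOf d ∣ Nat.card V := addOrderOf_dvd_natCard d
    rw [hm] at h4
    have h5 : (Nat.card H).Coprime (q ^ m) := Nat.Coprime.pow_right m hcop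
    have h6 := Nat.eq_one_of_dvd_coprimes h5 (h3.trans (orderOf_dvd_natCard h)) h4
    rw [AddMonoid.addOrderOf_eq_one_iff] at h6
    exact sub_eq_zero.mp h6

theorem isSolvable (q : ℕ) [hq : Fact q.Prime] (hq2 : q ≠ 2) (V : Type w) [AddCommGroup V] [Finite V]
    (hVq : ∃ m, Nat.card V = q ^ m) (n : ℕ) :
    ∀ (H : Type u) [Group H] [Finite H] [DistribMulAction H V], Nat.card H = n → (Nat.card H).Coprime q →
      (∀ v : V, ∃ a : ℕ, (MulAction.stabilizer H v).index = 2 ^ a) → (∀ h : H, (∀ v : V, h • v = v) → h = 1) →
      Group.IsSolvable H := by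
  induction n using Nat.strong_induction_on with
  | _ n ih =>
  intro H _ _ _ hn hcop horb hfaith
  by_cases hperf : commutator H = ⊤
  · have h1 := trivial_of_perfect q hq2 _ V rfl H hVq hcop horb hperf
    have : Subsingleton H := ⟨fun a b => by rw [hfaith a (h1 a), hfaith b (h1 b)]⟩
    infer_instance
  · have hlt : Nat.card (commutator H) < n := by
      rw [← hn]
      exact lt_of_le_of_ne (Subgroup.card_le_card_group _) (fun h => hperf (Subgroup.eq_top_of_card_eq _ h))
    have h1 : Group.IsSolvable (commutator H) := by
      refine ih _ hlt (commutator H) rfl (Nat.Coprime.coprime_dvd_left (card_subgroup_dvd_card _) hcop) ?_ ?_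
      · intro v
        obtain ⟨a, ha⟩ := horb v
        have h2 := H70.ClassSize.relIndex_normal_dvd (MulAction.stabilizer H v) (commutator H)
        rw [ha] at h2
        obtain ⟨j, _, hj⟩ := (Nat.dvd_prime_pow Nat.prime_two).mp h2
        refine ⟨j, ?_⟩
        rw [← hj]
        rfl
      · rintro ⟨h, hh⟩ h2
        exact Subtype.ext (hfaith h h2)
    have h2 : Group.IsSolvable (H ⧸ commutator H) := by
      have : Group.IsSolvable (Abelianization H) := inferInstance
      exact this
    exact (Group.isSolvable_iff_subgroup_quotient (commutator H)).mpr ⟨h1, h2⟩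

end H71.Baer10
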