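import Mathlib
import Cfsg.Agent.Lib.H71.Baer1

/-!
Groups in which every `q`-element has a conjugacy class of prime power size (Baer): uniqueness of the prime.
-/

set_option autoImplicit false
open Subgroup Cfsg

namespace H71.Baer2

open H71.Baer1

variable {G : Type*} [Group G] [Finite G]

/-- normal Sylow `Q` with complement `H`; `y ∈ Q` with class size a power of `q` has a conjugate centralized by `H` -/
theorem exists_conj_commute {q : ℕ} [hq : Fact q.Prime] {Q H : Subgroup G} [hQn : Q.Normal] (hQ : IsPGroup q Q)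
    (hQi : ¬ q ∣ Q.index) (hH : Nat.card H = Q.index) {y : G} {b : ℕ} (h : sz y = q ^ b) :
    ∃ g ∈ Q, ∀ k ∈ H, Commute k (g * y * g⁻¹) := by
  set C := centralizer ({y} : Set G) with hC
  have hqi : q.Coprime Q.index := (Nat.Prime.coprime_iff_not_dvd hq.out).mpr hQi
  have hcop : Q.index.Coprime C.index := by
    rw [show C.index = q ^ b from h]
    exact (Nat.Coprime.pow_left b hqi).symm
  have hrel : Q.relIndex C = Q.index := H72.CoprimeIndex.relIndex_eq_of_coprime Q C hcop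
  have hDn : (Q.subgroupOf C).Normal := inferInstance
  have hD : IsPGroup q (Q.subgroupOf C) := by
    apply hQ.comap_of_injective C.subtype C.subtype_injective
  obtain ⟨m, hm⟩ := IsPGroup.iff_card.mp hD
  obtain ⟨K, hK⟩ := Subgroup.exists_right_complement'_of_coprime (N := Q.subgroupOf C) (by
    rw [hm, show (Q.subgroupOf C).index = Q.index from hrel]
    exact Nat.Coprime.pow_left m hqi)
  have hKc : Nat.card K = Q.index := by rw [← hK.symm.index_eq_card]; exact hrel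
  obtain ⟨g, hg, hgK⟩ := H1.SZ.conj_of_card Q (by
      obtain ⟨j, hj⟩ := IsPGroup.iff_card.mp hQ
      rw [hj]
      exact Nat.Coprime.pow_left j hqi)
    (Or.inl (by have := hQ.isNilpotent; infer_instance)) (K.map C.subtype) H
    (by rw [Subgroup.card_map_of_injective C.subtype_injective, hKc]) hH
  refine ⟨g, hg, ?_⟩
  intro k hk
  rw [← hgK, H1.SZ.mem_conj_smul] at hk
  obtain ⟨c, hcK, hc⟩ := hk
  have h1 : (c : G) * y = y * c := H72.ClassSize.mem_cent_comm c.2
  have h2 : (c : G) = g⁻¹ * k * g := hc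
  have h3 : k = g * c * g⁻¹ := by rw [h2]; group
  rw [h3]
  change g * c * g⁻¹ * (g * y * g⁻¹) = (g * y * g⁻¹) * (g * c * g⁻¹)
  calc g * c * g⁻¹ * (g * y * g⁻¹) = g * (c * y) * g⁻¹ := by group
    _ = _ := by rw [h1]; group

theorem sylow_eq_pCore {q : ℕ} [hq : Fact q.Prime] (h : ∀ x : G, IsQ q x → x ∈ pCore q G) (Q : Sylow q G) :
    (Q : Subgroup G) = pCore q G := by
  apply le_antisymm
  · intro x hx
    exact h x (isQ_of_mem Q.isPGroup' hx)
  · exact H1.Cores.pCore_le_sylow Q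

theorem case_eq {q : ℕ} [hq : Fact q.Prime] (hall : ∀ x : G, IsQ q x → ∃ b, sz x = q ^ b) (Q : Sylow q G) :
    (Q : Subgroup G).Normal ∧ ∃ N : Subgroup G, N.Normal ∧ N.IsComplement' (Q : Subgroup G) := by
  have h1 := sylow_eq_pCore (fun x hx => by
    obtain ⟨b, hb⟩ := hall x hx
    exact mem_pCore hx hb) Q
  have hQn : (Q : Subgroup G).Normal := by rw [h1]; infer_instance
  refine ⟨hQn, ?_⟩
  have hqi : q.Coprime (Q : Subgroup G).index := (Nat.Prime.coprime_iff_not_dvd hq.out).mpr Q.not_dvd_index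
  obtain ⟨H, hH⟩ := Subgroup.exists_right_complement'_of_coprime (N := (Q : Subgroup G)) (by
    obtain ⟨m, hm⟩ := IsPGroup.iff_card.mp Q.isPGroup'
    rw [hm]
    exact Nat.Coprime.pow_left m hqi)
  refine ⟨H, ?_, hH.symm⟩
  have hHc : Nat.card H = (Q : Subgroup G).index := hH.symm.index_eq_card.symm
  have h2 : (centralizer (H : Set G)).subgroupOf (Q : Subgroup G) = ⊤ := by
    apply H72.ClassSize.eq_top_of_forall_conj_mem
    rintro ⟨x, hx⟩
    obtain ⟨b, hb⟩ := hall x (isQ_of_mem Q.isPGroup' hx)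
    obtain ⟨g, hg, hgk⟩ := exists_conj_commute Q.isPGroup' Q.not_dvd_index hHc hb
    refine ⟨⟨g, hg⟩, ?_⟩
    rw [mem_subgroupOf, mem_centralizer_iff]
    intro k hk
    exact hgk k hk
  have h3 : (Q : Subgroup G) ≤ centralizer (H : Set G) := by
    rwa [subgroupOf_eq_top] at h2
  have h4 : (⊤ : Subgroup G) ≤ normalizer (H : Set G) := by
    rw [← hH.sup_eq_top]
    exact sup_le (h3.trans (centralizer_le_normalizer _)) le_normalizer
  exact normalizer_eq_top_iff.mp (top_le_iff.mp h4)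

/-- no coexistence of the two types -/
theorem no_coexist {q : ℕ} [hq : Fact q.Prime]
    (hB : ∀ x : G, IsQ q x → ∃ (r : ℕ) (a : ℕ), r.Prime ∧ sz x = r ^ a)
    {x₀ y : G} (hx₀ : IsQ q x₀) (hx₀1 : sz x₀ ≠ 1) (hx₀q : ¬ q ∣ sz x₀) (hy : IsQ q y) {b : ℕ} (hb : sz y = q ^ b)
    (hb1 : sz y ≠ 1) : False := by
  -- every element of type X lies in `O_q(G)`
  have hX : ∀ x : G, IsQ q x → sz x ≠ 1 → ¬ q ∣ sz x → x ∈ pCore q G := by
    intro x hx hx1 hxq
    have hcop : (sz x).Coprime (sz y) := by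
      rw [hb]
      exact (Nat.Coprime.pow_left b ((Nat.Prime.coprime_iff_not_dvd hq.out).mpr hxq)).symm
    have hcm := commute_of hxq hy hcop
    have hcxy : Commute x y := by simpa using hcm 1
    have hcm2 : ∀ g : G, Commute (g * y * g⁻¹) x := by
      intro g
      have h1 := (hcm g⁻¹).map (MulAut.conj g).toMonoidHom
      simp only [MulEquiv.toMonoidHom_eq_coe, MonoidHom.coe_coe, MulAut.conj_apply, inv_inv] at h1
      have e1 : g * (g⁻¹ * x * g) * g⁻¹ = x := by group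
      rw [e1] at h1
      exact h1.symm
    have hyx : q ∣ sz (y * x) := by
      by_contra hcon
      have h1 : (sz y).Coprime (sz (y * x)) := by
        rw [hb]
        exact Nat.Coprime.pow_left b ((Nat.Prime.coprime_iff_not_dvd hq.out).mpr hcon)
      exact hxq (key hx hcop.symm hcm2 hb1 h1)
    have hyxQ : IsQ q (y * x) := hy.mul hx hcxy.symm
    obtain ⟨r, a, hr, hra⟩ := hB _ hyxQ
    have hrq : q = r := by
      rw [hra] at hyx
      exact (Nat.prime_dvd_prime_iff_eq hq.out hr).mp (hq.out.dvd_of_dvd_pow hyx)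
    subst hrq
    have h1 := mem_pCore hyxQ hra
    have h2 := mem_pCore hy hb
    have h3 : x = y⁻¹ * (y * x) := by group
    rw [h3]
    exact mul_mem (inv_mem h2) h1
  -- all `q`-elements lie in `O_q(G)`
  have hall : ∀ x : G, IsQ q x → x ∈ pCore q G := by
    intro x hx
    by_cases h1 : q ∣ sz x
    · obtain ⟨r, a, hr, hra⟩ := hB x hx
      have hrq : q = r := by
        rw [hra] at h1
        exact (Nat.prime_dvd_prime_iff_eq hq.out hr).mp (hq.out.dvd_of_dvd_pow h1)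
      subst hrq
      exact mem_pCore hx hra
    · by_cases h2 : sz x = 1
      · exact mem_pCore hx (b := 0) (by rw [h2, pow_zero])
      · exact hX x hx h2 h1
  obtain ⟨Q⟩ : Nonempty (Sylow q G) := inferInstance
  have h1 := sylow_eq_pCore hall Q
  have hQn : (Q : Subgroup G).Normal := by rw [h1]; infer_instance
  have hqi : q.Coprime (Q : Subgroup G).index := (Nat.Prime.coprime_iff_not_dvd hq.out).mpr Q.not_dvd_index
  obtain ⟨H, hH⟩ := Subgroup.exists_right_complement'_of_coprime (N := (Q : Subgroup G)) (by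
    obtain ⟨m, hm⟩ := IsPGroup.iff_card.mp Q.isPGroup'
    rw [hm]
    exact Nat.Coprime.pow_left m hqi)
  have hHc : Nat.card H = (Q : Subgroup G).index := hH.symm.index_eq_card.symm
  have hmemQ : ∀ x : G, IsQ q x → x ∈ (Q : Subgroup G) := fun x hx => by rw [h1]; exact hall x hx
  -- elements of `Q` with class size prime to `q` are central in `Q`
  have hcen : ∀ x : G, ¬ q ∣ sz x → ∀ u ∈ (Q : Subgroup G), Commute u x := by
    intro x hx u hu
    obtain ⟨P, hP⟩ := (H72.ClassSize.not_dvd_index_iff q x).mp hx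
    have h2 : (P : Subgroup G) = Q := by
      rw [h1]; exact sylow_eq_pCore hall P
    rw [h2] at hP
    exact H72.ClassSize.mem_cent_comm (hP hu)
  -- elements of `Q` not central in `Q`
  have hnc : ∀ x ∈ (Q : Subgroup G), (¬ ∀ u ∈ (Q : Subgroup G), Commute u x) → ∃ c, sz x = q ^ c := by
    intro x hx hn
    have h2 : q ∣ sz x := by
      by_contra h3
      exact hn (hcen x h3)
    obtain ⟨r, a, hr, hra⟩ := hB x (isQ_of_mem Q.isPGroup' hx)
    have hrq : q = r := by
      rw [hra] at h2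
      exact (Nat.prime_dvd_prime_iff_eq hq.out hr).mp (hq.out.dvd_of_dvd_pow h2)
    subst hrq
    exact ⟨a, hra⟩
  -- `[Q,H] ≤ Z(Q)`
  let D : Subgroup G :=
    { carrier := {u | u ∈ (Q : Subgroup G) ∧ ∀ k ∈ H, ∀ v ∈ (Q : Subgroup G), Commute v (k * u * k⁻¹ * u⁻¹)}
      one_mem' := ⟨one_mem _, fun k _ v _ => by simp⟩
      mul_mem' := by
        rintro u₁ u₂ ⟨hu₁, h1⟩ ⟨hu₂, h2⟩
        refine ⟨mul_mem hu₁ hu₂, fun k hk v hv => ?_⟩
        have e : k * (u₁ * u₂) * k⁻¹ * (u₁ * u₂)⁻¹ =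
            (k * u₁ * k⁻¹ * u₁⁻¹) * (u₁ * (k * u₂ * k⁻¹ * u₂⁻¹) * u₁⁻¹) := by group
        have e2 : u₁ * (k * u₂ * k⁻¹ * u₂⁻¹) * u₁⁻¹ = k * u₂ * k⁻¹ * u₂⁻¹ := by
          rw [(h2 k hk u₁ hu₁).eq]; group
        rw [e, e2]
        exact Commute.mul_right (h1 k hk v hv) (h2 k hk v hv)
      inv_mem' := by
        rintro u ⟨hu, h1⟩
        refine ⟨inv_mem hu, fun k hk v hv => ?_⟩
        have e : k * u⁻¹ * k⁻¹ * u⁻¹⁻¹ = (u⁻¹ * (k * u * k⁻¹ * u⁻¹) * u)⁻¹ := by group
        have e2 : u⁻¹ * (k * u * k⁻¹ * u⁻¹) * u = k * u * k⁻¹ * u⁻¹ := by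
          have := (h1 k hk u⁻¹ (inv_mem hu)).eq
          rw [this]; group
        rw [e, e2]
        exact (h1 k hk v hv).inv_right }
  have hDmem : ∀ u : G, u ∈ D ↔ u ∈ (Q : Subgroup G) ∧ ∀ k ∈ H, ∀ v ∈ (Q : Subgroup G),
      Commute v (k * u * k⁻¹ * u⁻¹) := fun u => Iff.rfl
  have hDtop : D.subgroupOf (Q : Subgroup G) = ⊤ := by
    apply H72.ClassSize.eq_top_of_forall_conj_mem
    rintro ⟨x, hx⟩
    by_cases hxc : ∀ u ∈ (Q : Subgroup G), Commute u x
    · refine ⟨1, ?_⟩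
      rw [mem_subgroupOf]
      change 1 * x * 1⁻¹ ∈ D
      rw [one_mul, inv_one, mul_one, hDmem]
      refine ⟨hx, fun k hk v hv => ?_⟩
      refine Commute.mul_right ?_ (hxc v hv).inv_right
      have h2 := (hxc (k⁻¹ * v * k) (by simpa using hQn.conj_mem v hv k⁻¹)).map (MulAut.conj k).toMonoidHom
      simp only [MulEquiv.toMonoidHom_eq_coe, MonoidHom.coe_coe, MulAut.conj_apply] at h2
      have e1 : k * (k⁻¹ * v * k) * k⁻¹ = v := by group
      rwa [e1] at h2
    · obtain ⟨c, hc⟩ := hnc x hx hxc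
      obtain ⟨g, hg, hgk⟩ := exists_conj_commute Q.isPGroup' Q.not_dvd_index hHc hc
      refine ⟨⟨g, hg⟩, ?_⟩
      rw [mem_subgroupOf]
      change g * x * g⁻¹ ∈ D
      rw [hDmem]
      refine ⟨hQn.conj_mem x hx g, fun k hk v hv => ?_⟩
      have h2 : k * (g * x * g⁻¹) * k⁻¹ * (g * x * g⁻¹)⁻¹ = 1 := by
        rw [(hgk k hk).eq]; group
      rw [h2]
      exact Commute.one_right v
  rw [subgroupOf_eq_top] at hDtop
  -- a noncentral element centralized by `H`
  have hynp : ¬ ∀ u ∈ (Q : Subgroup G), Commute u y := by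
    intro h2
    have h3 : (Q : Subgroup G) ≤ centralizer ({y} : Set G) := by
      intro u hu
      exact H72.ClassSize.mem_cent_of_comm (h2 u hu).eq
    have h4 : ¬ q ∣ sz y := (H72.ClassSize.not_dvd_index_iff q y).mpr ⟨Q, h3⟩
    apply h4
    rw [hb]
    rcases Nat.eq_zero_or_pos b with h5 | h5
    · rw [h5, pow_zero] at hb; exact absurd hb hb1
    · exact dvd_pow_self q h5.ne'
  obtain ⟨g₀, hg₀, hgk₀⟩ := exists_conj_commute Q.isPGroup' Q.not_dvd_index hHc hb
  set w := g₀ * y * g₀⁻¹ with hw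
  have hwQ : w ∈ (Q : Subgroup G) := hQn.conj_mem y (hmemQ y hy) g₀
  have hwnc : ¬ ∀ u ∈ (Q : Subgroup G), Commute u w := by
    intro h2
    apply hynp
    intro u hu
    have h3 := (h2 (g₀ * u * g₀⁻¹) (hQn.conj_mem u hu g₀)).map (MulAut.conj g₀⁻¹).toMonoidHom
    simp only [MulEquiv.toMonoidHom_eq_coe, MonoidHom.coe_coe, MulAut.conj_apply, inv_inv] at h3
    have e1 : g₀⁻¹ * (g₀ * u * g₀⁻¹) * g₀ = u := by group
    have e2 : g₀⁻¹ * w * g₀ = y := by rw [hw]; group
    rwa [e1, e2] at h3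
  -- central elements of `Q` are centralized by `H`
  have hx₀Q := hmemQ x₀ hx₀
  have hx₀c := hcen x₀ hx₀q
  have hwx : w * x₀ ∈ (Q : Subgroup G) := mul_mem hwQ hx₀Q
  have hwxnc : ¬ ∀ u ∈ (Q : Subgroup G), Commute u (w * x₀) := by
    intro h2
    apply hwnc
    intro u hu
    have h3 : w = (w * x₀) * x₀⁻¹ := by group
    rw [h3]
    exact Commute.mul_right (h2 u hu) (hx₀c u hu).inv_right
  obtain ⟨c, hc⟩ := hnc _ hwx hwxnc
  obtain ⟨g, hg, hgk⟩ := exists_conj_commute Q.isPGroup' Q.not_dvd_index hHc hc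
  have hHx : ∀ k ∈ H, Commute k x₀ := by
    intro k hk
    have h2 := hgk k hk
    have e1 : g * (w * x₀) * g⁻¹ = (g * w * g⁻¹) * x₀ := by
      have := (hx₀c g⁻¹ (inv_mem hg)).eq
      calc g * (w * x₀) * g⁻¹ = g * w * (x₀ * g⁻¹) := by group
        _ = _ := by rw [← this]; group
    rw [e1] at h2
    -- `k` commutes with `g w g⁻¹`
    have h3 : Commute k (g * w * g⁻¹) := by
      have hz := ((hDmem g).mp (hDtop hg)).2 k hk
      set z := k * g * k⁻¹ * g⁻¹ with hzdef
      have hkg : k * g * k⁻¹ = z * g := by rw [hzdef]; group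
      have hkw : k * w * k⁻¹ = w := by rw [(hgk₀ k hk).eq]; group
      have h4 : k * (g * w * g⁻¹) * k⁻¹ = g * w * g⁻¹ := by
        calc k * (g * w * g⁻¹) * k⁻¹ = (k * g * k⁻¹) * (k * w * k⁻¹) * (k * g * k⁻¹)⁻¹ := by group
          _ = (z * g) * w * (z * g)⁻¹ := by rw [hkg, hkw]
          _ = z * (g * w * g⁻¹) * z⁻¹ := by group
          _ = _ := by
            rw [← (hz (g * w * g⁻¹) (mul_mem (mul_mem hg hwQ) (inv_mem hg))).eq]; group
      have h5 : k * (g * w * g⁻¹) = (g * w * g⁻¹) * k := by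
        rw [← mul_inv_eq_iff_eq_mul] ; exact h4
      exact h5
    have h4 : x₀ = (g * w * g⁻¹)⁻¹ * ((g * w * g⁻¹) * x₀) := by group
    rw [h4]
    exact Commute.mul_right h3.inv_right h2
  apply hx₀1
  rw [sz, index_eq_one, eq_top_iff, ← hH.sup_eq_top]
  refine sup_le ?_ ?_
  · intro u hu
    exact H72.ClassSize.mem_cent_of_comm (hx₀c u hu).eq
  · intro k hk
    exact H72.ClassSize.mem_cent_of_comm (hHx k hk).eq

/-- uniqueness of the prime -/
theorem exists_unique_prime {q : ℕ} [hq : Fact q.Prime]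
    (hB : ∀ x : G, IsQ q x → ∃ (r : ℕ) (a : ℕ), r.Prime ∧ sz x = r ^ a) :
    ∃ p : ℕ, p.Prime ∧ ∀ x : G, IsQ q x → ∃ a : ℕ, sz x = p ^ a := by
  by_cases hall : ∀ x : G, IsQ q x → ∃ b, sz x = q ^ b
  · exact ⟨q, hq.out, hall⟩
  push Not at hall
  obtain ⟨x, hx, hxb⟩ := hall
  obtain ⟨r, a, hr, hra⟩ := hB x hx
  have hrq : r ≠ q := by rintro rfl; exact hxb a hra
  have hx1 : sz x ≠ 1 := by
    intro h; exact hxb 0 (by rw [h, pow_zero])
  have ha : a ≠ 0 := by rintro rfl; exact hx1 (by rw [hra, pow_zero])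
  have hxq : ¬ q ∣ sz x := by
    rw [hra]
    intro h
    exact hrq ((Nat.prime_dvd_prime_iff_eq hq.out hr).mp (hq.out.dvd_of_dvd_pow h)).symm
  refine ⟨r, hr, ?_⟩
  intro y hy
  obtain ⟨s, b, hs, hsb⟩ := hB y hy
  by_cases hsr : s = r
  · subst hsr; exact ⟨b, hsb⟩
  by_cases hy1 : sz y = 1
  · exact ⟨0, by rw [hy1, pow_zero]⟩
  exfalso
  by_cases hsq : s = q
  · subst hsq
    exact no_coexist hB hx hx1 hxq hy hsb hy1
  have hyq : ¬ q ∣ sz y := by
    rw [hsb]
    intro h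
    exact hsq ((Nat.prime_dvd_prime_iff_eq hq.out hs).mp (hq.out.dvd_of_dvd_pow h)).symm
  have hcop : (sz x).Coprime (sz y) := by
    rw [hra, hsb]
    exact Nat.Coprime.pow _ _ ((Nat.coprime_primes hr hs).mpr (Ne.symm hsr))
  have hc1 := commute_of hxq hy hcop
  have hc2 := commute_of hyq hx hcop.symm
  have hxy : Commute x y := by simpa using hc1 1
  obtain ⟨t, c, ht, htc⟩ := hB _ (hx.mul hy hxy)
  by_cases htr : t = r
  · -- then coprime to `sz y`
    subst htr
    have h1 : (sz y).Coprime (sz (y * x)) := by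
      rw [← hxy.eq, htc, hsb]
      exact Nat.Coprime.pow _ _ ((Nat.coprime_primes hs ht).mpr hsr)
    exact hxq (key hx hcop.symm hc2 hy1 h1)
  · have h1 : (sz x).Coprime (sz (x * y)) := by
      rw [htc, hra]
      exact Nat.Coprime.pow _ _ ((Nat.coprime_primes hr ht).mpr (Ne.symm htr))
    exact hyq (key hy hcop hc1 hx1 h1)

end H71.Baer2
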