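import Mathlib
import Cfsg.Agent.Lib.H71.Baer2
import Cfsg.Agent.Lib.H70.Kazarin

/-!
Groups in which every `q`-element has a conjugacy class of `p`-power size, `p ≠ q` (Baer).
-/

set_option autoImplicit false
open Subgroup Cfsg

namespace H71.Baer3

open H71.Baer1 H71.Baer2

universe u
variable {G : Type u} [Group G] [Finite G]

theorem mem_of_not_dvd {q : ℕ} [hq : Fact q.Prime] {x : G} (hx : IsQ q x) {F N : Subgroup G} [hN : N.Normal]
    (hxF : x ∈ F) (h : ¬ q ∣ N.relIndex F) : x ∈ N := by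
  have h1 : (⟨x, hxF⟩ : F) ^ (N.subgroupOf F).index ∈ N.subgroupOf F := Subgroup.pow_index_mem _ _
  have h2 : x ^ (N.relIndex F) ∈ N := h1
  obtain ⟨k, hk⟩ := isQ_iff_pow.mp hx
  have hcop : (q ^ k).Coprime (N.relIndex F) :=
    Nat.Coprime.pow_left k ((Nat.Prime.coprime_iff_not_dvd hq.out).mpr h)
  obtain ⟨u, v, huv⟩ : ∃ u v : ℤ, (q ^ k : ℕ) * u + (N.relIndex F : ℤ) * v = 1 := by
    have := Nat.gcd_eq_gcd_ab (q ^ k) (N.relIndex F)
    rw [hcop] at this
    exact ⟨_, _, by exact_mod_cast this.symm⟩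
  have e : x = (x ^ (q ^ k)) ^ u * (x ^ (N.relIndex F)) ^ v := by
    rw [← zpow_natCast, ← zpow_natCast, ← zpow_mul, ← zpow_mul, ← zpow_add, huv, zpow_one]
  rw [e, hk, one_zpow, one_mul]
  exact zpow_mem h2 v

theorem image_mem {p q : ℕ} [hp : Fact p.Prime] [hq : Fact q.Prime] (hpq : p ≠ q) {x : G} (hx : IsQ q x) {a : ℕ}
    (ha : sz x = p ^ a) :
    QuotientGroup.mk' (pCore p G) x ∈ pCore q (G ⧸ pCore p G) ∧
      ∀ y ∈ pCore q (G ⧸ pCore p G), Commute y (QuotientGroup.mk' (pCore p G) x) := by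
  set N := pCore p G with hN
  set π := QuotientGroup.mk' N with hπ
  set X := π x with hX
  obtain ⟨a', _, ha'⟩ : ∃ a' ≤ a, (centralizer ({X} : Set (G ⧸ N))).index = p ^ a' := by
    apply (Nat.dvd_prime_pow hp.out).mp
    rw [← ha]
    exact H70.ClassSize.index_centralizer_map_dvd π (QuotientGroup.mk'_surjective N) x
  have hcen : ∀ r : ℕ, r.Prime → r ≠ p → pCore r (G ⧸ N) ≤ centralizer ({X} : Set (G ⧸ N)) := by
    intro r hr hrp
    have := Fact.mk hr
    rw [← relIndex_eq_one]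
    obtain ⟨n, hn⟩ := IsPGroup.iff_card.mp (H1.Cores.isPGroup_pCore (G := G ⧸ N) r)
    have h1 := H70.ClassSize.relIndex_normal_dvd (centralizer ({X} : Set (G ⧸ N))) (pCore r (G ⧸ N))
    rw [ha'] at h1
    have h2 : (centralizer ({X} : Set (G ⧸ N))).relIndex (pCore r (G ⧸ N)) ∣ Nat.card (pCore r (G ⧸ N)) :=
      Subgroup.relIndex_dvd_card _ _
    rw [hn] at h2
    exact Nat.eq_one_of_dvd_coprimes
      (Nat.Coprime.pow _ _ ((Nat.coprime_primes hp.out hr).mpr (Ne.symm hrp))) h1 h2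
  have hF : fittingSubgroup (G ⧸ N) ≤ centralizer ({X} : Set (G ⧸ N)) := by
    rw [H1.Cores.fittingSubgroup_eq_iSup_pCore]
    refine iSup_le fun r => ?_
    by_cases hr : (r : ℕ) = p
    · rw [hr, H1.Cores.pCore_quotient_pCore]
      exact bot_le
    · exact hcen r r.2 hr
  have hXs : X ∈ H70.SolvRad.srad (G ⧸ N) := H70.Kazarin.mem_srad _ (G ⧸ N) rfl X p a' hp.out ha'
  set S := H70.SolvRad.srad (G ⧸ N) with hS
  have hSs : Group.IsSolvable S := H70.SolvRad.isSolvable_srad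
  have hXF : X ∈ fittingSubgroup (G ⧸ N) := by
    have h1 : (⟨X, hXs⟩ : S) ∈ centralizer (fittingSubgroup S : Set S) := by
      rw [mem_centralizer_iff]
      intro y hy
      apply Subtype.ext
      have h2 : (y : G ⧸ N) ∈ (fittingSubgroup S).map S.subtype := ⟨y, hy, rfl⟩
      rw [H1.Cores.map_subtype_fittingSubgroup] at h2
      exact H72.ClassSize.mem_cent_comm (hF h2.2)
    have h3 := H1.Solv.centralizer_fitting_le hSs h1
    have h4 : X ∈ (fittingSubgroup S).map S.subtype := ⟨_, h3, rfl⟩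
    rw [H1.Cores.map_subtype_fittingSubgroup] at h4
    exact h4.2
  have hXQ : IsQ q X := by
    rw [isQ_iff_pow] at hx ⊢
    obtain ⟨k, hk⟩ := hx
    exact ⟨k, by rw [hX, ← map_pow, hk, map_one]⟩
  refine ⟨mem_of_not_dvd hXQ hXF (H1.Cores.not_dvd_relIndex_pCore_fittingSubgroup q), ?_⟩
  intro y hy
  exact H72.ClassSize.mem_cent_comm (hcen q hq.out (Ne.symm hpq) hy)

theorem isQ_mem {q : ℕ} [hq : Fact q.Prime] {Q : Sylow q G} {x : G} (hx : x ∈ (Q : Subgroup G)) : IsQ q x :=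
  isQ_of_mem Q.isPGroup' hx

variable {p q : ℕ} [hp : Fact p.Prime] [hq : Fact q.Prime] (hpq : p ≠ q)
    (hall : ∀ x : G, IsQ q x → ∃ a, sz x = p ^ a) (Q : Sylow q G)
include hpq hall

theorem sup_eq : pCore p G ⊔ (Q : Subgroup G) = (pCore q (G ⧸ pCore p G)).comap (QuotientGroup.mk' (pCore p G)) := by
  apply le_antisymm
  · refine sup_le ?_ ?_
    · intro x hx
      rw [mem_comap, QuotientGroup.mk'_apply, (QuotientGroup.eq_one_iff x).mpr hx]
      exact one_mem _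
    · intro x hx
      obtain ⟨a, ha⟩ := hall x (isQ_mem hx)
      exact (image_mem hpq (isQ_mem hx) ha).1
  · have h1 := H1.Cores.pCore_le_sylow (Q.mapSurjective (QuotientGroup.mk'_surjective (pCore p G)))
    rw [Sylow.coe_mapSurjective] at h1
    refine (comap_mono h1).trans ?_
    rw [comap_map_eq, QuotientGroup.ker_mk', sup_comm]

theorem sup_normal : (pCore p G ⊔ (Q : Subgroup G)).Normal := by
  rw [sup_eq hpq hall Q]
  infer_instance

theorem comm_Q : IsMulCommutative (Q : Subgroup G) := by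
  rw [isMulCommutative_iff]
  rintro ⟨x, hx⟩ ⟨y, hy⟩
  apply Subtype.ext
  change x * y = y * x
  obtain ⟨a, ha⟩ := hall x (isQ_mem hx)
  obtain ⟨b, hb⟩ := hall y (isQ_mem hy)
  have h1 := (image_mem hpq (isQ_mem hx) ha).2 _ (image_mem hpq (isQ_mem hy) hb).1
  have h2 : x * y * (y * x)⁻¹ ∈ pCore p G := by
    rw [← QuotientGroup.eq_one_iff]
    change QuotientGroup.mk' (pCore p G) _ = 1
    rw [map_mul, map_inv, map_mul, map_mul, h1.eq, mul_inv_cancel]
  have h2' : x * y * (y * x)⁻¹ ∈ (Q : Subgroup G) :=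
    (Q : Subgroup G).mul_mem ((Q : Subgroup G).mul_mem hx hy) ((Q : Subgroup G).inv_mem ((Q : Subgroup G).mul_mem hy hx))
  have h3 : x * y * (y * x)⁻¹ ∈ pCore p G ⊓ (Q : Subgroup G) := mem_inf.mpr ⟨h2, h2'⟩
  have h4 : pCore p G ⊓ (Q : Subgroup G) = ⊥ := by
    apply H1.Cores.disjoint_of_isPGroup (H1.Cores.isPGroup_pCore p)
    obtain ⟨n, hn⟩ := IsPGroup.iff_card.mp Q.isPGroup'
    rw [hn]
    exact Nat.Coprime.pow_left n ((Nat.coprime_primes hq.out hp.out).mpr (Ne.symm hpq))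
  rw [h4, mem_bot] at h3
  rwa [mul_inv_eq_one] at h3

theorem sup_normal' : (pPrimeCore q G ⊔ (Q : Subgroup G)).Normal := by
  have h1 := sup_normal hpq hall Q
  have h2 : pCore p G ≤ pPrimeCore q G := by
    apply H1.Cores.le_pPrimeCore inferInstance
    obtain ⟨n, hn⟩ := IsPGroup.iff_card.mp (H1.Cores.isPGroup_pCore (G := G) p)
    rw [hn]
    exact Nat.Coprime.pow_left n ((Nat.coprime_primes hp.out hq.out).mpr hpq)
  have h3 : pPrimeCore q G ⊔ (Q : Subgroup G) = pPrimeCore q G ⊔ (pCore p G ⊔ (Q : Subgroup G)) := by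
    rw [← sup_assoc, sup_eq_left.mpr h2]
  rw [h3]
  infer_instance

omit hpq hall hp in
theorem exists_series (h : (pPrimeCore q G ⊔ (Q : Subgroup G)).Normal) :
    ∃ K L : Subgroup G, K.Normal ∧ L.Normal ∧ K ≤ L ∧ (Nat.card K).Coprime q ∧ (∃ m : ℕ, K.relIndex L = q ^ m) ∧
      L.index.Coprime q := by
  refine ⟨pPrimeCore q G, pPrimeCore q G ⊔ (Q : Subgroup G), inferInstance, h, le_sup_left,
    H1.Cores.coprime_card_pPrimeCore q, ?_, ?_⟩
  · rw [relIndex_sup_left]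
    obtain ⟨n, hn⟩ := IsPGroup.iff_card.mp Q.isPGroup'
    have h1 : (pPrimeCore q G).relIndex (Q : Subgroup G) ∣ q ^ n := by
      rw [← hn]; exact Subgroup.relIndex_dvd_card _ _
    obtain ⟨m, _, hm⟩ := (Nat.dvd_prime_pow hq.out).mp h1
    exact ⟨m, hm⟩
  · have h1 : (pPrimeCore q G ⊔ (Q : Subgroup G)).index ∣ (Q : Subgroup G).index :=
      index_dvd_of_le le_sup_right
    exact Nat.Coprime.coprime_dvd_left h1
      ((Nat.Prime.coprime_iff_not_dvd hq.out).mpr Q.not_dvd_index).symm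

end H71.Baer3
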