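import Mathlib
import Cfsg.Agent.Lib.H71.Baer3
import Cfsg.Agent.Lib.H71.Baer10

/-!
A group with a normal abelian self-centralizing Sylow `q`-subgroup all of whose elements have class sizes powers
of `p ≠ q` is solvable (given the odd order theorem).
-/

set_option autoImplicit false
open Subgroup Cfsg

namespace H71.Baer11

open H71.Baer1

universe u

theorem even_class {Γ : Type u} [Group Γ] [Finite Γ] {w t : Γ} (hw : t * w * t⁻¹ = w⁻¹) (hw1 : w * w ≠ 1) :
    2 ∣ sz w := by
  classical
  have : Fact (Nat.Prime 2) := ⟨Nat.prime_two⟩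
  let S := {z : Γ // ∃ k : Γ, k * w * k⁻¹ = z}
  have : Fintype S := Fintype.ofFinite S
  let f : Function.End S := fun z => ⟨z.1⁻¹, by
    obtain ⟨k, hk⟩ := z.2
    refine ⟨k * t, ?_⟩
    rw [← hk, mul_inv_rev]
    calc k * t * w * (t⁻¹ * k⁻¹) = k * (t * w * t⁻¹) * k⁻¹ := by group
      _ = _ := by rw [hw]; group⟩
  have hf2 : f ^ 2 ^ 1 = 1 := by
    funext z
    apply Subtype.ext
    rw [pow_one, pow_two]
    exact inv_inv z.1
  have hcard := Equiv.Perm.card_fixedPoints_modEq hf2
  have h0 : Fintype.card f.fixedPoints = 0 := by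
    rw [Fintype.card_eq_zero_iff]
    constructor
    rintro ⟨⟨z, k, hk⟩, hz⟩
    have h1 : z⁻¹ = z := congrArg Subtype.val hz
    apply hw1
    have h2 : z * z = 1 := by
      nth_rewrite 1 [← h1]
      exact inv_mul_cancel z
    rw [← hk] at h2
    have h3 : w * w = k⁻¹ * ((k * w * k⁻¹) * (k * w * k⁻¹)) * k := by group
    rw [h3, h2]; group
  rw [h0] at hcard
  rw [sz, H72.ClassSize.index_eq_card_conj, Nat.card_eq_fintype_card]
  exact (Nat.modEq_zero_iff_dvd).mp hcard

open scoped IsMulCommutative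

/-- conjugation action -/
@[reducible] def cact {Γ : Type u} [Group Γ] (N : Subgroup Γ) [hN : N.Normal] [IsMulCommutative N] (H : Subgroup Γ) :
    DistribMulAction H (Additive N) where
  smul h v := Additive.ofMul ⟨h * (v.toMul : N) * (h : Γ)⁻¹, hN.conj_mem _ v.toMul.2 h⟩
  one_smul v := by
    apply Additive.toMul.injective
    apply Subtype.ext
    change (1 : Γ) * (v.toMul : N) * (1 : Γ)⁻¹ = _
    simp
  mul_smul a b v := by
    apply Additive.toMul.injective
    apply Subtype.ext
    change ((a : Γ) * b) * (v.toMul : N) * ((a : Γ) * b)⁻¹ = a * (b * (v.toMul : N) * (b : Γ)⁻¹) * (a : Γ)⁻¹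
    group
  smul_zero a := by
    apply Additive.toMul.injective
    apply Subtype.ext
    change (a : Γ) * ((1 : N) : Γ) * (a : Γ)⁻¹ = 1
    simp
  smul_add a v v' := by
    apply Additive.toMul.injective
    apply Subtype.ext
    change (a : Γ) * (((v.toMul : N) : Γ) * ((v'.toMul : N) : Γ)) * (a : Γ)⁻¹ =
      (a * (v.toMul : N) * (a : Γ)⁻¹) * (a * (v'.toMul : N) * (a : Γ)⁻¹)
    group

theorem isSolvable_of (hFT : ∀ {H : Type u} [Group H] [Finite H], Odd (Nat.card H) → Group.IsSolvable H)
    {Γ : Type u} [Group Γ] [Finite Γ] {p q : ℕ} [hp : Fact p.Prime] [hq : Fact q.Prime] (hpq : p ≠ q)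
    (N : Subgroup Γ) [hN : N.Normal] (hNq : IsPGroup q N) (hNi : ¬ q ∣ N.index) (hNc : IsMulCommutative N)
    (hcent : centralizer (N : Set Γ) ≤ N) (hsz : ∀ x ∈ N, ∃ a, sz x = p ^ a) : Group.IsSolvable Γ := by
  obtain ⟨m, hm⟩ := IsPGroup.iff_card.mp hNq
  have hqi : q.Coprime N.index := (Nat.Prime.coprime_iff_not_dvd hq.out).mpr hNi
  obtain ⟨H, hH⟩ := Subgroup.exists_right_complement'_of_coprime (N := N) (by
    rw [hm]; exact Nat.Coprime.pow_left m hqi)
  have hHc : Nat.card H = N.index := hH.symm.index_eq_card.symm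
  have hHq : (Nat.card H).Coprime q := by rw [hHc]; exact hqi.symm
  have hHi : H.index = q ^ m := by rw [hH.index_eq_card, hm]
  let _ := cact N H
  have hsm : ∀ (h : H) (v : N), h • (Additive.ofMul v) = Additive.ofMul v ↔ (h : Γ) * v * (h : Γ)⁻¹ = v := by
    intro h v
    constructor
    · intro e
      exact congrArg (fun x : Additive N => ((x.toMul : N) : Γ)) e
    · intro e
      apply Additive.toMul.injective
      exact Subtype.ext e
  have hfaith : ∀ h : H, (∀ v : Additive N, h • v = v) → h = 1 := by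
    intro h hh
    have h1 : (h : Γ) ∈ centralizer (N : Set Γ) := by
      rw [mem_centralizer_iff]
      intro v hv
      have h2 := (hsm h ⟨v, hv⟩).mp (hh _)
      rw [mul_inv_eq_iff_eq_mul] at h2
      exact h2.symm
    have h2 : (h : Γ) ∈ N ⊓ H := ⟨hcent h1, h.2⟩
    rw [hH.disjoint.eq_bot, mem_bot] at h2
    exact Subtype.ext h2
  have horb : ∀ v : Additive N, ∃ a : ℕ, (MulAction.stabilizer H v).index = p ^ a := by
    intro v
    obtain ⟨a, ha⟩ := hsz (v.toMul : N) v.toMul.2
    refine ⟨a, ?_⟩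
    have h1 : MulAction.stabilizer H v = (centralizer ({((v.toMul : N) : Γ)} : Set Γ)).subgroupOf H := by
      ext h
      rw [MulAction.mem_stabilizer_iff, mem_subgroupOf, H72.ClassSize.mem_cent_iff]
      exact hsm h v.toMul
    have h2 : (centralizer ({((v.toMul : N) : Γ)} : Set Γ)).index.Coprime H.index := by
      rw [show (centralizer ({((v.toMul : N) : Γ)} : Set Γ)).index = p ^ a from ha, hHi]
      exact Nat.Coprime.pow _ _ ((Nat.coprime_primes hp.out hq.out).mpr hpq)
    rw [h1]
    exact (H72.CoprimeIndex.relIndex_eq_of_coprime _ _ h2).trans ha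
  have hHs : Group.IsSolvable H := by
    by_cases hp2 : p = 2
    · subst hp2
      refine H71.Baer10.isSolvable q (Ne.symm hpq) (Additive N) ⟨m, ?_⟩ _ H rfl hHq horb hfaith
      rw [← hm]
      exact Nat.card_congr Additive.toMul
    · apply hFT
      rw [← Nat.not_even_iff_odd, even_iff_two_dvd]
      intro h2
      have : Fact (Nat.Prime 2) := ⟨Nat.prime_two⟩
      obtain ⟨t, ht⟩ := exists_prime_orderOf_dvd_card' 2 h2
      have hq2 : q ≠ 2 := by
        rintro rfl
        have := Nat.Coprime.eq_one_of_dvd hHq.symm h2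
        omega
      have htt : (t : Γ) * t = 1 := by
        have h3 := pow_orderOf_eq_one t
        rw [ht, pow_two] at h3
        exact congrArg Subtype.val h3
      have ht1 : t ≠ 1 := by
        rintro rfl
        rw [orderOf_one] at ht
        omega
      obtain ⟨v, hv⟩ : ∃ v : Additive N, t • v ≠ v := by
        by_contra hcon
        push Not at hcon
        exact ht1 (hfaith t hcon)
      have hv' : (t : Γ) * (v.toMul : N) * (t : Γ)⁻¹ ≠ (v.toMul : N) := fun e => hv ((hsm t v.toMul).mpr e)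
      set y : Γ := ((v.toMul : N) : Γ) with hy
      have hyN : y ∈ N := v.toMul.2
      set w : Γ := (t * y * (t : Γ)⁻¹) * y⁻¹ with hw
      have hty : (t : Γ) * y * (t : Γ)⁻¹ ∈ N := hN.conj_mem y hyN t
      have hwN : w ∈ N := mul_mem hty (inv_mem hyN)
      have htinv : (t : Γ)⁻¹ = t := inv_eq_of_mul_eq_one_right htt
      have hwt : (t : Γ) * w * (t : Γ)⁻¹ = w⁻¹ := by
        calc (t : Γ) * w * (t : Γ)⁻¹ = ((t : Γ) * t) * y * (t : Γ)⁻¹ * y⁻¹ * (t : Γ)⁻¹ := by
              rw [hw]; group
          _ = y * t * y⁻¹ * (t : Γ)⁻¹ := by rw [htt, one_mul, htinv]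
          _ = w⁻¹ := by rw [hw]; group
      have hw1 : w * w ≠ 1 := by
        intro h3
        have h4 : orderOf w ∣ 2 := orderOf_dvd_of_pow_eq_one (by rw [pow_two, h3])
        have h5 : orderOf w ∣ q ^ m := by
          rw [← hm, ← Subgroup.orderOf_mk w hwN]
          exact orderOf_dvd_natCard _
        have h6 : (2 : ℕ).Coprime (q ^ m) :=
          Nat.Coprime.pow_right m ((Nat.coprime_primes Nat.prime_two hq.out).mpr (Ne.symm hq2))
        have h7 := Nat.eq_one_of_dvd_coprimes h6 h4 h5
        rw [orderOf_eq_one_iff, hw, mul_inv_eq_one] at h7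
        exact hv' h7
      have h8 := even_class hwt hw1
      obtain ⟨a, ha⟩ := hsz w hwN
      rw [ha] at h8
      exact hp2 ((Nat.prime_dvd_prime_iff_eq Nat.prime_two hp.out).mp (Nat.prime_two.dvd_of_dvd_pow h8)).symm
  have hNs : Group.IsSolvable N := by
    have := hNq.isNilpotent
    infer_instance
  refine (Group.isSolvable_iff_subgroup_quotient N).mpr ⟨hNs, ?_⟩
  refine Group.isSolvable_of_surjective (f := (QuotientGroup.mk' N).comp H.subtype) ?_
  intro x
  obtain ⟨g, rfl⟩ := QuotientGroup.mk'_surjective N x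
  have h1 : g ∈ H ⊔ N := by rw [sup_comm, hH.sup_eq_top]; trivial
  obtain ⟨h, hh, n, hn, rfl⟩ := Subgroup.mem_sup_of_normal_right.mp h1
  refine ⟨⟨h, hh⟩, ?_⟩
  change QuotientGroup.mk' N h = QuotientGroup.mk' N (h * n)
  rw [map_mul]
  have : QuotientGroup.mk' N n = 1 := (QuotientGroup.eq_one_iff n).mpr hn
  rw [this, mul_one]

end H71.Baer11
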