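import Mathlib
import Cfsg.Agent.Lib.H1.Coprime2
import Cfsg.Agent.Lib.H3.CardSup
import Cfsg.Agent.Lib.H27.Fact

set_option autoImplicit false
open Cfsg

/-! An inequality for fixed points of a `p`-group acting on a `p'`-group (in-group form):
`∏_{x ∈ P} |C_V(x)|^p ≤ |V|^{|P|} |C_V(P)|^{(p-1)|P|}`. -/

namespace H71.CopIneq

open Subgroup H1.Coprime H1.Coprime2
open scoped Pointwise

variable {X : Type*} [Group X] [Finite X]

theorem isSolvable_of_pGroup {p : ℕ} [Fact p.Prime] {A : Subgroup X} (hA : IsPGroup p A) : Group.IsSolvable A := by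
  haveI : Group.IsNilpotent A := hA.isNilpotent
  infer_instance

theorem coprime_of_pGroup {p : ℕ} [Fact p.Prime] {A K : Subgroup X} (hA : IsPGroup p A)
    (hK : (Nat.card K).Coprime p) : (Nat.card A).Coprime (Nat.card K) := by
  obtain ⟨n, hn⟩ := IsPGroup.iff_card.1 hA
  rw [hn]
  exact (hK.pow_right n).symm

/-- fixed points in a section centralized by `B` -/
theorem card_fix_of_trivial (B K N : Subgroup X) (hBK : B ≤ normalizer (K : Set X))
    (hcop : (Nat.card B).Coprime (Nat.card K)) (hsolv : Group.IsSolvable B)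
    (hNK : N ≤ K) (hKN : K ≤ normalizer (N : Set X)) (hBN : B ≤ normalizer (N : Set X))
    (h : ∀ b ∈ B, ∀ k ∈ K, b * k * b⁻¹ * k⁻¹ ∈ N) :
    Nat.card (K ⊓ centralizer (B : Set X) : Subgroup X) * Nat.card N =
      Nat.card K * Nat.card (N ⊓ centralizer (B : Set X) : Subgroup X) := by
  have h1 : (K ⊓ centralizer (B : Set X)) ⊔ N = K := by
    apply le_antisymm (sup_le inf_le_left hNK)
    intro k hk
    obtain ⟨c, hc, hcN⟩ := exists_fixed_of_coset_fixed B K hBK hcop (Or.inl hsolv) N hNK hKN hBN k hk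
      (fun a ha => h a ha k hk)
    have : k = c * (k⁻¹ * c)⁻¹ := by group
    rw [this]
    exact Subgroup.mul_mem _ (Subgroup.mem_sup_left hc) (Subgroup.mem_sup_right (N.inv_mem hcN))
  have h2 := H3.CardSup.card_sup_mul_card_inf (K ⊓ centralizer (B : Set X)) N (inf_le_left.trans hKN)
  rw [h1] at h2
  have h3 : (K ⊓ centralizer (B : Set X)) ⊓ N = N ⊓ centralizer (B : Set X) := by
    ext y
    simp only [Subgroup.mem_inf]
    constructor
    · rintro ⟨⟨-, h1⟩, h2⟩; exact ⟨h2, h1⟩
    · rintro ⟨h1, h2⟩; exact ⟨⟨hNK h1, h2⟩, h1⟩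
  rw [h3] at h2
  exact h2.symm

theorem centralizer_zpowers_eq (a : X) : centralizer (Subgroup.zpowers a : Set X) = centralizer {a} := by
  rw [Subgroup.zpowers_eq_closure, Subgroup.centralizer_closure]

/-- the case of a `q`-group -/
theorem key_q (p q : ℕ) [hp : Fact p.Prime] [hq : Fact q.Prime] (x z : X) (hA : IsPGroup p (closure {x, z}))
    (n : ℕ) : ∀ K : Subgroup X, Nat.card K = n → IsPGroup q K → (Nat.card K).Coprime p →
      closure {x, z} ≤ normalizer (K : Set X) →
      (∀ k ∈ K, x * z * k * (x * z)⁻¹ = z * x * k * (z * x)⁻¹) →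
      (∀ k ∈ K, z ^ p * k * (z ^ p)⁻¹ = k) →
      (∏ i ∈ Finset.range p, Nat.card (K ⊓ centralizer {x * z ^ i} : Subgroup X)) *
          Nat.card (K ⊓ centralizer {z} : Subgroup X) ≤
        Nat.card K * Nat.card (K ⊓ centralizer (closure {x, z} : Set X) : Subgroup X) ^ p := by
  induction n using Nat.strong_induction_on with
  | _ n ih =>
  intro K hKn hKq hKp hAK hxz hzp
  set A := closure {x, z} with hAdef
  have hxA : x ∈ A := Subgroup.subset_closure (by simp)
  have hzA : z ∈ A := Subgroup.subset_closure (by simp)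
  by_cases hKbot : K = ⊥
  · rw [hKbot]
    simp
  -- a maximal invariant subgroup
  have hlt := commutator_lt_of_isPGroup hKq hKq Subgroup.le_normalizer hKbot
  obtain ⟨N, ⟨hKKN, hNlt, hAN⟩, hmax⟩ := (Set.toFinite {N : Subgroup X | ⁅K, K⁆ ≤ N ∧ N < K ∧
    A ≤ normalizer (N : Set X)}).exists_maximal ⟨⁅K, K⁆, le_rfl, hlt, le_normalizer_commutator hAK hAK⟩
  have hKN : K ≤ normalizer (N : Set X) := by
    apply le_normalizer_of_conj_mem
    intro k hk m hm
    have h1 : k * m * k⁻¹ = (k * m * k⁻¹ * m⁻¹) * m := by group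
    rw [h1]
    refine N.mul_mem (hKKN ?_) hm
    exact Subgroup.commutator_mem_commutator hk (hNlt.le hm)
  have hirr : ∀ L : Subgroup X, N ≤ L → L ≤ K → A ≤ normalizer (L : Set X) → L = N ∨ L = K := by
    intro L hNL hLK hAL
    by_cases hLe : L = K
    · exact Or.inr hLe
    · left
      exact le_antisymm (hmax ⟨hKKN.trans hNL, lt_of_le_of_ne hLK hLe, hAL⟩ hNL) hNL
  have hIH := ih (Nat.card N) (by
      rw [← hKn]
      exact lt_of_not_ge (fun h => hNlt.ne (Subgroup.eq_of_le_of_card_ge hNlt.le h))) N rfl (hKq.to_le hNlt.le)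
    (Nat.Coprime.coprime_dvd_left (Subgroup.card_dvd_of_le hNlt.le) hKp) hAN
    (fun k hk => hxz k (hNlt.le hk)) (fun k hk => hzp k (hNlt.le hk))
  -- elements acting trivially on `K / N`
  let D : Subgroup X :=
    { carrier := {a | a ∈ A ∧ ∀ k ∈ K, a * k * a⁻¹ * k⁻¹ ∈ N}
      one_mem' := ⟨A.one_mem, fun k _ => by simp [N.one_mem]⟩
      mul_mem' := by
        rintro a b ⟨ha, ha'⟩ ⟨hb, hb'⟩
        refine ⟨A.mul_mem ha hb, fun k hk => ?_⟩
        have e : a * b * k * (a * b)⁻¹ * k⁻¹ = (a * (b * k * b⁻¹ * k⁻¹) * a⁻¹) * (a * k * a⁻¹ * k⁻¹) := by group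
        rw [e]
        exact N.mul_mem (conj_mem_of_le_normalizer hAN ha (hb' k hk)) (ha' k hk)
      inv_mem' := by
        rintro a ⟨ha, ha'⟩
        refine ⟨A.inv_mem ha, fun k hk => ?_⟩
        have e : a⁻¹ * k * a⁻¹⁻¹ * k⁻¹ = a⁻¹ * (a * k * a⁻¹ * k⁻¹)⁻¹ * a := by group
        rw [e]
        exact conj_mem_of_le_normalizer' hAN ha (N.inv_mem (ha' k hk)) }
  have hD : ∀ a, a ∈ D ↔ a ∈ A ∧ ∀ k ∈ K, a * k * a⁻¹ * k⁻¹ ∈ N := fun a => Iff.rfl
  -- fixed points of elements
  have hin : ∀ a ∈ D, Nat.card (K ⊓ centralizer {a} : Subgroup X) * Nat.card N =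
      Nat.card K * Nat.card (N ⊓ centralizer {a} : Subgroup X) := by
    intro a ha
    have haA : Subgroup.zpowers a ≤ A := by rw [Subgroup.zpowers_le]; exact ((hD a).1 ha).1
    have h1 := card_fix_of_trivial (Subgroup.zpowers a) K N (haA.trans hAK)
      (coprime_of_pGroup (hA.to_le haA) hKp) (isSolvable_of_pGroup (hA.to_le haA)) hNlt.le hKN (haA.trans hAN)
      (fun b hb k hk => ((hD b).1 ((Subgroup.zpowers_le.2 ha) hb)).2 k hk)
    rwa [centralizer_zpowers_eq] at h1
  have hout : ∀ a ∈ A, (∀ k ∈ K, x * a * k * (x * a)⁻¹ = a * x * k * (a * x)⁻¹) →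
      (∀ k ∈ K, z * a * k * (z * a)⁻¹ = a * z * k * (a * z)⁻¹) → a ∉ D →
      (K ⊓ centralizer {a} : Subgroup X) = (N ⊓ centralizer {a} : Subgroup X) := by
    intro a ha hxa hza haD
    have hgen : ∀ y ∈ A, (∀ k ∈ K, y * a * k * (y * a)⁻¹ = a * y * k * (a * y)⁻¹) →
        y ∈ normalizer ((K ⊓ centralizer {a} : Subgroup X) : Set X) := by
      intro y hy hya
      apply Subgroup.mem_normalizer_fintype
      rintro k ⟨hk, hka⟩
      refine ⟨conj_mem_of_le_normalizer hAK hy hk, ?_⟩
      have hka' : k * a = a * k := Subgroup.mem_centralizer_singleton_iff.1 hka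
      change y * k * y⁻¹ ∈ centralizer {a}
      rw [Subgroup.mem_centralizer_singleton_iff]
      have h1 := hya k hk
      have h2 : y * a * k * (y * a)⁻¹ = y * k * y⁻¹ := by
        have : y * a * k * (y * a)⁻¹ = y * (a * k) * a⁻¹ * y⁻¹ := by group
        rw [this, ← hka']; group
      rw [h2] at h1
      calc y * k * y⁻¹ * a = (a * y * k * (a * y)⁻¹) * a := by rw [← h1]
        _ = a * (y * k * y⁻¹) := by group
    have hAn : A ≤ normalizer ((K ⊓ centralizer {a} : Subgroup X) : Set X) := by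
      rw [hAdef, Subgroup.closure_le]
      rintro y (rfl | rfl)
      · exact hgen _ hxA hxa
      · exact hgen _ hzA hza
    have hAL : A ≤ normalizer (((K ⊓ centralizer {a}) ⊔ N : Subgroup X) : Set X) := le_normalizer_sup hAn hAN
    rcases hirr _ le_sup_right (sup_le inf_le_left hNlt.le) hAL with h | h
    · apply le_antisymm
      · refine le_inf ?_ inf_le_right
        exact le_sup_left.trans h.le
      · exact inf_le_inf_right _ hNlt.le
    · exfalso
      apply haD
      rw [hD]
      refine ⟨ha, fun k hk => ?_⟩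
      rw [← h] at hk
      have h1 : ((((K ⊓ centralizer {a}) ⊔ N : Subgroup X)) : Set X) = ((K ⊓ centralizer {a} : Subgroup X) : Set X) * (N : Set X) :=
        Subgroup.coe_mul_of_left_le_normalizer_right (K ⊓ centralizer {a}) N (inf_le_left.trans hKN)
      have h2 : k ∈ ((((K ⊓ centralizer {a}) ⊔ N : Subgroup X)) : Set X) := hk
      rw [h1] at h2
      obtain ⟨c, hc, m, hm, rfl⟩ := Set.mem_mul.1 h2
      have hca : c * a = a * c := Subgroup.mem_centralizer_singleton_iff.1 hc.2
      have e : a * (c * m) * a⁻¹ * (c * m)⁻¹ = c * ((a * m * a⁻¹) * m⁻¹) * c⁻¹ := by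
        calc a * (c * m) * a⁻¹ * (c * m)⁻¹ = (a * c) * m * a⁻¹ * m⁻¹ * c⁻¹ := by group
          _ = (c * a) * m * a⁻¹ * m⁻¹ * c⁻¹ := by rw [hca]
          _ = _ := by group
      rw [e]
      exact conj_mem_of_le_normalizer hKN hc.1 (N.mul_mem (conj_mem_of_le_normalizer hAN ha hm) (N.inv_mem hm))
  -- commutation relations on `K`
  have hconjK : ∀ a ∈ A, ∀ k ∈ K, a * k * a⁻¹ ∈ K := fun a ha k hk => conj_mem_of_le_normalizer hAK ha hk
  have hxzi : ∀ i : ℕ, ∀ k ∈ K, x * z ^ i * k * (x * z ^ i)⁻¹ = z ^ i * x * k * (z ^ i * x)⁻¹ := by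
    intro i
    induction i with
    | zero => intro k _; simp
    | succ i ihi =>
      intro k hk
      have h1 := ihi (z * k * z⁻¹) (hconjK z hzA k hk)
      have h2 := hxz k hk
      calc x * z ^ (i + 1) * k * (x * z ^ (i + 1))⁻¹ = x * z ^ i * (z * k * z⁻¹) * (x * z ^ i)⁻¹ := by
            rw [pow_succ]; group
        _ = z ^ i * x * (z * k * z⁻¹) * (z ^ i * x)⁻¹ := h1
        _ = z ^ i * (x * z * k * (x * z)⁻¹) * (z ^ i)⁻¹ := by group
        _ = z ^ i * (z * x * k * (z * x)⁻¹) * (z ^ i)⁻¹ := by rw [h2]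
        _ = z ^ (i + 1) * x * k * (z ^ (i + 1) * x)⁻¹ := by rw [pow_succ]; group
  have hx_xzi : ∀ i : ℕ, ∀ k ∈ K, x * (x * z ^ i) * k * (x * (x * z ^ i))⁻¹ = x * z ^ i * x * k * (x * z ^ i * x)⁻¹ := by
    intro i k hk
    have h1 := hxzi i k hk
    calc x * (x * z ^ i) * k * (x * (x * z ^ i))⁻¹ = x * (x * z ^ i * k * (x * z ^ i)⁻¹) * x⁻¹ := by group
      _ = x * (z ^ i * x * k * (z ^ i * x)⁻¹) * x⁻¹ := by rw [h1]
      _ = _ := by group
  have hz_xzi : ∀ i : ℕ, ∀ k ∈ K, z * (x * z ^ i) * k * (z * (x * z ^ i))⁻¹ = x * z ^ i * z * k * (x * z ^ i * z)⁻¹ := by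
    intro i k hk
    have h1 := hxz (z ^ i * k * (z ^ i)⁻¹) (hconjK _ (A.pow_mem hzA i) k hk)
    calc z * (x * z ^ i) * k * (z * (x * z ^ i))⁻¹ = z * x * (z ^ i * k * (z ^ i)⁻¹) * (z * x)⁻¹ := by group
      _ = x * z * (z ^ i * k * (z ^ i)⁻¹) * (x * z)⁻¹ := h1.symm
      _ = x * (z * z ^ i) * k * (x * (z * z ^ i))⁻¹ := by group
      _ = x * (z ^ i * z) * k * (x * (z ^ i * z))⁻¹ := by rw [← pow_succ, ← pow_succ']
      _ = _ := by group
  have hxziA : ∀ i : ℕ, x * z ^ i ∈ A := fun i => A.mul_mem hxA (A.pow_mem hzA i)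
  have hzpD : z ^ p ∈ D := by
    rw [hD]
    refine ⟨A.pow_mem hzA p, fun k hk => ?_⟩
    rw [hzp k hk, mul_inv_cancel]; exact N.one_mem
  have hNpos : 0 < Nat.card N := Nat.card_pos
  have hKpos : 0 < Nat.card K := Nat.card_pos
  have hKNle : Nat.card N ≤ Nat.card K := Subgroup.card_le_of_le hNlt.le
  by_cases hzD : z ∈ D
  · by_cases hxD : x ∈ D
    · -- everything acts trivially on `K / N`
      have hAD : A ≤ D := by
        rw [hAdef, Subgroup.closure_le]
        rintro y (rfl | rfl)
        · exact hxD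
        · exact hzD
      have hAfix := card_fix_of_trivial A K N hAK (coprime_of_pGroup hA hKp) (isSolvable_of_pGroup hA) hNlt.le hKN hAN
        (fun b hb k hk => ((hD b).1 (hAD hb)).2 k hk)
      have e1 : (∏ i ∈ Finset.range p, Nat.card (K ⊓ centralizer {x * z ^ i} : Subgroup X)) * Nat.card N ^ p =
          Nat.card K ^ p * ∏ i ∈ Finset.range p, Nat.card (N ⊓ centralizer {x * z ^ i} : Subgroup X) := by
        have : ∀ i ∈ Finset.range p, Nat.card (K ⊓ centralizer {x * z ^ i} : Subgroup X) * Nat.card N =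
            Nat.card K * Nat.card (N ⊓ centralizer {x * z ^ i} : Subgroup X) :=
          fun i _ => hin _ (hAD (hxziA i))
        have h2 := Finset.prod_congr rfl this
        rw [Finset.prod_mul_distrib, Finset.prod_mul_distrib, Finset.prod_const, Finset.prod_const, Finset.card_range] at h2
        exact h2
      have e2 := hin z hzD
      have hpos : 0 < Nat.card N ^ p * Nat.card N := by positivity
      apply Nat.le_of_mul_le_mul_left _ hpos
      calc Nat.card N ^ p * Nat.card N * ((∏ i ∈ Finset.range p, Nat.card (K ⊓ centralizer {x * z ^ i} : Subgroup X)) *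
              Nat.card (K ⊓ centralizer {z} : Subgroup X))
          = ((∏ i ∈ Finset.range p, Nat.card (K ⊓ centralizer {x * z ^ i} : Subgroup X)) * Nat.card N ^ p) *
              (Nat.card (K ⊓ centralizer {z} : Subgroup X) * Nat.card N) := by ring
        _ = (Nat.card K ^ p * Nat.card K) * ((∏ i ∈ Finset.range p, Nat.card (N ⊓ centralizer {x * z ^ i} : Subgroup X)) *
              Nat.card (N ⊓ centralizer {z} : Subgroup X)) := by rw [e1, e2]; ring
        _ ≤ (Nat.card K ^ p * Nat.card K) * (Nat.card N * Nat.card (N ⊓ centralizer (A : Set X) : Subgroup X) ^ p) :=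
            Nat.mul_le_mul_left _ hIH
        _ = (Nat.card K * Nat.card (N ⊓ centralizer (A : Set X) : Subgroup X)) ^ p * Nat.card K * Nat.card N := by
            rw [mul_pow]; ring
        _ = (Nat.card (K ⊓ centralizer (A : Set X) : Subgroup X) * Nat.card N) ^ p * Nat.card K * Nat.card N := by rw [hAfix]
        _ = _ := by rw [mul_pow]; ring
    · -- `z` trivial, `x` not
      have hxi : ∀ i : ℕ, x * z ^ i ∉ D := fun i h => hxD (by
        have := D.mul_mem h (D.inv_mem (D.pow_mem hzD i))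
        simpa using this)
      have e1 : ∏ i ∈ Finset.range p, Nat.card (K ⊓ centralizer {x * z ^ i} : Subgroup X) =
          ∏ i ∈ Finset.range p, Nat.card (N ⊓ centralizer {x * z ^ i} : Subgroup X) :=
        Finset.prod_congr rfl fun i _ => by rw [hout _ (hxziA i) (hx_xzi i) (hz_xzi i) (hxi i)]
      have e2 := hin z hzD
      have e3 : Nat.card (N ⊓ centralizer (A : Set X) : Subgroup X) ≤ Nat.card (K ⊓ centralizer (A : Set X) : Subgroup X) :=
        Subgroup.card_le_of_le (inf_le_inf_right _ hNlt.le)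
      apply Nat.le_of_mul_le_mul_left _ hNpos
      rw [e1]
      calc Nat.card N * ((∏ i ∈ Finset.range p, Nat.card (N ⊓ centralizer {x * z ^ i} : Subgroup X)) *
              Nat.card (K ⊓ centralizer {z} : Subgroup X))
          = (∏ i ∈ Finset.range p, Nat.card (N ⊓ centralizer {x * z ^ i} : Subgroup X)) *
              (Nat.card (K ⊓ centralizer {z} : Subgroup X) * Nat.card N) := by ring
        _ = Nat.card K * ((∏ i ∈ Finset.range p, Nat.card (N ⊓ centralizer {x * z ^ i} : Subgroup X)) *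
              Nat.card (N ⊓ centralizer {z} : Subgroup X)) := by rw [e2]; ring
        _ ≤ Nat.card K * (Nat.card N * Nat.card (N ⊓ centralizer (A : Set X) : Subgroup X) ^ p) := Nat.mul_le_mul_left _ hIH
        _ ≤ Nat.card K * (Nat.card N * Nat.card (K ⊓ centralizer (A : Set X) : Subgroup X) ^ p) := by gcongr
        _ = _ := by ring
  · -- `z` acts nontrivially on `K / N`
    have hzfix : (K ⊓ centralizer {z} : Subgroup X) = (N ⊓ centralizer {z} : Subgroup X) :=
      hout z hzA hxz (fun k _ => rfl) hzD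
    have huniq : ∀ i j : ℕ, i < j → j < p → x * z ^ i ∈ D → x * z ^ j ∈ D → False := by
      intro i j hij hjp hi hj
      have h1 : z ^ (j - i) ∈ D := by
        have h2 := D.mul_mem (D.inv_mem hi) hj
        have e : (x * z ^ i)⁻¹ * (x * z ^ j) = z ^ (j - i) := by
          have : z ^ j = z ^ i * z ^ (j - i) := by rw [← pow_add]; congr 1; omega
          rw [this]; group
        rwa [e] at h2
      have hcop : (j - i).Coprime p := by
        apply Nat.Coprime.symm
        rw [Nat.Prime.coprime_iff_not_dvd hp.out]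
        intro h
        exact absurd (Nat.le_of_dvd (by omega) h) (by omega)
      apply hzD
      have h3 : z ^ ((j - i : ℕ) * (Nat.gcdA (j - i) p) + (p : ℤ) * Nat.gcdB (j - i) p) ∈ D := by
        rw [zpow_add, zpow_mul, zpow_mul, zpow_natCast, zpow_natCast]
        exact D.mul_mem (D.zpow_mem h1 _) (D.zpow_mem hzpD _)
      rw [← Nat.gcd_eq_gcd_ab, hcop.gcd_eq_one] at h3
      simpa using h3
    have e3 : Nat.card (N ⊓ centralizer (A : Set X) : Subgroup X) ≤ Nat.card (K ⊓ centralizer (A : Set X) : Subgroup X) :=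
      Subgroup.card_le_of_le (inf_le_inf_right _ hNlt.le)
    have hprod : (∏ i ∈ Finset.range p, Nat.card (K ⊓ centralizer {x * z ^ i} : Subgroup X)) * Nat.card N ≤
        Nat.card K * ∏ i ∈ Finset.range p, Nat.card (N ⊓ centralizer {x * z ^ i} : Subgroup X) := by
      by_cases hex : ∃ i ∈ Finset.range p, x * z ^ i ∈ D
      · obtain ⟨i, hi, hiD⟩ := hex
        rw [← Finset.mul_prod_erase _ _ hi, ← Finset.mul_prod_erase _ _ hi]
        have e4 : ∏ j ∈ (Finset.range p).erase i, Nat.card (K ⊓ centralizer {x * z ^ j} : Subgroup X) =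
            ∏ j ∈ (Finset.range p).erase i, Nat.card (N ⊓ centralizer {x * z ^ j} : Subgroup X) := by
          apply Finset.prod_congr rfl
          intro j hj
          have hji := Finset.ne_of_mem_erase hj
          have hjp := Finset.mem_range.1 (Finset.mem_of_mem_erase hj)
          have hjD : x * z ^ j ∉ D := by
            intro h
            rcases lt_or_gt_of_ne hji with hlt | hlt
            · exact huniq j i hlt (Finset.mem_range.1 hi) h hiD
            · exact huniq i j hlt hjp hiD h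
          rw [hout _ (hxziA j) (hx_xzi j) (hz_xzi j) hjD]
        rw [e4]
        have e5 := hin _ hiD
        apply le_of_eq
        calc _ = (Nat.card (K ⊓ centralizer {x * z ^ i} : Subgroup X) * Nat.card N) *
              ∏ j ∈ (Finset.range p).erase i, Nat.card (N ⊓ centralizer {x * z ^ j} : Subgroup X) := by ring
          _ = _ := by rw [e5]; ring
      · push_neg at hex
        have e4 : ∏ j ∈ Finset.range p, Nat.card (K ⊓ centralizer {x * z ^ j} : Subgroup X) =
            ∏ j ∈ Finset.range p, Nat.card (N ⊓ centralizer {x * z ^ j} : Subgroup X) := by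
          apply Finset.prod_congr rfl
          intro j hj
          rw [hout _ (hxziA j) (hx_xzi j) (hz_xzi j) (hex j hj)]
        rw [e4, mul_comm]
        exact Nat.mul_le_mul_right _ hKNle
    rw [hzfix]
    apply Nat.le_of_mul_le_mul_left _ hNpos
    calc Nat.card N * ((∏ i ∈ Finset.range p, Nat.card (K ⊓ centralizer {x * z ^ i} : Subgroup X)) *
            Nat.card (N ⊓ centralizer {z} : Subgroup X))
        = ((∏ i ∈ Finset.range p, Nat.card (K ⊓ centralizer {x * z ^ i} : Subgroup X)) * Nat.card N) *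
            Nat.card (N ⊓ centralizer {z} : Subgroup X) := by ring
      _ ≤ (Nat.card K * ∏ i ∈ Finset.range p, Nat.card (N ⊓ centralizer {x * z ^ i} : Subgroup X)) *
            Nat.card (N ⊓ centralizer {z} : Subgroup X) := Nat.mul_le_mul_right _ hprod
      _ = Nat.card K * ((∏ i ∈ Finset.range p, Nat.card (N ⊓ centralizer {x * z ^ i} : Subgroup X)) *
            Nat.card (N ⊓ centralizer {z} : Subgroup X)) := by ring
      _ ≤ Nat.card K * (Nat.card N * Nat.card (N ⊓ centralizer (A : Set X) : Subgroup X) ^ p) := Nat.mul_le_mul_left _ hIH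
      _ ≤ Nat.card K * (Nat.card N * Nat.card (K ⊓ centralizer (A : Set X) : Subgroup X) ^ p) := by gcongr
      _ = _ := by ring

/-- the order of a group as the product of the orders of chosen Sylow subgroups -/
theorem card_eq_prod_sylow {L : Subgroup X} {s : Finset ℕ} (hs : (Nat.card L).primeFactors ⊆ s)
    (S : ℕ → Subgroup X) (hS : ∀ q ∈ s, IsSylIn q L (S q)) : Nat.card L = ∏ q ∈ s, Nat.card (S q) := by
  have h1 : ∏ q ∈ s, Nat.card (S q) = ∏ q ∈ s, q ^ (Nat.card L).factorization q :=
    Finset.prod_congr rfl fun q hq => (hS q hq).2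
  rw [h1]
  have h2 : ∏ q ∈ (Nat.card L).primeFactors, q ^ (Nat.card L).factorization q = ∏ q ∈ s, q ^ (Nat.card L).factorization q := by
    apply Finset.prod_subset hs
    intro q _ hq
    rw [← Nat.support_factorization, Finsupp.notMem_support_iff] at hq
    rw [hq, pow_zero]
  rw [← h2]
  exact (Nat.prod_factorization_pow_eq_self Nat.card_pos.ne').symm

/-- the general case -/
theorem key (p : ℕ) [hp : Fact p.Prime] (x z : X) (hA : IsPGroup p (closure {x, z}))
    (K : Subgroup X) (hKp : (Nat.card K).Coprime p) (hAK : closure {x, z} ≤ normalizer (K : Set X))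
    (hxz : ∀ k ∈ K, x * z * k * (x * z)⁻¹ = z * x * k * (z * x)⁻¹)
    (hzp : ∀ k ∈ K, z ^ p * k * (z ^ p)⁻¹ = k) :
    (∏ i ∈ Finset.range p, Nat.card (K ⊓ centralizer {x * z ^ i} : Subgroup X)) *
        Nat.card (K ⊓ centralizer {z} : Subgroup X) ≤
      Nat.card K * Nat.card (K ⊓ centralizer (closure {x, z} : Set X) : Subgroup X) ^ p := by
  set A := closure {x, z} with hAdef
  have hxA : x ∈ A := Subgroup.subset_closure (by simp)
  have hzA : z ∈ A := Subgroup.subset_closure (by simp)
  have hcop := coprime_of_pGroup hA hKp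
  have hsolv := isSolvable_of_pGroup hA
  have hex : ∀ q : ℕ, ∃ S : Subgroup X, q.Prime → IsSylIn q K S ∧ A ≤ normalizer (S : Set X) := by
    intro q
    by_cases hq : q.Prime
    · haveI : Fact q.Prime := ⟨hq⟩
      obtain ⟨S, hS⟩ := exists_invariant_sylow A K hAK hcop (Or.inl hsolv) q
      exact ⟨S, fun _ => hS⟩
    · exact ⟨⊥, fun h => absurd h hq⟩
  choose S hS using hex
  set s := (Nat.card K).primeFactors with hs
  have hsprime : ∀ q ∈ s, q.Prime := fun q hq => Nat.prime_of_mem_primeFactors hq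
  have hfix : ∀ B : Subgroup X, B ≤ A → Nat.card (K ⊓ centralizer (B : Set X) : Subgroup X) =
      ∏ q ∈ s, Nat.card (S q ⊓ centralizer (B : Set X) : Subgroup X) := by
    intro B hBA
    have h1 : (Nat.card (K ⊓ centralizer (B : Set X) : Subgroup X)).primeFactors ⊆ s :=
      Nat.primeFactors_mono (Subgroup.card_dvd_of_le inf_le_left) Nat.card_pos.ne'
    apply card_eq_prod_sylow h1
    intro q hq
    haveI : Fact q.Prime := ⟨hsprime q hq⟩
    obtain ⟨h2, h3⟩ := hS q (hsprime q hq)
    have h4 := H27.Fact.inf_isSylIn (A := B) (K := K) (X := K ⊓ centralizer (B : Set X)) (Q := S q) (hBA.trans hAK)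
      (Nat.Coprime.coprime_dvd_left (Subgroup.card_dvd_of_le hBA) hcop) (isSolvable_of_pGroup (hA.to_le hBA)) inf_le_left
      (le_normalizer_inf (hBA.trans hAK) (le_normalizer_centralizer Subgroup.le_normalizer)) Subgroup.le_normalizer h2
      (hBA.trans h3)
    have e : S q ⊓ (K ⊓ centralizer (B : Set X)) = S q ⊓ centralizer (B : Set X) := by
      rw [← inf_assoc, inf_eq_left.2 h2.1]
    rwa [e] at h4
  have hfix1 : ∀ a ∈ A, Nat.card (K ⊓ centralizer {a} : Subgroup X) =
      ∏ q ∈ s, Nat.card (S q ⊓ centralizer {a} : Subgroup X) := by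
    intro a ha
    have := hfix (Subgroup.zpowers a) (by rw [Subgroup.zpowers_le]; exact ha)
    simp only [centralizer_zpowers_eq] at this
    exact this
  have hK : Nat.card K = ∏ q ∈ s, Nat.card (S q) :=
    card_eq_prod_sylow (le_refl _) S (fun q hq => (hS q (hsprime q hq)).1)
  have hxziA : ∀ i : ℕ, x * z ^ i ∈ A := fun i => A.mul_mem hxA (A.pow_mem hzA i)
  have e1 : (∏ i ∈ Finset.range p, Nat.card (K ⊓ centralizer {x * z ^ i} : Subgroup X)) =
      ∏ q ∈ s, ∏ i ∈ Finset.range p, Nat.card (S q ⊓ centralizer {x * z ^ i} : Subgroup X) := by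
    rw [Finset.prod_comm]
    exact Finset.prod_congr rfl fun i _ => hfix1 _ (hxziA i)
  rw [e1, hfix1 z hzA, hK, hfix A le_rfl, ← Finset.prod_mul_distrib, ← Finset.prod_pow, ← Finset.prod_mul_distrib]
  apply Finset.prod_le_prod'
  intro q hq
  haveI : Fact q.Prime := ⟨hsprime q hq⟩
  obtain ⟨h2, h3⟩ := hS q (hsprime q hq)
  exact key_q p q x z hA _ (S q) rfl h2.isPGroup (Nat.Coprime.coprime_dvd_left (Subgroup.card_dvd_of_le h2.1) hKp) h3
    (fun k hk => hxz k (h2.1 hk)) (fun k hk => hzp k (h2.1 hk))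

/-- the main inequality -/
theorem star (p : ℕ) [hp : Fact p.Prime] {P : Type*} [Group P] [Fintype P] (hP : IsPGroup p P) (φ : P →* X) (n : ℕ) :
    ∀ V : Subgroup X, Nat.card V = n → (Nat.card V).Coprime p → φ.range ≤ normalizer (V : Set X) →
      (∏ y : P, Nat.card (V ⊓ centralizer {φ y} : Subgroup X)) ^ p ≤
        Nat.card V ^ Nat.card P * Nat.card (V ⊓ centralizer (φ.range : Set X) : Subgroup X) ^ ((p - 1) * Nat.card P) := by
  induction n using Nat.strong_induction_on with
  | _ n ih =>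
  intro V hVn hVp hPV
  have hφV : ∀ y : P, ∀ v ∈ V, φ y * v * (φ y)⁻¹ ∈ V := fun y v hv =>
    conj_mem_of_le_normalizer hPV ⟨y, rfl⟩ hv
  have hp1 : 1 ≤ p := hp.out.one_lt.le
  have hexp : Nat.card P * p = Nat.card P + (p - 1) * Nat.card P := by
    obtain ⟨t, rfl⟩ : ∃ t, p = t + 1 := ⟨p - 1, by omega⟩
    simp only [Nat.add_sub_cancel]; ring
  by_cases hc : φ.range ≤ centralizer (V : Set X)
  · have h1 : ∀ y : P, (V ⊓ centralizer {φ y} : Subgroup X) = V := by
      intro y
      rw [inf_eq_left]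
      intro v hv
      rw [Subgroup.mem_centralizer_singleton_iff]
      exact (Subgroup.mem_centralizer_iff.1 (hc ⟨y, rfl⟩) v hv)
    have h2 : (V ⊓ centralizer (φ.range : Set X) : Subgroup X) = V := by
      rw [inf_eq_left]
      intro v hv
      rw [Subgroup.mem_centralizer_iff]
      intro g hg
      exact (Subgroup.mem_centralizer_iff.1 (hc hg) v hv).symm
    simp only [h1, h2, Finset.prod_const, Finset.card_univ]
    rw [← pow_mul, ← pow_add, ← Nat.card_eq_fintype_card, hexp]
  · -- the kernel of the action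
    set C := (centralizer (V : Set X)).comap φ with hC
    have hCn : C.Normal := by
      constructor
      intro c hc y
      rw [hC, Subgroup.mem_comap, Subgroup.mem_centralizer_iff] at hc ⊢
      intro v hv
      have h1 := hc ((φ y)⁻¹ * v * φ y) (by
        have := hφV y⁻¹ v hv
        simpa using this)
      rw [map_mul, map_mul, map_inv]
      calc v * (φ y * φ c * (φ y)⁻¹) = φ y * (((φ y)⁻¹ * v * φ y) * φ c) * (φ y)⁻¹ := by group
        _ = φ y * (φ c * ((φ y)⁻¹ * v * φ y)) * (φ y)⁻¹ := by rw [h1]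
        _ = _ := by group
    have hCtop : C ≠ ⊤ := by
      intro h
      apply hc
      rintro _ ⟨y, rfl⟩
      have : y ∈ C := by rw [h]; exact Subgroup.mem_top y
      exact this
    have hQp : IsPGroup p (P ⧸ C) := hP.to_quotient C
    haveI : Nontrivial (P ⧸ C) := by
      rw [← not_subsingleton_iff_nontrivial]
      intro h
      exact hCtop (QuotientGroup.subgroup_eq_top_of_subsingleton C h)
    haveI := hQp.center_nontrivial
    have hcp : IsPGroup p (Subgroup.center (P ⧸ C)) := hQp.to_subgroup _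
    have hdvd : p ∣ Nat.card (Subgroup.center (P ⧸ C)) := by
      obtain ⟨m, hm⟩ := IsPGroup.iff_card.1 hcp
      rcases m with _ | m
      · rw [pow_zero] at hm
        exact absurd (Finite.one_lt_card (α := Subgroup.center (P ⧸ C))) (by omega)
      · rw [hm, pow_succ]; exact dvd_mul_left _ _
    obtain ⟨⟨zb, hzb⟩, hzo⟩ := exists_prime_orderOf_dvd_card' p hdvd
    rw [Subgroup.orderOf_mk] at hzo
    obtain ⟨z, rfl⟩ := QuotientGroup.mk_surjective zb
    have hzC : z ∉ C := by
      intro h
      rw [← QuotientGroup.eq_one_iff] at h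
      rw [h, orderOf_one] at hzo
      exact hp.out.one_lt.ne hzo
    have hzpC : z ^ p ∈ C := by
      rw [← QuotientGroup.eq_one_iff, QuotientGroup.mk_pow, ← hzo]
      exact pow_orderOf_eq_one _
    have hzcomm : ∀ y : P, (z * y)⁻¹ * (y * z) ∈ C := by
      intro y
      rw [← QuotientGroup.eq, QuotientGroup.mk_mul, QuotientGroup.mk_mul]
      exact (Subgroup.mem_center_iff.1 hzb (QuotientGroup.mk y)).symm
    have hact : ∀ a b : P, a⁻¹ * b ∈ C → ∀ v ∈ V, φ a * v * (φ a)⁻¹ = φ b * v * (φ b)⁻¹ := by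
      intro a b hab v hv
      have h1 := Subgroup.mem_centralizer_iff.1 hab v hv
      rw [map_mul, map_inv] at h1
      calc φ a * v * (φ a)⁻¹ = φ a * (v * ((φ a)⁻¹ * φ b)) * (φ b)⁻¹ := by group
        _ = φ a * (((φ a)⁻¹ * φ b) * v) * (φ b)⁻¹ := by rw [h1]
        _ = _ := by group
    have hyz : ∀ y : P, ∀ v ∈ V, φ y * φ z * v * (φ y * φ z)⁻¹ = φ z * φ y * v * (φ z * φ y)⁻¹ := by
      intro y v hv
      have := hact (z * y) (y * z) (hzcomm y) v hv
      rw [map_mul, map_mul] at this
      exact this.symm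
    have hzpv : ∀ v ∈ V, φ z ^ p * v * (φ z ^ p)⁻¹ = v := by
      intro v hv
      have := hact 1 (z ^ p) (by simpa using hzpC) v hv
      rw [map_one, map_pow] at this
      rw [← this]; group
    set V₀ : Subgroup X := V ⊓ centralizer {φ z} with hV₀
    have hV₀lt : V₀ < V := by
      refine lt_of_le_of_ne inf_le_left ?_
      intro h
      apply hzC
      rw [hC, Subgroup.mem_comap, Subgroup.mem_centralizer_iff]
      intro v hv
      rw [← h] at hv
      exact Subgroup.mem_centralizer_singleton_iff.1 hv.2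
    have hPV₀ : φ.range ≤ normalizer (V₀ : Set X) := by
      rintro _ ⟨y, rfl⟩
      apply Subgroup.mem_normalizer_fintype
      rintro v ⟨hv, hvz⟩
      refine ⟨hφV y v hv, ?_⟩
      have hvz' : v * φ z = φ z * v := Subgroup.mem_centralizer_singleton_iff.1 hvz
      change φ y * v * (φ y)⁻¹ ∈ centralizer {φ z}
      rw [Subgroup.mem_centralizer_singleton_iff]
      have h1 := hyz y v hv
      have h2 : φ y * φ z * v * (φ y * φ z)⁻¹ = φ y * v * (φ y)⁻¹ := by
        have : φ y * φ z * v * (φ y * φ z)⁻¹ = φ y * (φ z * v) * (φ z)⁻¹ * (φ y)⁻¹ := by group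
        rw [this, ← hvz']; group
      rw [h2] at h1
      calc φ y * v * (φ y)⁻¹ * φ z = (φ z * φ y * v * (φ z * φ y)⁻¹) * φ z := by rw [← h1]
        _ = φ z * (φ y * v * (φ y)⁻¹) := by group
    have hIH := ih (Nat.card V₀) (by
      rw [← hVn]
      exact lt_of_not_ge (fun h => hV₀lt.ne (Subgroup.eq_of_le_of_card_ge hV₀lt.le h))) V₀ rfl
      (Nat.Coprime.coprime_dvd_left (Subgroup.card_dvd_of_le hV₀lt.le) hVp) hPV₀
    have hfixeq : (V₀ ⊓ centralizer (φ.range : Set X) : Subgroup X) = V ⊓ centralizer (φ.range : Set X) := by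
      apply le_antisymm (inf_le_inf_right _ hV₀lt.le)
      rintro v ⟨hv, hvc⟩
      refine ⟨⟨hv, ?_⟩, hvc⟩
      change v ∈ centralizer {φ z}
      rw [Subgroup.mem_centralizer_singleton_iff]
      exact (Subgroup.mem_centralizer_iff.1 hvc (φ z) ⟨z, rfl⟩).symm
    rw [hfixeq] at hIH
    -- apply the key inequality to each `y`
    have hkey : ∀ y : P, (∏ i ∈ Finset.range p, Nat.card (V ⊓ centralizer {φ (y * z ^ i)} : Subgroup X)) * Nat.card V₀ ≤
        Nat.card V * Nat.card (V₀ ⊓ centralizer {φ y} : Subgroup X) ^ p := by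
      intro y
      have hle : closure {φ y, φ z} ≤ φ.range := by
        rw [Subgroup.closure_le]
        rintro _ (rfl | rfl)
        · exact ⟨y, rfl⟩
        · exact ⟨z, rfl⟩
      have hrp : IsPGroup p φ.range := by
        have := (hP.to_subgroup (⊤ : Subgroup P)).map φ
        rwa [← MonoidHom.range_eq_map] at this
      have h1 := key p (φ y) (φ z) (hrp.to_le hle) V hVp (hle.trans hPV) (hyz y) hzpv
      have h2 : (V ⊓ centralizer (closure {φ y, φ z} : Set X) : Subgroup X) = V₀ ⊓ centralizer {φ y} := by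
        ext v
        rw [Subgroup.centralizer_closure]
        simp only [hV₀, Subgroup.mem_inf, Subgroup.mem_centralizer_iff, Set.mem_insert_iff, Set.mem_singleton_iff,
          forall_eq_or_imp, forall_eq]
        tauto
      rw [h2] at h1
      have h3 : (∏ i ∈ Finset.range p, Nat.card (V ⊓ centralizer {φ (y * z ^ i)} : Subgroup X)) =
          ∏ i ∈ Finset.range p, Nat.card (V ⊓ centralizer {φ y * φ z ^ i} : Subgroup X) :=
        Finset.prod_congr rfl fun i _ => by rw [map_mul, map_pow]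
      rw [h3]
      exact h1
    have hprod := Finset.prod_le_prod' (s := Finset.univ) (fun y (_ : y ∈ (Finset.univ : Finset P)) => hkey y)
    rw [Finset.prod_mul_distrib, Finset.prod_mul_distrib, Finset.prod_comm, Finset.prod_const, Finset.prod_const,
      Finset.prod_pow, Finset.card_univ, ← Nat.card_eq_fintype_card] at hprod
    have hshift : ∀ i ∈ Finset.range p, ∏ y : P, Nat.card (V ⊓ centralizer {φ (y * z ^ i)} : Subgroup X) =
        ∏ y : P, Nat.card (V ⊓ centralizer {φ y} : Subgroup X) := by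
      intro i _
      exact Fintype.prod_equiv (Equiv.mulRight (z ^ i)) _ _ (fun y => rfl)
    rw [Finset.prod_congr rfl hshift, Finset.prod_const, Finset.card_range] at hprod
    have hpos : 0 < Nat.card V₀ ^ Nat.card P := pow_pos Nat.card_pos _
    apply Nat.le_of_mul_le_mul_left _ hpos
    calc Nat.card V₀ ^ Nat.card P * (∏ y : P, Nat.card (V ⊓ centralizer {φ y} : Subgroup X)) ^ p
        = (∏ y : P, Nat.card (V ⊓ centralizer {φ y} : Subgroup X)) ^ p * Nat.card V₀ ^ Nat.card P := by ring
      _ ≤ Nat.card V ^ Nat.card P * (∏ y : P, Nat.card (V₀ ⊓ centralizer {φ y} : Subgroup X)) ^ p := hprod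
      _ ≤ Nat.card V ^ Nat.card P * (Nat.card V₀ ^ Nat.card P *
          Nat.card (V ⊓ centralizer (φ.range : Set X) : Subgroup X) ^ ((p - 1) * Nat.card P)) := Nat.mul_le_mul_left _ hIH
      _ = _ := by ring

end H71.CopIneq
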