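import Mathlib
import Cfsg.Agent.Lib.H71.AutOrbit
import Cfsg.Agent.Lib.H71.TICount
import Cfsg.Agent.Lib.H71.Basic2
import Cfsg.Agent.Lib.H1.FpfAb
import Cfsg.Agent.Lib.H1.Solv
import Cfsg.Agent.Lib.H4.Burnside

set_option autoImplicit false

/-! Non-solvable finite groups on which the automorphism group has four orbits: group-theoretic facts. -/

namespace H71.FourOrbits

theorem exists_pow_mul_pow {n p q : ℕ} (hn : n ≠ 0) (hp : p.Prime) (hq : q.Prime)
    (h : ∀ s : ℕ, s.Prime → s ∣ n → s = p ∨ s = q) : ∃ a b, n = p ^ a * q ^ b := by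
  obtain ⟨a, m, hm, hnm⟩ := Nat.exists_eq_pow_mul_and_not_dvd hn p hp.ne_one
  have hm0 : m ≠ 0 := by rintro rfl; rw [mul_zero] at hnm; exact hn hnm
  obtain ⟨b, m', hm', hcm'⟩ := Nat.exists_eq_pow_mul_and_not_dvd hm0 q hq.ne_one
  have hm'1 : m' = 1 := by
    by_contra h1
    obtain ⟨r, hr, hrd⟩ := Nat.exists_prime_and_dvd h1
    rcases h r hr (by rw [hnm, hcm']; exact (hrd.mul_left _).mul_left _) with rfl | rfl
    · apply hm; rw [hcm']; exact hrd.mul_left _
    · exact hm' hrd
  exact ⟨a, b, by rw [hnm, hcm', hm'1, mul_one]⟩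

theorem isSolvable_of_two {K : Type*} [Group K] [Finite K] {p q : ℕ} (hp : p.Prime) (hq : q.Prime)
    (h : ∀ s : ℕ, s.Prime → s ∣ Nat.card K → s = p ∨ s = q) : Group.IsSolvable K := by
  obtain ⟨a, b, hab⟩ := exists_pow_mul_pow Nat.card_pos.ne' hp hq h
  exact H4.Burnside.isSolvable_of_card_eq p q hp hq _ K rfl ⟨a, b, hab⟩

/-- standing hypotheses -/
structure Hyp (G : Type*) [Group G] [Finite G] (p : Fin 3 → ℕ) : Prop where
  prime : ∀ i, (p i).Prime
  inj : Function.Injective p
  dvd : ∀ i, p i ∣ Nat.card G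
  order : ∀ g : G, g ≠ 1 → ∃ i, orderOf g = p i
  conj : ∀ u v : G, orderOf u = orderOf v → ∃ α : MulAut G, α u = v
  nonsolv : ¬ Group.IsSolvable G

variable {G : Type*} [Group G] [Finite G] {p : Fin 3 → ℕ}

theorem Hyp.prime_dvd (H : Hyp G p) {s : ℕ} (hs : s.Prime) (h : s ∣ Nat.card G) : ∃ i, s = p i := by
  haveI := Fact.mk hs
  obtain ⟨y, hy⟩ := exists_prime_orderOf_dvd_card' (G := G) s h
  obtain ⟨i, hi⟩ := H.order y (by rintro rfl; rw [orderOf_one] at hy; exact hs.one_lt.ne hy)
  exact ⟨i, by rw [← hy, hi]⟩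

/-- groups missing one of the primes are solvable -/
theorem Hyp.solvable_of_not_dvd (H : Hyp G p) {K : Type*} [Group K] [Finite K] (i : Fin 3)
    (hK : ∀ s : ℕ, s.Prime → s ∣ Nat.card K → ∃ j, j ≠ i ∧ s = p j) : Group.IsSolvable K := by
  have hex : ∃ j k : Fin 3, ∀ l, l ≠ i → l = j ∨ l = k := by
    fin_cases i
    · exact ⟨1, 2, by decide⟩
    · exact ⟨0, 2, by decide⟩
    · exact ⟨0, 1, by decide⟩
  obtain ⟨j, k, hjk⟩ := hex
  apply isSolvable_of_two (H.prime j) (H.prime k)
  intro s hs hsK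
  obtain ⟨l, hl, rfl⟩ := hK s hs hsK
  rcases hjk l hl with rfl | rfl
  · left; rfl
  · right; rfl

/-- a normal subgroup whose order is missing a prime and whose quotient is missing a prime -/
theorem Hyp.false_of_normal (H : Hyp G p) (N : Subgroup G) [N.Normal] (i j : Fin 3)
    (h1 : ¬ p i ∣ Nat.card N) (h2 : ¬ p j ∣ N.index) : False := by
  apply H.nonsolv
  have hN : Group.IsSolvable N := by
    apply H.solvable_of_not_dvd i
    intro s hs hsN
    obtain ⟨l, hl⟩ := H.prime_dvd hs (hsN.trans (Subgroup.card_subgroup_dvd_card N))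
    refine ⟨l, ?_, hl⟩
    rintro rfl
    rw [hl] at hsN; exact h1 hsN
  have hQ : Group.IsSolvable (G ⧸ N) := by
    apply H.solvable_of_not_dvd j
    intro s hs hsN
    obtain ⟨l, hl⟩ := H.prime_dvd hs (hsN.trans (by rw [← Subgroup.index_eq_card]; exact Subgroup.index_dvd_card N))
    refine ⟨l, ?_, hl⟩
    rintro rfl
    rw [hl, ← Subgroup.index_eq_card] at hsN; exact h2 hsN
  exact Group.isSolvable_of_ker_le_range N.subtype (QuotientGroup.mk' N) (by simp)

/-- elements of a Sylow `p i`-subgroup have order `p i` -/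
theorem Hyp.order_of_mem (H : Hyp G p) (i : Fin 3) (Q : Subgroup G) (hQ : IsPGroup (p i) Q) (g : G) (hg : g ∈ Q)
    (hg1 : g ≠ 1) : orderOf g = p i := by
  haveI := Fact.mk (H.prime i)
  obtain ⟨j, hj⟩ := H.order g hg1
  obtain ⟨k, hk⟩ := (IsPGroup.iff_orderOf.1 hQ) ⟨g, hg⟩
  rw [Subgroup.orderOf_mk, hj] at hk
  have h3 : p j ∣ p i := (H.prime j).dvd_of_dvd_pow (by rw [← hk])
  rw [hj]
  exact (Nat.prime_dvd_prime_iff_eq (H.prime j) (H.prime i)).1 h3

theorem Hyp.false_of_pNormal (H : Hyp G p) (i : Fin 3) (M : Subgroup G) [M.Normal] (hM : IsPGroup (p i) M)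
    (hM1 : M ≠ ⊥) : False := by
  haveI := Fact.mk (H.prime i)
  obtain ⟨⟨z, hzM⟩, hz⟩ := Subgroup.ne_bot_iff_exists_ne_one.1 hM1
  have hz1 : z ≠ 1 := fun h => hz (Subtype.ext h)
  have hzord := H.order_of_mem i M hM z hzM hz1
  obtain ⟨P⟩ : Nonempty (Sylow (p i) G) := inferInstance
  have hmem : ∀ g : G, g ∈ (P : Subgroup G) ↔ g ^ p i = 1 := by
    intro g
    constructor
    · intro hg
      by_cases hg1 : g = 1
      · rw [hg1, one_pow]
      · rw [← H.order_of_mem i _ P.isPGroup' g hg hg1, pow_orderOf_eq_one]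
    · intro hg
      by_cases hg1 : g = 1
      · rw [hg1]; exact Subgroup.one_mem _
      have h1 : orderOf g = p i := orderOf_eq_prime hg hg1
      obtain ⟨α, hα⟩ := H.conj z g (by rw [hzord, h1])
      have h2 : (M.map α.toMonoidHom).Normal := Subgroup.Normal.map inferInstance _ α.surjective
      have h3 : M.map α.toMonoidHom ≤ (P : Subgroup G) := by
        obtain ⟨Q, hQ⟩ := (hM.map α.toMonoidHom).exists_le_sylow
        obtain ⟨c, hc⟩ := MulAction.exists_smul_eq G Q P
        intro y hy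
        rw [← hc, Sylow.coe_subgroup_smul, Subgroup.mem_pointwise_smul_iff_inv_smul_mem, ← map_inv, MulAut.smul_def,
          MulAut.conj_apply]
        exact hQ (h2.conj_mem y hy c⁻¹)
      exact h3 ⟨z, hzM, hα⟩
  haveI hnormal : (P : Subgroup G).Normal := by
    refine ⟨fun n hn g => ?_⟩
    rw [hmem] at hn ⊢
    rw [conj_pow, hn, mul_one, mul_inv_cancel]
  obtain ⟨j, hj⟩ : ∃ j : Fin 3, j ≠ i := by
    fin_cases i
    · exact ⟨1, by decide⟩
    · exact ⟨0, by decide⟩
    · exact ⟨0, by decide⟩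
  refine H.false_of_normal (P : Subgroup G) j i ?_ P.not_dvd_index
  intro h
  obtain ⟨k, hk⟩ := P.isPGroup'.exists_card_eq
  rw [hk] at h
  exact hj (H.inj ((Nat.prime_dvd_prime_iff_eq (H.prime j) (H.prime i)).1 ((H.prime j).dvd_of_dvd_pow h)))

/-- the centralizer of an element of order `p i` is a Sylow `p i`-subgroup -/
theorem Hyp.centralizer (H : Hyp G p) (i : Fin 3) (x : G) (hx : orderOf x = p i) :
    ∃ P : Sylow (p i) G, (P : Subgroup G) = Subgroup.centralizer {x} := by
  haveI := Fact.mk (H.prime i)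
  obtain ⟨P⟩ : Nonempty (Sylow (p i) G) := inferInstance
  haveI hPnt : Nontrivial (P : Subgroup G) := by
    rw [← Finite.one_lt_card_iff_nontrivial]
    have h1 := P.dvd_card_of_dvd_card (H.dvd i)
    have h2 := Nat.le_of_dvd Nat.card_pos h1
    have h3 := (H.prime i).one_lt
    omega
  haveI := P.isPGroup'.center_nontrivial
  obtain ⟨⟨c, hc⟩, hc1⟩ := exists_ne (1 : Subgroup.center (P : Subgroup G))
  have hc1' : (c : G) ≠ 1 := fun h => hc1 (Subtype.ext (Subtype.ext h))
  have hcord : orderOf (c : G) = p i := H.order_of_mem i _ P.isPGroup' _ c.2 hc1'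
  have hle : (P : Subgroup G) ≤ Subgroup.centralizer {(c : G)} := by
    intro y hy
    rw [Subgroup.mem_centralizer_singleton_iff]
    exact congrArg (fun w : (P : Subgroup G) => (w : G)) (Subgroup.mem_center_iff.1 hc ⟨y, hy⟩)
  have hpg : IsPGroup (p i) (Subgroup.centralizer {(c : G)}) := by
    rw [IsPGroup.iff_orderOf]
    rintro ⟨y, hy⟩
    rw [Subgroup.orderOf_mk]
    by_cases hy1 : y = 1
    · exact ⟨0, by rw [hy1, orderOf_one, pow_zero]⟩
    obtain ⟨j, hj⟩ := H.order y hy1
    by_cases hji : j = i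
    · exact ⟨1, by rw [hj, hji, pow_one]⟩
    exfalso
    have hcomm : Commute y (c : G) := Subgroup.mem_centralizer_singleton_iff.1 hy
    have hcop : (orderOf y).Coprime (orderOf (c : G)) := by
      rw [hj, hcord]
      exact (Nat.coprime_primes (H.prime j) (H.prime i)).2 (fun h => hji (H.inj h))
    have h1 := hcomm.orderOf_mul_eq_mul_orderOf_of_coprime hcop
    rw [hj, hcord] at h1
    have hj1 := (H.prime j).one_lt
    have hi1 := (H.prime i).one_lt
    obtain ⟨k, hk⟩ := H.order (y * c) (by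
      intro h
      rw [h, orderOf_one] at h1
      nlinarith)
    rw [h1] at hk
    have h2 := (H.prime k)
    rw [← hk] at h2
    exact Nat.not_prime_mul (H.prime j).ne_one (H.prime i).ne_one h2
  have heq : Subgroup.centralizer {(c : G)} = (P : Subgroup G) := P.is_maximal' hpg hle
  obtain ⟨α, hα⟩ := H.conj (c : G) x (by rw [hcord, hx])
  have hmap : Subgroup.centralizer {x} = (Subgroup.centralizer {(c : G)}).map α.toMonoidHom := by
    ext y
    rw [Subgroup.mem_centralizer_singleton_iff]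
    constructor
    · intro hy
      refine ⟨α.symm y, ?_, α.apply_symm_apply y⟩
      change α.symm y ∈ Subgroup.centralizer {(c : G)}
      rw [Subgroup.mem_centralizer_singleton_iff]
      apply α.injective
      rw [map_mul, map_mul, α.apply_symm_apply, hα, hy]
    · rintro ⟨w, hw, rfl⟩
      have hw' : w ∈ Subgroup.centralizer {(c : G)} := hw
      rw [Subgroup.mem_centralizer_singleton_iff] at hw'
      rw [← hα]
      change α w * α c = α c * α w
      rw [← map_mul, hw', map_mul]
  have hcard : Nat.card (Subgroup.centralizer {x}) = p i ^ (Nat.card G).factorization (p i) := by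
    rw [hmap, heq, ← P.card_eq_multiplicity]
    exact Subgroup.card_map_of_injective α.injective
  exact ⟨Sylow.ofCard _ hcard, rfl⟩

/-- the centre of a subgroup, as a subgroup of the whole group -/
def Z (P : Subgroup G) : Subgroup G := (Subgroup.center P).map P.subtype

theorem Hyp.mem_Z_iff (H : Hyp G p) (i : Fin 3) (P : Sylow (p i) G) (x : G) (hx : x ≠ 1) :
    x ∈ Z (P : Subgroup G) ↔ Subgroup.centralizer {x} = (P : Subgroup G) := by
  constructor
  · rintro ⟨⟨y, hyP⟩, hy, rfl⟩
    change y ≠ 1 at hx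
    change Subgroup.centralizer {y} = (P : Subgroup G)
    obtain ⟨Q, hQ⟩ := H.centralizer i y (H.order_of_mem i _ P.isPGroup' y hyP hx)
    have hle : (P : Subgroup G) ≤ (Q : Subgroup G) := by
      rw [hQ]
      intro z hz
      rw [Subgroup.mem_centralizer_singleton_iff]
      exact congrArg (fun w : (P : Subgroup G) => (w : G)) (Subgroup.mem_center_iff.1 hy ⟨z, hz⟩)
    rw [← hQ]
    exact P.is_maximal' Q.isPGroup' hle
  · intro h
    have hxP : x ∈ (P : Subgroup G) := by
      rw [← h, Subgroup.mem_centralizer_singleton_iff]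
    refine ⟨⟨x, hxP⟩, ?_, rfl⟩
    rw [SetLike.mem_coe, Subgroup.mem_center_iff]
    rintro ⟨y, hy⟩
    apply Subtype.ext
    rw [← h, Subgroup.mem_centralizer_singleton_iff] at hy
    exact hy

theorem centralizer_conj (k x : G) :
    ((Subgroup.centralizer {k * x * k⁻¹} : Subgroup G)) = (Subgroup.centralizer {x}).map (MulAut.conj k).toMonoidHom := by
  ext y
  rw [Subgroup.mem_centralizer_singleton_iff]
  constructor
  · intro hy
    refine ⟨k⁻¹ * y * k, ?_, ?_⟩
    · rw [SetLike.mem_coe, Subgroup.mem_centralizer_singleton_iff]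
      calc k⁻¹ * y * k * x = k⁻¹ * (y * (k * x * k⁻¹)) * k := by group
        _ = k⁻¹ * (k * x * k⁻¹ * y) * k := by rw [hy]
        _ = x * (k⁻¹ * y * k) := by group
    · change k * (k⁻¹ * y * k) * k⁻¹ = y
      group
  · rintro ⟨w, hw, rfl⟩
    rw [SetLike.mem_coe, Subgroup.mem_centralizer_singleton_iff] at hw
    change k * w * k⁻¹ * (k * x * k⁻¹) = k * x * k⁻¹ * (k * w * k⁻¹)
    calc k * w * k⁻¹ * (k * x * k⁻¹) = k * (w * x) * k⁻¹ := by group
      _ = k * (x * w) * k⁻¹ := by rw [hw]
      _ = _ := by group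

theorem mem_normalizer_iff_map {P : Subgroup G} {k : G} :
    k ∈ Subgroup.normalizer (P : Set G) ↔ P.map (MulAut.conj k).toMonoidHom = P := by
  constructor
  · intro h
    ext y
    constructor
    · rintro ⟨w, hw, rfl⟩
      exact ((Subgroup.mem_normalizer_iff.1 h) w).1 hw
    · intro hy
      refine ⟨k⁻¹ * y * k, ?_, ?_⟩
      · rw [SetLike.mem_coe, Subgroup.mem_normalizer_iff.1 h]
        have : k * (k⁻¹ * y * k) * k⁻¹ = y := by group
        rwa [this]
      · change k * (k⁻¹ * y * k) * k⁻¹ = y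
        group
  · intro h
    rw [Subgroup.mem_normalizer_iff]
    intro y
    constructor
    · intro hy
      rw [← h]
      exact ⟨y, hy, rfl⟩
    · intro hy
      rw [← h] at hy
      obtain ⟨w, hw, hwy⟩ := hy
      have : w = y := (MulAut.conj k).injective hwy
      rw [← this]; exact hw

theorem Hyp.sum_eq (H : Hyp G p) (P : ∀ i, Sylow (p i) G) :
    ∑ i, (Subgroup.normalizer ((P i : Subgroup G) : Set G)).index * (Nat.card (Z (P i : Subgroup G)) - 1) = Nat.card G - 1 := by
  apply H71.TICount.sum_eq (fun i => Z (P i : Subgroup G)) (fun i => Subgroup.normalizer ((P i : Subgroup G) : Set G))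
  · intro i j k d hd hd1 hkd
    have hkd1 : k * d * k⁻¹ ≠ 1 := by
      intro h
      apply hd1
      have : d = k⁻¹ * (k * d * k⁻¹) * k := by group
      rw [this, h]; group
    have h1 := (H.mem_Z_iff i (P i) d hd1).1 hd
    have h2 := (H.mem_Z_iff j (P j) _ hkd1).1 hkd
    have hij : i = j := by
      have e1 : orderOf d = p i := by
        apply H.order_of_mem i _ (P i).isPGroup' d _ hd1
        rw [← h1, Subgroup.mem_centralizer_singleton_iff]
      have e2 : orderOf (k * d * k⁻¹) = p j := by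
        apply H.order_of_mem j _ (P j).isPGroup' _ _ hkd1
        rw [← h2, Subgroup.mem_centralizer_singleton_iff]
      have e3 : orderOf (k * d * k⁻¹) = orderOf d := by
        have := orderOf_injective (MulAut.conj k).toMonoidHom (MulAut.conj k).injective d
        simpa using this
      apply H.inj
      rw [← e1, ← e2, e3]
    refine ⟨hij, ?_⟩
    subst hij
    rw [mem_normalizer_iff_map]
    rw [centralizer_conj, h1] at h2
    exact h2
  · intro i k hk d hd
    by_cases hd1 : d = 1
    · subst hd1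
      have : k * 1 * k⁻¹ = 1 := by group
      rw [this]; exact Subgroup.one_mem _
    have hkd1 : k * d * k⁻¹ ≠ 1 := by
      intro h
      apply hd1
      have : d = k⁻¹ * (k * d * k⁻¹) * k := by group
      rw [this, h]; group
    rw [H.mem_Z_iff i (P i) _ hkd1, centralizer_conj, (H.mem_Z_iff i (P i) d hd1).1 hd]
    exact mem_normalizer_iff_map.1 hk
  · intro x hx
    obtain ⟨i, hi⟩ := H.order x hx
    haveI := Fact.mk (H.prime i)
    obtain ⟨Q, hQ⟩ := H.centralizer i x hi
    obtain ⟨k, hk⟩ := MulAction.exists_smul_eq G Q (P i)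
    refine ⟨i, k, ?_⟩
    have hkd1 : k * x * k⁻¹ ≠ 1 := by
      intro h
      apply hx
      have : x = k⁻¹ * (k * x * k⁻¹) * k := by group
      rw [this, h]; group
    rw [H.mem_Z_iff i (P i) _ hkd1, centralizer_conj, ← hQ, ← hk]
    rfl

end H71.FourOrbits
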