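import Mathlib
import Cfsg.Agent.Lib.H71.FourOrbits

set_option autoImplicit false

/-! Non-solvable finite groups on which the automorphism group has four orbits: normalizers. -/

namespace H71.FourOrbits

variable {G : Type*} [Group G] [Finite G] {p : Fin 3 → ℕ}

theorem Hyp.not_dvd_card (H : Hyp G p) (i j : Fin 3) (hij : j ≠ i) (P : Sylow (p i) G) :
    ¬ p j ∣ Nat.card (P : Subgroup G) := by
  haveI := Fact.mk (H.prime i)
  intro h
  obtain ⟨k, hk⟩ := P.isPGroup'.exists_card_eq
  rw [hk] at h
  exact hij (H.inj ((Nat.prime_dvd_prime_iff_eq (H.prime j) (H.prime i)).1 ((H.prime j).dvd_of_dvd_pow h)))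

theorem exists_ne (i : Fin 3) : ∃ j : Fin 3, j ≠ i := by
  fin_cases i
  · exact ⟨1, by decide⟩
  · exact ⟨0, by decide⟩
  · exact ⟨0, by decide⟩

/-- Burnside: an abelian Sylow subgroup is not self-normalizing -/
theorem Hyp.normalizer_ne (H : Hyp G p) (i : Fin 3) (P : Sylow (p i) G) (hab : IsMulCommutative (P : Subgroup G)) :
    Subgroup.normalizer ((P : Subgroup G) : Set G) ≠ (P : Subgroup G) := by
  intro h
  haveI := Fact.mk (H.prime i)
  have hP : Subgroup.normalizer ((P : Subgroup G) : Set G) ≤ Subgroup.centralizer ((P : Subgroup G) : Set G) := by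
    rw [h]
    exact Subgroup.le_centralizer_iff_isMulCommutative.2 hab
  have hC := MonoidHom.ker_transferSylow_isComplement' P hP
  obtain ⟨j, hj⟩ := exists_ne i
  refine H.false_of_normal (MonoidHom.transferSylow P hP).ker i j ?_ ?_
  · rw [← hC.index_eq_card]
    exact P.not_dvd_index
  · rw [hC.symm.index_eq_card]
    exact H.not_dvd_card i j hj P

/-- the centre of a nonabelian Sylow subgroup has index at least `p^2` -/
theorem Hyp.card_Z_le (H : Hyp G p) (i : Fin 3) (P : Sylow (p i) G) (hab : ¬ IsMulCommutative (P : Subgroup G)) :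
    p i ^ 2 * Nat.card (Z (P : Subgroup G)) ≤ Nat.card (P : Subgroup G) := by
  haveI := Fact.mk (H.prime i)
  have h1 : Nat.card (Z (P : Subgroup G)) = Nat.card (Subgroup.center (P : Subgroup G)) :=
    Subgroup.card_map_of_injective (Subgroup.subtype_injective _)
  have h2 := (Subgroup.center (P : Subgroup G)).index_mul_card
  obtain ⟨k, hk⟩ := P.isPGroup'.exists_card_eq
  have h3 : (Subgroup.center (P : Subgroup G)).index ∣ p i ^ k := by
    rw [← hk]; exact Subgroup.index_dvd_card _
  obtain ⟨m, hmk, hm⟩ := (Nat.dvd_prime_pow (H.prime i)).1 h3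
  have hm2 : 2 ≤ m := by
    by_contra hlt
    apply hab
    have hcyc : IsCyclic ((P : Subgroup G) ⧸ Subgroup.center (P : Subgroup G)) := by
      have h4 : Nat.card ((P : Subgroup G) ⧸ Subgroup.center (P : Subgroup G)) = p i ^ m := by
        rw [← Subgroup.index_eq_card, hm]
      have h5 : m = 0 ∨ m = 1 := by omega
      rcases h5 with rfl | rfl
      · rw [pow_zero] at h4
        haveI := (Nat.card_eq_one_iff_unique.1 h4).1
        infer_instance
      · rw [pow_one] at h4
        exact isCyclic_of_prime_card h4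
    refine ⟨⟨fun a b => ?_⟩⟩
    exact commutative_of_cyclic_center_quotient (QuotientGroup.mk' (Subgroup.center (P : Subgroup G)))
      (QuotientGroup.ker_mk' _).le a b
  rw [h1, ← h2, hm]
  exact Nat.mul_le_mul_right _ (Nat.pow_le_pow_right (H.prime i).pos hm2)

/-- the action of the normalizer on the non-identity elements of an abelian self-centralizing subgroup is semiregular -/
theorem card_normalizer (P : Subgroup G) (hC : ∀ x ∈ P, x ≠ 1 → Subgroup.centralizer {x} = P) :
    ∃ k o : ℕ, Nat.card (Subgroup.normalizer (P : Set G)) = Nat.card P * k ∧ k * o = Nat.card P - 1 ∧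
      ((∀ x ∈ P, ∀ y ∈ P, x ≠ 1 → y ≠ 1 → ∃ n ∈ Subgroup.normalizer (P : Set G), n * x * n⁻¹ = y) → P ≠ ⊥ → o = 1) := by
  classical
  let X := {x : P // x ≠ 1}
  let N := Subgroup.normalizer (P : Set G)
  have hconj : ∀ (n : N) (x : P), (n : G) * x * (n : G)⁻¹ ∈ P := fun n x => (Subgroup.mem_normalizer_iff.1 n.2 x).1 x.2
  letI : MulAction N X :=
    { smul := fun n x => ⟨⟨(n : G) * (x.1 : G) * (n : G)⁻¹, hconj n x.1⟩, fun h => x.2 (by
        have h1 : (n : G) * (x.1 : G) * (n : G)⁻¹ = 1 := congrArg Subtype.val h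
        apply Subtype.ext
        have h2 : (x.1 : G) = (n : G)⁻¹ * ((n : G) * (x.1 : G) * (n : G)⁻¹) * n := by group
        rw [h2, h1]; simp)⟩
      one_smul := fun x => by
        apply Subtype.ext; apply Subtype.ext
        change (1 : G) * (x.1 : G) * (1 : G)⁻¹ = x.1
        group
      mul_smul := fun m n x => by
        apply Subtype.ext; apply Subtype.ext
        change ((m : G) * n) * (x.1 : G) * ((m : G) * n)⁻¹ = (m : G) * ((n : G) * (x.1 : G) * (n : G)⁻¹) * (m : G)⁻¹
        group }
  have hsmul : ∀ (n : N) (x : X), (((n • x).1 : P) : G) = (n : G) * (x.1 : G) * (n : G)⁻¹ := fun n x => rfl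
  have hstab : ∀ x : X, MulAction.stabilizer N x = P.subgroupOf N := by
    intro x
    ext n
    rw [MulAction.mem_stabilizer_iff, Subgroup.mem_subgroupOf, ← hC (x.1 : G) x.1.2 (fun h => x.2 (Subtype.ext h)),
      Subgroup.mem_centralizer_singleton_iff]
    constructor
    · intro h
      have h1 := hsmul n x
      rw [h] at h1
      rw [eq_mul_inv_iff_mul_eq] at h1
      exact h1.symm
    · intro h
      apply Subtype.ext; apply Subtype.ext
      rw [hsmul, h, mul_inv_cancel_right]
  have horb : ∀ x : X, Nat.card (MulAction.orbit N x) = (P.subgroupOf N).index := by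
    intro x
    rw [← hstab x, MulAction.index_stabilizer]
    rfl
  refine ⟨(P.subgroupOf N).index, Nat.card (MulAction.orbitRel.Quotient N X), ?_, ?_, ?_⟩
  · have h1 := (P.subgroupOf N).card_mul_index
    rw [Nat.card_congr (Subgroup.subgroupOfEquivOfLe (Subgroup.le_normalizer (H := P))).toEquiv] at h1
    exact h1.symm
  · have h1 : Nat.card X = Nat.card P - 1 := H71.TICount.card_ne_one P
    haveI : Fintype (MulAction.orbitRel.Quotient N X) := Fintype.ofFinite _
    rw [← h1, Nat.card_congr (MulAction.selfEquivSigmaOrbits N X), Nat.card_sigma]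
    rw [Finset.sum_congr rfl (fun ω _ => horb _), Finset.sum_const, Finset.card_univ, smul_eq_mul, Nat.card_eq_fintype_card,
      mul_comm]
  · intro htr hP
    rw [Nat.card_eq_one_iff_unique]
    obtain ⟨z, hz⟩ := Subgroup.ne_bot_iff_exists_ne_one.1 hP
    refine ⟨⟨?_⟩, ⟨Quotient.mk _ (⟨z, hz⟩ : X)⟩⟩
    intro a b
    refine Quotient.inductionOn₂ a b ?_
    intro x y
    apply Quotient.sound
    change x ∈ MulAction.orbit N y
    obtain ⟨n, hn, hnx⟩ := htr y.1 y.1.2 x.1 x.1.2 (fun h => y.2 (Subtype.ext h)) (fun h => x.2 (Subtype.ext h))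
    exact ⟨⟨n, hn⟩, Subtype.ext (Subtype.ext hnx)⟩

/-- abelian Sylow subgroups are self-centralizing -/
theorem Hyp.centralizer_of_abelian (H : Hyp G p) (i : Fin 3) (P : Sylow (p i) G)
    (hab : IsMulCommutative (P : Subgroup G)) (x : G) (hx : x ∈ (P : Subgroup G)) (hx1 : x ≠ 1) :
    Subgroup.centralizer {x} = (P : Subgroup G) := by
  rw [← H.mem_Z_iff i P x hx1]
  refine ⟨⟨x, hx⟩, ?_, rfl⟩
  rw [SetLike.mem_coe, Subgroup.mem_center_iff]
  intro y
  exact hab.is_comm.comm _ _

/-- all involutions are conjugate -/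
theorem Hyp.involutions_conj (H : Hyp G p) (i : Fin 3) (hi : p i = 2) (s t : G) (hs : orderOf s = 2)
    (ht : orderOf t = 2) : ∃ g : G, g * s * g⁻¹ = t := by
  haveI := Fact.mk (H.prime i)
  -- non-conjugate involutions commute
  have hcomm : ∀ s t : G, orderOf s = 2 → orderOf t = 2 → (¬ ∃ g : G, g * s * g⁻¹ = t) → Commute s t := by
    intro s t hs ht hn
    have hs2 : s * s = 1 := by rw [← pow_two, ← hs, pow_orderOf_eq_one]
    have ht2 : t * t = 1 := by rw [← pow_two, ← ht, pow_orderOf_eq_one]
    have hsi : s⁻¹ = s := inv_eq_of_mul_eq_one_right hs2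
    have hti : t⁻¹ = t := inv_eq_of_mul_eq_one_right ht2
    by_cases h1 : s * t = 1
    · exfalso; apply hn
      refine ⟨1, ?_⟩
      have : s = t := by rw [← hti]; exact eq_inv_of_mul_eq_one_left h1
      rw [this]; group
    obtain ⟨j, hj⟩ := H.order (s * t) h1
    by_cases hji : p j = 2
    · rw [hji] at hj
      have h2 : (s * t) * (s * t) = 1 := by rw [← pow_two, ← hj, pow_orderOf_eq_one]
      have h3 : (s * t)⁻¹ = s * t := inv_eq_of_mul_eq_one_right h2
      rw [mul_inv_rev, hsi, hti] at h3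
      exact h3.symm
    exfalso
    apply hn
    have hodd : ¬ 2 ∣ orderOf (s * t) := by
      rw [hj]
      intro h
      exact hji ((Nat.prime_dvd_prime_iff_eq Nat.prime_two (H.prime j)).1 h).symm
    obtain ⟨m, hm⟩ := (Nat.odd_iff.2 (by omega) : Odd (orderOf (s * t)))
    -- (s t)^(2m+1) = 1, g = (s t)^m... 
    have hst : (s * t) ^ (2 * m + 1) = 1 := by rw [← hm, pow_orderOf_eq_one]
    have hts : t * s = (s * t)⁻¹ := by rw [mul_inv_rev, hsi, hti]
    have hinv : ∀ k : ℕ, (s * t) ^ k * s = s * ((s * t) ^ k)⁻¹ := by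
      intro k
      induction k with
      | zero => simp
      | succ k ih =>
        calc (s * t) ^ (k + 1) * s = (s * t) ^ k * s * (t * s) := by rw [pow_succ]; group
          _ = s * (((s * t) ^ k)⁻¹ * (s * t)⁻¹) := by rw [ih, hts, mul_assoc]
          _ = s * ((s * t) ^ (k + 1))⁻¹ := by rw [pow_succ' (s * t) k, mul_inv_rev (s * t) ((s * t) ^ k)]
    refine ⟨(s * t) ^ m, ?_⟩
    rw [hinv, mul_assoc, ← mul_inv_rev, ← pow_add]
    have h5 : ((s * t) ^ (m + m))⁻¹ = s * t := by
      rw [inv_eq_iff_mul_eq_one, ← pow_succ, ← two_mul]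
      exact hst
    rw [h5, ← mul_assoc, hs2, one_mul]
  by_contra hn
  -- all conjugates of t lie in the centralizer of s
  obtain ⟨P, hP⟩ := H.centralizer i s (by rw [hs, hi])
  have hle : Subgroup.normalClosure {t} ≤ (P : Subgroup G) := by
    rw [Subgroup.normalClosure, Subgroup.closure_le]
    intro y hy
    obtain ⟨t', ht', hy'⟩ := Group.mem_conjugatesOfSet_iff.1 hy
    rw [Set.mem_singleton_iff] at ht'
    subst ht'
    obtain ⟨c, hc⟩ := isConj_iff.1 hy'
    rw [hP, SetLike.mem_coe, Subgroup.mem_centralizer_singleton_iff]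
    have hyord : orderOf y = 2 := by
      rw [← hc]
      have := orderOf_injective (MulAut.conj c).toMonoidHom (MulAut.conj c).injective t'
      rw [← ht]
      simpa using this
    exact (hcomm s y hs hyord (by
      rintro ⟨g, hg⟩
      apply hn
      refine ⟨c⁻¹ * g, ?_⟩
      have : c⁻¹ * g * s * (c⁻¹ * g)⁻¹ = c⁻¹ * (g * s * g⁻¹) * c := by group
      rw [this, hg, ← hc]; group)).symm
  refine H.false_of_pNormal i (Subgroup.normalClosure {t}) (P.isPGroup'.to_le hle) ?_
  intro h
  have h1 : t ∈ Subgroup.normalClosure {t} := Subgroup.subset_normalClosure rfl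
  rw [h, Subgroup.mem_bot] at h1
  rw [h1, orderOf_one] at ht
  omega

end H71.FourOrbits
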