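import Mathlib
import Cfsg.Agent.Lib.H1.FpfAb
import Cfsg.Agent.Lib.H1.Solv

set_option autoImplicit false

/-! A solvable group all of whose non-identity elements have prime order, acting fixed-point-freely on a nontrivial
finite abelian group, has prime order. -/

namespace H71.FpfPrime

theorem card_prime {A V : Type*} [Group A] [Finite A] [Nontrivial A] [CommGroup V] [Finite V] [Nontrivial V]
    [MulDistribMulAction A V] (hfpf : ∀ a : A, a ≠ 1 → ∀ v : V, a • v = v → v = 1)
    (hprime : ∀ a : A, a ≠ 1 → (orderOf a).Prime) (hsol : Group.IsSolvable A) : (Nat.card A).Prime := by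
  classical
  have hmin : ∃ N : Subgroup A, (N.Normal ∧ N ≠ ⊥) ∧ ∀ M : Subgroup A, (M.Normal ∧ M ≠ ⊥) → M ≤ N → M = N := by
    obtain ⟨N, hN⟩ := (Set.toFinite {N : Subgroup A | N.Normal ∧ N ≠ ⊥}).exists_minimal ⟨⊤, inferInstance, top_ne_bot⟩
    exact ⟨N, hN.1, fun M hM hMN => le_antisymm hMN (hN.2 hM hMN)⟩
  obtain ⟨M, ⟨hMn, hMb⟩, hMmin⟩ := hmin
  haveI := hMn
  obtain ⟨hMab, r, hr, hMr⟩ := H1.Solv.minimal_normal_elementary hsol M hMb (by
    intro M' hM hMN
    by_cases hMb : M' = ⊥
    · left; exact hMb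
    · right; exact hMmin M' ⟨hM, hMb⟩ hMN)
  haveI := Fact.mk hr
  obtain ⟨⟨z, hzM⟩, hz⟩ := Subgroup.ne_bot_iff_exists_ne_one.1 hMb
  have hz1 : z ≠ 1 := fun h => hz (Subtype.ext h)
  have hzr : orderOf z = r := orderOf_eq_prime (hMr z hzM) hz1
  have hzM' : Subgroup.zpowers z ≤ M := by rw [Subgroup.zpowers_le]; exact hzM
  have hMz : M = Subgroup.zpowers z := by
    apply le_antisymm _ hzM'
    intro b hb
    by_contra hbz
    refine H1.FpfAb.not_fpf hfpf r r hr hr (Subgroup.zpowers z) (by rw [Nat.card_zpowers, hzr]) b ?_ hbz ?_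
    · have hle : M ≤ Subgroup.normalizer ((Subgroup.zpowers z : Subgroup A) : Set A) := by
        have h1 : M ≤ Subgroup.centralizer ((Subgroup.zpowers z : Subgroup A) : Set A) :=
          (Subgroup.le_centralizer_iff_isMulCommutative.2 hMab).trans (Subgroup.centralizer_le hzM')
        exact h1.trans (Subgroup.centralizer_le_normalizer _)
      exact hle hb
    · intro x hx
      exact hMr _ (M.mul_mem (hzM' hx) hb)
  have hMcard : Nat.card M = r := by rw [hMz, Nat.card_zpowers, hzr]
  have htop : M = ⊤ := by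
    rw [eq_top_iff]
    intro b _
    by_contra hb
    have hb1 : b ≠ 1 := by rintro rfl; exact hb M.one_mem
    refine H1.FpfAb.not_fpf hfpf r (orderOf b) hr (hprime b hb1) M hMcard b (by rw [Subgroup.normalizer_eq_top]; trivial) hb ?_
    intro x hx
    have hxb1 : x * b ≠ 1 := by
      intro h
      apply hb
      have : b = x⁻¹ := (inv_eq_of_mul_eq_one_right h).symm
      rw [this]; exact M.inv_mem hx
    have hq : (QuotientGroup.mk' M) (x * b) = (QuotientGroup.mk' M) b := by
      rw [map_mul]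
      have : (QuotientGroup.mk' M) x = 1 := (QuotientGroup.eq_one_iff x).2 hx
      rw [this, one_mul]
    have hb2 : (QuotientGroup.mk' M) b ≠ 1 := fun h => hb ((QuotientGroup.eq_one_iff b).1 h)
    have h1 : orderOf ((QuotientGroup.mk' M) b) ∣ orderOf b := orderOf_map_dvd _ _
    have h2 : orderOf ((QuotientGroup.mk' M) b) = orderOf b :=
      ((Nat.dvd_prime (hprime b hb1)).1 h1).resolve_left (fun h => hb2 (orderOf_eq_one_iff.1 h))
    have h3 : orderOf b ∣ orderOf (x * b) := by
      rw [← h2, ← hq]; exact orderOf_map_dvd _ _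
    have h4 : orderOf b = orderOf (x * b) :=
      ((Nat.dvd_prime (hprime _ hxb1)).1 h3).resolve_left (fun h => hb1 (orderOf_eq_one_iff.1 h))
    rw [h4, pow_orderOf_eq_one]
  rw [← Subgroup.card_top, ← htop, hMcard]
  exact hr

end H71.FpfPrime
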