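import Mathlib
import Cfsg.Agent.Lib.H71.FourOrbits2
import Cfsg.Agent.Lib.H71.FpfPrime

set_option autoImplicit false

/-! Non-solvable finite groups on which the automorphism group has four orbits: the order of the group. -/

namespace H71.FourOrbits

open scoped IsMulCommutative

variable {G : Type*} [Group G] [Finite G] {p : Fin 3 → ℕ}

/-- for an abelian Sylow subgroup the index in the normalizer is prime and divides `|P| - 1` -/
theorem Hyp.index_prime (H : Hyp G p) (i : Fin 3) (P : Sylow (p i) G) (hab : IsMulCommutative (P : Subgroup G)) :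
    ∃ k o : ℕ, k.Prime ∧ Nat.card (Subgroup.normalizer ((P : Subgroup G) : Set G)) = Nat.card (P : Subgroup G) * k ∧
      k * o = Nat.card (P : Subgroup G) - 1 ∧ (p i = 2 → o = 1) := by
  classical
  haveI := Fact.mk (H.prime i)
  have hC := H.centralizer_of_abelian i P hab
  obtain ⟨k, o, hk, hko, ho⟩ := card_normalizer (P : Subgroup G) hC
  haveI hPnt : Nontrivial (P : Subgroup G) := by
    rw [← Finite.one_lt_card_iff_nontrivial]
    have h1 := P.dvd_card_of_dvd_card (H.dvd i)
    have h2 := Nat.le_of_dvd Nat.card_pos h1
    have h3 := (H.prime i).one_lt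
    omega
  refine ⟨k, o, ?_, hk, hko, ?_⟩
  · set N := Subgroup.normalizer ((P : Subgroup G) : Set G) with hN
    have hPN : (P : Subgroup G) ≤ N := Subgroup.le_normalizer
    have hcardP' : Nat.card ((P : Subgroup G).subgroupOf N) = Nat.card (P : Subgroup G) :=
      Nat.card_congr (Subgroup.subgroupOfEquivOfLe hPN).toEquiv
    have hk' : ((P : Subgroup G).subgroupOf N).index = k := by
      have h1 := ((P : Subgroup G).subgroupOf N).card_mul_index
      rw [hcardP', hk] at h1
      exact Nat.eq_of_mul_eq_mul_left Nat.card_pos h1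
    haveI hnorm : ((P : Subgroup G).subgroupOf N).Normal := Subgroup.normal_in_normalizer
    have hkp : ¬ p i ∣ k := by
      intro h
      apply P.not_dvd_index
      rw [← Subgroup.relIndex_mul_index hPN]
      apply Dvd.dvd.mul_right
      have : (P : Subgroup G).relIndex N = k := hk'
      rw [this]; exact h
    have hcop : (Nat.card ((P : Subgroup G).subgroupOf N)).Coprime ((P : Subgroup G).subgroupOf N).index := by
      rw [hcardP', hk']
      obtain ⟨m, hm⟩ := P.isPGroup'.exists_card_eq
      rw [hm]
      exact Nat.Coprime.pow_left m (((H.prime i).coprime_iff_not_dvd).2 hkp)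
    obtain ⟨K, hK⟩ := Subgroup.exists_right_complement'_of_coprime hcop
    have hKcard : Nat.card K = k := by rw [← hk', hK.symm.index_eq_card]
    letI : MulDistribMulAction K (P : Subgroup G) :=
      MulDistribMulAction.compHom (P : Subgroup G) (((P : Subgroup G).normalizerMonoidHom).comp K.subtype)
    have hsmul : ∀ (a : K) (v : (P : Subgroup G)), ((a • v : (P : Subgroup G)) : G) = (a : G) * v * (a : G)⁻¹ := fun a v => rfl
    have hmem : ∀ a : K, ((a : N) : G) ∈ (P : Subgroup G) → a = 1 := by
      intro a ha
      have h1 : (a : N) ∈ (P : Subgroup G).subgroupOf N ⊓ K := ⟨ha, a.2⟩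
      rw [hK.disjoint.eq_bot, Subgroup.mem_bot] at h1
      exact Subtype.ext h1
    rw [← hKcard]
    haveI : Nontrivial K := by
      rw [← Finite.one_lt_card_iff_nontrivial, hKcard]
      have hk0 : 0 < k := by
        rcases Nat.eq_zero_or_pos k with h | h
        · rw [h, mul_zero] at hk
          exact absurd hk Nat.card_pos.ne'
        · exact h
      have hk1 : k ≠ 1 := by
        intro h
        rw [h, mul_one] at hk
        exact H.normalizer_ne i P hab (Subgroup.eq_of_le_of_card_ge hPN hk.le).symm
      omega
    apply H71.FpfPrime.card_prime (A := K) (V := (P : Subgroup G))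
    · intro a ha v hv
      by_contra hv1
      apply ha
      apply hmem
      have hv1' : (v : G) ≠ 1 := fun h => hv1 (Subtype.ext h)
      rw [← hC (v : G) v.2 hv1', Subgroup.mem_centralizer_singleton_iff]
      have h1 : (v : G) = (a : G) * v * (a : G)⁻¹ := (congrArg Subtype.val hv).symm
      rw [eq_mul_inv_iff_mul_eq] at h1
      exact h1.symm
    · intro a ha
      have h1 : orderOf a = orderOf (((a : N)) : G) := by
        rw [Subgroup.orderOf_coe, Subgroup.orderOf_coe]
      obtain ⟨j, hj⟩ := H.order (((a : N)) : G) (fun h => ha (Subtype.ext (Subtype.ext h)))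
      rw [h1, hj]; exact H.prime j
    · apply H.solvable_of_not_dvd i
      intro s hs hsK
      have h1 : s ∣ Nat.card G := by
        refine (hsK.trans (Subgroup.card_subgroup_dvd_card K)).trans (Subgroup.card_subgroup_dvd_card N)
      obtain ⟨j, hj⟩ := H.prime_dvd hs h1
      refine ⟨j, ?_, hj⟩
      rintro rfl
      rw [hKcard, hj] at hsK
      exact hkp hsK
  · intro hi
    apply ho
    · intro x hx y hy hx1 hy1
      obtain ⟨g, hg⟩ := H.involutions_conj i hi x y (by rw [H.order_of_mem i _ P.isPGroup' x hx hx1, hi])
        (by rw [H.order_of_mem i _ P.isPGroup' y hy hy1, hi])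
      refine ⟨g, ?_, hg⟩
      rw [mem_normalizer_iff_map]
      conv_lhs => rw [← hC x hx hx1]
      rw [← centralizer_conj, hg, hC y hy hy1]
    · exact (Subgroup.nontrivial_iff_ne_bot _).1 hPnt

end H71.FourOrbits
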