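import Mathlib

set_option autoImplicit false

/-! Arithmetic for the four-orbit theorem. -/

namespace H71.FourOrbits

/-- `2^a - 1` prime and `2^a + 1` a prime power force `a = 2` or `a = 3`. -/
theorem two_pow_pm_one {a r c : ℕ} (hr : r.Prime) (ha : 2 ≤ a) (hq : (2 ^ a - 1).Prime) (h : 2 ^ a + 1 = r ^ c) :
    a = 2 ∨ a = 3 := by
  rcases Nat.even_or_odd' a with ⟨b, rfl | rfl⟩
  · -- even
    left
    have hb : 1 ≤ b := by omega
    have h1 : 2 ^ (2 * b) - 1 = (2 ^ b - 1) * (2 ^ b + 1) := by
      have h2 : 1 ≤ 2 ^ b := Nat.one_le_two_pow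
      obtain ⟨x, hx⟩ := Nat.exists_eq_add_of_le h2
      rw [two_mul, pow_add, hx]
      have : (1 + x) * (1 + x) = 1 + (x * (1 + x + 1)) := by ring
      rw [this]; simp
    rw [h1] at hq
    have h3 : 2 ^ b + 1 ≠ 1 := by have : 0 < 2 ^ b := pow_pos (by norm_num) b; omega
    rcases Nat.prime_mul_iff.1 hq with ⟨-, h4⟩ | ⟨-, h4⟩
    · exact absurd h4 h3
    · have h5 : 2 ^ b = 2 := by have : 0 < 2 ^ b := pow_pos (by norm_num) b; omega
      have h6 : b = 1 := by
        have : (2 : ℕ) ^ b = 2 ^ 1 := by rw [h5]; norm_num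
        exact Nat.pow_right_injective le_rfl this
      omega
  · right
    have hb : 1 ≤ b := by omega
    -- 3 divides 2^(2b+1)+1
    have h3 : 3 ∣ 2 ^ (2 * b + 1) + 1 := by
      have h4 : (2 ^ (2 * b + 1) + 1) % 3 = 0 := by
        rw [pow_succ, pow_mul, Nat.add_mod, Nat.mul_mod, Nat.pow_mod]
        norm_num
      exact Nat.dvd_of_mod_eq_zero h4
    rw [h] at h3
    have hr3 : 3 = r := (Nat.prime_dvd_prime_iff_eq Nat.prime_three hr).1 (Nat.prime_three.dvd_of_dvd_pow h3)
    subst hr3
    -- c is even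
    have h8 : 2 ^ (2 * b + 1) % 8 = 0 := by
      have : (8 : ℕ) ∣ 2 ^ (2 * b + 1) := by
        have h9 : (2 : ℕ) ^ 3 ∣ 2 ^ (2 * b + 1) := pow_dvd_pow 2 (by omega)
        simpa using h9
      exact Nat.mod_eq_zero_of_dvd this
    rcases Nat.even_or_odd' c with ⟨d, rfl | rfl⟩
    · have h5 : 2 ^ (2 * b + 1) = (3 ^ d - 1) * (3 ^ d + 1) := by
        have h2 : 1 ≤ 3 ^ d := Nat.one_le_pow _ _ (by norm_num)
        obtain ⟨x, hx⟩ := Nat.exists_eq_add_of_le h2
        have h6 : 2 ^ (2 * b + 1) + 1 = 3 ^ d * 3 ^ d := by rw [h, ← pow_add]; congr 1; ring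
        rw [hx] at h6 ⊢
        have : (1 + x) * (1 + x) = (1 + x - 1) * (1 + x + 1) + 1 := by
          rw [Nat.add_sub_cancel_left]; ring
        omega
      have h6 : 3 ^ d - 1 ∣ 2 ^ (2 * b + 1) := ⟨_, h5⟩
      have h7 : 3 ^ d + 1 ∣ 2 ^ (2 * b + 1) := ⟨_, by rw [h5, mul_comm]⟩
      obtain ⟨x, -, hx⟩ := (Nat.dvd_prime_pow Nat.prime_two).1 h6
      obtain ⟨y, -, hy⟩ := (Nat.dvd_prime_pow Nat.prime_two).1 h7
      have h9 : 1 ≤ 3 ^ d := Nat.one_le_pow _ _ (by norm_num)
      have h10 : 2 ^ y = 2 ^ x + 2 := by omega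
      have hx1 : x = 1 := by
        rcases x with _ | _ | x
        · exfalso
          rw [pow_zero] at h10
          rcases y with _ | y
          · simp at h10
          · rw [pow_succ] at h10; omega
        · rfl
        · exfalso
          rcases y with _ | _ | y
          · simp at h10
          · rw [pow_succ, pow_succ] at h10; simp at h10
          · rw [pow_succ, pow_succ, pow_succ, pow_succ] at h10; omega
      rw [hx1] at hx
      have h11 : 3 ^ d = 3 := by omega
      rw [h11] at h5
      have h12 : (2 : ℕ) ^ (2 * b + 1) = 2 ^ 3 := by rw [h5]; norm_num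
      exact Nat.pow_right_injective le_rfl h12
    · exfalso
      have h9 : 3 ^ (2 * d + 1) % 8 = 3 := by
        rw [pow_succ, pow_mul, Nat.mul_mod, Nat.pow_mod]
        norm_num
      omega

theorem main_case {Q R u s : ℤ} (h1 : Q * R + 1 = u * R + u * Q) (h2 : Q = (2 * u - 1) * s) (hu : 2 ≤ u) (hs : 1 ≤ s)
    (hR : 3 ≤ R) : R = 2 * u + 1 ∧ Q = 2 * u - 1 := by
  have hz3 : (2 * u - 1) ∣ (R - 2) := by
    refine ⟨2 * s * R - 2 * u * s - R, ?_⟩
    rw [h2] at h1
    linear_combination (-2) * h1
  have hz4 : 2 * u - 1 ≤ R - 2 := Int.le_of_dvd (by omega) hz3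
  have hz5 : 2 * u - 1 ≤ Q := by
    rw [h2]
    nlinarith
  have hz6 : R ≤ 2 * u + 1 := by
    by_contra hlt
    push Not at hlt
    nlinarith [mul_le_mul_of_nonneg_right hz5 (show (0 : ℤ) ≤ R - u by omega)]
  have hz7 : R = 2 * u + 1 := by omega
  refine ⟨hz7, ?_⟩
  rw [hz7] at h1
  have h3 : (Q - (2 * u - 1)) * (u + 1) = 0 := by linear_combination h1
  rcases mul_eq_zero.1 h3 with h | h
  · omega
  · omega

theorem arith {a q b r c A Q R kq kr Nj Nl : ℕ} (hA : A = 2 ^ a) (hQ : Q = q ^ b) (hR : R = r ^ c)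
    (hr : r.Prime) (hq : q.Prime) (hr2 : r ≠ 2) (hq2 : q ≠ 2) (hQ1 : 1 < Q) (hR1 : 1 < R)
    (hA1 : (A - 1).Prime) (hAQ : (A - 1) ∣ Q)
    (hkq : kq.Prime) (hkr : kr.Prime) (hkqQ : kq ∣ Q - 1) (hkrR : kr ∣ R - 1)
    (hj : kq * Nj = A * R * (Q - 1)) (hl : kr * Nl = A * Q * (R - 1)) (hsum : Q * R + Nj + Nl = A * Q * R - 1) :
    (A = 4 ∧ Q = 3 ∧ R = 5) ∨ (A = 8 ∧ Q = 7 ∧ R = 9) := by
  have hA1' := hA1.two_le
  -- a ≥ 2, A ≥ 4
  have ha2 : 2 ≤ a := by
    rcases a with _ | _ | a
    · simp at hA; omega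
    · simp at hA; omega
    · omega
  have hA4 : 4 ≤ A := by
    rw [hA]
    calc 4 = 2 ^ 2 := by norm_num
      _ ≤ 2 ^ a := Nat.pow_le_pow_right (by norm_num) ha2
  obtain ⟨Q', rfl⟩ : ∃ Q', Q = Q' + 1 := ⟨Q - 1, by omega⟩
  obtain ⟨R', rfl⟩ : ∃ R', R = R' + 1 := ⟨R - 1, by omega⟩
  rw [Nat.add_sub_cancel] at hj hl hkqQ hkrR
  have hQ' : 1 ≤ Q' := by omega
  have hR' : 1 ≤ R' := by omega
  have hs : (Q' + 1) * (R' + 1) + Nj + Nl + 1 = A * (Q' + 1) * (R' + 1) := by
    have : 1 ≤ A * (Q' + 1) * (R' + 1) := Nat.one_le_iff_ne_zero.2 (by positivity)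
    omega
  have hkq2 := hkq.two_le
  have hkr2 := hkr.two_le
  have hA48 : A = 4 ∨ 8 ≤ A := by
    rcases Nat.lt_or_ge a 3 with h | h
    · left
      have : a = 2 := by omega
      rw [hA, this]; norm_num
    · right
      rw [hA]
      calc 8 = 2 ^ 3 := by norm_num
        _ ≤ 2 ^ a := Nat.pow_le_pow_right (by norm_num) h
  -- linear facts
  have l1 : kq * Nj + A * (R' + 1) = A * (Q' + 1) * (R' + 1) := by rw [hj]; ring
  have l2 : kr * Nl + A * (Q' + 1) = A * (Q' + 1) * (R' + 1) := by rw [hl]; ring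
  have l3 : 4 * ((Q' + 1) * (R' + 1)) ≤ A * (Q' + 1) * (R' + 1) := by
    rw [mul_assoc]; exact Nat.mul_le_mul_right _ hA4
  have l4 : 4 * (R' + 1) ≤ A * (R' + 1) := Nat.mul_le_mul_right _ hA4
  have l5 : 4 * (Q' + 1) ≤ A * (Q' + 1) := Nat.mul_le_mul_right _ hA4
  have l6 : 8 ≤ A → 8 * ((Q' + 1) * (R' + 1)) ≤ A * (Q' + 1) * (R' + 1) := fun h => by
    rw [mul_assoc]; exact Nat.mul_le_mul_right _ h
  -- the cases
  by_cases h2 : kq = 2
  · by_cases h3 : kr = 2
    · subst h2; subst h3
      -- the main case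
      have heq : 2 * ((Q' + 1) * (R' + 1)) + 2 = A * (R' + 1) + A * (Q' + 1) := by
        clear hsum hj hl
        generalize A * (Q' + 1) * (R' + 1) = T at *
        generalize (Q' + 1) * (R' + 1) = X at *
        generalize A * (R' + 1) = Y at *
        generalize A * (Q' + 1) = W at *
        omega
      obtain ⟨u, hu⟩ : ∃ u, A = 2 * u := by
        rcases a with _ | a
        · omega
        · exact ⟨2 ^ a, by rw [hA, pow_succ, mul_comm]⟩
      obtain ⟨s, hs'⟩ := hAQ
      have hRodd : R' + 1 ≠ 2 := by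
        intro h
        rw [h] at hR
        have h9 : r ∣ 2 := by
          rcases c with _ | c
          · simp at hR
          · rw [hR]; exact dvd_pow_self r (by omega)
        exact hr2 ((Nat.prime_dvd_prime_iff_eq hr Nat.prime_two).1 h9)
      have hu2 : 2 ≤ u := by omega
      have hs1 : 1 ≤ s := by
        rcases Nat.eq_zero_or_pos s with h | h
        · rw [h] at hs'; omega
        · exact h
      -- pass to ℤ
      obtain ⟨hz7, hz8⟩ := main_case (Q := (Q' : ℤ) + 1) (R := (R' : ℤ) + 1) (u := u) (s := s)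
        (by
          have h1 := congrArg (Nat.cast : ℕ → ℤ) heq
          rw [hu] at h1
          push_cast at h1
          linarith)
        (by
          have h1 := congrArg (Nat.cast : ℕ → ℤ) hs'
          rw [hu, Nat.cast_mul, Nat.cast_sub (by omega)] at h1
          push_cast at h1
          linarith)
        (by exact_mod_cast hu2) (by exact_mod_cast hs1) (by omega)
      have hR2 : R' + 1 = A + 1 := by rw [hu]; exact_mod_cast hz7
      have hQ2 : Q' + 1 = A - 1 := by omega
      have hfin := two_pow_pm_one (a := a) (r := r) (c := c) hr ha2 (by rw [← hA]; exact hA1) (by rw [← hA, ← hR2, hR])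
      rcases hfin with h | h
      · left; rw [h] at hA; norm_num at hA; omega
      · right; rw [h] at hA; norm_num at hA; omega
    · by_cases h4 : kr = 3
      · subst h2; subst h4
        exfalso
        have h44 : A = 4 := by
          rcases hA48 with h | h
          · exact h
          · exfalso
            have l7 := l6 h
            generalize A * (Q' + 1) * (R' + 1) = T at *
            generalize (Q' + 1) * (R' + 1) = X at *
            generalize A * (R' + 1) = Y at *
            generalize A * (Q' + 1) = W at *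
            omega
        subst h44
        obtain ⟨s, hs'⟩ := hAQ
        obtain ⟨t, ht⟩ := hkrR
        have heq : 6 * ((Q' + 1) * (R' + 1)) + 6 = 4 * ((Q' + 1) * (R' + 1)) + 12 * (R' + 1) + 8 * (Q' + 1) := by
          have e1 : 4 * (Q' + 1) * (R' + 1) = 4 * ((Q' + 1) * (R' + 1)) := by ring
          rw [e1] at l1 l2 hs
          generalize (Q' + 1) * (R' + 1) = X at *
          omega
        rw [ht] at heq
        have hs'' : Q' + 1 = 3 * s := by simpa using hs'
        rw [hs''] at heq
        have : 3 * s * (3 * t + 1) = 9 * (s * t) + 3 * s := by ring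
        omega
      · exfalso
        have h5 : 4 ≤ kr := by omega
        have h6 : 4 * Nl ≤ kr * Nl := Nat.mul_le_mul_right _ h5
        subst h2
        generalize A * (Q' + 1) * (R' + 1) = T at *
        generalize (Q' + 1) * (R' + 1) = X at *
        generalize A * (R' + 1) = Y at *
        generalize A * (Q' + 1) = W at *
        generalize kr * Nl = V at *
        omega
  · have h2' : 3 ≤ kq := by omega
    by_cases h3 : kr = 2
    · by_cases h4 : kq = 3
      · subst h3; subst h4
        exfalso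
        have h44 : A = 4 := by
          rcases hA48 with h | h
          · exact h
          · exfalso
            have l7 := l6 h
            generalize A * (Q' + 1) * (R' + 1) = T at *
            generalize (Q' + 1) * (R' + 1) = X at *
            generalize A * (R' + 1) = Y at *
            generalize A * (Q' + 1) = W at *
            omega
        subst h44
        obtain ⟨s, hs'⟩ := hAQ
        obtain ⟨t, ht⟩ := hkqQ
        have hs'' : Q' + 1 = 3 * s := by simpa using hs'
        omega
      · exfalso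
        have h5 : 4 ≤ kq := by omega
        have h6 : 4 * Nj ≤ kq * Nj := Nat.mul_le_mul_right _ h5
        subst h3
        generalize A * (Q' + 1) * (R' + 1) = T at *
        generalize (Q' + 1) * (R' + 1) = X at *
        generalize A * (R' + 1) = Y at *
        generalize A * (Q' + 1) = W at *
        generalize kq * Nj = V at *
        omega
    · exfalso
      have h3' : 3 ≤ kr := by omega
      have h6 : 3 * Nj ≤ kq * Nj := Nat.mul_le_mul_right _ h2'
      have h7 : 3 * Nl ≤ kr * Nl := Nat.mul_le_mul_right _ h3'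
      generalize A * (Q' + 1) * (R' + 1) = T at *
      generalize (Q' + 1) * (R' + 1) = X at *
      generalize A * (R' + 1) = Y at *
      generalize A * (Q' + 1) = W at *
      generalize kq * Nj = V at *
      generalize kr * Nl = U at *
      omega

end H71.FourOrbits
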