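import Mathlib
import Cfsg.Agent.Lib.H71.FourOrbits3
import Cfsg.Agent.Lib.H71.FourOrbitsArith

set_option autoImplicit false

/-! Non-solvable finite groups on which the automorphism group has four orbits: the order of the group. -/

namespace H71.FourOrbits

variable {G : Type*} [Group G] [Finite G] {p : Fin 3 → ℕ}

theorem Hyp.comp (H : Hyp G p) (e : Equiv.Perm (Fin 3)) : Hyp G (fun i => p (e i)) where
  prime := fun i => H.prime _
  inj := H.inj.comp e.injective
  dvd := fun i => H.dvd _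
  order := fun g hg => by
    obtain ⟨i, hi⟩ := H.order g hg
    exact ⟨e.symm i, by rw [hi, e.apply_symm_apply]⟩
  conj := H.conj
  nonsolv := H.nonsolv

theorem Hyp.card_eq_prod (H : Hyp G p) (P : ∀ i, Sylow (p i) G) :
    Nat.card G = ∏ i, Nat.card (P i : Subgroup G) := by
  have h1 : (Nat.card G).primeFactors = Finset.univ.image p := by
    ext s
    rw [Nat.mem_primeFactors, Finset.mem_image]
    constructor
    · rintro ⟨hs, hd, -⟩
      obtain ⟨i, hi⟩ := H.prime_dvd hs hd
      exact ⟨i, Finset.mem_univ _, hi.symm⟩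
    · rintro ⟨i, -, rfl⟩
      exact ⟨H.prime i, H.dvd i, Nat.card_pos.ne'⟩
  have h2 := Nat.prod_factorization_pow_eq_self (n := Nat.card G) Nat.card_pos.ne'
  rw [Finsupp.prod, Nat.support_factorization, h1, Finset.prod_image (fun i _ j _ h => H.inj h)] at h2
  rw [← h2]
  apply Finset.prod_congr rfl
  intro i _
  haveI := Fact.mk (H.prime i)
  rw [(P i).card_eq_multiplicity]

theorem Hyp.exists_two (H : Hyp G p) : ∃ i, p i = 2 := by
  by_contra hno
  push Not at hno
  have hodd : ¬ 2 ∣ Nat.card G := by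
    intro h
    obtain ⟨i, hi⟩ := H.prime_dvd Nat.prime_two h
    exact hno i hi.symm
  have hfact : ∀ i, Fact (p i).Prime := fun i => ⟨H.prime i⟩
  have P : ∀ i, Sylow (p i) G := fun i => Classical.choice inferInstance
  have hsum := H.sum_eq P
  have hbound : ∀ i, 3 * ((Subgroup.normalizer ((P i : Subgroup G) : Set G)).index * (Nat.card (Z (P i : Subgroup G)) - 1)) + 3 ≤ Nat.card G := by
    intro i
    set n := (Subgroup.normalizer ((P i : Subgroup G) : Set G)).index with hn
    have hn1 : 1 ≤ n := Nat.one_le_iff_ne_zero.2 Subgroup.index_ne_zero_of_finite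
    have hcard := (Subgroup.normalizer ((P i : Subgroup G) : Set G)).card_mul_index
    rw [← hn] at hcard
    have hpi : 3 ≤ p i := by
      have := (H.prime i).two_le
      have := hno i
      omega
    have hz1 : 1 ≤ Nat.card (Z (P i : Subgroup G)) := Nat.card_pos
    by_cases hab : IsMulCommutative (P i : Subgroup G)
    · obtain ⟨k, o, hk, hkN, -, -⟩ := H.index_prime i (P i) hab
      have hk3 : 3 ≤ k := by
        have h1 := hk.two_le
        have h2 : k ≠ 2 := by
          rintro rfl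
          apply hodd
          rw [← hcard, hkN]
          exact ((dvd_mul_left 2 _).mul_right _)
        omega
      have hz : Nat.card (Z (P i : Subgroup G)) ≤ Nat.card (P i : Subgroup G) := by
        apply Subgroup.card_le_of_le
        rintro _ ⟨x, -, rfl⟩
        exact x.2
      calc 3 * (n * (Nat.card (Z (P i : Subgroup G)) - 1)) + 3
          ≤ 3 * (n * (Nat.card (Z (P i : Subgroup G)) - 1)) + 3 * n := by omega
        _ = 3 * n * (Nat.card (Z (P i : Subgroup G)) - 1 + 1) := by ring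
        _ = 3 * n * Nat.card (Z (P i : Subgroup G)) := by rw [Nat.sub_add_cancel hz1]
        _ ≤ 3 * n * Nat.card (P i : Subgroup G) := Nat.mul_le_mul_left _ hz
        _ ≤ k * n * Nat.card (P i : Subgroup G) := Nat.mul_le_mul_right _ (Nat.mul_le_mul_right _ hk3)
        _ = Nat.card G := by rw [← hcard, hkN]; ring
    · have hz := H.card_Z_le i (P i) hab
      have h9 : 9 ≤ p i ^ 2 := by nlinarith
      have h3 : 3 * Nat.card (Z (P i : Subgroup G)) ≤ Nat.card (P i : Subgroup G) := by
        calc 3 * Nat.card (Z (P i : Subgroup G)) ≤ p i ^ 2 * Nat.card (Z (P i : Subgroup G)) :=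
              Nat.mul_le_mul_right _ (by omega)
          _ ≤ _ := hz
      have hPN : Nat.card (P i : Subgroup G) ≤ Nat.card (Subgroup.normalizer ((P i : Subgroup G) : Set G)) :=
        Subgroup.card_le_of_le Subgroup.le_normalizer
      calc 3 * (n * (Nat.card (Z (P i : Subgroup G)) - 1)) + 3
          ≤ 3 * (n * (Nat.card (Z (P i : Subgroup G)) - 1)) + 3 * n := by omega
        _ = 3 * n * (Nat.card (Z (P i : Subgroup G)) - 1 + 1) := by ring
        _ = n * (3 * Nat.card (Z (P i : Subgroup G))) := by rw [Nat.sub_add_cancel hz1]; ring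
        _ ≤ n * Nat.card (Subgroup.normalizer ((P i : Subgroup G) : Set G)) := Nat.mul_le_mul_left _ (h3.trans hPN)
        _ = Nat.card G := by rw [← hcard]; ring
  rw [Fin.sum_univ_three] at hsum
  have h0 := hbound 0
  have h1 := hbound 1
  have h2 := hbound 2
  have hpos : 0 < Nat.card G := Nat.card_pos
  omega

theorem Hyp.abelian_of_two (H : Hyp G p) (i : Fin 3) (hi : p i = 2) (P : Sylow (p i) G) :
    IsMulCommutative (P : Subgroup G) := by
  have hinv : ∀ x : (P : Subgroup G), x * x = 1 := by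
    intro x
    by_cases hx : x = 1
    · rw [hx, one_mul]
    have h1 : orderOf (x : G) = 2 := (H.order_of_mem i _ P.isPGroup' (x : G) x.2 (fun h => hx (Subtype.ext h))).trans hi
    apply Subtype.ext
    change (x : G) * x = 1
    rw [← pow_two]
    exact orderOf_dvd_iff_pow_eq_one.1 h1.dvd
  refine ⟨⟨fun a b => ?_⟩⟩
  have h1 : ∀ x : (P : Subgroup G), x⁻¹ = x := fun x => inv_eq_of_mul_eq_one_right (hinv x)
  calc a * b = (a * b)⁻¹ := (h1 _).symm
    _ = b⁻¹ * a⁻¹ := mul_inv_rev _ _
    _ = b * a := by rw [h1, h1]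

theorem Z_eq_of_abelian (P : Subgroup G) (hab : IsMulCommutative P) : Z P = P := by
  apply le_antisymm
  · rintro _ ⟨x, -, rfl⟩
    exact x.2
  · intro x hx
    refine ⟨⟨x, hx⟩, ?_, rfl⟩
    rw [SetLike.mem_coe, Subgroup.mem_center_iff]
    intro y
    exact hab.is_comm.comm _ _

theorem Hyp.abelian (H : Hyp G p) (h0 : p 0 = 2) (P : ∀ i, Sylow (p i) G) (i : Fin 3) (hi : i ≠ 0) :
    IsMulCommutative (P i : Subgroup G) := by
  by_contra hab
  have hfact : ∀ i, Fact (p i).Prime := fun i => ⟨H.prime i⟩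
  have hsum := H.sum_eq P
  have hab0 := H.abelian_of_two 0 h0 (P 0)
  obtain ⟨j, hj0, hji⟩ : ∃ j : Fin 3, j ≠ 0 ∧ j ≠ i := by
    fin_cases i
    · exact absurd rfl hi
    · exact ⟨2, by decide, by decide⟩
    · exact ⟨1, by decide, by decide⟩
  have hP1 : ∀ i, p i ≤ Nat.card (P i : Subgroup G) := fun i =>
    Nat.le_of_dvd Nat.card_pos ((P i).dvd_card_of_dvd_card (H.dvd i))
  have hpi : ∀ i, i ≠ 0 → 3 ≤ p i := by
    intro i hi
    have := (H.prime i).two_le
    have : p i ≠ 2 := by
      rw [← h0]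
      exact fun h => hi (H.inj h)
    omega
  -- 3 N_0 ≤ g
  have hb0 : 3 * ((Subgroup.normalizer ((P 0 : Subgroup G) : Set G)).index * (Nat.card (Z (P 0 : Subgroup G)) - 1)) ≤ Nat.card G := by
    obtain ⟨k, o, hk, hkN, hko, ho⟩ := H.index_prime 0 (P 0) hab0
    rw [ho h0, mul_one] at hko
    rw [Z_eq_of_abelian _ hab0, ← hko, ← (Subgroup.normalizer ((P 0 : Subgroup G) : Set G)).card_mul_index, hkN]
    have h3 : 3 ≤ Nat.card (P 0 : Subgroup G) := by
      have := hk.two_le
      omega
    calc _ ≤ Nat.card (P 0 : Subgroup G) * ((Subgroup.normalizer ((P 0 : Subgroup G) : Set G)).index * k) :=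
          Nat.mul_le_mul_right _ h3
      _ = _ := by ring
  -- 2 N_j ≤ g
  have hbj : 2 * ((Subgroup.normalizer ((P j : Subgroup G) : Set G)).index * (Nat.card (Z (P j : Subgroup G)) - 1)) ≤ Nat.card G := by
    rw [← (Subgroup.normalizer ((P j : Subgroup G) : Set G)).card_mul_index]
    by_cases habj : IsMulCommutative (P j : Subgroup G)
    · obtain ⟨k, o, hk, hkN, hko, ho⟩ := H.index_prime j (P j) habj
      rw [Z_eq_of_abelian _ habj, hkN]
      calc _ = (Nat.card (P j : Subgroup G) - 1) * 2 * (Subgroup.normalizer ((P j : Subgroup G) : Set G)).index := by ring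
        _ ≤ _ := Nat.mul_le_mul_right _ (Nat.mul_le_mul (Nat.sub_le _ _) hk.two_le)
    · have hz := H.card_Z_le j (P j) habj
      have hPN : Nat.card (P j : Subgroup G) ≤ Nat.card (Subgroup.normalizer ((P j : Subgroup G) : Set G)) :=
        Subgroup.card_le_of_le Subgroup.le_normalizer
      have h9 : 2 ≤ p j ^ 2 := by have := hpi j hj0; nlinarith
      calc _ = 2 * (Nat.card (Z (P j : Subgroup G)) - 1) * (Subgroup.normalizer ((P j : Subgroup G) : Set G)).index := by ring
        _ ≤ _ := Nat.mul_le_mul_right _ (((Nat.mul_le_mul h9 (Nat.sub_le _ _)).trans hz).trans hPN)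
  -- 9 N_i ≤ g
  have hbi : 9 * ((Subgroup.normalizer ((P i : Subgroup G) : Set G)).index * (Nat.card (Z (P i : Subgroup G)) - 1)) ≤ Nat.card G := by
    rw [← (Subgroup.normalizer ((P i : Subgroup G) : Set G)).card_mul_index]
    have hz := H.card_Z_le i (P i) hab
    have hPN : Nat.card (P i : Subgroup G) ≤ Nat.card (Subgroup.normalizer ((P i : Subgroup G) : Set G)) :=
      Subgroup.card_le_of_le Subgroup.le_normalizer
    have h9 : 9 ≤ p i ^ 2 := by have := hpi i hi; nlinarith
    calc _ = 9 * (Nat.card (Z (P i : Subgroup G)) - 1) * (Subgroup.normalizer ((P i : Subgroup G) : Set G)).index := by ring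
      _ ≤ _ := Nat.mul_le_mul_right _ (((Nat.mul_le_mul h9 (Nat.sub_le _ _)).trans hz).trans hPN)
  -- 81 ≤ g
  have hg : 54 ≤ Nat.card G := by
    rw [H.card_eq_prod P]
    have hz := H.card_Z_le i (P i) hab
    have h9 : 9 ≤ p i ^ 2 := by have := hpi i hi; nlinarith
    have hz1 : 1 ≤ Nat.card (Z (P i : Subgroup G)) := Nat.card_pos
    have hi9 : 9 ≤ Nat.card (P i : Subgroup G) := by nlinarith
    have hj3 : 3 ≤ Nat.card (P j : Subgroup G) := (hpi j hj0).trans (hP1 j)
    have h02 : 2 ≤ Nat.card (P 0 : Subgroup G) := h0.symm.le.trans (hP1 0)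
    have hprod : ∏ i, Nat.card (P i : Subgroup G) = Nat.card (P 0 : Subgroup G) * (Nat.card (P i : Subgroup G) * Nat.card (P j : Subgroup G)) := by
      rw [Fin.prod_univ_three]
      fin_cases i
      · exact absurd rfl hi
      · fin_cases j
        · exact absurd rfl hj0
        · exact absurd rfl hji
        · simp only [mul_assoc]; rfl
      · fin_cases j
        · exact absurd rfl hj0
        · simp only [mul_assoc]; rw [mul_comm (Nat.card (P 1 : Subgroup G))]; rfl
        · exact absurd rfl hji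
    rw [hprod]
    calc 54 = 2 * (9 * 3) := by norm_num
      _ ≤ _ := Nat.mul_le_mul h02 (Nat.mul_le_mul hi9 hj3)
  have hsum' : (Subgroup.normalizer ((P 0 : Subgroup G) : Set G)).index * (Nat.card (Z (P 0 : Subgroup G)) - 1) +
      (Subgroup.normalizer ((P i : Subgroup G) : Set G)).index * (Nat.card (Z (P i : Subgroup G)) - 1) +
      (Subgroup.normalizer ((P j : Subgroup G) : Set G)).index * (Nat.card (Z (P j : Subgroup G)) - 1) = Nat.card G - 1 := by
    rw [← hsum, Fin.sum_univ_three]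
    fin_cases i
    · exact absurd rfl hi
    · fin_cases j
      · exact absurd rfl hj0
      · exact absurd rfl hji
      · rfl
    · fin_cases j
      · exact absurd rfl hj0
      · exact add_right_comm _ _ _
      · exact absurd rfl hji
  omega

/-- the order of the group -/
theorem Hyp.card_aux (H : Hyp G p) (h0 : p 0 = 2) (P : ∀ i, Sylow (p i) G)
    (hdvd : (Nat.card (P 0 : Subgroup G) - 1) ∣ Nat.card (P 1 : Subgroup G)) :
    (Nat.card (P 0 : Subgroup G) = 4 ∧ Nat.card G = 60) ∨ (Nat.card (P 0 : Subgroup G) = 8 ∧ Nat.card G = 504) := by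
  have hfact : ∀ i, Fact (p i).Prime := fun i => ⟨H.prime i⟩
  have hsum := H.sum_eq P
  have hab0 := H.abelian_of_two 0 h0 (P 0)
  have hab1 := H.abelian h0 P 1 (by decide)
  have hab2 := H.abelian h0 P 2 (by decide)
  have hprod := H.card_eq_prod P
  obtain ⟨k0, o0, hk0, hkN0, hko0, ho0⟩ := H.index_prime 0 (P 0) hab0
  obtain ⟨k1, o1, hk1, hkN1, hko1, -⟩ := H.index_prime 1 (P 1) hab1
  obtain ⟨k2, o2, hk2, hkN2, hko2, -⟩ := H.index_prime 2 (P 2) hab2
  rw [ho0 h0, mul_one] at hko0
  have hc0 := (Subgroup.normalizer ((P 0 : Subgroup G) : Set G)).card_mul_index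
  have hc1 := (Subgroup.normalizer ((P 1 : Subgroup G) : Set G)).card_mul_index
  have hc2 := (Subgroup.normalizer ((P 2 : Subgroup G) : Set G)).card_mul_index
  rw [Fin.prod_univ_three] at hprod
  rw [Fin.sum_univ_three, Z_eq_of_abelian _ hab0, Z_eq_of_abelian _ hab1, Z_eq_of_abelian _ hab2] at hsum
  rw [hkN0] at hc0
  rw [hkN1] at hc1
  rw [hkN2] at hc2
  obtain ⟨a, ha⟩ := (P 0).isPGroup'.exists_card_eq
  obtain ⟨b, hb⟩ := (P 1).isPGroup'.exists_card_eq
  obtain ⟨c, hc⟩ := (P 2).isPGroup'.exists_card_eq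
  replace ha : Nat.card (P 0 : Subgroup G) = 2 ^ a := by
    rw [ha]; exact congrArg (fun t => t ^ a) h0
  have hP1 : ∀ i, p i ≤ Nat.card (P i : Subgroup G) := fun i =>
    Nat.le_of_dvd Nat.card_pos ((P i).dvd_card_of_dvd_card (H.dvd i))
  have hp2 : ∀ i, i ≠ 0 → p i ≠ 2 := by
    intro i hi
    rw [← h0]
    exact fun h => hi (H.inj h)
  have hpos0 : 0 < Nat.card (P 0 : Subgroup G) := Nat.card_pos
  have hpos1 : 0 < Nat.card (P 1 : Subgroup G) := Nat.card_pos
  have hpos2 : 0 < Nat.card (P 2 : Subgroup G) := Nat.card_pos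
  have hQ1 : 1 < Nat.card (P 1 : Subgroup G) := (H.prime 1).one_lt.trans_le (hP1 1)
  have hR1 : 1 < Nat.card (P 2 : Subgroup G) := (H.prime 2).one_lt.trans_le (hP1 2)
  set A := Nat.card (P 0 : Subgroup G) with hA
  set Q := Nat.card (P 1 : Subgroup G) with hQ
  set R := Nat.card (P 2 : Subgroup G) with hR
  set n0 := (Subgroup.normalizer ((P 0 : Subgroup G) : Set G)).index
  set n1 := (Subgroup.normalizer ((P 1 : Subgroup G) : Set G)).index
  set n2 := (Subgroup.normalizer ((P 2 : Subgroup G) : Set G)).index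
  have e0 : n0 * (A - 1) = Q * R := by
    rw [← hko0]
    apply Nat.eq_of_mul_eq_mul_left hpos0
    rw [hprod] at hc0
    calc A * (n0 * k0) = A * k0 * n0 := by ring
      _ = A * Q * R := hc0
      _ = _ := by ring
  have e1 : k1 * (n1 * (Q - 1)) = A * R * (Q - 1) := by
    have : k1 * n1 = A * R := by
      apply Nat.eq_of_mul_eq_mul_left hpos1
      rw [hprod] at hc1
      calc Q * (k1 * n1) = Q * k1 * n1 := by ring
        _ = A * Q * R := hc1
        _ = _ := by ring
    rw [← this]; ring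
  have e2 : k2 * (n2 * (R - 1)) = A * Q * (R - 1) := by
    have : k2 * n2 = A * Q := by
      apply Nat.eq_of_mul_eq_mul_left hpos2
      rw [hprod] at hc2
      calc R * (k2 * n2) = R * k2 * n2 := by ring
        _ = A * Q * R := hc2
        _ = _ := by ring
    rw [← this]; ring
  rw [e0, hprod] at hsum
  rw [hprod]
  rcases arith ha hb hc (H.prime 2) (H.prime 1) (hp2 2 (by decide)) (hp2 1 (by decide)) hQ1 hR1 (by rw [← hko0]; exact hk0) hdvd hk1 hk2
    ⟨o1, hko1.symm⟩ ⟨o2, hko2.symm⟩ e1 e2 hsum with ⟨h1, h2, h3⟩ | ⟨h1, h2, h3⟩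
  · left; rw [h1, h2, h3]; exact ⟨rfl, rfl⟩
  · right; rw [h1, h2, h3]; exact ⟨rfl, rfl⟩

theorem Hyp.card (H : Hyp G p) (h0 : p 0 = 2) (P : Sylow (p 0) G) :
    ((Nat.card (P : Subgroup G) = 4 ∧ Nat.card G = 60) ∨ (Nat.card (P : Subgroup G) = 8 ∧ Nat.card G = 504)) ∧
      Nat.card (Subgroup.normalizer ((P : Subgroup G) : Set G)) = Nat.card (P : Subgroup G) * (Nat.card (P : Subgroup G) - 1) := by
  have hfact : ∀ i, Fact (p i).Prime := fun i => ⟨H.prime i⟩
  have hab0 := H.abelian_of_two 0 h0 P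
  obtain ⟨k0, o0, hk0, hkN0, hko0, ho0⟩ := H.index_prime 0 P hab0
  rw [ho0 h0, mul_one] at hko0
  refine ⟨?_, by rw [hkN0, hko0]⟩
  have hP' : ∀ i, Nonempty (Sylow (p i) G) := fun i => inferInstance
  let Q : ∀ i, Sylow (p i) G := fun i => (hP' i).some
  have hcardP : Nat.card (P : Subgroup G) = Nat.card (Q 0 : Subgroup G) := Nat.card_congr (Sylow.equiv P (Q 0)).toEquiv
  have hprod := H.card_eq_prod Q
  have hc0 := (Subgroup.normalizer ((P : Subgroup G) : Set G)).card_mul_index
  have hd : k0 ∣ Nat.card (Q 1 : Subgroup G) * Nat.card (Q 2 : Subgroup G) := by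
    rw [Fin.prod_univ_three, ← hcardP, ← hc0, hkN0] at hprod
    refine ⟨(Subgroup.normalizer ((P : Subgroup G) : Set G)).index, ?_⟩
    apply Nat.eq_of_mul_eq_mul_left (Nat.card_pos (α := (P : Subgroup G)))
    linarith
  rw [hcardP]
  rcases hk0.dvd_mul.1 hd with h | h
  · exact H.card_aux h0 Q (by rw [← hcardP, ← hko0]; exact h)
  · -- swap the last two primes
    have H' := H.comp (Equiv.swap 1 2)
    have e0 : Equiv.swap (1 : Fin 3) 2 0 = 0 := by decide
    have := H'.card_aux (P := fun i => Q (Equiv.swap 1 2 i)) (by change p (Equiv.swap 1 2 0) = 2; rw [e0, h0]) (by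
      change (Nat.card (Q (Equiv.swap 1 2 0) : Subgroup G) - 1) ∣ Nat.card (Q (Equiv.swap 1 2 1) : Subgroup G)
      have e1 : Equiv.swap (1 : Fin 3) 2 1 = 2 := by decide
      rw [e0, e1, ← hcardP, ← hko0]
      exact h)
    change (Nat.card (Q (Equiv.swap 1 2 0) : Subgroup G) = 4 ∧ _) ∨ (Nat.card (Q (Equiv.swap 1 2 0) : Subgroup G) = 8 ∧ _) at this
    rw [e0] at this
    exact this

end H71.FourOrbits
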