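import Mathlib

set_option autoImplicit false

/-! Fixed-point-free action of an element of prime order `q` on an `F_p`-space: the field `F_p[T]/Φ_q` when `p` is a
primitive root modulo `q`, and conversely. -/

namespace H71.FpfModule

open Polynomial

variable {p q : ℕ} [Fact p.Prime] [Fact q.Prime]

theorem aeval_cyclotomic {V : Type*} [AddCommGroup V] [Module (ZMod p) V] [Finite V]
    (ξ : Module.End (ZMod p) V) (hq : ξ ^ q = 1) (hfix : ∀ v, ξ v = v → v = 0) :
    aeval ξ (cyclotomic q (ZMod p)) = 0 := by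
  have h1 : aeval ξ (cyclotomic q (ZMod p)) * (ξ - 1) = 0 := by
    have := congrArg (aeval ξ) (cyclotomic_prime_mul_X_sub_one (ZMod p) q)
    rw [map_mul, map_sub, map_sub, map_pow, aeval_X, map_one, hq, sub_self] at this
    exact this
  have hinj : Function.Injective (ξ - 1 : Module.End (ZMod p) V) := by
    rw [injective_iff_map_eq_zero]
    intro v hv
    apply hfix
    rw [LinearMap.sub_apply, Module.End.one_apply, sub_eq_zero] at hv
    exact hv
  have hsurj : Function.Surjective (ξ - 1 : Module.End (ZMod p) V) := Finite.surjective_of_injective hinj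
  apply LinearMap.ext
  intro v
  obtain ⟨w, rfl⟩ := hsurj v
  have := congrArg (fun T : Module.End (ZMod p) V => T w) h1
  exact this

theorem irreducible_cyclotomic (hpq : p ≠ q) (hord : orderOf (p : ZMod q) = q - 1) :
    Irreducible (cyclotomic q (ZMod p)) := by
  have hpn : ¬ p ∣ q := fun h => hpq ((Nat.prime_dvd_prime_iff_eq Fact.out Fact.out).1 h)
  apply ZMod.irreducible_of_dvd_cyclotomic_of_natDegree hpn dvd_rfl
  rw [natDegree_cyclotomic, Nat.totient_prime Fact.out, ← hord, ← orderOf_units, ZMod.coe_unitOfCoprime]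

/-- the construction over an abstract finite field -/
theorem exists_semilinear_aux {K V : Type*} [Field K] [Finite K] [CharP K p] [AddCommGroup V] [Module K V]
    [Module.Finite K V] (ζ : K) (hζ : ζ ^ q = 1) :
    (∀ u v : V, u ≠ 0 → v ≠ 0 → ∃ s : V ≃+ V, s u = v ∧ ∀ w, s (ζ • w) = ζ • s w) ∧
    (∀ k i : ℕ, (p : ZMod q) ^ i = k → ∃ s : V ≃+ V, ∀ w, s (ζ • w) = ζ ^ k • s w) := by
  classical
  constructor
  · intro u v hu hv
    let e1 := LinearEquiv.toSpanNonzeroSingleton K V u hu
    let e2 := LinearEquiv.toSpanNonzeroSingleton K V v hv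
    obtain ⟨g, hg⟩ := Submodule.exists_linearEquiv_restrict_eq (e1.symm.trans e2)
    refine ⟨g.toAddEquiv, ?_, ?_⟩
    · have h1 := hg (e1 1)
      have h2 : ((e1 1 : Submodule.span K {u}) : V) = u := by
        rw [LinearEquiv.toSpanNonzeroSingleton_apply]; simp
      rw [h2] at h1
      change g u = v
      rw [← h1, LinearEquiv.trans_apply, LinearEquiv.symm_apply_apply, LinearEquiv.toSpanNonzeroSingleton_apply]
      simp
    · intro w
      exact g.map_smul ζ w
  · intro k i hi
    let τ0 : K →+* K := iterateFrobenius K p i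
    have hτ0 : Function.Bijective τ0 := Finite.injective_iff_bijective.1 τ0.injective
    let τ : K ≃+* K := RingEquiv.ofBijective τ0 hτ0
    have hτ : ∀ a, τ a = a ^ p ^ i := fun a => iterateFrobenius_def (R := K) p i a
    have hτroot : τ ζ = ζ ^ k := by
      rw [hτ]
      have hmod : p ^ i ≡ k [MOD q] := by
        rw [← ZMod.natCast_eq_natCast_iff]; push_cast; exact hi
      rw [← Nat.div_add_mod (p ^ i) q, ← Nat.div_add_mod k q, pow_add, pow_add, pow_mul, pow_mul, hζ, one_pow,
        one_pow, hmod]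
    let b := Module.finBasis K V
    let s0 : V ≃+ V := (b.equivFun.toAddEquiv.trans (AddEquiv.piCongrRight (fun _ => τ.toAddEquiv))).trans b.equivFun.symm.toAddEquiv
    have hs0 : ∀ (a : K) (w : V), s0 (a • w) = τ a • s0 w := by
      intro a w
      apply b.equivFun.injective
      have h1 : ∀ w, b.equivFun (s0 w) = fun j => τ (b.equivFun w j) := by
        intro w
        change b.equivFun (b.equivFun.symm _) = _
        rw [LinearEquiv.apply_symm_apply]; rfl
      rw [LinearEquiv.map_smul, h1, h1, LinearEquiv.map_smul]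
      funext j
      change τ (a * b.equivFun w j) = τ a * τ (b.equivFun w j)
      rw [map_mul]
    refine ⟨s0, fun w => ?_⟩
    rw [hs0, hτroot]

/-- the main construction -/
theorem exists_semilinear (hpq : p ≠ q) (hord : orderOf (p : ZMod q) = q - 1)
    {V : Type*} [AddCommGroup V] [Module (ZMod p) V] [Finite V]
    (ξ : Module.End (ZMod p) V) (hq : ξ ^ q = 1) (hfix : ∀ v, ξ v = v → v = 0) :
    (∀ u v : V, u ≠ 0 → v ≠ 0 → ∃ s : V ≃+ V, s u = v ∧ ∀ w, s (ξ w) = ξ (s w)) ∧
    (∀ k : ℕ, ¬ q ∣ k → ∃ s : V ≃+ V, ∀ w, s (ξ w) = (ξ ^ k) (s w)) := by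
  classical
  set f : (ZMod p)[X] := cyclotomic q (ZMod p) with hf
  haveI hirr : Fact (Irreducible f) := ⟨irreducible_cyclotomic hpq hord⟩
  have hξf : aeval ξ f = 0 := aeval_cyclotomic ξ hq hfix
  let Φ : AdjoinRoot f →+* Module.End (ZMod p) V := Ideal.Quotient.lift (Ideal.span {f}) (aeval ξ).toRingHom (by
    intro a ha
    obtain ⟨b, rfl⟩ := Ideal.mem_span_singleton'.1 ha
    change aeval ξ (b * f) = 0
    rw [map_mul, hξf, mul_zero])
  have hΦ : ∀ g : (ZMod p)[X], Φ (AdjoinRoot.mk f g) = aeval ξ g := fun g => rfl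
  have hΦroot : Φ (AdjoinRoot.root f) = ξ := by
    change Φ (AdjoinRoot.mk f X) = ξ
    rw [hΦ, aeval_X]
  have hΦpow : ∀ k : ℕ, Φ (AdjoinRoot.root f ^ k) = ξ ^ k := by
    intro k
    rw [map_pow, hΦroot]
  have hrootq : (AdjoinRoot.root f) ^ q = 1 := by
    have h1 : AdjoinRoot.mk f (X ^ q - 1) = 0 := by
      rw [AdjoinRoot.mk_eq_zero]
      exact ⟨X - 1, by rw [hf, cyclotomic_prime_mul_X_sub_one]⟩
    rw [map_sub, map_pow, AdjoinRoot.mk_X, map_one, sub_eq_zero] at h1
    exact h1
  letI : Module (AdjoinRoot f) V := Module.compHom V Φ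
  have hsmul : ∀ (a : AdjoinRoot f) (v : V), a • v = Φ a v := fun a v => rfl
  haveI : Module.Finite (AdjoinRoot f) V := Module.Finite.of_finite
  haveI : Finite (AdjoinRoot f) := by
    haveI : Module.Finite (ZMod p) (AdjoinRoot f) := (cyclotomic.monic q (ZMod p)).finite_adjoinRoot
    exact Module.finite_of_finite (ZMod p)
  haveI : CharP (AdjoinRoot f) p :=
    charP_of_injective_algebraMap (algebraMap (ZMod p) (AdjoinRoot f)).injective p
  obtain ⟨hA, hB⟩ := exists_semilinear_aux (p := p) (q := q) (K := AdjoinRoot f) (V := V) (AdjoinRoot.root f) hrootq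
  constructor
  · intro u v hu hv
    obtain ⟨s, hs1, hs2⟩ := hA u v hu hv
    refine ⟨s, hs1, fun w => ?_⟩
    have := hs2 w
    rw [hsmul, hsmul, hΦroot] at this
    exact this
  · intro k hk
    -- k ≡ p^i mod q
    have hk0 : (k : ZMod q) ≠ 0 := by rwa [Ne, ZMod.natCast_eq_zero_iff]
    have hp0 : (p : ZMod q) ≠ 0 := by
      rw [Ne, ZMod.natCast_eq_zero_iff]
      intro h
      exact hpq ((Nat.prime_dvd_prime_iff_eq Fact.out Fact.out).1 h).symm
    have hex : ∃ i : ℕ, (p : ZMod q) ^ i = k := by
      let P' : (ZMod q)ˣ := Units.mk0 _ hp0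
      let K' : (ZMod q)ˣ := Units.mk0 _ hk0
      have h1 : orderOf P' = Fintype.card (ZMod q)ˣ := by
        rw [ZMod.card_units, ← hord, ← orderOf_units]; rfl
      have h2 : K' ∈ Subgroup.zpowers P' := by
        have : Subgroup.zpowers P' = ⊤ := by
          apply Subgroup.eq_top_of_card_eq
          rw [Nat.card_zpowers, h1, Nat.card_eq_fintype_card]
        rw [this]; trivial
      rw [← mem_powers_iff_mem_zpowers] at h2
      obtain ⟨i, hi⟩ := h2
      refine ⟨i, ?_⟩
      have := congrArg Units.val hi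
      simpa [P', K'] using this
    obtain ⟨i, hi⟩ := hex
    obtain ⟨s, hs⟩ := hB k i hi
    refine ⟨s, fun w => ?_⟩
    have := hs w
    rw [hsmul, hsmul, hΦpow, hΦroot] at this
    exact this

/-- converse: if every polynomial in `ξ` killing a nonzero vector is zero, and `ξ` is conjugate to all its powers, then
`p` is a primitive root modulo `q`. -/
theorem orderOf_eq (hpq : p ≠ q) {V : Type*} [AddCommGroup V] [Module (ZMod p) V] [Finite V] [Nontrivial V]
    (ξ : Module.End (ZMod p) V) (hq : ξ ^ q = 1) (hfix : ∀ v, ξ v = v → v = 0)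
    (hstar : ∀ (g : (ZMod p)[X]) (w : V), w ≠ 0 → aeval ξ g w = 0 → aeval ξ g = 0)
    (hσ : ∀ k : ℕ, ¬ q ∣ k → ∃ s : V ≃+ V, ∀ w, s (ξ w) = (ξ ^ k) (s w)) :
    orderOf (p : ZMod q) = q - 1 := by
  classical
  have hqp : q.Prime := Fact.out
  have hpp : p.Prime := Fact.out
  haveI : Module.Finite (ZMod p) V := Module.Finite.of_finite
  have hint : IsIntegral (ZMod p) ξ := Algebra.IsIntegral.isIntegral ξ
  set m := minpoly (ZMod p) ξ with hm
  have hmirr : Irreducible m := by
    have hmonic : m.Monic := minpoly.monic hint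
    rw [irreducible_iff]
    refine ⟨minpoly.not_isUnit (ZMod p) ξ, ?_⟩
    intro a b hab
    have hm0 : m ≠ 0 := hmonic.ne_zero
    have ha0 : a ≠ 0 := by rintro rfl; rw [zero_mul] at hab; exact hm0 hab
    have hb0 : b ≠ 0 := by rintro rfl; rw [mul_zero] at hab; exact hm0 hab
    have h1 : aeval ξ a * aeval ξ b = 0 := by
      rw [← map_mul, ← hab]; exact minpoly.aeval _ _
    by_cases hb : aeval ξ b = 0
    · left
      have h2 : m ∣ b := minpoly.dvd _ _ hb
      have h3 : m.natDegree ≤ b.natDegree := natDegree_le_of_dvd h2 hb0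
      rw [hab, natDegree_mul ha0 hb0] at h3
      exact (isUnit_iff_degree_eq_zero).2 (by rw [degree_eq_natDegree ha0]; norm_cast; omega)
    · right
      have hex : ∃ w, aeval ξ b w ≠ 0 := by
        by_contra hno
        push Not at hno
        exact hb (LinearMap.ext hno)
      obtain ⟨w, hw⟩ := hex
      have ha : aeval ξ a = 0 := by
        apply hstar a _ hw
        have := congrArg (fun T : Module.End (ZMod p) V => T w) h1
        exact this
      have h2 : m ∣ a := minpoly.dvd _ _ ha
      have h3 : m.natDegree ≤ a.natDegree := natDegree_le_of_dvd h2 ha0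
      rw [hab, natDegree_mul ha0 hb0] at h3
      exact (isUnit_iff_degree_eq_zero).2 (by rw [degree_eq_natDegree hb0]; norm_cast; omega)
  have hdvd : m ∣ cyclotomic q (ZMod p) := minpoly.dvd _ _ (aeval_cyclotomic ξ hq hfix)
  have hcop : p.Coprime q := (Nat.coprime_primes hpp hqp).2 hpq
  have hdeg : m.natDegree = orderOf (p : ZMod q) := by
    have := natDegree_of_dvd_cyclotomic_of_irreducible (K := ZMod p) (p := p) (f := 1) (n := q) (by simp) hcop hdvd hmirr
    rw [this, ← orderOf_units, ZMod.coe_unitOfCoprime]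
    simp
  -- m(ζ^k) = 0
  haveI : Fact (Irreducible m) := ⟨hmirr⟩
  let K := AdjoinRoot m
  set ζ : K := AdjoinRoot.root m with hζ
  have hmk : ∀ k : ℕ, ¬ q ∣ k → aeval (ξ ^ k) m = 0 := by
    intro k hk
    obtain ⟨s, hs⟩ := hσ k hk
    have hs' : ∀ (g : (ZMod p)[X]) w, s (aeval ξ g w) = aeval (ξ ^ k) g (s w) := by
      intro g
      induction g using Polynomial.induction_on' with
      | add g h hg hh =>
        intro w
        rw [map_add, map_add, LinearMap.add_apply, LinearMap.add_apply, map_add, hg, hh]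
      | monomial n a =>
        intro w
        rw [← C_mul_X_pow_eq_monomial, map_mul, map_mul, aeval_C, aeval_C, map_pow, map_pow, aeval_X, aeval_X]
        have h1 : ∀ (n : ℕ) (w : V), s ((ξ ^ n) w) = ((ξ ^ k) ^ n) (s w) := by
          intro n
          induction n with
          | zero => intro w; simp
          | succ n ih =>
            intro w
            rw [pow_succ, Module.End.mul_apply, ih, hs, pow_succ, Module.End.mul_apply]
        rw [Module.End.mul_apply, Module.End.mul_apply, Module.algebraMap_end_apply, Module.algebraMap_end_apply, ← h1]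
        have h2 : ∀ (c : ZMod p) (v : V), s (c • v) = c • s v := by
          intro c v
          exact ZMod.map_smul s.toAddMonoidHom c v
        exact h2 a _
    apply LinearMap.ext
    intro w
    have := hs' m (s.symm w)
    rw [AddEquiv.apply_symm_apply, minpoly.aeval] at this
    rw [← this]; simp
  have hroots : ∀ k : ℕ, ¬ q ∣ k → (m.map (algebraMap (ZMod p) K)).IsRoot (ζ ^ k) := by
    intro k hk
    have h1 : m ∣ m.comp (X ^ k) := by
      apply minpoly.dvd
      rw [aeval_comp, map_pow, aeval_X]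
      exact hmk k hk
    rw [IsRoot.def, eval_map_algebraMap]
    have h2 : aeval ζ (m.comp (X ^ k)) = 0 := by
      obtain ⟨c, hc⟩ := h1
      rw [hc, map_mul]
      have : aeval ζ m = 0 := by
        rw [hζ, AdjoinRoot.aeval_eq, AdjoinRoot.mk_self]
      rw [this, zero_mul]
    rw [aeval_comp, map_pow, aeval_X] at h2
    exact h2
  have hζ1 : ζ ≠ 1 := by
    intro h
    have h1 : AdjoinRoot.mk m (X - 1) = 0 := by rw [map_sub, AdjoinRoot.mk_X, map_one, ← hζ, h, sub_self]
    rw [AdjoinRoot.mk_eq_zero] at h1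
    obtain ⟨c, hc⟩ := h1
    have h2 : aeval ξ (X - 1 : (ZMod p)[X]) = 0 := by rw [hc, map_mul, minpoly.aeval, zero_mul]
    rw [map_sub, aeval_X, map_one, sub_eq_zero] at h2
    obtain ⟨v, hv⟩ := exists_ne (0 : V)
    apply hv
    apply hfix
    rw [h2]; rfl
  have hζq : ζ ^ q = 1 := by
    have h1 : AdjoinRoot.mk m (X ^ q - 1) = 0 := by
      rw [AdjoinRoot.mk_eq_zero, ← cyclotomic_prime_mul_X_sub_one (ZMod p) q]
      exact hdvd.mul_right _
    rw [map_sub, map_pow, AdjoinRoot.mk_X, map_one, sub_eq_zero] at h1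
    exact h1
  have hζord : orderOf ζ = q := orderOf_eq_prime hζq hζ1
  -- count the roots
  have hle : q - 1 ≤ m.natDegree := by
    have hm0 : m.map (algebraMap (ZMod p) K) ≠ 0 := map_ne_zero hmirr.ne_zero
    let S : Finset K := (Finset.Ico 1 q).image (fun k => ζ ^ k)
    have hS : S ⊆ (m.map (algebraMap (ZMod p) K)).roots.toFinset := by
      intro z hz
      obtain ⟨k, hk, rfl⟩ := Finset.mem_image.1 hz
      rw [Finset.mem_Ico] at hk
      rw [Multiset.mem_toFinset, mem_roots hm0]
      exact hroots k (Nat.not_dvd_of_pos_of_lt (by omega) hk.2)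
    have hScard : S.card = q - 1 := by
      rw [Finset.card_image_of_injOn, Nat.card_Ico]
      intro a ha b hb hab
      rw [Finset.coe_Ico, Set.mem_Ico] at ha hb
      exact pow_injOn_Iio_orderOf (by rw [hζord]; exact ha.2) (by rw [hζord]; exact hb.2) hab
    calc q - 1 = S.card := hScard.symm
      _ ≤ _ := Finset.card_le_card hS
      _ ≤ _ := Multiset.toFinset_card_le _
      _ ≤ _ := card_roots' _
      _ = m.natDegree := natDegree_map _
  rw [hdeg] at hle
  apply le_antisymm _ hle
  have hp0 : (p : ZMod q) ≠ 0 := by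
    rw [Ne, ZMod.natCast_eq_zero_iff]
    intro h
    exact hpq ((Nat.prime_dvd_prime_iff_eq hqp hpp).1 h).symm
  exact Nat.le_of_dvd (by have := hqp.two_le; omega) (orderOf_dvd_of_pow_eq_one (ZMod.pow_card_sub_one_eq_one hp0))

end H71.FpfModule
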