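import Mathlib
import Cfsg.Agent.Lib.H1.Frob
import Cfsg.Agent.Lib.H1.Coprime2
import Cfsg.Agent.Lib.H66.CopAb

/-! A group acting on a `p`-group so that all nonidentity elements have the same fixed points is (isomorphic to)
a Frobenius complement. -/

set_option autoImplicit false
open Subgroup Cfsg

namespace H71.FrobSection

open H1.Coprime H1.Coprime2

universe u

variable {G : Type u} [Group G] [Finite G]

theorem exists_frobenius (H P : Subgroup G) (p : ℕ) [Fact p.Prime] (hP : IsPGroup p P)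
    (hHP : H ≤ normalizer (P : Set G)) (hcop : (Nat.card H).Coprime (Nat.card P)) (hH : H ≠ ⊥)
    (hfix : ∀ h ∈ H, h ≠ 1 → P ⊓ centralizer {h} ≤ centralizer (H : Set G))
    (hne : ¬ P ≤ centralizer (H : Set G)) :
    ∃ (F : Type u) (_ : Group F) (_ : Finite F) (C : Subgroup F), Cfsg.IsFrobeniusComplement C ∧ Nonempty (H ≃* C) := by
  have hPnil : Group.IsNilpotent P := hP.isNilpotent
  have hPsolv : Group.IsSolvable P := inferInstance
  set W : Subgroup G := ⁅P, H⁆ with hW
  have hWP : W ≤ P := commutator_le_left hHP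
  have hWW : ⁅W, H⁆ = W := commutator_commutator_eq H P hHP hcop (Or.inr hPsolv)
  have hWbot : W ≠ ⊥ := by
    intro h
    rw [hW, Subgroup.commutator_eq_bot_iff_le_centralizer] at h
    exact hne h
  have hHW : H ≤ normalizer (W : Set G) := le_normalizer_commutator hHP Subgroup.le_normalizer
  have hWp : IsPGroup p W := hP.to_le hWP
  have hWnil : Group.IsNilpotent W := hWp.isNilpotent
  have hWsolv : Group.IsSolvable W := inferInstance
  have hcopW : (Nat.card H).Coprime (Nat.card W) := hcop.coprime_dvd_right (Subgroup.card_dvd_of_le hWP)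
  set D : Subgroup G := ⁅W, W⁆ with hD
  have hDW : D < W := commutator_lt_of_isPGroup hWp hWp Subgroup.le_normalizer hWbot
  have hHD : H ≤ normalizer (D : Set G) := le_normalizer_commutator hHW hHW
  have hWD : W ≤ normalizer (D : Set G) := le_normalizer_commutator Subgroup.le_normalizer Subgroup.le_normalizer
  set X : Subgroup G := W ⊔ H with hX
  have hWX : W ≤ X := le_sup_left
  have hHX : H ≤ X := le_sup_right
  have hDX : D ≤ X := hDW.le.trans hWX
  have hDn : (D.subgroupOf X).Normal := by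
    rw [Subgroup.normal_subgroupOf_iff_le_normalizer hDX]
    exact sup_le hWD hHD
  have hWn : (W.subgroupOf X).Normal := by
    rw [Subgroup.normal_subgroupOf_iff_le_normalizer hWX]
    exact sup_le Subgroup.le_normalizer hHW
  set f : X →* X ⧸ D.subgroupOf X := QuotientGroup.mk' (D.subgroupOf X) with hf
  have hfsurj : Function.Surjective f := QuotientGroup.mk'_surjective _
  have hf1 : ∀ x : X, f x = 1 ↔ (x : G) ∈ D := by
    intro x
    rw [hf, QuotientGroup.mk'_apply, QuotientGroup.eq_one_iff, Subgroup.mem_subgroupOf]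
  set K : Subgroup (X ⧸ D.subgroupOf X) := (W.subgroupOf X).map f with hK
  set C : Subgroup (X ⧸ D.subgroupOf X) := (H.subgroupOf X).map f with hC
  have hKn : K.Normal := hWn.map f hfsurj
  have hHdis : H ⊓ W = ⊥ := inf_eq_bot_of_coprime_card hcopW
  -- the isomorphism `H ≃ C`
  have hinj : Function.Injective (f.comp (Subgroup.inclusion hHX)) := by
    rw [injective_iff_map_eq_one]
    intro h hh
    have h1 : (h : G) ∈ D := (hf1 _).1 hh
    have h2 : (h : G) ∈ H ⊓ W := ⟨h.2, hDW.le h1⟩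
    rw [hHdis, Subgroup.mem_bot] at h2
    exact Subtype.ext h2
  have hrange : (f.comp (Subgroup.inclusion hHX)).range = C := by
    rw [MonoidHom.range_comp, hC]
    congr 1
    ext x
    constructor
    · rintro ⟨y, rfl⟩; exact y.2
    · intro hx; exact ⟨⟨x, hx⟩, rfl⟩
  have hiso : Nonempty (H ≃* C) := by
    rw [← hrange]
    exact ⟨MonoidHom.ofInjective hinj⟩
  have hcardC : Nat.card C = Nat.card H := (Nat.card_congr hiso.some.toEquiv).symm
  have hcardK : Nat.card K ∣ Nat.card W := by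
    have h1 := Subgroup.card_map_dvd (W.subgroupOf X) f
    rwa [H1.SZ.card_subgroupOf_of_le hWX] at h1
  have hcopCK : (Nat.card C).Coprime (Nat.card K) := by
    rw [hcardC]; exact hcopW.coprime_dvd_right hcardK
  have hCKdis : C ⊓ K = ⊥ := inf_eq_bot_of_coprime_card hcopCK
  have hsup : K ⊔ C = ⊤ := by
    rw [hK, hC, ← Subgroup.map_sup, ← Subgroup.subgroupOf_sup hWX hHX, ← hX, Subgroup.subgroupOf_self,
      ← MonoidHom.range_eq_map]
    exact MonoidHom.range_eq_top.2 hfsurj
  have hcompl : K.IsComplement' C := by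
    apply Subgroup.isComplement'_of_disjoint_and_mul_eq_univ
    · rw [disjoint_iff, inf_comm]; exact hCKdis
    · rw [← Subgroup.normal_mul K C, hsup, Subgroup.coe_top]
  have hKbot : K ≠ ⊥ := by
    intro h
    apply hDW.not_ge
    intro w hw
    have h1 : f ⟨w, hWX hw⟩ ∈ K := ⟨⟨w, hWX hw⟩, hw, rfl⟩
    rw [h, Subgroup.mem_bot, hf1] at h1
    exact h1
  have hCbot : C ≠ ⊥ := by
    intro h
    apply hH
    rw [← Subgroup.card_eq_one, ← hcardC, h, Subgroup.card_bot]
  have hKab : ∀ x ∈ K, ∀ y ∈ K, x * y = y * x := by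
    rintro _ ⟨x, hx, rfl⟩ _ ⟨y, hy, rfl⟩
    have h1 : f (x * y * x⁻¹ * y⁻¹) = 1 := by
      rw [hf1]
      exact Subgroup.commutator_mem_commutator (Subgroup.mem_subgroupOf.1 hx) (Subgroup.mem_subgroupOf.1 hy)
    rw [map_mul, map_mul, map_mul, map_inv, map_inv, mul_inv_eq_one, mul_inv_eq_iff_eq_mul] at h1
    exact h1
  have hKC : ⁅K, C⁆ = K := by
    have h1 : ⁅W.subgroupOf X, H.subgroupOf X⁆ = W.subgroupOf X := by
      apply Subgroup.map_injective X.subtype_injective
      rw [Subgroup.map_commutator, Subgroup.map_subgroupOf_eq_of_le hWX, Subgroup.map_subgroupOf_eq_of_le hHX, hWW]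
    rw [hK, hC, ← Subgroup.map_commutator, h1]
  refine ⟨X ⧸ D.subgroupOf X, inferInstance, inferInstance, C, ?_, hiso⟩
  rw [H1.Frob.isFrobeniusComplement_iff K C hcompl hKbot hCbot]
  rintro _ ⟨h, hh, rfl⟩ hh1
  rw [eq_bot_iff]
  rintro _ ⟨⟨w, hw, rfl⟩, hwc⟩
  have hhH : (h : G) ∈ H := hh
  have hwW : (w : G) ∈ W := hw
  have hne1 : (h : G) ≠ 1 := by
    intro h1
    apply hh1
    rw [hf1, h1]; exact D.one_mem
  have hcomm : Commute (f h) (f w) := by
    have := Subgroup.mem_centralizer_singleton_iff.1 hwc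
    exact this.symm
  have hfixw : ∀ a ∈ Subgroup.zpowers (h : G), a * w * a⁻¹ * (w : G)⁻¹ ∈ D := by
    rintro _ ⟨k, rfl⟩
    have h1 : f (h ^ k * w * (h ^ k)⁻¹ * w⁻¹) = 1 := by
      rw [map_mul, map_mul, map_mul, map_inv, map_inv, map_zpow, (hcomm.zpow_left k).eq]
      group
    have h2 := (hf1 _).1 h1
    simpa using h2
  have hzle : Subgroup.zpowers (h : G) ≤ H := by rw [Subgroup.zpowers_le]; exact hhH
  obtain ⟨c, hc, hcD⟩ := exists_fixed_of_coset_fixed (Subgroup.zpowers (h : G)) W (hzle.trans hHW)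
    (hcopW.coprime_dvd_left (Subgroup.card_dvd_of_le hzle)) (Or.inr hWsolv) D hDW.le hWD (hzle.trans hHD) (w : G) hwW hfixw
  have hcH : c ∈ centralizer (H : Set G) := by
    apply hfix (h : G) hhH hne1
    refine ⟨hWP hc.1, ?_⟩
    change c ∈ centralizer {(h : G)}
    rw [Subgroup.mem_centralizer_singleton_iff]
    exact (Subgroup.mem_centralizer_iff.1 hc.2 h (Subgroup.mem_zpowers _)).symm
  have hfw : f w = f ⟨c, hWX hc.1⟩ := by
    have h1 : f (w⁻¹ * ⟨c, hWX hc.1⟩) = 1 := by
      rw [hf1]; exact hcD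
    rw [map_mul, map_inv, inv_mul_eq_one] at h1
    exact h1
  have hmem : f w ∈ ⁅K, C⁆ ⊓ centralizer (C : Set (X ⧸ D.subgroupOf X)) := by
    refine ⟨?_, ?_⟩
    · rw [hKC]; exact ⟨w, hw, rfl⟩
    · change f w ∈ centralizer (C : Set (X ⧸ D.subgroupOf X))
      rw [Subgroup.mem_centralizer_iff]
      rintro _ ⟨y, hy, rfl⟩
      rw [hfw, ← map_mul, ← map_mul]
      congr 1
      apply Subtype.ext
      exact Subgroup.mem_centralizer_iff.1 hcH y hy
  rw [H66.CopAb.commutator_inf_centralizer C K hKab (by rw [Subgroup.normalizer_eq_top]; exact le_top) hcopCK] at hmem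
  exact hmem

end H71.FrobSection
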