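import Cfsg.Agent.Lib.H1.Frob
import Cfsg.Agent.Lib.H1.Hall
import Cfsg.Agent.Lib.H4.TI
import Cfsg.Agent.Lib.H18.CharQuot

/-!
# The theorem of Frobenius and Wielandt

If `L ⊴ A ≤ G` and `A ∩ A^g ≤ L` for `g ∉ A`, there is `M ⊴ G` with `M ∩ A = L` and `M A = G`.
-/

set_option autoImplicit false
open Subgroup Cfsg
open scoped ComplexConjugate

namespace H71.FrobWiel

open H18.CharBasic H18.CharOrtho H18.CharInd H18.CharQuot

universe u

variable {G : Type u} [Group G] [Finite G]

theorem conj_mem {A L : Subgroup G} (hLn : A ≤ normalizer (L : Set G)) {a l : G} (ha : a ∈ A) :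
    l ∈ L ↔ a * l * a⁻¹ ∈ L := Subgroup.mem_normalizer_iff.1 (hLn ha) l

/-- characters of `A` with `L` in the kernel extend -/
theorem exists_extension {A L : Subgroup G} (hLn : A ≤ normalizer (L : Set G))
    (hFW : ∀ g ∉ A, ∀ x ∈ A, g * x * g⁻¹ ∈ A → x ∈ L) {φ : A → ℂ}
    (hφ : IsIrrCharacter A φ) (hker : ∀ l : A, (l : G) ∈ L → φ l = φ 1) :
    ∃ χ : G → ℂ, IsIrrCharacter G χ ∧ (∀ h : A, χ h = φ h) ∧
      ∀ x, (∀ g : G, g⁻¹ * x * g ∈ A → g⁻¹ * x * g ∈ L) → χ x = χ 1 := by
  classical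
  have := Fintype.ofFinite G
  have := Fintype.ofFinite A
  by_cases hφ1 : φ = fun _ => 1
  · subst hφ1
    exact ⟨fun _ => 1, isIrrCharacter_one, fun _ => rfl, fun _ _ => rfl⟩
  obtain ⟨d, hd, hd1⟩ := exists_degree_pos hφ
  set one : A → ℂ := fun _ => 1 with hone
  set oneG : G → ℂ := fun _ => 1 with honeG
  set θ : A → ℂ := φ - (d : ℂ) • one with hθ
  have hθgen : IsGeneralizedCharacter A θ :=
    ⟨φ, (d : ℂ) • one, isCharacter_of_isIrr hφ, isCharacter_natCast_smul d isCharacter_one, rfl⟩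
  have hθc : IsClassFunction A θ := isClassFunction_of_isGen hθgen
  have hθL : ∀ l : A, (l : G) ∈ L → θ l = 0 := by
    intro l hl
    have h3 : θ l = φ l - (d : ℂ) * 1 := rfl
    rw [h3, hker l hl, hd1]; ring
  have hθ1 : θ 1 = 0 := hθL 1 L.one_mem
  set χ : G → ℂ := indFun A θ + (d : ℂ) • oneG with hχ
  have hχgen : IsGeneralizedCharacter G χ :=
    isGen_add (isGen_ind A hθgen) (isGen_of_isCharacter (isCharacter_natCast_smul d isCharacter_one))
  set T : Set G := {x | x ∈ A ∧ x ∉ L} with hTdef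
  have hT : ∀ g : G, g ∉ A → ∀ t ∈ T, g * t * g⁻¹ ∈ T → t = 1 := by
    intro g hg t ht hgt
    exact absurd (hFW g hg t ht.1 hgt.1) ht.2
  have hsupp : ∀ x : A, (x : G) ∉ T → θ x = 0 := by
    intro x hx
    apply hθL
    by_contra h
    exact hx ⟨x.2, h⟩
  -- `Ind θ` vanishes off the conjugates of `A ∖ L`
  have hzero : ∀ x : G, (∀ g : G, g⁻¹ * x * g ∈ A → g⁻¹ * x * g ∈ L) → indFun A θ x = 0 := by
    intro x hx
    rw [indFun_apply]
    have : ∀ y : G, extendByZero A θ (y⁻¹ * x * y) = 0 := by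
      intro y
      by_cases hy : y⁻¹ * x * y ∈ A
      · rw [ext_mem A θ hy]
        exact hθL _ (hx y hy)
      · exact ext_notMem A θ hy
    simp [this]
  have hres : ∀ h : A, χ h = φ h := by
    intro h
    have hval : indFun A θ h = θ h := by
      by_cases hL : (h : G) ∈ L
      · rw [hθL h hL]
        apply hzero
        intro g hg
        by_cases hgA : g ∈ A
        · have h1 := (conj_mem hLn (A.inv_mem hgA)).1 hL
          rwa [inv_inv] at h1
        · have h1 : g * (g⁻¹ * (h : G) * g) * g⁻¹ ∈ A := by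
            have : g * (g⁻¹ * (h : G) * g) * g⁻¹ = h := by group
            rw [this]; exact h.2
          exact hFW g hgA _ hg h1
      · have h1 : h ≠ 1 := by
          rintro rfl
          exact hL L.one_mem
        exact H4.TI.indFun_eq_of_TI A T hT hθc hsupp h ⟨h.2, hL⟩ h1
    have h2 : χ h = indFun A θ h + (d : ℂ) * 1 := rfl
    have h3 : θ h = φ h - (d : ℂ) * 1 := rfl
    rw [h2, hval, h3]; ring
  have h1φ : classInner φ one = 0 := inner_irr_ne hφ isIrrCharacter_one hφ1
  have hφ1' : classInner one φ = 0 := inner_irr_ne isIrrCharacter_one hφ (Ne.symm hφ1)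
  have hφφ : classInner φ φ = 1 := inner_irr_self hφ
  have h11 : classInner one one = 1 := inner_irr_self isIrrCharacter_one
  have h11G : classInner oneG oneG = 1 := inner_irr_self isIrrCharacter_one
  have hθθ : classInner θ θ = 1 + (d : ℂ) * d := by
    simp only [hθ, H18.CharOrtho.inner_sub_left, H18.CharOrtho.inner_sub_right, H18.CharOrtho.inner_smul_left,
      H18.CharOrtho.inner_smul_right, h1φ, hφ1', hφφ, h11, Complex.conj_natCast]
    ring
  have hII : classInner (indFun A θ) (indFun A θ) = 1 + (d : ℂ) * d := by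
    rw [H4.TI.inner_indFun_of_TI A T hT hθc hsupp hsupp hθ1, hθθ]
  have hcf : IsClassFunction G oneG := isClassFunction_of_isIrr isIrrCharacter_one
  have hI1 : classInner (indFun A θ) oneG = -(d : ℂ) := by
    rw [frobenius A θ hcf]
    have : (fun x : A => oneG x) = one := rfl
    rw [this, hθ, H18.CharOrtho.inner_sub_left, H18.CharOrtho.inner_smul_left, h1φ, h11]
    ring
  have h1I : classInner oneG (indFun A θ) = -(d : ℂ) := by
    rw [← H18.CharOrtho.inner_conj_symm, hI1]; simp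
  have hnorm : classInner χ χ = 1 := by
    simp only [hχ, H18.CharOrtho.inner_add_left, H18.CharOrtho.inner_add_right, H18.CharOrtho.inner_smul_left,
      H18.CharOrtho.inner_smul_right, hII, hI1, h1I, h11G, Complex.conj_natCast]
    ring
  have hχ1 : χ 1 = d := by
    have := hres 1
    rw [hd1] at this
    exact this
  refine ⟨χ, isIrr_of_gen_norm_one hχgen hnorm ?_, hres, ?_⟩
  · rw [hχ1]; simpa using hd
  · intro x hx
    rw [hχ1]
    simp [hχ, hzero x hx, honeG]

/-- **Frobenius–Wielandt** -/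
theorem frobenius_wielandt {A L : Subgroup G} (hLA : L ≤ A) (hLn : A ≤ normalizer (L : Set G))
    (hFW : ∀ g ∉ A, ∀ x ∈ A, g * x * g⁻¹ ∈ A → x ∈ L) :
    ∃ M : Subgroup G, M.Normal ∧ M ⊓ A = L ∧ M ⊔ A = ⊤ := by
  classical
  have hn : (L.subgroupOf A).Normal := by
    rwa [Subgroup.normal_subgroupOf_iff_le_normalizer hLA]
  let Φ := {φ : IrrCharacter A // ∀ n ∈ L.subgroupOf A, (φ : A → ℂ) n = (φ : A → ℂ) 1}
  choose χ hχ hres hker using fun φ : Φ =>
    exists_extension hLn hFW φ.1.2 (fun l hl => φ.2 l (Subgroup.mem_subgroupOf.2 hl))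
  set M : Subgroup G := ⨅ φ : Φ, kerSub (χ φ) (isCharacter_of_isIrr (hχ φ)) with hM
  have hMn : M.Normal := Subgroup.normal_iInf_normal fun φ => inferInstance
  set K : Set G := {x | ∀ g : G, g⁻¹ * x * g ∈ A → g⁻¹ * x * g ∈ L} with hK
  have hKM : K ⊆ (M : Set G) := by
    intro x hx
    rw [SetLike.mem_coe, hM, mem_iInf]
    intro φ
    rw [mem_kerSub]
    exact hker φ x hx
  have hMA : M ⊓ A = L := by
    apply le_antisymm
    · intro x hx
      obtain ⟨hx1, hx2⟩ := mem_inf.mp hx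
      have h1 : ((⟨x, hx2⟩ : A) : A ⧸ L.subgroupOf A) = 1 := by
        apply eq_one_of_forall_irr
        intro ψ hψ
        have h2 := (irrQuotEquiv (L.subgroupOf A) ⟨ψ, hψ⟩).2
        rw [hM, mem_iInf] at hx1
        have h3 := (mem_kerSub _).mp (hx1 (irrQuotEquiv (L.subgroupOf A) ⟨ψ, hψ⟩))
        have h4 := hres (irrQuotEquiv (L.subgroupOf A) ⟨ψ, hψ⟩) ⟨x, hx2⟩
        have h5 := hres (irrQuotEquiv (L.subgroupOf A) ⟨ψ, hψ⟩) 1
        have h6 := h4.symm.trans (h3.trans h5)
        rw [irrQuotEquiv_apply, irrQuotEquiv_apply] at h6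
        exact h6
      rw [QuotientGroup.eq_one_iff, Subgroup.mem_subgroupOf] at h1
      exact h1
    · intro x hx
      refine mem_inf.2 ⟨?_, hLA hx⟩
      rw [hM, mem_iInf]
      intro φ
      rw [mem_kerSub]
      have h4 := hres φ ⟨x, hLA hx⟩
      have h5 := hres φ 1
      exact h4.trans ((φ.2 ⟨x, hLA hx⟩ (Subgroup.mem_subgroupOf.2 hx)).trans h5.symm)
  refine ⟨M, hMn, hMA, ?_⟩
  -- counting
  have hAL : Nat.card {a : G // a ∈ A ∧ a ∉ L} + Nat.card L = Nat.card A := by
    have h1 : Nat.card A = Nat.card ({a : G // a ∈ A ∧ a ∉ L} ⊕ L) := by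
      apply Nat.card_congr
      exact
        { toFun := fun a => if h : (a : G) ∈ L then Sum.inr ⟨a, h⟩ else Sum.inl ⟨a, a.2, h⟩
          invFun := fun s => s.elim (fun a => ⟨a.1, a.2.1⟩) (fun l => ⟨l.1, hLA l.2⟩)
          left_inv := by
            intro a
            by_cases h : (a : G) ∈ L <;> simp [h]
          right_inv := by
            rintro (⟨a, ha1, ha2⟩ | ⟨l, hl⟩)
            · simp [ha2]
            · simp [hl] }
    rw [h1, Nat.card_sum]
  have hcompl : Nat.card {x : G // x ∉ K} ≤ A.index * Nat.card {a : G // a ∈ A ∧ a ∉ L} := by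
    have h1 : A.index * Nat.card {a : G // a ∈ A ∧ a ∉ L} = Nat.card ((G ⧸ A) × {a : G // a ∈ A ∧ a ∉ L}) := by
      rw [Nat.card_prod]; rfl
    rw [h1]
    have hex : ∀ x : {x : G // x ∉ K}, ∃ p : (G ⧸ A) × {a : G // a ∈ A ∧ a ∉ L}, p.1.out * p.2.1 * p.1.out⁻¹ = x.1 := by
      rintro ⟨x, hx⟩
      rw [hK, Set.mem_setOf_eq] at hx
      push Not at hx
      obtain ⟨g, hg1, hg2⟩ := hx
      have hr : (QuotientGroup.mk g : G ⧸ A).out⁻¹ * g ∈ A := by
        rw [← QuotientGroup.eq, QuotientGroup.out_eq']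
      set r := (QuotientGroup.mk g : G ⧸ A).out with hrdef
      have e : r⁻¹ * x * r = (r⁻¹ * g) * (g⁻¹ * x * g) * (r⁻¹ * g)⁻¹ := by group
      refine ⟨⟨QuotientGroup.mk g, ⟨r⁻¹ * x * r, ?_, ?_⟩⟩, ?_⟩
      · rw [e]; exact A.mul_mem (A.mul_mem hr hg1) (A.inv_mem hr)
      · rw [e, ← conj_mem hLn hr]; exact hg2
      · change r * (r⁻¹ * x * r) * r⁻¹ = x
        group
    choose f hf using hex
    apply Nat.card_le_card_of_injective f
    intro x y hxy
    apply Subtype.ext
    rw [← hf x, ← hf y, hxy]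
  have hKcard : A.index * Nat.card L ≤ Nat.card K := by
    have h1 : Nat.card K + Nat.card {x : G // x ∉ K} = Nat.card G := by
      haveI := Fintype.ofFinite G
      rw [Nat.card_eq_fintype_card, Nat.card_eq_fintype_card, Nat.card_eq_fintype_card]
      have := Fintype.card_subtype_compl (fun x : G => x ∈ K)
      have h2 : Fintype.card {x : G // x ∈ K} ≤ Fintype.card G := Fintype.card_subtype_le _
      have h3 : Fintype.card K = Fintype.card {x : G // x ∈ K} := rfl
      omega
    have h2 : A.index * Nat.card {a : G // a ∈ A ∧ a ∉ L} + A.index * Nat.card L = Nat.card G := by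
      rw [← mul_add, hAL, A.index_mul_card]
    omega
  have hMcard : A.index * Nat.card L ≤ Nat.card M := by
    refine hKcard.trans ?_
    exact Nat.card_mono (Set.toFinite _) hKM
  have h5 := H1.Hall.card_sup_mul_card_inf A M
  have h6 : A ⊓ M = L := by rw [inf_comm]; exact hMA
  rw [h6] at h5
  have h7 : Nat.card G * Nat.card L ≤ Nat.card (A ⊔ M : Subgroup G) * Nat.card L := by
    rw [h5, ← A.index_mul_card]
    calc A.index * Nat.card A * Nat.card L = Nat.card A * (A.index * Nat.card L) := by ring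
      _ ≤ Nat.card A * Nat.card M := Nat.mul_le_mul_left _ hMcard
  have h8 := Nat.le_of_mul_le_mul_right h7 Nat.card_pos
  rw [sup_comm]
  exact Subgroup.eq_top_of_le_card _ h8

end H71.FrobWiel
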