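import Mathlib
import Cfsg.Prelude.Def_OddOrderLocal
import Cfsg.Agent.Lib.H89.MetaOmega
import Cfsg.Agent.Lib.H72.MaxClassCent
import Cfsg.Agent.Lib.H89.MaxCl
import Cfsg.Agent.Lib.H76.TwoGen
import Cfsg.Agent.Lib.H1.OddRank
import Cfsg.Agent.Lib.H1.Cores
import Cfsg.Agent.Lib.H3.OmegaRankTwo
import Cfsg.Agent.Lib.H3.ClassTwo

set_option autoImplicit false

/-! Automorphisms of order `p` of metacyclic `p`-groups, `p` odd. -/

namespace H71.MetaAut

open Subgroup
open scoped commutatorElement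

/-- the first two terms of the `Ω`-series of a metacyclic `p`-group, `p` odd -/
structure Data (p : ℕ) (L : Type*) [Group L] (E N : Subgroup L) : Prop where
  memE : ∀ x, x ∈ E ↔ x ^ p = 1
  memN : ∀ x, x ∈ N ↔ x ^ p ∈ E
  cardE : Nat.card E = p ^ 2
  cardN : Nat.card N = p ^ 4
  mulp : ∀ x ∈ N, ∀ y ∈ N, (x * y) ^ p = x ^ p * y ^ p
  commE : ∀ e ∈ E, ∀ x ∈ N, e * x = x * e
  surj : ∀ e ∈ E, ∃ x ∈ N, x ^ p = e

section

variable {L : Type*} [Group L] [Finite L] {p : ℕ} [hp : Fact p.Prime]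

theorem omega_data (hL : IsPGroup p L) (hp2 : p ≠ 2) (hm : Cfsg.IsMetacyclic L) (hnc : ¬ IsCyclic L) :
    ∃ E : Subgroup L, (∀ x, x ∈ E ↔ x ^ p = 1) ∧ Nat.card E = p ^ 2 := by
  obtain ⟨W, hW, hcard⟩ := H89.MetaOmega.exists_omega hL hp2 hm
  refine ⟨W, hW, ?_⟩
  obtain ⟨k, hk, hk2⟩ := (Nat.dvd_prime_pow hp.out).1 hcard
  rw [hk2]
  by_contra hne
  apply hnc
  have h1 : Cfsg.PRankLE p 1 (⊤ : Subgroup L) := by
    intro A _ hA
    have h2 : A.map (⊤ : Subgroup L).subtype ≤ W := by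
      rintro _ ⟨a, ha, rfl⟩
      rw [hW]
      have := hA a ha
      exact congrArg ((⊤ : Subgroup L).subtype) this
    have h3 : Nat.card A = Nat.card (A.map (⊤ : Subgroup L).subtype) :=
      (Subgroup.card_map_of_injective Subtype.val_injective).symm
    rw [h3]
    refine (Nat.le_of_dvd Nat.card_pos (Subgroup.card_dvd_of_le h2)).trans ?_
    rw [hk2]
    apply Nat.pow_le_pow_right hp.out.pos
    by_contra hlt
    apply hne
    have : k = 2 := by omega
    rw [this]
  have h4 : IsCyclic (⊤ : Subgroup L) :=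
    H1.OddRank.isCyclic_of_pRankLE_one hp2 (hL.to_subgroup ⊤) h1
  exact isCyclic_of_surjective (⊤ : Subgroup L).subtype (fun x => ⟨⟨x, mem_top x⟩, rfl⟩)

/-- derived subgroup of a metacyclic group is cyclic -/
theorem commutator_cyclic {R : Type*} [Group R] (hm : Cfsg.IsMetacyclic R) :
    IsCyclic (commutator R) := by
  obtain ⟨N, hNn, hNc, hQc⟩ := hm
  have h1 : commutator R ≤ N := by
    rw [commutator_def, Subgroup.commutator_le]
    intro x _ y _
    rw [← QuotientGroup.eq_one_iff]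
    have h2 : Commute (QuotientGroup.mk x : R ⧸ N) (QuotientGroup.mk y) :=
      (IsCyclic.isMulCommutative (α := R ⧸ N)).is_comm.comm _ _
    have h3 : (QuotientGroup.mk ⁅x, y⁆ : R ⧸ N) = ⁅(QuotientGroup.mk x : R ⧸ N), QuotientGroup.mk y⁆ := rfl
    rw [h3]
    exact commutatorElement_eq_one_iff_commute.2 h2
  exact isCyclic_of_injective (Subgroup.inclusion h1) (Subgroup.inclusion_injective h1)

/-- the data for `E = Ω₁(L)`, `N = Ω₂(L)` -/
theorem exists_data (hL : IsPGroup p L) (hp2 : p ≠ 2) (hm : Cfsg.IsMetacyclic L)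
    {E : Subgroup L} [hEn : E.Normal] (hE : ∀ x, x ∈ E ↔ x ^ p = 1) (hcE : Nat.card E = p ^ 2)
    (hnc : ¬ IsCyclic (L ⧸ E)) : ∃ N, Data p L E N := by
  have hQ : IsPGroup p (L ⧸ E) := hL.to_quotient E
  have hmQ : Cfsg.IsMetacyclic (L ⧸ E) :=
    H76.TwoGen.metacyclic_of_surjective (QuotientGroup.mk' E) (QuotientGroup.mk'_surjective E) hm
  obtain ⟨W, hW, hcW⟩ := omega_data hQ hp2 hmQ hnc
  have hmemN : ∀ x, x ∈ W.comap (QuotientGroup.mk' E) ↔ x ^ p ∈ E := by
    intro x
    rw [mem_comap, hW, ← map_pow, QuotientGroup.mk'_apply, QuotientGroup.eq_one_iff]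
  have hcN : Nat.card (W.comap (QuotientGroup.mk' E)) = p ^ 4 := by
    have := H1.Cores.card_comap_mk' E W
    rw [this, hcW, hcE]; ring
  set N := W.comap (QuotientGroup.mk' E) with hNdef
  have hEN : E ≤ N := by
    intro x hx
    rw [hmemN, (hE x).1 hx]
    exact one_mem _
  -- commutators
  have hcyc := commutator_cyclic (H76.TwoGen.metacyclic_of_injective N.subtype N.subtype_injective hm)
  have hWcomm : ∀ x ∈ W, ∀ y ∈ W, x * y = y * x := by
    have : IsMulCommutative W := IsPGroup.isMulCommutative_of_card_eq_prime_sq hcW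
    intro x hx y hy
    exact congrArg Subtype.val (this.is_comm.comm (⟨x, hx⟩ : W) ⟨y, hy⟩)
  have hcommE : ∀ x ∈ N, ∀ y ∈ N, ⁅x, y⁆ ∈ E := by
    intro x hx y hy
    rw [← QuotientGroup.eq_one_iff]
    have h3 : (QuotientGroup.mk ⁅x, y⁆ : L ⧸ E) = ⁅(QuotientGroup.mk x : L ⧸ E), QuotientGroup.mk y⁆ := rfl
    rw [h3]
    exact commutatorElement_eq_one_iff_commute.2 (hWcomm _ hx _ hy)
  have hpN : IsPGroup p N := hL.to_subgroup N
  have hcard1 : Nat.card (commutator N) ≤ p := by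
    apply H89.MetaOmega.card_le_of_cyclic (Q := commutator N) hp.out.pos (id) (fun _ _ h => h)
    rintro ⟨c, hc⟩
    have h5 : (commutator N).map N.subtype ≤ E := by
      rw [commutator_def, Subgroup.map_commutator, Subgroup.commutator_le]
      rintro _ ⟨x, _, rfl⟩ _ ⟨y, _, rfl⟩
      exact hcommE _ x.2 _ y.2
    have h6 : (c : L) ∈ E := h5 (mem_map_of_mem N.subtype hc)
    rw [hE] at h6
    apply Subtype.ext
    apply Subtype.ext
    exact h6
  have hcen := H3.OmegaRankTwo.le_center_of_card_le hpN (commutator N) hcard1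
  have hcent : ∀ x ∈ N, ∀ y ∈ N, ∀ z ∈ N, Commute ⁅x, y⁆ z := by
    intro x hx y hy z hz
    have h7 : ⁅(⟨x, hx⟩ : N), ⟨y, hy⟩⁆ ∈ commutator N :=
      Subgroup.commutator_mem_commutator (mem_top _) (mem_top _)
    have h8 := Subgroup.mem_center_iff.1 (hcen h7) ⟨z, hz⟩
    exact (congrArg Subtype.val h8).symm
  have hmulp : ∀ x ∈ N, ∀ y ∈ N, (x * y) ^ p = x ^ p * y ^ p := by
    intro x hx y hy
    rw [H3.ClassTwo.mul_pow_eq (hcent y hy x hx x hx) (hcent y hy x hx y hy) p]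
    have h9 : ⁅y, x⁆ ^ p = 1 := (hE _).1 (hcommE y hy x hx)
    have h10 : p ∣ p.choose 2 :=
      hp.out.dvd_choose_self (by norm_num) (lt_of_le_of_ne hp.out.two_le (Ne.symm hp2))
    obtain ⟨k, hk⟩ := h10
    rw [hk, pow_mul, h9, one_pow, mul_one]
  -- the `p`-power map
  let π : N →* L :=
    { toFun := fun x => (x : L) ^ p
      map_one' := by simp
      map_mul' := fun x y => hmulp x x.2 y y.2 }
  have hrange : π.range ≤ E := by
    rintro _ ⟨x, rfl⟩
    exact (hmemN x).1 x.2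
  have hker : Nat.card π.ker = p ^ 2 := by
    have h11 : π.ker.map N.subtype = E := by
      ext x
      constructor
      · rintro ⟨y, hy, rfl⟩
        rw [hE]
        exact hy
      · intro hx
        exact ⟨⟨x, hEN hx⟩, (hE x).1 hx, rfl⟩
    rw [← hcE, ← h11, Subgroup.card_map_of_injective N.subtype_injective]
  have hrcard : Nat.card π.range = p ^ 2 := by
    have h12 := π.ker.card_mul_index
    rw [Subgroup.index_ker, hker, hcN] at h12
    have h13 : 0 < p ^ 2 := pow_pos hp.out.pos 2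
    have h14 : p ^ 2 * Nat.card π.range = p ^ 2 * p ^ 2 := by rw [h12]; ring
    exact Nat.eq_of_mul_eq_mul_left h13 h14
  have hrE : π.range = E := Subgroup.eq_of_le_of_card_ge hrange (by rw [hrcard, hcE])
  have hsurj : ∀ e ∈ E, ∃ x ∈ N, x ^ p = e := by
    intro e he
    rw [← hrE] at he
    obtain ⟨x, hx⟩ := he
    exact ⟨x, x.2, hx⟩
  refine ⟨N, hE, hmemN, hcE, hcN, hmulp, ?_, hsurj⟩
  intro e he x hx
  obtain ⟨v, hv, rfl⟩ := hsurj e he
  have h15 : x * v ^ p * x⁻¹ = v ^ p := by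
    have h16 : x * v * x⁻¹ = ⁅x, v⁆ * v := by rw [commutatorElement_def]; group
    have h17 : x * v ^ p * x⁻¹ = (x * v * x⁻¹) ^ p := by rw [conj_pow]
    rw [h17, h16, hmulp _ (hEN (hcommE x hx v hv)) v hv, (hE _).1 (hcommE x hx v hv), one_mul]
  exact (mul_inv_eq_iff_eq_mul.1 h15).symm

/-- a noncyclic group with cyclic `L / Ω₁(L)` has an element of order `|L| / p` -/
theorem exists_of_cyclic_quotient {E : Subgroup L} [hEn : E.Normal] (hE : ∀ x, x ∈ E ↔ x ^ p = 1)
    (hcE : Nat.card E = p ^ 2) {n : ℕ} (hcard : Nat.card L = p ^ (n + 1)) (hn : 1 ≤ n)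
    (hc : IsCyclic (L ⧸ E)) :
    ∃ x : L, orderOf x = p ^ n ∧ ∀ y, ∃ k : ℤ, ∃ e ∈ E, y = x ^ k * e := by
  obtain ⟨xb, hxb⟩ := hc.exists_generator
  obtain ⟨x, rfl⟩ := QuotientGroup.mk_surjective xb
  have hEc := E.card_mul_index
  rw [hcE, hcard] at hEc
  have hidx : E.index = p ^ (n - 1) := by
    have h13 : 0 < p ^ 2 := pow_pos hp.out.pos 2
    apply Nat.eq_of_mul_eq_mul_left h13
    rw [hEc, ← pow_add]
    congr 1; omega
  have hord : orderOf (QuotientGroup.mk x : L ⧸ E) = p ^ (n - 1) := by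
    rw [orderOf_eq_card_of_forall_mem_zpowers hxb, ← hidx]; rfl
  have hgen : ∀ y, ∃ k : ℤ, ∃ e ∈ E, y = x ^ k * e := by
    intro y
    obtain ⟨k, hk⟩ := hxb (QuotientGroup.mk y)
    refine ⟨k, (x ^ k)⁻¹ * y, ?_, by group⟩
    rw [← QuotientGroup.eq]
    exact hk
  by_cases h1 : n = 1
  · subst h1
    -- `L = E` has order `p ^ 2`, take any element of order `p`
    have h2 : p ∣ Nat.card L := by rw [hcard]; exact dvd_pow_self p (by norm_num)
    obtain ⟨y, hy⟩ := exists_prime_orderOf_dvd_card' p h2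
    refine ⟨y, by rw [hy, pow_one], fun z => ⟨0, z, ?_, by simp⟩⟩
    have h3 : E = ⊤ := by
      rw [← Subgroup.index_eq_one, hidx]; simp
    rw [h3]; exact mem_top z
  refine ⟨x, ?_, hgen⟩
  have hn2 : 2 ≤ n := by omega
  have h4 : x ^ p ^ (n - 1) ∈ E := by
    rw [← QuotientGroup.eq_one_iff, QuotientGroup.mk_pow, ← hord]
    exact pow_orderOf_eq_one _
  have h5 : x ^ p ^ (n - 2) ∉ E := by
    rw [← QuotientGroup.eq_one_iff, QuotientGroup.mk_pow, ← orderOf_dvd_iff_pow_eq_one, hord]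
    intro h6
    have h7 := (Nat.pow_dvd_pow_iff_le_right hp.out.one_lt).1 h6
    omega
  have h8 : x ^ p ^ n = 1 := by
    have h9 := (hE _).1 h4
    rw [← pow_mul, ← pow_succ] at h9
    have : n - 1 + 1 = n := by omega
    rwa [this] at h9
  have h10 : ¬ x ^ p ^ (n - 1) = 1 := by
    intro h11
    apply h5
    rw [hE, ← pow_mul, ← pow_succ]
    have : n - 2 + 1 = n - 1 := by omega
    rwa [this]
  have h12 : n - 1 + 1 = n := by omega
  have := orderOf_eq_prime_pow (n := n - 1) (p := p) h10 (by rw [h12]; exact h8)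
  rw [this, h12]

omit [Finite L] in
/-- `p = 3`: if `a` centralizes `Ω₁(L)` and `x⁻¹ a(x) ∈ Ω₂(L)` then `x⁻¹ a(x) ∈ Ω₁(L)` -/
theorem mem_E_of {E N : Subgroup L} (hp3 : p = 3) (D : Data p L E N) (a : MulAut L) (ha : a ^ 3 = 1)
    (hcent : ∀ e ∈ E, a e = e) {x : L} (hx : x⁻¹ * a x ∈ N) : x⁻¹ * a x ∈ E := by
  subst hp3
  set u := x⁻¹ * a x with hu
  have haN : ∀ n ∈ N, n⁻¹ * a n ∈ E := by
    intro n hn
    have hn' : a n ∈ N := by
      rw [D.memN, ← map_pow, hcent _ ((D.memN n).1 hn)]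
      exact (D.memN n).1 hn
    rw [D.memE, D.mulp _ (inv_mem hn) _ hn', ← map_pow, hcent _ ((D.memN n).1 hn)]
    group
  have h1 : a x = x * u := by rw [hu]; group
  set w := u⁻¹ * a u with hw
  have hwE : w ∈ E := haN u hx
  have h2 : a u = u * w := by rw [hw]; group
  have h3 : a w = w := hcent w hwE
  have h4 : a (a (a x)) = x := by
    have := congrArg (fun f : MulAut L => f x) ha
    simpa [pow_succ] using this
  have h5 : a (a (a x)) = x * (u * (u * w) * (u * w * w)) := by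
    simp only [h1, h2, h3, map_mul, mul_assoc]
  rw [h4] at h5
  have h6 : u * (u * w) * (u * w * w) = 1 := by
    have := h5.symm
    rwa [mul_eq_left] at this
  have h7 : w * u = u * w := D.commE w hwE u hx
  have h8 : u * (u * w) * (u * w * w) = u ^ 3 * w ^ 3 := by
    calc u * (u * w) * (u * w * w) = u * u * (w * u) * w * w := by group
      _ = u * u * (u * w) * w * w := by rw [h7]
      _ = u ^ 3 * w ^ 3 := by simp only [pow_succ, pow_zero, one_mul, mul_assoc]
  rw [h8, (D.memE w).1 hwE, mul_one] at h6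
  exact (D.memE u).2 h6

omit [Finite L] in
/-- the power formula for an automorphism acting on `Ω₂(L)` -/
theorem pow_apply (a : MulAut L) {x y w z : L} (h1 : a x = x * y) (h2 : a y = y * w) (h3 : a w = w * z)
    (h4 : a z = z) (hyw : Commute y w) (hyz : Commute y z) (hwz : Commute w z) (i : ℕ) :
    (a ^ i) x = x * (y ^ i * w ^ (i.choose 2) * z ^ (i.choose 3)) := by
  induction i with
  | zero => simp
  | succ i ih =>
    rw [pow_succ', MulAut.mul_apply, ih, map_mul, map_mul, map_mul, map_pow, map_pow, map_pow, h1, h2, h3, h4,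
      hyw.mul_pow, hwz.mul_pow, Nat.choose_succ_succ' i 1, Nat.choose_succ_succ' i 2, Nat.choose_one_right]
    have c1 : Commute (w ^ i) (w ^ (i.choose 2)) := (Commute.refl w).pow_pow _ _
    rw [pow_succ' y, pow_add w, pow_add z]
    simp only [mul_assoc]

theorem exists_fixed (a : MulAut L) (ha : a ^ p = 1) (B : Subgroup L) (hB : p ∣ Nat.card B)
    (hinv : ∀ b ∈ B, a b ∈ B) : ∃ b ∈ B, b ≠ 1 ∧ a b = b := by
  classical
  have : Fintype B := Fintype.ofFinite B
  let f : Function.End B := fun b => ⟨a b, hinv _ b.2⟩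
  have hf : ∀ (k : ℕ) (z : B), ((f ^ k) z : L) = (a ^ k) z := by
    intro k z
    induction k with
    | zero => rfl
    | succ k ih =>
      rw [pow_succ', pow_succ']
      change a ((f ^ k) z : L) = a ((a ^ k) z)
      rw [ih]
  have hfp : f ^ p ^ 1 = 1 := by
    funext z
    apply Subtype.ext
    rw [pow_one, hf, ha]
    rfl
  have hcard := Equiv.Perm.card_fixedPoints_modEq hfp
  have h1 : p ∣ Fintype.card f.fixedPoints := by
    rw [← Nat.modEq_zero_iff_dvd]
    refine hcard.symm.trans ?_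
    rw [Nat.modEq_zero_iff_dvd, ← Nat.card_eq_fintype_card]
    exact hB
  have h2 : 1 < Fintype.card f.fixedPoints := by
    have h3 : 0 < Fintype.card f.fixedPoints := by
      rw [Fintype.card_pos_iff]
      exact ⟨⟨1, Subtype.ext (map_one a)⟩⟩
    exact lt_of_lt_of_le hp.out.one_lt (Nat.le_of_dvd h3 h1)
  obtain ⟨⟨b, hb⟩, hne⟩ := Fintype.exists_ne_of_one_lt_card h2 ⟨1, Subtype.ext (map_one a)⟩
  refine ⟨b, b.2, ?_, congrArg Subtype.val hb⟩
  intro h4
  apply hne
  apply Subtype.ext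
  apply Subtype.ext
  exact h4

/-- the fixed points of an automorphism -/
def fix (a : MulAut L) : Subgroup L where
  carrier := {x | a x = x}
  one_mem' := map_one a
  mul_mem' := fun {x y} hx hy => by
    change a (x * y) = x * y
    rw [map_mul, hx, hy]
  inv_mem' := fun {x} hx => by
    change a x⁻¹ = x⁻¹
    rw [map_inv, hx]

omit [Finite L] in
theorem mem_fix {a : MulAut L} {x : L} : x ∈ fix a ↔ a x = x := Iff.rfl

/-- the main step: an automorphism of order `p` acting nontrivially on `Ω₁(L)` -/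
theorem fixed_of_moves {E N : Subgroup L} (hp2 : p ≠ 2) (hL : IsPGroup p L) (D : Data p L E N) (a : MulAut L)
    (ha : a ^ p = 1) {e : L} (he : e ∈ E) (hne : a e ≠ e) :
    p = 3 ∧ ∃ C : Subgroup L, Nat.card C = p ∧ ∀ x, a x = x ↔ x ∈ C := by
  have hinvE : ∀ v ∈ E, a v ∈ E := by
    intro v hv
    rw [D.memE, ← map_pow, (D.memE v).1 hv, map_one]
  have hinvN : ∀ v ∈ N, a v ∈ N := by
    intro v hv
    rw [D.memN, ← map_pow]
    exact hinvE _ ((D.memN v).1 hv)
  have hEN : E ≤ N := by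
    intro x hx
    rw [D.memN, (D.memE x).1 hx]
    exact one_mem _
  have hcE : ∀ v ∈ E, ∀ u ∈ E, v * u = u * v := fun v hv u hu => D.commE v hv u (hEN hu)
  -- fixed points on `E`
  have hCcard : Nat.card (fix a ⊓ E : Subgroup L) = p := by
    have h1 : Nat.card (fix a ⊓ E : Subgroup L) ∣ p ^ 2 := by
      rw [← D.cardE]; exact Subgroup.card_dvd_of_le inf_le_right
    obtain ⟨k, hk, hk2⟩ := (Nat.dvd_prime_pow hp.out).1 h1
    have h2 : k ≠ 2 := by
      rintro rfl
      have h3 : fix a ⊓ E = E := Subgroup.eq_of_le_of_card_ge inf_le_right (by rw [hk2, D.cardE])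
      have h4 : e ∈ fix a ⊓ E := by rw [h3]; exact he
      exact hne h4.1
    have h5 : k ≠ 0 := by
      rintro rfl
      obtain ⟨b, hb, hb1, hb2⟩ := exists_fixed a ha E (by rw [D.cardE]; exact dvd_pow_self p (by norm_num)) hinvE
      have h6 : (fix a ⊓ E : Subgroup L) = ⊥ := Subgroup.card_eq_one.1 (by rw [hk2]; simp)
      have h7 : b ∈ fix a ⊓ E := ⟨hb2, hb⟩
      rw [h6, mem_bot] at h7
      exact hb1 h7
    have h8 : k = 1 := by omega
    rw [hk2, h8, pow_one]
  -- the map `v ↦ v⁻¹ a(v)` on `E`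
  let δ : E →* L :=
    { toFun := fun v => (v : L)⁻¹ * a v
      map_one' := by simp
      map_mul' := fun v u => by
        have h1 := hcE _ (inv_mem v.2) _ (inv_mem u.2)
        have h2 := hcE _ (inv_mem u.2) _ (hinvE _ v.2)
        change ((v : L) * u)⁻¹ * a (v * u) = (v : L)⁻¹ * a v * ((u : L)⁻¹ * a u)
        calc ((v : L) * u)⁻¹ * a (v * u) = (v : L)⁻¹ * a v * (u : L)⁻¹ * a u := by
              rw [mul_inv_rev, map_mul, ← h1, mul_assoc, ← mul_assoc (u : L)⁻¹, h2]
              group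
          _ = _ := by group }
  have hδr : δ.range ≤ E := by
    rintro _ ⟨v, rfl⟩
    exact mul_mem (inv_mem v.2) (hinvE _ v.2)
  have hδk : Nat.card δ.ker = p := by
    have h11 : δ.ker.map E.subtype = fix a ⊓ E := by
      ext x
      constructor
      · rintro ⟨y, hy, rfl⟩
        refine ⟨?_, y.2⟩
        have : (y : L)⁻¹ * a y = 1 := hy
        change a (y : L) = y
        exact (inv_mul_eq_one.1 this).symm
      · rintro ⟨hx1, hx2⟩
        refine ⟨⟨x, hx2⟩, ?_, rfl⟩
        change x⁻¹ * a x = 1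
        rw [mem_fix.1 hx1]; group
    rw [← hCcard, ← h11, Subgroup.card_map_of_injective E.subtype_injective]
  have hδrc : Nat.card δ.range = p := by
    have h12 := δ.ker.card_mul_index
    rw [Subgroup.index_ker, hδk, D.cardE, pow_two] at h12
    exact Nat.eq_of_mul_eq_mul_left hp.out.pos h12
  have hδfix : ∀ x ∈ δ.range, a x = x := by
    have hinv : ∀ x ∈ δ.range, a x ∈ δ.range := by
      rintro _ ⟨v, rfl⟩
      refine ⟨⟨a v, hinvE _ v.2⟩, ?_⟩
      change (a (v : L))⁻¹ * a (a v) = a ((v : L)⁻¹ * a v)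
      rw [map_mul, map_inv]
    obtain ⟨b, hb, hb1, hb2⟩ := exists_fixed a ha δ.range (by rw [hδrc]) hinv
    have h13 : zpowers b = δ.range := by
      apply Subgroup.eq_of_le_of_card_ge (by rw [zpowers_le]; exact hb)
      rw [hδrc, Nat.card_zpowers]
      have h14 : b ^ p = 1 := (D.memE b).1 (hδr hb)
      rw [orderOf_eq_prime h14 hb1]
    intro x hx
    rw [← h13] at hx
    obtain ⟨k, rfl⟩ := hx
    change a (b ^ k) = b ^ k
    rw [map_zpow, hb2]
  have hδfix' : ∀ v ∈ E, a (v⁻¹ * a v) = v⁻¹ * a v := fun v hv => hδfix _ ⟨⟨v, hv⟩, rfl⟩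
  -- the elements `x, y, w, z`
  obtain ⟨x, hxN, hxe⟩ := D.surj e he
  obtain ⟨y, hy⟩ : ∃ y, y = x⁻¹ * a x := ⟨_, rfl⟩
  have hyN : y ∈ N := by rw [hy]; exact mul_mem (inv_mem hxN) (hinvN _ hxN)
  obtain ⟨f, hf⟩ : ∃ f, f = e⁻¹ * a e := ⟨_, rfl⟩
  have hyf : y ^ p = f := by
    rw [hy, D.mulp _ (inv_mem hxN) _ (hinvN _ hxN), inv_pow, hxe, ← map_pow, hxe, hf]
  have hfE : f ∈ E := by rw [hf]; exact mul_mem (inv_mem he) (hinvE _ he)
  have hf1 : f ≠ 1 := by
    rw [hf]
    intro h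
    exact hne (inv_mul_eq_one.1 h).symm
  have haf : a f = f := by rw [hf]; exact hδfix' e he
  obtain ⟨w, hw⟩ : ∃ w, w = y⁻¹ * a y := ⟨_, rfl⟩
  have hwE : w ∈ E := by
    rw [D.memE, hw, D.mulp _ (inv_mem hyN) _ (hinvN _ hyN), inv_pow, hyf, ← map_pow, hyf, haf]
    group
  obtain ⟨z, hz⟩ : ∃ z, z = w⁻¹ * a w := ⟨_, rfl⟩
  have hzE : z ∈ E := by rw [hz]; exact mul_mem (inv_mem hwE) (hinvE _ hwE)
  have haz : a z = z := by rw [hz]; exact hδfix' w hwE
  have hax : a x = x * y := by rw [hy]; group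
  have hay : a y = y * w := by rw [hw]; group
  have haw : a w = w * z := by rw [hz]; group
  have hkey := pow_apply a hax hay haw haz (D.commE w hwE y hyN).symm (D.commE z hzE y hyN).symm
    (hcE w hwE z hzE) p
  rw [ha, hyf] at hkey
  have hp2lt : 2 < p := lt_of_le_of_ne hp.out.two_le (Ne.symm hp2)
  have hw2 : w ^ p.choose 2 = 1 := by
    obtain ⟨k, hk⟩ := hp.out.dvd_choose_self (by norm_num : 2 ≠ 0) hp2lt
    rw [hk, pow_mul, (D.memE w).1 hwE, one_pow]
  rw [hw2, mul_one] at hkey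
  have hkey2 : f * z ^ p.choose 3 = 1 := by
    have h20 : x = x * (f * z ^ p.choose 3) := hkey
    have h21 := h20.symm
    rwa [mul_eq_left] at h21
  have hp3 : p = 3 := by
    by_contra hne3
    have hlt : 3 < p := by omega
    obtain ⟨k, hk⟩ := hp.out.dvd_choose_self (by norm_num : 3 ≠ 0) hlt
    rw [hk, pow_mul, (D.memE z).1 hzE, one_pow, mul_one] at hkey2
    exact hf1 hkey2
  refine ⟨hp3, fix a ⊓ E, hCcard, ?_⟩
  have hz1 : z ≠ 1 := by
    intro h
    rw [h, one_pow, mul_one] at hkey2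
    exact hf1 hkey2
  have hzord : orderOf z = p := orderOf_eq_prime ((D.memE z).1 hzE) hz1
  have hford : orderOf f = p := orderOf_eq_prime ((D.memE f).1 hfE) hf1
  have hzf : zpowers f = fix a ⊓ E := by
    apply Subgroup.eq_of_le_of_card_ge (by rw [zpowers_le]; exact ⟨haf, hfE⟩)
    rw [hCcard, Nat.card_zpowers, hford]
  have hN : ∀ x ∈ N, a x = x → x ∈ E := by
    intro v hvN hv
    have h30 : v ^ p ∈ fix a ⊓ E := ⟨by change a (v ^ p) = v ^ p; rw [map_pow, hv], (D.memN v).1 hvN⟩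
    rw [← hzf] at h30
    obtain ⟨k, hk⟩ := h30
    have hk' : f ^ k = v ^ p := hk
    obtain ⟨u, hu⟩ : ∃ u, u = (y ^ k)⁻¹ * v := ⟨_, rfl⟩
    have huE : u ∈ E := by
      rw [D.memE, hu, D.mulp _ (inv_mem (zpow_mem hyN k)) _ hvN, inv_pow, ← hk', ← hyf]
      have : (y ^ k) ^ p = (y ^ p) ^ k := by
        rw [← zpow_natCast, ← zpow_natCast, ← zpow_mul, ← zpow_mul, mul_comm]
      rw [this]
      group
    have hv2 : v = y ^ k * u := by rw [hu]; group
    have hcyw : Commute y w := (D.commE w hwE y hyN).symm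
    have h31 : (y ^ k * w ^ k) * a u = y ^ k * u := by
      have h32 : a v = (y ^ k * w ^ k) * a u := by
        rw [hv2, map_mul, map_zpow, hay, hcyw.mul_zpow]
      rw [← h32, hv, hv2]
    have h33 : w ^ k * a u = u := by
      rw [mul_assoc] at h31
      exact mul_left_cancel h31
    have h34 : u⁻¹ * a u = (w ^ k)⁻¹ := by
      have h35 : a u = (w ^ k)⁻¹ * u := by
        rw [eq_inv_mul_iff_mul_eq]; exact h33
      rw [h35, hcE _ (inv_mem (zpow_mem hwE k)) u huE]
      group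
    have h36 := hδfix' u huE
    rw [h34, map_inv, inv_inj, map_zpow, haw] at h36
    have hcwz : Commute w z := hcE w hwE z hzE
    rw [hcwz.mul_zpow, mul_eq_left] at h36
    have h37 : (orderOf z : ℤ) ∣ k := orderOf_dvd_iff_zpow_eq_one.2 h36
    rw [D.memE, ← hk', ← orderOf_dvd_iff_zpow_eq_one, hford, ← hzord]
    exact h37
  intro v
  constructor
  · intro hv
    refine ⟨hv, ?_⟩
    change v ∈ E
    by_contra hvE
    obtain ⟨k, hk⟩ := hL v
    have hex : ∃ i, v ^ p ^ i = 1 := ⟨k, hk⟩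
    classical
    have hfind := Nat.find_spec hex
    have hmin : ∀ j < Nat.find hex, ¬ v ^ p ^ j = 1 := fun j hj => Nat.find_min hex hj
    obtain ⟨i, hi⟩ : ∃ i, i = Nat.find hex := ⟨_, rfl⟩
    rw [← hi] at hfind hmin
    have hi2 : 2 ≤ i := by
      by_contra hlt
      have : i = 0 ∨ i = 1 := by omega
      rcases this with rfl | rfl
      · apply hvE
        rw [D.memE]
        rw [pow_zero, pow_one] at hfind
        rw [hfind, one_pow]
      · apply hvE
        rw [D.memE]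
        rwa [pow_one] at hfind
    obtain ⟨j, rfl⟩ : ∃ j, i = j + 2 := ⟨i - 2, by omega⟩
    have h40 : v ^ p ^ j ∈ N := by
      have h43 : p ^ j * (p * p) = p ^ (j + 2) := by ring
      rw [D.memN, D.memE, ← pow_mul, ← pow_mul, h43]
      exact hfind
    have h41 : a (v ^ p ^ j) = v ^ p ^ j := by rw [map_pow, hv]
    have h42 := hN _ h40 h41
    rw [D.memE, ← pow_mul, ← pow_succ] at h42
    exact hmin (j + 1) (by omega) h42
  · intro hv
    exact hv.1

end

end H71.MetaAut
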