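import Mathlib
import Cfsg.Agent.Lib.H71.MetaAut
import Cfsg.Agent.Lib.H3.MaxClassP

set_option autoImplicit false

/-! Automorphisms of order `p` of metacyclic `p`-groups, `p` odd: maximal class. -/

namespace H71.MetaAut2

open Subgroup H71.MetaAut
open scoped commutatorElement

section Max

variable {G : Type*} [Group G] [Finite G] {p : ℕ} [hp : Fact p.Prime]

/-- in a `p`-group of maximal class normal subgroups of order `p ^ 2` are `Z₂` -/
theorem normal_sq_eq {n : ℕ} (hn : 3 ≤ n) (hn2 : 4 ≤ n) (hG : Nat.card G = p ^ n)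
    (hcl : Group.nilpotencyClass G = n - 1) (E : Subgroup G) [E.Normal] (hE : Nat.card E = p ^ 2) :
    E = Subgroup.upperCentralSeries G 2 := by
  have hpG : IsPGroup p G := IsPGroup.of_card hG
  have h2 := (H89.MaxCl.upper_eq hn hG hcl (i := 2) (by omega)).2
  apply Subgroup.eq_of_le_of_card_ge _ (by rw [hE, h2])
  -- `[E, G]` has order at most `p`, hence is central
  have h3 := H3.OmegaRankTwo.card_commutator_le hpG E (k := 1) (by rw [hE])
  have h4 : ⁅E, (⊤ : Subgroup G)⁆ ≤ Subgroup.center G := by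
    apply H3.OmegaRankTwo.le_center_of_card_le hpG
    rwa [pow_one] at h3
  intro x hx
  rw [Subgroup.mem_upperCentralSeries_succ_iff]
  intro y
  rw [Subgroup.upperCentralSeries_one]
  apply h4
  exact Subgroup.commutator_mem_commutator hx (mem_top y)

end Max

section

variable {L : Type*} [Group L] [Finite L] {p : ℕ} [hp : Fact p.Prime]

theorem mulp_of_comm (hL : IsPGroup p L) (hp2 : p ≠ 2) (hm : Cfsg.IsMetacyclic L) {E : Subgroup L}
    (hE : ∀ x, x ∈ E ↔ x ^ p = 1) (hc : ∀ x y : L, ⁅x, y⁆ ∈ E) (x y : L) : (x * y) ^ p = x ^ p * y ^ p := by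
  have hcyc := commutator_cyclic hm
  have hcard1 : Nat.card (commutator L) ≤ p := by
    apply H89.MetaOmega.card_le_of_cyclic (Q := commutator L) hp.out.pos (id) (fun _ _ h => h)
    rintro ⟨c, hc1⟩
    have h5 : commutator L ≤ E := by
      rw [commutator_def, Subgroup.commutator_le]
      intro x _ y _
      exact hc x y
    have h6 := h5 hc1
    rw [hE] at h6
    apply Subtype.ext
    exact h6
  have hcen := H3.OmegaRankTwo.le_center_of_card_le hL (commutator L) hcard1
  have hcent : ∀ x y z : L, Commute ⁅x, y⁆ z := by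
    intro x y z
    have h7 : ⁅x, y⁆ ∈ commutator L := Subgroup.commutator_mem_commutator (mem_top _) (mem_top _)
    exact (Subgroup.mem_center_iff.1 (hcen h7) z).symm
  rw [H3.ClassTwo.mul_pow_eq (hcent y x x) (hcent y x y) p]
  have h9 : ⁅y, x⁆ ^ p = 1 := (hE _).1 (hc y x)
  have h10 : p ∣ p.choose 2 :=
    hp.out.dvd_choose_self (by norm_num) (lt_of_le_of_ne hp.out.two_le (Ne.symm hp2))
  obtain ⟨k, hk⟩ := h10
  rw [hk, pow_mul, h9, one_pow, mul_one]

end

/-- in a `3`-group of maximal class, a normal noncyclic metacyclic subgroup `L` of index `3` has `L / Ω₁(L)`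
noncyclic -/
theorem not_cyclic_quotient {G : Type*} [Group G] [Finite G] {n : ℕ} (hn : 4 ≤ n) (hG : Nat.card G = 3 ^ (n + 1))
    (hcl : Group.nilpotencyClass G = n) (L : Subgroup G) [hLn : L.Normal] (hL : Nat.card L = 3 ^ n)
    (hm : Cfsg.IsMetacyclic L) {E : Subgroup L} [hEn : E.Normal] (hE : ∀ x, x ∈ E ↔ x ^ 3 = 1)
    (hcE : Nat.card E = 3 ^ 2) (hE2 : E.map L.subtype = Subgroup.upperCentralSeries G 2)
    (hcyc : IsCyclic (L ⧸ E)) : False := by
  have : Fact (Nat.Prime 3) := ⟨Nat.prime_three⟩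
  have hpL : IsPGroup 3 L := IsPGroup.of_card hL
  obtain ⟨x, hx, hgen⟩ := exists_of_cyclic_quotient (n := n - 1) hE hcE
    (by rw [hL]; congr 1; omega) (by omega) hcyc
  have hcomm : ∀ x y : L, ⁅x, y⁆ ∈ E := by
    intro x y
    rw [← QuotientGroup.eq_one_iff]
    have h3 : (QuotientGroup.mk ⁅x, y⁆ : L ⧸ E) = ⁅(QuotientGroup.mk x : L ⧸ E), QuotientGroup.mk y⁆ := rfl
    rw [h3]
    have h2 : Commute (QuotientGroup.mk x : L ⧸ E) (QuotientGroup.mk y) :=
      (IsCyclic.isMulCommutative (α := L ⧸ E)).is_comm.comm _ _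
    exact commutatorElement_eq_one_iff_commute.2 h2
  have hmulp := mulp_of_comm hpL (by norm_num) hm hE hcomm
  -- `⟨x ^ 3⟩` is normal in `G`
  have hconj : ∀ g : G, ∃ k : ℤ, g * (x : G) ^ 3 * g⁻¹ = ((x : G) ^ 3) ^ k := by
    intro g
    obtain ⟨k, e, he, hk⟩ := hgen ⟨g * x * g⁻¹, hLn.conj_mem _ x.2 g⟩
    refine ⟨k, ?_⟩
    have h4 : (⟨g * x * g⁻¹, hLn.conj_mem _ x.2 g⟩ : L) ^ 3 = (x ^ k) ^ 3 := by
      rw [hk, hmulp, (hE e).1 he, mul_one]
    have h5 := congrArg Subtype.val h4
    rw [← conj_pow]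
    rw [← zpow_natCast, ← zpow_natCast, ← zpow_mul] at h5 ⊢
    push_cast at h5 ⊢
    rw [h5, mul_comm]
  set y : G := (x : G) ^ 3 ^ (n - 3) with hy
  have hxG : orderOf (x : G) = 3 ^ (n - 1) := by rw [Subgroup.orderOf_coe, hx]
  have hyo : orderOf y = 3 ^ 2 := by
    rw [hy, orderOf_pow, hxG]
    have h6 : n - 1 = (n - 3) + 2 := by omega
    rw [Nat.gcd_eq_right (pow_dvd_pow 3 (by omega)), h6, pow_add]
    exact Nat.mul_div_cancel_left _ (by positivity)
  have hnorm : (zpowers y).Normal := by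
    refine ⟨?_⟩
    rintro _ ⟨i, rfl⟩ g
    obtain ⟨k, hk⟩ := hconj g
    have h7 : y = ((x : G) ^ 3) ^ 3 ^ (n - 4) := by
      rw [hy, ← pow_mul, ← pow_succ']
      congr 2; omega
    refine ⟨k * i, ?_⟩
    change y ^ (k * i) = g * y ^ i * g⁻¹
    have aux : ∀ (c : G) (k : ℤ) (m : ℕ), (c ^ k) ^ m = (c ^ m) ^ k := by
      intro c k m
      rw [← zpow_natCast, ← zpow_natCast, ← zpow_mul, ← zpow_mul, mul_comm]
    have h8 : g * y * g⁻¹ = y ^ k := by
      rw [h7, ← conj_pow, hk, aux]
    rw [zpow_mul, ← h8, conj_zpow]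
  have h9 := normal_sq_eq (p := 3) (n := n + 1) (by omega) (by omega) hG (by rw [hcl]; rfl) (zpowers y)
    (by rw [Nat.card_zpowers, hyo])
  have h10 : y ∈ E.map L.subtype := by
    rw [hE2, ← h9]; exact mem_zpowers y
  obtain ⟨e, he, hey⟩ := h10
  have h11 : y ^ 3 = 1 := by
    rw [← hey]
    have := (hE e).1 he
    rw [← map_pow, this, map_one]
  have h12 := orderOf_dvd_of_pow_eq_one h11
  rw [hyo] at h12
  norm_num at h12

theorem comm_le {G : Type*} [Group G] {K : Subgroup G} [K.Normal] (h : ∀ x y : G ⧸ K, x * y = y * x) :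
    commutator G ≤ K := by
  rw [commutator_def, Subgroup.commutator_le]
  intro x _ y _
  rw [← QuotientGroup.eq_one_iff]
  have h3 : (QuotientGroup.mk ⁅x, y⁆ : G ⧸ K) = ⁅(QuotientGroup.mk x : G ⧸ K), QuotientGroup.mk y⁆ := rfl
  rw [h3]
  exact commutatorElement_eq_one_iff_commute.2 (h _ _)

theorem comm_le_of_index {G : Type*} [Group G] [Finite G] {K : Subgroup G} [K.Normal] {p : ℕ} [hp : Fact p.Prime]
    (h : K.index = p ∨ K.index = p ^ 2) : commutator G ≤ K := by
  apply comm_le
  rcases h with h | h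
  · have h1 : IsCyclic (G ⧸ K) := isCyclic_of_prime_card (p := p) h
    exact (IsCyclic.isMulCommutative (α := G ⧸ K)).is_comm.comm
  · exact (IsPGroup.isMulCommutative_of_card_eq_prime_sq (p := p) (G := G ⧸ K) h).is_comm.comm

theorem back (n : ℕ) : ∀ (_ : 4 ≤ n) (G : Type*) [Group G] [Finite G], Nat.card G = 3 ^ (n + 1) →
    Group.nilpotencyClass G = n → ∀ (L : Subgroup G), L.Normal → Nat.card L = 3 ^ n →
    Cfsg.IsMetacyclic L → ¬ IsCyclic L → ∀ t : G, t ^ 3 = 1 → t ∉ L →
    (∀ x ∈ L, x ^ 3 = 1 → t * x = x * t) → False := by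
  induction n using Nat.strong_induction_on with
  | _ n IH =>
  intro hn G _ _ hG hcl L hLn hL hm hnc t ht htL hcent
  have : Fact (Nat.Prime 3) := ⟨Nat.prime_three⟩
  have hpL : IsPGroup 3 L := IsPGroup.of_card hL
  obtain ⟨E, hE, hcE⟩ := omega_data hpL (by norm_num) hm hnc
  have hEn : E.Normal := by
    refine ⟨fun x hx g => ?_⟩
    rw [hE] at hx ⊢
    rw [conj_pow, hx]; group
  -- `E` as a subgroup of `G`
  obtain ⟨E1, hE1⟩ : ∃ E1, E1 = E.map L.subtype := ⟨_, rfl⟩
  have hmE1 : ∀ x, x ∈ E1 ↔ x ∈ L ∧ x ^ 3 = 1 := by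
    intro x
    rw [hE1]
    constructor
    · rintro ⟨y, hy, rfl⟩
      refine ⟨y.2, ?_⟩
      have := (hE y).1 hy
      rw [← map_pow, this, map_one]
    · rintro ⟨h1, h2⟩
      exact ⟨⟨x, h1⟩, (hE _).2 (Subtype.ext h2), rfl⟩
  have hE1n : E1.Normal := by
    refine ⟨fun x hx g => ?_⟩
    rw [hmE1] at hx ⊢
    refine ⟨hLn.conj_mem _ hx.1 g, ?_⟩
    rw [conj_pow, hx.2]; group
  have hcE1 : Nat.card E1 = 3 ^ 2 := by
    rw [hE1, Subgroup.card_map_of_injective L.subtype_injective, hcE]
  have hE1Z : E1 = Subgroup.upperCentralSeries G 2 :=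
    normal_sq_eq (p := 3) (n := n + 1) (by omega) (by omega) hG (by rw [hcl]; rfl) E1 hcE1
  have hncE : ¬ IsCyclic (L ⧸ E) := fun h =>
    not_cyclic_quotient hn hG hcl L hL hm hE hcE (by rw [← hE1, hE1Z]) h
  obtain ⟨N, D⟩ := exists_data hpL (by norm_num) hm hE hcE hncE
  -- the automorphism induced by `t`
  obtain ⟨a, ha⟩ : ∃ a : MulAut L, a = MulAut.conjNormal t := ⟨_, rfl⟩
  have hacoe : ∀ x : L, ((a x : L) : G) = t * x * t⁻¹ := by
    intro x; rw [ha]; exact MulAut.conjNormal_apply t x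
  have ha3 : a ^ 3 = 1 := by rw [ha, ← map_pow, ht, map_one]
  have hacent : ∀ e ∈ E, a e = e := by
    intro e he
    apply Subtype.ext
    rw [hacoe, hcent e e.2 (congrArg Subtype.val ((hE e).1 he))]
    group
  -- `t` is not centralizing `L` modulo `E`
  have hidxL : L.index = 3 := by
    have h1 := L.card_mul_index
    rw [hL, hG, pow_succ] at h1
    exact Nat.eq_of_mul_eq_mul_left (by positivity) h1
  have hclaim : ¬ ∀ x : L, x⁻¹ * a x ∈ E := by
    intro hall
    let K : Subgroup G := (centralizer ({(QuotientGroup.mk t : G ⧸ E1)} : Set (G ⧸ E1))).comap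
      (QuotientGroup.mk' E1)
    have hmemK : ∀ g, g ∈ K ↔ g * t * g⁻¹ * t⁻¹ ∈ E1 := by
      intro g
      rw [mem_comap, QuotientGroup.mk'_apply, mem_centralizer_singleton_iff, ← QuotientGroup.mk_mul,
        ← QuotientGroup.mk_mul, ← QuotientGroup.eq_one_iff]
      simp only [QuotientGroup.mk_mul, QuotientGroup.mk_inv]
      constructor
      · intro h; rw [h]; group
      · intro h
        rw [mul_inv_eq_one, mul_inv_eq_iff_eq_mul] at h
        exact h
    have htK : t ∈ K := by rw [hmemK]; simp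
    have hLK : L ≤ K := by
      intro x hx
      rw [hmemK]
      have h1 := hall (⟨x, hx⟩ : L)⁻¹
      have h2 : (((⟨x, hx⟩ : L)⁻¹)⁻¹ * a (⟨x, hx⟩ : L)⁻¹ : L) ∈ E := h1
      have h3 : x * t * x⁻¹ * t⁻¹ = ((((⟨x, hx⟩ : L)⁻¹)⁻¹ * a (⟨x, hx⟩ : L)⁻¹ : L) : G) := by
        rw [coe_mul, hacoe]
        push_cast
        group
      rw [h3, hE1]
      exact mem_map_of_mem L.subtype h2
    have hKtop : K = ⊤ := by
      have h4 : K.index ∣ 3 := by rw [← hidxL]; exact Subgroup.index_dvd_of_le hLK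
      rcases (Nat.dvd_prime Nat.prime_three).1 h4 with h5 | h5
      · exact Subgroup.index_eq_one.1 h5
      · exfalso
        apply htL
        have h6 : L = K := by
          apply Subgroup.eq_of_le_of_card_ge hLK
          have h7 := K.card_mul_index
          have h8 := L.card_mul_index
          rw [h5] at h7
          rw [hidxL] at h8
          omega
        rw [h6]; exact htK
    have h9 : t ∈ Subgroup.upperCentralSeries G 3 := by
      rw [Subgroup.mem_upperCentralSeries_succ_iff]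
      intro g
      rw [← hE1Z]
      have h10 : g ∈ K := by rw [hKtop]; exact mem_top g
      rw [hmemK] at h10
      have h11 : t * g * t⁻¹ * g⁻¹ = (g * t * g⁻¹ * t⁻¹)⁻¹ := by group
      rw [commutatorElement_def, h11]
      exact inv_mem h10
    have h12 := (H89.MaxCl.upper_eq (p := 3) (n := n + 1) (by omega) hG (by rw [hcl]; rfl) (i := 3) (by omega)).1
    rw [h12] at h9
    apply htL
    have h13 : (⊤ : Subgroup G).lowerCentralSeries (n + 1 - 1 - 3) ≤ (⊤ : Subgroup G).lowerCentralSeries 1 :=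
      Subgroup.lowerCentralSeries_antitone _ (by omega)
    have h14 : (⊤ : Subgroup G).lowerCentralSeries 1 ≤ L := by
      rw [Subgroup.top_lowerCentralSeries_one]
      exact comm_le_of_index (p := 3) (Or.inl hidxL)
    exact h14 (h13 h9)
  -- `N` as a subgroup of `G`
  obtain ⟨N1, hN1⟩ : ∃ N1, N1 = N.map L.subtype := ⟨_, rfl⟩
  have hmN1 : ∀ x, x ∈ N1 ↔ x ∈ L ∧ x ^ 3 ∈ E1 := by
    intro x
    rw [hN1]
    constructor
    · rintro ⟨y, hy, rfl⟩
      refine ⟨y.2, ?_⟩
      rw [hE1, ← map_pow]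
      exact mem_map_of_mem L.subtype ((D.memN y).1 hy)
    · rintro ⟨h1, h2⟩
      refine ⟨⟨x, h1⟩, (D.memN _).2 ?_, rfl⟩
      rw [hE1] at h2
      obtain ⟨z, hz, hz2⟩ := h2
      have h3 : z = (⟨x, h1⟩ : L) ^ 3 := Subtype.ext hz2
      rw [← h3]; exact hz
  have hN1n : N1.Normal := by
    refine ⟨fun x hx g => ?_⟩
    rw [hmN1] at hx ⊢
    refine ⟨hLn.conj_mem _ hx.1 g, ?_⟩
    rw [conj_pow]
    exact hE1n.conj_mem _ hx.2 g
  have hcN1 : Nat.card N1 = 3 ^ 4 := by
    rw [hN1, Subgroup.card_map_of_injective L.subtype_injective, D.cardN]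
  have hN1idx : N1.index = 3 ^ (n - 3) := by
    have h1 := N1.card_mul_index
    rw [hcN1, hG] at h1
    apply Nat.eq_of_mul_eq_mul_left (show 0 < 3 ^ 4 by positivity)
    rw [h1, ← pow_add]
    congr 1; omega
  rcases Nat.lt_or_ge n 6 with hlt | hge
  · -- small cases
    apply hclaim
    intro x
    apply mem_E_of rfl D a ha3 hacent
    have h1 : commutator G ≤ N1 := by
      apply comm_le_of_index (p := 3)
      rw [hN1idx]
      have : n = 4 ∨ n = 5 := by omega
      rcases this with rfl | rfl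
      · left; rfl
      · right; rfl
    have h2 : ((x⁻¹ * a x : L) : G) ∈ N1 := by
      apply h1
      have h3 : ((x⁻¹ * a x : L) : G) = ⁅(x : G)⁻¹, t⁆ := by
        rw [coe_mul, hacoe, commutatorElement_def]
        push_cast; group
      rw [h3]
      exact Subgroup.commutator_mem_commutator (mem_top _) (mem_top _)
    rw [hN1] at h2
    obtain ⟨y, hy, hy2⟩ := h2
    have h4 : y = x⁻¹ * a x := Subtype.ext hy2
    rw [← h4]; exact hy
  · -- the induction step
    have hEL : E1 ≤ L := by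
      intro x hx; exact ((hmE1 x).1 hx).1
    have hcQ : Nat.card (G ⧸ E1) = 3 ^ (n - 2 + 1) := by
      have h1 := E1.card_mul_index
      rw [hcE1, hG] at h1
      change E1.index = _
      apply Nat.eq_of_mul_eq_mul_left (show 0 < 3 ^ 2 by positivity)
      rw [h1, ← pow_add]
      congr 1; omega
    have hLmap : (L.map (QuotientGroup.mk' E1)).comap (QuotientGroup.mk' E1) = L := by
      rw [Subgroup.comap_map_eq, QuotientGroup.ker_mk']
      exact sup_eq_left.2 hEL
    have hcLb : Nat.card (L.map (QuotientGroup.mk' E1)) = 3 ^ (n - 2) := by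
      have h1 := H1.Cores.card_comap_mk' E1 (L.map (QuotientGroup.mk' E1))
      rw [hLmap, hL, hcE1] at h1
      apply Nat.eq_of_mul_eq_mul_left (show 0 < 3 ^ 2 by positivity)
      rw [← h1, ← pow_add]
      congr 1; omega
    have hclQ : Group.nilpotencyClass (G ⧸ E1) = n - 2 := by
      have h1 := H89.MaxCl.class_eq (p := 3) (n := n - 2 + 1) (by omega) hcQ
      rw [h1]
      · omega
      · intro h2
        have h3 : (⊤ : Subgroup (G ⧸ E1)) = (⊤ : Subgroup G).map (QuotientGroup.mk' E1) := by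
          rw [Subgroup.map_top_of_surjective _ (QuotientGroup.mk'_surjective E1)]
        rw [h3, ← Subgroup.map_lowerCentralSeries] at h2
        have h4 : (⊤ : Subgroup G).lowerCentralSeries (n - 2 + 1 - 2) ≤ E1 := by
          intro x hx
          have h5 := mem_map_of_mem (QuotientGroup.mk' E1) hx
          rw [h2, mem_bot] at h5
          exact (QuotientGroup.eq_one_iff x).1 h5
        have h6 := H89.MaxCl.upper_eq (p := 3) (n := n + 1) (by omega) hG (by rw [hcl]; rfl) (i := 3) (by omega)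
        have h7 : n - 2 + 1 - 2 = n + 1 - 1 - 3 := by omega
        rw [h7, ← h6.1] at h4
        have h8 := Subgroup.card_le_of_le h4
        rw [h6.2, hcE1] at h8
        norm_num at h8
    apply IH (n - 2) (by omega) (by omega) (G ⧸ E1) hcQ hclQ (L.map (QuotientGroup.mk' E1))
      (hLn.map _ (QuotientGroup.mk'_surjective E1)) hcLb ?_ ?_ (QuotientGroup.mk t) ?_ ?_ ?_
    · -- metacyclic
      exact H76.TwoGen.metacyclic_of_surjective ((QuotientGroup.mk' E1).subgroupMap L)
        (MonoidHom.subgroupMap_surjective _ _) hm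
    · intro hcyc
      apply hncE
      let f := (QuotientGroup.mk' E1).subgroupMap L
      have hf : Function.Surjective f := MonoidHom.subgroupMap_surjective _ _
      have hker : f.ker = E := by
        ext x
        rw [MonoidHom.mem_ker]
        constructor
        · intro hx
          have h1 : (QuotientGroup.mk' E1) (x : G) = 1 := congrArg Subtype.val hx
          have h2 : (x : G) ∈ E1 := (QuotientGroup.eq_one_iff _).1 h1
          rw [hE]
          exact Subtype.ext ((hmE1 _).1 h2).2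
        · intro hx
          apply Subtype.ext
          change (QuotientGroup.mk' E1) (x : G) = 1
          exact (QuotientGroup.eq_one_iff _).2 ((hmE1 _).2 ⟨x.2, congrArg Subtype.val ((hE x).1 hx)⟩)
      exact isCyclic_of_injective ((QuotientGroup.quotientKerEquivOfSurjective f hf).toMonoidHom.comp
        (QuotientGroup.quotientMulEquivOfEq hker.symm).toMonoidHom)
        ((QuotientGroup.quotientKerEquivOfSurjective f hf).injective.comp
          (QuotientGroup.quotientMulEquivOfEq hker.symm).injective)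
    · rw [← QuotientGroup.mk_pow, ht]; rfl
    · intro h1
      apply htL
      rw [← hLmap]
      exact h1
    · rintro _ ⟨x, hx, rfl⟩ hx3
      have h1 : x ^ 3 ∈ E1 := by
        rw [← map_pow] at hx3
        exact (QuotientGroup.eq_one_iff _).1 hx3
      obtain ⟨x', hx'⟩ : ∃ x' : L, x' = ⟨x, hx⟩ := ⟨_, rfl⟩
      have h2 : x' ^ 3 ∈ E := by
        rw [hE]
        apply Subtype.ext
        rw [hx']
        exact ((hmE1 _).1 h1).2
      have h3 : x' ∈ N := (D.memN _).2 h2
      have h4 : a x' ∈ N := by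
        rw [D.memN, ← map_pow, hacent _ h2]; exact h2
      have h5 : x'⁻¹ * a x' ∈ E := by
        rw [hE, D.mulp _ (inv_mem h3) _ h4, ← map_pow, hacent _ h2]
        group
      have h6 : x⁻¹ * (t * x * t⁻¹) ∈ E1 := by
        rw [hE1]
        refine ⟨_, h5, ?_⟩
        change ((x'⁻¹ * a x' : L) : G) = _
        rw [coe_mul, hacoe, hx']
        rfl
      have h7 : (QuotientGroup.mk x : G ⧸ E1) = QuotientGroup.mk (t * x * t⁻¹) := by
        rw [QuotientGroup.eq]; exact h6
      rw [QuotientGroup.mk'_apply]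
      nth_rewrite 2 [h7]
      rw [← QuotientGroup.mk_mul, ← QuotientGroup.mk_mul]
      congr 1
      group

end H71.MetaAut2
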