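import Cfsg.Agent.Lib.H71.NC2

/-!
A group of noncomponent type with trivial core, 2-rank at least 3 and connected Sylow 2-subgroup is
of characteristic 2 type, modulo the theorem `O(H) ≤ O(G)` for strongly embedded subgroups `H`.
-/

set_option autoImplicit false
set_option linter.unusedSectionVars false

open Subgroup Cfsg H38 H38.Basic H27.EquivSig H27 H26.LocalFitting H11.SubnormalJoin H11.FourConn
  H11.FourCore
open scoped Pointwise

namespace H71.NC

variable {G : Type*} [Group G] [Finite G]

theorem exists_klein_mem (S : Sylow 2 G) (h3 : ∃ A ≤ (S : Subgroup G), (∀ a ∈ A, a * a = 1) ∧ 4 < Nat.card A)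
    {t : G} (htS : t ∈ (S : Subgroup G)) (ht : orderOf t = 2) :
    ∃ V ≤ (S : Subgroup G), IsKleinFour V ∧ t ∈ V := by
  have hf : Fact (Nat.Prime 2) := ⟨Nat.prime_two⟩
  have htt : t * t = 1 := by
    have := pow_orderOf_eq_one t
    rwa [ht, pow_two] at this
  have ht1 : t ≠ 1 := by
    rintro rfl
    rw [orderOf_one] at ht
    norm_num at ht
  have hS1 : (S : Subgroup G) ≠ ⊥ := by
    intro h
    rw [h, mem_bot] at htS
    exact ht1 htS
  obtain ⟨z, hzS, hzo, hzc⟩ := H59.PCons2.exists_central_orderOf_eq S.isPGroup' hS1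
  have hzz : z * z = 1 := by
    have := pow_orderOf_eq_one z
    rwa [hzo, pow_two] at this
  have hz1 : z ≠ 1 := by
    rintro rfl
    rw [orderOf_one] at hzo
    norm_num at hzo
  have key : ∀ u ∈ (S : Subgroup G), u * u = 1 → u ≠ 1 → t ≠ u → t * u = u * t →
      ∃ V ≤ (S : Subgroup G), IsKleinFour V ∧ t ∈ V := by
    intro u hu huu hu1 htu hc
    obtain ⟨V, hV, htV, -, hVm⟩ := isKleinFour_sup htt huu ht1 hu1 htu hc
    refine ⟨V, ?_, hV, htV⟩
    intro x hx
    rcases hVm x hx with rfl | rfl | rfl | rfl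
    · exact one_mem _
    · exact htS
    · exact hu
    · exact mul_mem htS hu
  by_cases htz : t = z
  · obtain ⟨A, hAS, hA2, hA4⟩ := h3
    have : ∃ a ∈ A, a ≠ 1 ∧ a ≠ t := by
      by_contra hcon
      push Not at hcon
      have h1 : (A : Set G) ⊆ ({1, t} : Set G) := by
        intro a ha
        by_cases ha1 : a = 1
        · left; exact ha1
        · right; exact hcon a ha ha1
      have h2 : Nat.card A ≤ 2 := by
        calc Nat.card A = Set.ncard (A : Set G) := rfl
          _ ≤ Set.ncard ({1, t} : Set G) := Set.ncard_le_ncard h1 (Set.toFinite _)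
          _ ≤ 2 := (Set.ncard_insert_le _ _).trans (by rw [Set.ncard_singleton])
      omega
    obtain ⟨a, ha, ha1, hat⟩ := this
    exact key a (hAS ha) (hA2 a ha) ha1 (fun h => hat h.symm) (by
      rw [htz]; exact (hzc a (hAS ha)).symm)
  · exact key z hzS hzz hz1 htz (hzc t htS)

theorem main (hB : ∀ H : Subgroup G, IsStronglyEmbedded H →
      (oddCore ↥H).map H.subtype ≤ oddCore G)
    (h3 : ¬ Cfsg.PRankLE 2 2 G) (hO : Cfsg.oddCore G = ⊥) (hc : ¬ Cfsg.IsComponentType G)
    (S : Sylow 2 G) (hS : Cfsg.IsFourConnected (S : Subgroup G)) :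
    Cfsg.IsCharacteristicTwoType G := by
  classical
  have hf : Fact (Nat.Prime 2) := ⟨Nat.prime_two⟩
  have hpc : ∀ t : G, orderOf t = 2 → IsPConstrained 2 ↥(centralizer ({t} : Set G)) := by
    intro t ht
    apply isPConstrained_of_not_hasComponent
    intro h
    exact hc ⟨t, ht, h⟩
  have H := hyp hpc
  -- an elementary abelian subgroup of `S` of order at least 8
  obtain ⟨A, hAS, hA2, hA4⟩ : ∃ A ≤ (S : Subgroup G), (∀ a ∈ A, a * a = 1) ∧ 4 < Nat.card A := by
    unfold PRankLE at h3
    push Not at h3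
    obtain ⟨A, -, hA2, hA4⟩ := h3
    have hAp : IsPGroup 2 A := by
      intro x
      refine ⟨1, ?_⟩
      rw [pow_one]
      exact Subtype.ext (hA2 x x.2)
    obtain ⟨g, -, hg⟩ := exists_conj_le_of_sylow_le S ⊤ le_top A hAp le_top
    refine ⟨MulAut.conj g⁻¹ • A, ?_, ?_, ?_⟩
    · rw [map_inv, Subgroup.pointwise_smul_subset_iff, inv_inv]; exact hg
    · intro x hx
      rw [H1.SZ.mem_conj_smul] at hx
      have h1 := hA2 _ hx
      rw [pow_two] at h1
      calc x * x = g⁻¹ * ((g⁻¹)⁻¹ * x * g⁻¹ * ((g⁻¹)⁻¹ * x * g⁻¹)) * g := by group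
        _ = 1 := by rw [h1]; group
    · rw [H1.SZ.card_conj_smul]
      simpa using hA4
  have hAel : IsElementaryAbelian 2 A := by
    apply ElAb.of_comm
    · intro x hx y hy
      have h1 := hA2 x hx
      have h2 := hA2 y hy
      have h4 := hA2 (x * y) (mul_mem hx hy)
      have e1 : x⁻¹ = x := inv_eq_of_mul_eq_one_right h1
      have e2 : y⁻¹ = y := inv_eq_of_mul_eq_one_right h2
      have e3 : (x * y)⁻¹ = x * y := inv_eq_of_mul_eq_one_right h4
      rw [mul_inv_rev, e1, e2] at e3
      exact e3.symm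
    · intro x hx
      rw [pow_two]; exact hA2 x hx
  have hA8 : 2 ^ 3 ≤ Nat.card A := by
    have := pow_le_card (p := 2) (k := 2) hAel (by simpa using hA4)
    simpa using this
  obtain ⟨V0, hV0A, hV0⟩ := exists_kleinFour_le A hA2 (by omega)
  have hV0S : V0 ≤ (S : Subgroup G) := hV0A.trans hAS
  have hv0 : IsRankGraphVertex 2 2 V0 := by
    refine ⟨elAb_of_klein hV0, by rw [((isKleinFour_iff V0).mp hV0).1]; norm_num, ?_⟩
    exact not_pRankLE_of_le hAel (ElAb.le_centralizer_of_le hAel hV0A) (by simpa using hA4)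
  set W0 := W (th G) V0 with hW0
  have hW0A : W0 = W (th G) A :=
    H.W_eq hAel hA8 hV0A (by rw [((isKleinFour_iff V0).mp hV0).1]; norm_num)
  have hW0odd : (Nat.card W0).Coprime 2 := by
    rw [hW0A]
    exact ((Nat.Prime.coprime_iff_not_dvd hf.out).mpr (H.main hAel hA8).1).symm
  have hSconn : ∀ A B : Subgroup G, A ≤ (S : Subgroup G) → B ≤ (S : Subgroup G) → IsKleinFour A →
      IsKleinFour B → Relation.ReflTransGen (Rel (S := G)) A B := by
    intro A B hAS hBS hA hB
    have h1 := hS (A.subgroupOf S) (B.subgroupOf S) (isKleinFour_subgroupOf hAS hA)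
      (isKleinFour_subgroupOf hBS hB)
    have h3 := rtg_map (S : Subgroup G).subtype_injective h1
    rwa [subgroupOf_map_subtype, subgroupOf_map_subtype, inf_eq_left.mpr hAS, inf_eq_left.mpr hBS] at h3
  have hWV : ∀ V : Subgroup G, V ≤ (S : Subgroup G) → IsKleinFour V → W (th G) V = W0 :=
    fun V hVS hV => (chain H hv0 (hSconn V0 V hV0S hVS hV0 hV)).2
  set M : Subgroup G := normalizer (W0 : Set G) with hM
  have hcore : Core2 S M := by
    refine ⟨⟨V0, hV0S, hV0⟩, ?_⟩
    rintro Q hQS ⟨V, hVQ, hV⟩ g hg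
    rw [hM, mem_normalizer_iff_conj]
    have h1 : MulAut.conj g • V ≤ (S : Subgroup G) := by
      refine le_trans ?_ hQS
      rw [← mem_normalizer_iff_conj.mp hg]
      exact Subgroup.pointwise_smul_le_pointwise_smul_iff.mpr hVQ
    rw [← hWV V (hVQ.trans hQS) hV, ← W_conj, hWV _ h1 (isKleinFour_conj hV g),
      hWV V (hVQ.trans hQS) hV]
  have hth : ∀ t ∈ (S : Subgroup G), orderOf t = 2 → th G t ≤ W0 := by
    intro t htS ht
    obtain ⟨V, hVS, hV, htV⟩ := exists_klein_mem S ⟨A, hAS, hA2, hA4⟩ htS ht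
    rw [← hWV V hVS hV]
    exact le_W htV (by rintro rfl; rw [orderOf_one] at ht; norm_num at ht)
  have hW0bot : W0 = ⊥ := by
    by_cases hMt : M = ⊤
    · have hn : W0.Normal := by
        rw [← Subgroup.normalizer_eq_top_iff]; exact hMt
      have h1 : W0 ≤ pPrimeCore 2 G := H1.Cores.le_pPrimeCore hn hW0odd
      have h2 : pPrimeCore 2 G = ⊥ := hO
      rw [h2] at h1
      exact le_bot_iff.mp h1
    · have hSM := hcore.sylow_le
      have hS1 : (S : Subgroup G) ≠ ⊥ := by
        intro h
        rw [h, le_bot_iff] at hAS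
        rw [hAS] at hA4
        simp at hA4
      have hse : IsStronglyEmbedded M := by
        apply strEmb hMt (hcore.norm S le_rfl hcore.klein) hS1
        intro t htM ht
        have htp : IsPGroup 2 (zpowers t) := IsPGroup.of_card (n := 1) (by
          rw [Nat.card_zpowers, ht, pow_one])
        obtain ⟨m, hm, htm⟩ := exists_conj_le_of_sylow_le S M hSM (zpowers t) htp
          (by rw [zpowers_le]; exact htM)
        have htS : m⁻¹ * t * m ∈ (S : Subgroup G) := by
          have := htm (mem_zpowers t)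
          rwa [H1.SZ.mem_conj_smul] at this
        have hto : orderOf (m⁻¹ * t * m) = 2 := by
          have : m⁻¹ * t * m = MulAut.conj m⁻¹ t := by simp
          rw [this, MulEquiv.orderOf_eq, ht]
        have h1 := hcore.cent_le hpc ⟨A, hAS, hA2, hA4⟩ hto
          ((hth _ htS hto).trans Subgroup.le_normalizer)
          (exists_klein_mem S ⟨A, hAS, hA2, hA4⟩ htS hto)
        intro x hx
        rw [mem_centralizer_singleton_iff] at hx
        have h2 : m⁻¹ * x * m ∈ M := by
          apply h1
          rw [mem_centralizer_singleton_iff]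
          calc m⁻¹ * x * m * (m⁻¹ * t * m) = m⁻¹ * (x * t) * m := by group
            _ = m⁻¹ * (t * x) * m := by rw [hx]
            _ = m⁻¹ * t * m * (m⁻¹ * x * m) := by group
        have h4 : x = m * (m⁻¹ * x * m) * m⁻¹ := by group
        rw [h4]
        exact mul_mem (mul_mem hm h2) (inv_mem hm)
      have h1 := hB M hse
      rw [hO, le_bot_iff] at h1
      have h2 : W0.subgroupOf M ≤ pPrimeCore 2 M := by
        apply H1.Cores.le_pPrimeCore
        · exact Subgroup.normal_subgroupOf_of_le_normalizer le_rfl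
        · rw [H1.SZ.card_subgroupOf_of_le Subgroup.le_normalizer]
          exact hW0odd
      have h3 := Subgroup.map_mono (f := M.subtype) h2
      rw [subgroupOf_map_subtype, inf_eq_left.mpr Subgroup.le_normalizer] at h3
      have h4 : (pPrimeCore 2 M).map M.subtype = ⊥ := h1
      rw [h4] at h3
      exact le_bot_iff.mp h3
  -- all involution centralizers are core-free
  have hcf : ∀ t : G, orderOf t = 2 → pPrimeCore 2 ↥(centralizer ({t} : Set G)) = ⊥ := by
    intro t ht
    have htp : IsPGroup 2 (zpowers t) := IsPGroup.of_card (n := 1) (by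
      rw [Nat.card_zpowers, ht, pow_one])
    obtain ⟨m, -, htm⟩ := exists_conj_le_of_sylow_le S ⊤ le_top (zpowers t) htp le_top
    have htS : m⁻¹ * t * m ∈ (S : Subgroup G) := by
      have := htm (mem_zpowers t)
      rwa [H1.SZ.mem_conj_smul] at this
    have hto : orderOf (m⁻¹ * t * m) = 2 := by
      have : m⁻¹ * t * m = MulAut.conj m⁻¹ t := by simp
      rw [this, MulEquiv.orderOf_eq, ht]
    have h1 := hth _ htS hto
    rw [hW0bot, le_bot_iff] at h1
    have h2 := LayerFree.core_equiv (p := 2) (m⁻¹ * t * m) m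
    have h4 : m * (m⁻¹ * t * m) * m⁻¹ = t := by group
    rw [h4] at h2
    have h5 : centralizerPPrimeCore 2 (m⁻¹ * t * m) = ⊥ := h1
    rw [h5, Subgroup.map_bot] at h2
    exact (Subgroup.map_eq_bot_iff_of_injective _ (Subgroup.subtype_injective _)).mp h2
  refine ⟨?_, ?_⟩
  · have h1 : 8 ∣ Nat.card A := by
      obtain ⟨n, hn⟩ := IsPGroup.iff_card.mp (ElAb.isPGroup hAel)
      rw [hn]
      have : 3 ≤ n := by
        by_contra hcon
        rw [hn] at hA8
        have := (Nat.pow_le_pow_iff_right (a := 2) (by norm_num)).mp hA8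
        omega
      exact (show (8 : ℕ) = 2 ^ 3 by norm_num) ▸ pow_dvd_pow (2 : ℕ) this
    have h2 := h1.trans (Subgroup.card_subgroup_dvd_card A)
    exact even_iff_two_dvd.mpr (dvd_trans (by norm_num) h2)
  · intro T hT hT1
    obtain ⟨t, htT, hto, htc⟩ := H59.PCons2.exists_central_orderOf_eq hT hT1
    have h1 := H59.PCons.CT_of_isPConstrained (hpc t hto) (hcf t hto)
    have hTC : T ≤ centralizer ({t} : Set G) := by
      intro x hx
      rw [mem_centralizer_singleton_iff]
      exact htc x hx
    have hCTC : centralizer (T : Set G) ≤ centralizer ({t} : Set G) :=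
      Subgroup.centralizer_le (by simpa using htT)
    have h2 := H59.PCons2.CT_centralizer_of_le h1 hTC hT hCTC
    exact (H59.PCons2.CT_normalizer_of_CT_centralizer hT h2).centralizer_pCore_le

end H71.NC
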