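import Mathlib
import Cfsg.Agent.Lib.H71.Basic
import Cfsg.Agent.Lib.H72.ClassSize
import Cfsg.Agent.Lib.H72.CoprimeIndex

set_option autoImplicit false

/-! Class sizes and a prime: `p'`-elements with `p'`-index centralizers; `p`-elements with `p`-power class size. -/

open scoped Pointwise

namespace H71.PClass

variable {G : Type*} [Group G] [Finite G] {p : ℕ} [Fact p.Prime]

/-- a `p`-element whose class size is a power of `p` lies in a normal `p`-subgroup -/
theorem isPGroup_normalClosure (x : G) (hx : ∃ k, orderOf x = p ^ k) {a : ℕ}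
    (ha : (Subgroup.centralizer ({x} : Set G)).index = p ^ a) : IsPGroup p (Subgroup.normalClosure {x}) := by
  have hxp : IsPGroup p (Subgroup.zpowers x) := by
    obtain ⟨k, hk⟩ := hx
    apply IsPGroup.of_card (n := k)
    rw [Nat.card_zpowers, hk]
  obtain ⟨P, hP⟩ := hxp.exists_le_sylow
  have hxP : x ∈ (P : Subgroup G) := hP (Subgroup.mem_zpowers x)
  have hcop : (Subgroup.centralizer ({x} : Set G)).index.Coprime (P : Subgroup G).index := by
    rw [ha]
    exact Nat.Coprime.pow_left a (((Fact.out : p.Prime).coprime_iff_not_dvd).2 P.not_dvd_index)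
  apply P.isPGroup'.to_le
  rw [Subgroup.normalClosure, Subgroup.closure_le]
  intro y hy
  obtain ⟨x', hx', hy'⟩ := Group.mem_conjugatesOfSet_iff.1 hy
  rw [Set.mem_singleton_iff] at hx'
  subst hx'
  obtain ⟨g, hg⟩ := isConj_iff.1 hy'
  obtain ⟨b, hb, c, hc, hbc⟩ := H72.CoprimeIndex.exists_mul_of_coprime_index _ _ hcop g
  have h1 : c * x' = x' * c := Subgroup.mem_centralizer_singleton_iff.1 hc
  have h2 : y = b * x' * b⁻¹ := by
    rw [← hg, hbc]
    calc b * c * x' * (b * c)⁻¹ = b * (c * x') * c⁻¹ * b⁻¹ := by group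
      _ = b * (x' * c) * c⁻¹ * b⁻¹ := by rw [h1]
      _ = _ := by group
  rw [h2]
  exact (P : Subgroup G).mul_mem ((P : Subgroup G).mul_mem hb hxP) ((P : Subgroup G).inv_mem hb)

/-- if every `p'`-element has class size prime to `p`, the group is a direct product of a Sylow `p`-subgroup and a normal
`p`-complement -/
theorem exists_direct (h : ∀ y : G, ¬ p ∣ orderOf y → ¬ p ∣ (Subgroup.centralizer ({y} : Set G)).index) :
    ∃ (P : Sylow p G) (K : Subgroup G), (P : Subgroup G).Normal ∧ (P : Subgroup G).IsComplement' K ∧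
      K ≤ Subgroup.centralizer ((P : Subgroup G) : Set G) := by
  have hp : p.Prime := Fact.out
  obtain ⟨P⟩ : Nonempty (Sylow p G) := inferInstance
  -- G = P C(P)
  have htop : (P : Subgroup G) ⊔ Subgroup.centralizer ((P : Subgroup G) : Set G) = ⊤ := by
    apply H72.ClassSize.eq_top_of_forall_conj_mem
    intro g
    obtain ⟨u, v, -, -, huv, hcomm, hu, hv, -, -⟩ := H71.Basic.exists_pPart g (isOfFinOrder_of_finite g) p hp
    obtain ⟨T, hT⟩ := (H72.ClassSize.not_dvd_index_iff p v).1 (h v hv)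
    -- u lies in a Sylow subgroup of the centralizer of v
    set C := Subgroup.centralizer ({v} : Set G) with hC
    have huC : u ∈ C := Subgroup.mem_centralizer_singleton_iff.2 hcomm
    have hup : IsPGroup p (Subgroup.zpowers (⟨u, huC⟩ : C)) := by
      obtain ⟨k, hk⟩ := hu
      apply IsPGroup.of_card (n := k)
      rw [Nat.card_zpowers, Subgroup.orderOf_mk, hk]
    obtain ⟨S, hS⟩ := hup.exists_le_sylow
    let T' : Sylow p C := T.subtype hT
    obtain ⟨c, hc⟩ := MulAction.exists_smul_eq C S T'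
    -- c u c⁻¹ ∈ T
    have h1 : (c : G) * u * (c : G)⁻¹ ∈ (T : Subgroup G) := by
      have h2 : (⟨u, huC⟩ : C) ∈ (S : Subgroup C) := hS (Subgroup.mem_zpowers _)
      have h3 : c * (⟨u, huC⟩ : C) * c⁻¹ ∈ (T' : Subgroup C) := by
        rw [← hc, Sylow.coe_subgroup_smul, Subgroup.mem_pointwise_smul_iff_inv_smul_mem, ← map_inv, MulAut.smul_def,
          MulAut.conj_apply]
        have : c⁻¹ * (c * (⟨u, huC⟩ : C) * c⁻¹) * c⁻¹⁻¹ = ⟨u, huC⟩ := by group
        rw [this]; exact h2
      exact h3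
    have hcv : (c : G) * v * (c : G)⁻¹ = v := by
      have := Subgroup.mem_centralizer_singleton_iff.1 c.2
      rw [this, mul_inv_cancel_right]
    obtain ⟨d, hd⟩ := MulAction.exists_smul_eq G T P
    refine ⟨d * c, ?_⟩
    have h4 : ∀ t ∈ (T : Subgroup G), d * t * d⁻¹ ∈ (P : Subgroup G) := by
      intro t ht
      rw [← hd, Sylow.coe_subgroup_smul, Subgroup.mem_pointwise_smul_iff_inv_smul_mem, ← map_inv, MulAut.smul_def,
        MulAut.conj_apply]
      have : d⁻¹ * (d * t * d⁻¹) * d⁻¹⁻¹ = t := by group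
      rw [this]; exact ht
    have h5 : ∀ t ∈ (P : Subgroup G), d⁻¹ * t * d ∈ (T : Subgroup G) := by
      intro t ht
      rw [← hd, Sylow.coe_subgroup_smul, Subgroup.mem_pointwise_smul_iff_inv_smul_mem, ← map_inv, MulAut.smul_def,
        MulAut.conj_apply, inv_inv] at ht
      exact ht
    have h6 : d * c * g * (d * c)⁻¹ = (d * ((c : G) * u * (c : G)⁻¹) * d⁻¹) * (d * v * d⁻¹) := by
      have e : (c : G) * g * (c : G)⁻¹ = ((c : G) * u * (c : G)⁻¹) * v := by
        calc (c : G) * g * (c : G)⁻¹ = ((c : G) * u * (c : G)⁻¹) * ((c : G) * v * (c : G)⁻¹) := by rw [← huv]; group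
          _ = _ := by rw [hcv]
      calc d * c * g * (d * c)⁻¹ = d * ((c : G) * g * (c : G)⁻¹) * d⁻¹ := by group
        _ = _ := by rw [e]; group
    rw [h6]
    apply Subgroup.mul_mem
    · exact (le_sup_left : (P : Subgroup G) ≤ _) (h4 _ h1)
    · apply (le_sup_right : Subgroup.centralizer ((P : Subgroup G) : Set G) ≤ _)
      rw [Subgroup.mem_centralizer_iff]
      intro t ht
      have h7 := hT (h5 t ht)
      have h8 : (d⁻¹ * t * d) * v = v * (d⁻¹ * t * d) := Subgroup.mem_centralizer_singleton_iff.1 h7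
      calc t * (d * v * d⁻¹) = d * ((d⁻¹ * t * d) * v) * d⁻¹ := by group
        _ = d * (v * (d⁻¹ * t * d)) * d⁻¹ := by rw [h8]
        _ = _ := by group
  have hPn : (P : Subgroup G).Normal := by
    rw [← Subgroup.normalizer_eq_top_iff, eq_top_iff, ← htop, sup_le_iff]
    exact ⟨Subgroup.le_normalizer, Subgroup.centralizer_le_normalizer _⟩
  have hcop : (Nat.card (P : Subgroup G)).Coprime (P : Subgroup G).index := by
    obtain ⟨m, hm⟩ := P.isPGroup'.exists_card_eq
    rw [hm]
    exact Nat.Coprime.pow_left m ((hp.coprime_iff_not_dvd).2 P.not_dvd_index)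
  obtain ⟨K, hK⟩ := Subgroup.exists_right_complement'_of_coprime hcop
  refine ⟨P, K, hPn, hK, ?_⟩
  intro k hk
  -- k = u c
  have hkt : k ∈ ((P : Subgroup G) ⊔ Subgroup.centralizer ((P : Subgroup G) : Set G) : Subgroup G) := by rw [htop]; trivial
  have hcoe : k ∈ ((P : Subgroup G) : Set G) * (Subgroup.centralizer ((P : Subgroup G) : Set G) : Set G) := by
    have : k ∈ (((P : Subgroup G) ⊔ Subgroup.centralizer ((P : Subgroup G) : Set G) : Subgroup G) : Set G) := hkt
    rwa [Subgroup.coe_mul_of_right_le_normalizer_left _ _ (Subgroup.centralizer_le_normalizer _)] at this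
  obtain ⟨u, hu, c, hc, huc⟩ := Set.mem_mul.1 hcoe
  have hconj : MulAut.conjNormal (H := (P : Subgroup G)) k = MulAut.conjNormal (H := (P : Subgroup G)) u := by
    apply MulEquiv.ext
    intro t
    apply Subtype.ext
    change k * t * k⁻¹ = u * t * u⁻¹
    have h1 : (t : G) * c = c * t := Subgroup.mem_centralizer_iff.1 hc t t.2
    rw [← huc]
    calc u * c * t * (u * c)⁻¹ = u * (c * t) * c⁻¹ * u⁻¹ := by group
      _ = u * (t * c) * c⁻¹ * u⁻¹ := by rw [h1]
      _ = _ := by group
  have h1 : orderOf (MulAut.conjNormal (H := (P : Subgroup G)) k) ∣ orderOf k := orderOf_map_dvd _ _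
  have h2 : orderOf (MulAut.conjNormal (H := (P : Subgroup G)) k) ∣ orderOf u := by rw [hconj]; exact orderOf_map_dvd _ _
  have h3 : (orderOf k).Coprime (orderOf u) := by
    have h4 : orderOf k ∣ (P : Subgroup G).index := by
      rw [hK.symm.index_eq_card]; exact Subgroup.orderOf_dvd_natCard K hk
    have h5 : orderOf u ∣ Nat.card (P : Subgroup G) := Subgroup.orderOf_dvd_natCard _ hu
    exact (Nat.Coprime.coprime_dvd_left h5 (Nat.Coprime.coprime_dvd_right h4 hcop)).symm
  have h4 : MulAut.conjNormal (H := (P : Subgroup G)) k = 1 := by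
    rw [← orderOf_eq_one_iff]
    exact Nat.eq_one_of_dvd_coprimes h3 h1 h2
  rw [Subgroup.mem_centralizer_iff]
  intro t ht
  have h5 := congrArg (fun f : MulAut (P : Subgroup G) => ((f ⟨t, ht⟩ : (P : Subgroup G)) : G)) h4
  have h6 : k * t * k⁻¹ = t := h5
  rw [mul_inv_eq_iff_eq_mul] at h6
  exact h6.symm

end H71.PClass
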