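import Cfsg.Agent.Lib.H71.PiHall4
import Cfsg.Agent.Lib.H4.OddMod16
import Cfsg.Agent.Lib.H18.CharQuot

set_option autoImplicit false

/-! A bound for the class number in terms of the derived subgroup, and the theorems on the number of
classes of `π`-elements (S4104, S4105). -/

namespace H71.PiDer

open Subgroup H71.PiCount H71.PiHall Cfsg
open Cfsg.Agent.S4106 (PiClass)

universe u

theorem card_linear_le (H : Type u) [Group H] [Finite H] :
    Nat.card {χ : IrrCharacter H // H4.OddMod16.deg χ = 1} ≤ (commutator H).index := by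
  rw [← H18.CharQuot.card_hom_eq_index]
  have hfin : Finite (H →* ℂˣ) := by
    apply Nat.finite_of_card_ne_zero
    rw [H18.CharQuot.card_hom_eq_index]
    exact index_ne_zero_of_finite
  have h : ∀ χ : {χ : IrrCharacter H // H4.OddMod16.deg χ = 1}, ∃ f : H →* ℂˣ,
      (χ.1 : H → ℂ) = fun g => (f g : ℂ) := by
    rintro ⟨χ, hχ⟩
    apply H18.CharQuot.exists_hom_of_degree_one
    · obtain ⟨n, ρ, -, h⟩ := χ.2
      exact ⟨n, ρ, h⟩
    · rw [H4.OddMod16.deg_spec, hχ, Nat.cast_one]
  choose F hF using h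
  apply Nat.card_le_card_of_injective F
  intro a b hab
  apply Subtype.ext
  apply Subtype.ext
  rw [hF a, hF b, hab]

/-- a bound for the class number -/
theorem card_bound {H : Type u} [Group H] [Finite H] {p : ℕ}
    (hp : ∀ q : ℕ, q.Prime → q ∣ Nat.card H → p ≤ q) :
    Nat.card (ConjClasses H) * p ^ 2 ≤ Nat.card H + (commutator H).index * (p ^ 2 - 1) := by
  classical
  have := Fintype.ofFinite (ConjClasses H)
  have hfin : Finite (IrrCharacter H) := by
    apply Nat.finite_of_card_ne_zero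
    rw [H4.CharCount.card_irr]
    exact Nat.card_pos.ne'
  have := Fintype.ofFinite (IrrCharacter H)
  have h1 := H4.OddMod16.sum_deg_sq (G := H)
  have h2 : ∀ χ : IrrCharacter H, p ^ 2 ≤ H4.OddMod16.deg χ ^ 2 +
      (if H4.OddMod16.deg χ = 1 then p ^ 2 - 1 else 0) := by
    intro χ
    split_ifs with h
    · rw [h]
      rcases Nat.eq_zero_or_pos p with rfl | h0
      · simp
      · have : 0 < p ^ 2 := by positivity
        omega
    · rw [add_zero]
      obtain ⟨q, hq, hqd⟩ := Nat.exists_prime_and_dvd h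
      have hdvd := H4.OddMod16.deg_dvd_card χ
      have h3 : p ≤ H4.OddMod16.deg χ := (hp q hq (hqd.trans hdvd)).trans
        (Nat.le_of_dvd (Nat.pos_of_dvd_of_pos hdvd Nat.card_pos) hqd)
      exact Nat.pow_le_pow_left h3 2
  have h3 := Finset.sum_le_sum (s := Finset.univ) fun χ _ => h2 χ
  rw [Finset.sum_const, Finset.card_univ, smul_eq_mul, ← Nat.card_eq_fintype_card,
    H4.CharCount.card_irr, Finset.sum_add_distrib, h1, ← Finset.sum_filter, Finset.sum_const,
    smul_eq_mul, ← Fintype.card_subtype, ← Nat.card_eq_fintype_card] at h3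
  refine h3.trans ?_
  have := card_linear_le H
  gcongr

theorem arith1 {p d h k : ℕ} (hp : 2 ≤ p) (hd : 0 < d)
    (h1 : k * p ^ 2 ≤ d * h + d * (p ^ 2 - 1)) (h2 : d * h < p * k) : h ≤ p := by
  obtain ⟨p', rfl⟩ : ∃ p', p = p' + 1 := ⟨p - 1, by omega⟩
  have e1 : (p' + 1) ^ 2 - 1 = p' * (p' + 2) := by
    have : (p' + 1) ^ 2 = p' * (p' + 2) + 1 := by ring
    omega
  rw [e1] at h1
  by_contra hcon
  have hcon : p' + 2 ≤ h := by omega
  have e2 : d * h * (p' + 1) < d * h + d * (p' * (p' + 2)) := by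
    calc d * h * (p' + 1) < (p' + 1) * k * (p' + 1) := Nat.mul_lt_mul_of_pos_right h2 (by omega)
      _ = k * (p' + 1) ^ 2 := by ring
      _ ≤ _ := h1
  have e3 : d * (h * p') < d * (p' * (p' + 2)) := by nlinarith
  have e4 : h * p' < p' * (p' + 2) := lt_of_mul_lt_mul_left e3 (Nat.zero_le _)
  rw [mul_comm h] at e4
  have := lt_of_mul_lt_mul_left e4 (Nat.zero_le _)
  omega

theorem arith2 {p d h k : ℕ} (hp : 2 ≤ p) (hd : 0 < d)
    (h1 : k * p ^ 2 ≤ d * h + d * (p ^ 2 - 1)) (h2 : d * h * (p ^ 2 + p - 1) < p ^ 3 * k) :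
    h < p := by
  obtain ⟨p', rfl⟩ : ∃ p', p = p' + 1 := ⟨p - 1, by omega⟩
  have e1 : (p' + 1) ^ 2 - 1 = p' * (p' + 2) := by
    have : (p' + 1) ^ 2 = p' * (p' + 2) + 1 := by ring
    omega
  have e0 : (p' + 1) ^ 2 + (p' + 1) - 1 = p' * (p' + 2) + (p' + 1) := by
    have : (p' + 1) ^ 2 = p' * (p' + 2) + 1 := by ring
    omega
  rw [e1] at h1
  rw [e0] at h2
  by_contra hcon
  have hcon : p' + 1 ≤ h := by omega
  have e2 : d * h * (p' * (p' + 2) + (p' + 1)) < (p' + 1) * (d * h + d * (p' * (p' + 2))) := by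
    calc d * h * (p' * (p' + 2) + (p' + 1)) < (p' + 1) ^ 3 * k := h2
      _ = (p' + 1) * (k * (p' + 1) ^ 2) := by ring
      _ ≤ _ := Nat.mul_le_mul_left _ h1
  have e3 : d * (h * (p' * (p' + 2))) < d * ((p' + 1) * (p' * (p' + 2))) := by nlinarith
  have e4 : h * (p' * (p' + 2)) < (p' + 1) * (p' * (p' + 2)) := lt_of_mul_lt_mul_left e3 (Nat.zero_le _)
  have := lt_of_mul_lt_mul_right e4 (Nat.zero_le _)
  omega

variable {G : Type u} [Group G] [Finite G]

/-- the number of classes of `s`-elements is at most the class number of a nilpotent Hall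
`s`-subgroup -/
theorem kk_le_classes {s : Finset ℕ} (hs : ∀ q ∈ s, q.Prime) {H : Subgroup G}
    (hH : Group.IsNilpotent H) (hc : Nat.card H = part s (Nat.card G)) :
    kk s G ≤ Nat.card (ConjClasses H) := by
  classical
  have h1 : ∀ C : {C : ConjClasses G // PiClass s C}, ∃ D : ConjClasses H,
      ∃ x : H, ConjClasses.mk x = D ∧ ConjClasses.mk (x : G) = C.1 := by
    rintro ⟨C, hC⟩
    obtain ⟨y, rfl⟩ := ConjClasses.exists_rep C
    have h2 := piClass_mk.1 hC
    obtain ⟨g, hg⟩ := wielandt hs hH hc (X := zpowers y) (fun q hq hd => h2 q hq (by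
      rwa [Nat.card_zpowers] at hd))
    have h3 := hg (mem_zpowers y)
    rw [H38.Basic.mem_conj] at h3
    refine ⟨_, ⟨g⁻¹ * y * g, h3⟩, rfl, ?_⟩
    apply ConjClasses.mk_eq_mk_iff_isConj.2
    rw [isConj_iff]
    exact ⟨g, by simp [mul_assoc]⟩
  choose F x hx1 hx2 using h1
  apply Nat.card_le_card_of_injective F
  intro a b hab
  apply Subtype.ext
  rw [← hx2 a, ← hx2 b]
  have h4 : ConjClasses.mk (x a) = ConjClasses.mk (x b) := by rw [hx1, hx1, hab]
  obtain ⟨c, hc⟩ := isConj_iff.1 (ConjClasses.mk_eq_mk_iff_isConj.1 h4)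
  apply ConjClasses.mk_eq_mk_iff_isConj.2
  rw [isConj_iff]
  exact ⟨c, congrArg Subtype.val hc⟩

/-- translation of the hypotheses of S4104 and S4105 -/
theorem translate (π : Set ℕ) (m : ℕ) (hm : m ∣ Nat.card G)
    (hmπ : ∀ q : ℕ, q.Prime → q ∣ m → q ∈ π) (hm' : ∀ q ∈ π, ¬ q ∣ Nat.card G / m) :
    part m.primeFactors (Nat.card G) = m ∧
    Nat.card {C : ConjClasses G // ∀ q : ℕ, q.Prime →
      (∃ g : G, ConjClasses.mk g = C ∧ q ∣ orderOf g) → q ∈ π} ≤ kk m.primeFactors G := by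
  classical
  have hG0 : Nat.card G ≠ 0 := Nat.card_pos.ne'
  have hm0 : m ≠ 0 := ne_zero_of_dvd_ne_zero hG0 hm
  constructor
  · unfold part
    conv_rhs => rw [← Nat.prod_factorization_pow_eq_self hm0]
    rw [Nat.prod_factorization_eq_prod_primeFactors]
    apply Finset.prod_congr rfl
    intro q hq
    congr 1
    have hq' := Nat.prime_of_mem_primeFactors hq
    have hqπ : q ∈ π := hmπ q hq' (Nat.dvd_of_mem_primeFactors hq)
    obtain ⟨c, hc⟩ := hm
    have hc0 : c ≠ 0 := by rintro rfl; exact hG0 (by rw [hc, mul_zero])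
    have : ¬ q ∣ c := by
      have := hm' q hqπ
      rwa [hc, Nat.mul_div_cancel_left _ (Nat.pos_of_ne_zero hm0)] at this
    rw [hc, Nat.factorization_mul hm0 hc0, Finsupp.add_apply,
      Nat.factorization_eq_zero_of_not_dvd this, add_zero]
  · have key : ∀ C : {C : ConjClasses G // ∀ q : ℕ, q.Prime →
        (∃ g : G, ConjClasses.mk g = C ∧ q ∣ orderOf g) → q ∈ π}, PiClass m.primeFactors C.1 := by
      intro C g hg q hq hqg
      have hqπ := C.2 q hq ⟨g, hg, hqg⟩
      rw [Nat.mem_primeFactors]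
      refine ⟨hq, ?_, hm0⟩
      have h3 : q ∣ Nat.card G := hqg.trans (orderOf_dvd_natCard g)
      obtain ⟨c, hc⟩ := hm
      rw [hc] at h3
      rcases (Nat.Prime.dvd_mul hq).1 h3 with h | h
      · exact h
      · exfalso
        apply hm' q hqπ
        rw [hc, Nat.mul_div_cancel_left _ (Nat.pos_of_ne_zero hm0)]
        exact h
    exact Nat.card_le_card_of_injective
      (fun C => (⟨C.1, key C⟩ : {C : ConjClasses G // PiClass m.primeFactors C}))
      (fun a b hab => Subtype.ext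
        (congrArg (fun z : {C : ConjClasses G // PiClass m.primeFactors C} => z.1) hab))

end H71.PiDer
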