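import Cfsg.Agent.Lib.H71.PiHall
import Cfsg.Agent.Lib.H3.CardSup

set_option autoImplicit false

/-! Nilpotent Hall subgroups: the key lemmas for counting classes of `π`-elements. -/

namespace H71.PiHall

open Subgroup H71.PiCount H38.Basic H12.Nil
open scoped Pointwise
open Cfsg.Agent.S4106 (PiClass)

universe u

variable {G : Type u} [Group G] [Finite G]

theorem mul_card_le_of_lt {p : ℕ} [hp : Fact p.Prime] {S T : Subgroup G} (hT : IsPGroup p T)
    (h : S < T) : p * Nat.card S ≤ Nat.card T := by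
  obtain ⟨n, hn⟩ : ∃ n, S.relIndex T = p ^ n := hT.index (S.subgroupOf T)
  have h1 := H12.Basic.card_mul_relIndex h.le
  have hn0 : n ≠ 0 := by
    rintro rfl
    rw [pow_zero, relIndex_eq_one] at hn
    exact absurd h (not_lt_of_ge hn)
  rw [← h1, hn, mul_comm]
  exact Nat.mul_le_mul_left _ (Nat.le_self_pow hn0 p)

theorem card_isSyl {p : ℕ} [hp : Fact p.Prime] {P L : Subgroup G} (hP : IsSyl p P L) :
    Nat.card P = part {p} (Nat.card L) := by
  rw [part_singleton]
  have h1 := hP.toSylow.card_eq_multiplicity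
  rw [IsSyl.coe_toSylow, H12.Basic.card_subgroupOf hP.1] at h1
  exact h1

theorem card_isSyl_top {p : ℕ} [hp : Fact p.Prime] {P : Subgroup G} (hP : IsSyl p P ⊤) :
    Nat.card P = part {p} (Nat.card G) := by
  rw [card_isSyl hP, card_top]

theorem isSyl_top_of_card {p : ℕ} [hp : Fact p.Prime] {P Q : Subgroup G} (hP : IsSyl p P ⊤)
    (hQ : IsPGroup p Q) (hc : Nat.card P ≤ Nat.card Q) : IsSyl p Q ⊤ :=
  hP.of_card_le hQ le_top hc

/-- every `{l,o}`-subgroup is nilpotent, for `l ∈ τ` -/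
def PP (τ : Finset ℕ) (o : ℕ) (G : Type u) [Group G] : Prop :=
  ∀ l ∈ τ, ∀ X : Subgroup G, (∀ q : ℕ, q.Prime → q ∣ Nat.card X → q = l ∨ q = o) →
    Group.IsNilpotent X

theorem pp_comm {l o : ℕ} [hl : Fact l.Prime] [ho : Fact o.Prime] (hlo : l ≠ o) {τ : Finset ℕ}
    (hPP : PP τ o G) (hlτ : l ∈ τ) {A B : Subgroup G} (hA : IsPGroup l A) (hB : IsPGroup o B)
    (hn : B ≤ normalizer (A : Set G) ∨ A ≤ normalizer (B : Set G)) :
    A ≤ centralizer (B : Set G) := by
  have hd : Nat.card (A ⊔ B : Subgroup G) ∣ Nat.card A * Nat.card B := by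
    rcases hn with h | h
    · have := H3.CardSup.card_sup_mul_card_inf B A h
      rw [sup_comm, mul_comm (Nat.card A), ← this]
      exact Dvd.intro _ rfl
    · have := H3.CardSup.card_sup_mul_card_inf A B h
      rw [← this]
      exact Dvd.intro _ rfl
  have hX : Group.IsNilpotent (A ⊔ B : Subgroup G) := by
    apply hPP l hlτ
    intro q hq hqd
    rcases hq.dvd_mul.1 (hqd.trans hd) with h | h
    · left
      obtain ⟨n, hn⟩ := IsPGroup.iff_card.1 hA
      rw [hn] at h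
      exact (Nat.prime_dvd_prime_iff_eq hq hl.out).1 (hq.dvd_of_dvd_pow h)
    · right
      obtain ⟨n, hn⟩ := IsPGroup.iff_card.1 hB
      rw [hn] at h
      exact (Nat.prime_dvd_prime_iff_eq hq ho.out).1 (hq.dvd_of_dvd_pow h)
  have hAX := le_Sy hX (le_sup_left : A ≤ A ⊔ B) hA
  have hBX := le_Sy hX (le_sup_right : B ≤ A ⊔ B) hB
  intro a ha
  rw [mem_centralizer_iff]
  intro b hb
  exact (H12.Nil.commute hX hlo (hAX ha) (hBX hb)).symm

section

variable {τ : Finset ℕ} (hτ : ∀ q ∈ τ, q.Prime) {K : Subgroup G} (hK : Group.IsNilpotent K)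
  (hc : Nat.card K = part τ (Nat.card G)) {o : ℕ} [ho : Fact o.Prime] (hoτ : o ∉ τ)

include hτ hK hc

/-- a subgroup containing all `Sy K l`, `l ∈ τ`, contains `K` -/
theorem le_of_forall_Sy {S : Subgroup G} (h : ∀ l ∈ τ, Sy K l ≤ S) : K ≤ S := by
  apply le_of_Sy_le hK
  intro p hp
  by_cases hpτ : p ∈ τ
  · exact h p hpτ
  · rw [Sy_eq_bot hτ hc hpτ]
    exact bot_le

include hoτ

theorem le_centralizer_of_pp (hPP : PP τ o G) {T : Subgroup G} (hT : IsPGroup o T)
    (hTK : T ≤ normalizer (K : Set G)) : K ≤ centralizer (T : Set G) := by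
  apply le_of_forall_Sy hτ hK hc
  intro l hl
  have := Fact.mk (hτ l hl)
  refine pp_comm (l := l) (o := o) (fun h => hoτ (h ▸ hl)) hPP hl (isPGroup_Sy K l) hT (Or.inl ?_)
  exact hTK.trans (normalizer_le_normalizer_Sy hK l)

theorem not_dvd_card_K : ¬ o ∣ Nat.card K := by
  intro hd
  exact hoτ (mem_of_dvd_part hτ ho.out (hc ▸ hd)).1

theorem nh_of_le_centralizer {O : Subgroup G} (hO : IsSyl o O ⊤) (h : K ≤ centralizer (O : Set G)) :
    ∃ H : Subgroup G, Group.IsNilpotent H ∧ Nat.card H = part (insert o τ) (Nat.card G) := by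
  refine ⟨K ⊔ O, ?_, ?_⟩
  · have hcomm : ∀ (k : K) (x : O), Commute (K.subtype k) (O.subtype x) := by
      intro k x
      exact ((mem_centralizer_iff.1 (h k.2)) x x.2).symm
    have hOn : Group.IsNilpotent O := hO.2.1.isNilpotent
    have h1 : (K.subtype.noncommCoprod O.subtype hcomm).range = K ⊔ O := by
      rw [MonoidHom.noncommCoprod_range, range_subtype, range_subtype]
    rw [← h1]
    exact Group.nilpotent_of_surjective _
      (MonoidHom.rangeRestrict_surjective (K.subtype.noncommCoprod O.subtype hcomm))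
  · have hcop : (Nat.card K).Coprime (Nat.card O) := by
      obtain ⟨n, hn⟩ := IsPGroup.iff_card.1 hO.2.1
      rw [hn]
      apply Nat.Coprime.pow_right
      rw [Nat.coprime_comm, ho.out.coprime_iff_not_dvd]
      exact not_dvd_card_K hτ hK hc hoτ
    have h1 := H3.CardSup.card_sup_mul_card_inf K O (h.trans (centralizer_le_normalizer _))
    rw [(disjoint_of_coprime_natCard hcop).eq_bot, card_bot, mul_one] at h1
    rw [h1, part_insert hoτ, hc, card_isSyl_top hO, part_singleton, mul_comm]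

/-- a Sylow `o`-subgroup of `C(K)` is not a Sylow subgroup of `G` unless there is a nilpotent Hall
subgroup -/
theorem mul_card_le (hNH : ¬ ∃ H : Subgroup G, Group.IsNilpotent H ∧
      Nat.card H = part (insert o τ) (Nat.card G)) {S₀ O : Subgroup G}
    (hS : IsSyl o S₀ (centralizer (K : Set G))) (hO : IsSyl o O ⊤) :
    o * Nat.card S₀ ≤ Nat.card O := by
  obtain ⟨O', hO', hle⟩ := exists_isSyl_ge hS.2.1 (le_top : S₀ ≤ ⊤)
  rw [hO.card_eq hO']
  apply mul_card_le_of_lt hO'.2.1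
  refine lt_of_le_of_ne hle ?_
  rintro rfl
  exact hNH (nh_of_le_centralizer hτ hK hc hoτ hO' (le_centralizer_iff.1 hS.1))

theorem exists_mover {S₀ O : Subgroup G} (hS : IsSyl o S₀ (centralizer (K : Set G)))
    (hO : IsSyl o O ⊤) (hcard : Nat.card O = o * Nat.card S₀)
    (ha : ∀ T : Subgroup G, IsPGroup o T → T ≤ normalizer (S₀ : Set G) →
      T ≤ normalizer (K : Set G) → Nat.card T ≤ Nat.card S₀)
    {O₁ : Subgroup G} (hO₁ : IsSyl o O₁ (centralizer (S₀ : Set G))) :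
    ∃ h ∈ centralizer (S₀ : Set G), h ∈ normalizer (O₁ : Set G) ∧ h ∉ centralizer (O₁ : Set G) := by
  by_contra hcon
  have hle : centralizer (S₀ : Set G) ⊓ normalizer (O₁ : Set G) ≤ centralizer (O₁ : Set G) := by
    intro h hh
    by_contra hn
    exact hcon ⟨h, hh.1, hh.2, hn⟩
  obtain ⟨M, hMC, hMo, hMX, hMn⟩ := burnside hO₁ hle
  have hKC : K ≤ centralizer (S₀ : Set G) := le_centralizer_iff.1 hS.1
  have hKM : K ≤ M := hMX K hKC (not_dvd_card_K hτ hK hc hoτ)
  have hMN : M ≤ normalizer (S₀ : Set G) := hMC.trans (centralizer_le_normalizer _)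
  have hNM : normalizer (S₀ : Set G) ≤ normalizer (M : Set G) := by
    intro g hg
    apply hMn
    rw [H38.Basic.mem_normalizer_iff', conj_centralizer', H38.Basic.mem_normalizer_iff'.1 hg]
  have hcM : Nat.card K = part τ (Nat.card M) := hall_of_le hτ hc hKM
  obtain ⟨T, hT⟩ := exists_isSyl (p := o) (normalizer (S₀ : Set G) ⊓ normalizer (K : Set G))
  have hTN : IsSyl o T (normalizer (S₀ : Set G)) :=
    isSyl_of_factor hMN inf_le_left (fun n hn => hall_frattini hτ hK hMN hNM hKM hcM hn) hMo hT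
  have h1 := ha T hT.2.1 (hT.1.trans inf_le_left) (hT.1.trans inf_le_right)
  obtain ⟨O', hO', hSO⟩ := exists_isSyl_ge hS.2.1 (le_top : S₀ ≤ ⊤)
  have hc' : Nat.card O' = o * Nat.card S₀ := by rw [← hO.card_eq hO', hcard]
  have ho1 := ho.out.one_lt
  have hpos : 0 < Nat.card S₀ := Nat.card_pos
  have hlt : S₀ < O' := by
    refine lt_of_le_of_ne hSO ?_
    intro he
    rw [← he] at hc'
    nlinarith
  have h2 := lt_inf_normalizer hO'.2.1 hlt
  have h3 := mul_card_le_of_lt (hO'.2.1.to_le inf_le_left) h2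
  have h4 : O' ⊓ normalizer (S₀ : Set G) = O' := by
    apply eq_of_le_of_card_ge inf_le_left
    rw [hc']; exact h3
  have h5 : O' ≤ normalizer (S₀ : Set G) := inf_eq_left.1 h4
  have h6 := hTN.card_le hO'.2.1 h5
  have h7 : 1 * Nat.card S₀ < o * Nat.card S₀ := Nat.mul_lt_mul_of_pos_right ho1 hpos
  omega

end

/-- if `h` centralizes `S₀`, normalizes the Sylow subgroup `O₁` of `C(S₀)` and moves it, then
`S₀ O₁` is a Sylow subgroup of `G` -/
theorem sup_of_mover {o : ℕ} [ho : Fact o.Prime] {S₀ O O₁ : Subgroup G} (hS : IsPGroup o S₀)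
    (hO : IsSyl o O ⊤) (hcard : Nat.card O = o * Nat.card S₀)
    (hO₁ : IsSyl o O₁ (centralizer (S₀ : Set G))) {h : G} (hh : h ∈ centralizer (S₀ : Set G))
    (hn : h ∈ normalizer (O₁ : Set G)) (hnc : h ∉ centralizer (O₁ : Set G)) :
    IsSyl o (S₀ ⊔ O₁) ⊤ ∧ Nat.card (S₀ ⊔ O₁ : Subgroup G) = o * Nat.card S₀ ∧
      (∀ x ∈ S₀ ⊔ O₁, h * x * h⁻¹ ∈ S₀ ⊔ O₁) ∧ ∀ x ∈ S₀ ⊔ O₁, h * x = x * h → x ∈ S₀ := by
  have hO₁n : O₁ ≤ normalizer (S₀ : Set G) := hO₁.1.trans (centralizer_le_normalizer _)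
  have hp : IsPGroup o (S₀ ⊔ O₁ : Subgroup G) := by
    rw [sup_comm]
    exact hO₁.2.1.to_sup_of_normal_right' hS hO₁n
  have hlt : S₀ < S₀ ⊔ O₁ := by
    refine lt_of_le_of_ne le_sup_left ?_
    intro he
    apply hnc
    have : O₁ ≤ S₀ := by rw [he]; exact le_sup_right
    exact centralizer_le this hh
  have h1 := mul_card_le_of_lt hp hlt
  have hsyl := isSyl_top_of_card hO hp (by rw [hcard]; exact h1)
  have hc2 : Nat.card (S₀ ⊔ O₁ : Subgroup G) = o * Nat.card S₀ := by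
    rw [← hO.card_eq hsyl, hcard]
  have hnorm : h ∈ normalizer ((S₀ ⊔ O₁ : Subgroup G) : Set G) := by
    rw [H38.Basic.mem_normalizer_iff', conj_sup,
      H38.Basic.mem_normalizer_iff'.1 (centralizer_le_normalizer _ hh),
      H38.Basic.mem_normalizer_iff'.1 hn]
  refine ⟨hsyl, hc2, fun x hx => (mem_normalizer_iff.1 hnorm x).1 hx, ?_⟩
  have hD : (S₀ ⊔ O₁) ⊓ centralizer ({h} : Set G) = S₀ := by
    symm
    by_contra hne
    have hle : S₀ ≤ (S₀ ⊔ O₁) ⊓ centralizer ({h} : Set G) := by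
      refine le_inf le_sup_left ?_
      intro x hx
      rw [mem_centralizer_singleton_iff]
      exact (mem_centralizer_iff.1 hh x hx)
    have h2 := mul_card_le_of_lt (hp.to_le inf_le_left) (lt_of_le_of_ne hle hne)
    have h3 : (S₀ ⊔ O₁) ⊓ centralizer ({h} : Set G) = S₀ ⊔ O₁ :=
      eq_of_le_of_card_ge inf_le_left (by rw [hc2]; exact h2)
    apply hnc
    rw [mem_centralizer_iff]
    intro x hx
    have h4 : x ∈ (S₀ ⊔ O₁) ⊓ centralizer ({h} : Set G) := by
      rw [h3]; exact (le_sup_right : O₁ ≤ S₀ ⊔ O₁) hx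
    exact mem_centralizer_singleton_iff.1 h4.2
  intro x hx hxh
  rw [← hD]
  exact ⟨hx, mem_centralizer_singleton_iff.2 hxh.symm⟩

/-- classes of `o`-elements meet a Sylow subgroup -/
theorem mem_image_of_piClass {o : ℕ} [ho : Fact o.Prime] {O : Subgroup G} (hO : IsSyl o O ⊤) {x : G}
    (hx : PiClass {o} (ConjClasses.mk x)) : ∃ y ∈ O, ConjClasses.mk y = ConjClasses.mk x := by
  have h1 := piClass_mk.1 hx
  have hp : IsPGroup o (zpowers x) := by
    rw [IsPGroup.iff_card, Nat.card_zpowers]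
    exact ⟨_, Nat.eq_prime_pow_of_unique_prime_dvd (orderOf_pos x).ne'
      (fun hq hd => Finset.mem_singleton.1 (h1 _ hq hd))⟩
  obtain ⟨g, -, hg⟩ := hO.exists_conj_le hp le_top
  refine ⟨g * x * g⁻¹, hg (conj_mem_conj.2 (mem_zpowers x)), ?_⟩
  apply ConjClasses.mk_eq_mk_iff_isConj.2
  rw [isConj_comm, isConj_iff]
  exact ⟨g, rfl⟩

theorem kk_le_ncard {o : ℕ} [ho : Fact o.Prime] {O : Subgroup G} (hO : IsSyl o O ⊤) :
    kk {o} G ≤ (ConjClasses.mk '' (O : Set G)).ncard := by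
  rw [kk_eq_ncard]
  apply Set.ncard_le_ncard _ (Set.toFinite _)
  intro C hC
  obtain ⟨x, rfl⟩ := ConjClasses.exists_rep C
  obtain ⟨y, hy, hyx⟩ := mem_image_of_piClass hO hC
  exact ⟨y, hy, hyx⟩

/-- the number of classes of `o`-elements if some element moves the Sylow `o`-subgroup -/
theorem two_mul_kk_le {o : ℕ} [ho : Fact o.Prime] {O : Subgroup G} (hO : IsSyl o O ⊤) {h : G}
    (hn : h ∈ normalizer (O : Set G)) (hnc : h ∉ centralizer (O : Set G)) :
    2 * o * kk {o} G ≤ (o + 1) * Nat.card O := by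
  have h1 := kk_le_ncard hO
  have h2 := two_mul_ncard_le (O : Set G) h (fun x hx => (mem_normalizer_iff.1 hn x).1 hx)
  have h3 : {x ∈ (O : Set G) | h * x = x * h} = ((O ⊓ centralizer ({h} : Set G) : Subgroup G) : Set G) := by
    ext x
    constructor
    · rintro ⟨hx, hxh⟩
      exact ⟨hx, mem_centralizer_singleton_iff.2 hxh.symm⟩
    · rintro ⟨hx, hxh⟩
      exact ⟨hx, (mem_centralizer_singleton_iff.1 hxh).symm⟩
  rw [h3] at h2
  have hlt : O ⊓ centralizer ({h} : Set G) < O := by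
    refine lt_of_le_of_ne inf_le_left ?_
    intro he
    apply hnc
    rw [mem_centralizer_iff]
    intro x hx
    have h4 : x ∈ O ⊓ centralizer ({h} : Set G) := by rw [he]; exact hx
    exact mem_centralizer_singleton_iff.1 h4.2
  have h5 := mul_card_le_of_lt hO.2.1 hlt
  have h6 : (O : Set G).ncard = Nat.card O := rfl
  have h7 : ((O ⊓ centralizer ({h} : Set G) : Subgroup G) : Set G).ncard =
    Nat.card (O ⊓ centralizer ({h} : Set G) : Subgroup G) := rfl
  rw [h6, h7] at h2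
  calc 2 * o * kk {o} G ≤ o * (2 * (ConjClasses.mk '' (O : Set G)).ncard) := by
        nlinarith [Nat.mul_le_mul_left (2 * o) h1]
    _ ≤ o * (Nat.card O + Nat.card (O ⊓ centralizer ({h} : Set G) : Subgroup G)) :=
        Nat.mul_le_mul_left _ h2
    _ ≤ (o + 1) * Nat.card O := by nlinarith

/-- the same inside a subgroup -/
theorem two_mul_kk_le_rel {o : ℕ} [ho : Fact o.Prime] {L O : Subgroup G} (hO : IsSyl o O L) {h : G}
    (hL : h ∈ L) (hn : h ∈ normalizer (O : Set G)) (hnc : h ∉ centralizer (O : Set G)) :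
    2 * o * kk {o} L ≤ (o + 1) * Nat.card O := by
  have h1 : IsSyl o (O.subgroupOf L) (⊤ : Subgroup L) :=
    ⟨le_top, hO.2.1.comap_subtype, by rw [relIndex_top_right]; exact hO.2.2⟩
  have h2 : (⟨h, hL⟩ : L) ∈ normalizer ((O.subgroupOf L : Subgroup L) : Set L) := by
    rw [mem_normalizer_iff]
    intro x
    rw [mem_subgroupOf, mem_subgroupOf]
    exact mem_normalizer_iff.1 hn x
  have h3 : (⟨h, hL⟩ : L) ∉ centralizer ((O.subgroupOf L : Subgroup L) : Set L) := by
    intro h4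
    apply hnc
    rw [mem_centralizer_iff] at h4 ⊢
    intro x hx
    exact congrArg Subtype.val (h4 ⟨x, hO.1 hx⟩ (mem_subgroupOf.2 hx))
  have h4 := two_mul_kk_le h1 h2 h3
  rwa [H12.Basic.card_subgroupOf hO.1] at h4

/-- classes of `o`-elements missing `S₀` -/
theorem two_mul_ncard_diff_le {o : ℕ} [ho : Fact o.Prime] {S₀ O O₁ : Subgroup G}
    (hS : IsPGroup o S₀)
    (hO : IsSyl o O ⊤) (hcard : Nat.card O = o * Nat.card S₀)
    (hO₁ : IsSyl o O₁ (centralizer (S₀ : Set G))) {h : G} (hh : h ∈ centralizer (S₀ : Set G))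
    (hn : h ∈ normalizer (O₁ : Set G)) (hnc : h ∉ centralizer (O₁ : Set G)) :
    2 * (cl {o} G \ ConjClasses.mk '' (S₀ : Set G)).ncard + Nat.card S₀ ≤ Nat.card O := by
  obtain ⟨hsyl, hc2, hinv, hfix⟩ := sup_of_mover hS hO hcard hO₁ hh hn hnc
  set T := S₀ ⊔ O₁ with hT
  have h1 : (cl {o} G \ ConjClasses.mk '' (S₀ : Set G)) ⊆
      ConjClasses.mk '' ((T : Set G) \ (S₀ : Set G)) := by
    rintro C ⟨hC, hCS⟩
    obtain ⟨x, rfl⟩ := ConjClasses.exists_rep C
    obtain ⟨y, hy, hyx⟩ := mem_image_of_piClass hsyl hC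
    exact ⟨y, ⟨hy, fun hyS => hCS ⟨y, hyS, hyx⟩⟩, hyx⟩
  have h2 := Set.ncard_le_ncard h1 (Set.toFinite _)
  have h3 := two_mul_ncard_le ((T : Set G) \ (S₀ : Set G)) h (by
    rintro x ⟨hx, hxS⟩
    refine ⟨hinv x hx, ?_⟩
    intro hxS'
    apply hxS
    have h5 : h⁻¹ * (h * x * h⁻¹) * h ∈ S₀ := by
      have h6 := mem_centralizer_iff.1 hh _ hxS'
      have h7 : h⁻¹ * (h * x * h⁻¹) * h = h * x * h⁻¹ := by
        rw [mul_assoc, h6]; group
      rw [h7]; exact hxS'
    have h8 : h⁻¹ * (h * x * h⁻¹) * h = x := by group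
    rwa [h8] at h5)
  have h4 : {x ∈ (T : Set G) \ (S₀ : Set G) | h * x = x * h} = ∅ := by
    rw [Set.eq_empty_iff_forall_notMem]
    rintro x ⟨⟨hx, hxS⟩, hxh⟩
    exact hxS (hfix x hx hxh)
  rw [h4, Set.ncard_empty, add_zero] at h3
  have h5 : ((T : Set G) \ (S₀ : Set G)).ncard + Nat.card S₀ = Nat.card T := by
    have := Set.ncard_sdiff_add_ncard_of_subset (s := (S₀ : Set G)) (t := (T : Set G))
      (fun x hx => (le_sup_left : S₀ ≤ S₀ ⊔ O₁) hx) (Set.toFinite _)
    exact this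
  have h6 : Nat.card T = Nat.card O := hsyl.card_eq hO
  omega

end H71.PiHall
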