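import Cfsg.Agent.Lib.H71.PiHall2

set_option autoImplicit false

/-! Nilpotent Hall subgroups: the key lemmas for counting classes of `π`-elements. -/

namespace H71.PiHall

open Subgroup H71.PiCount H38.Basic H12.Nil
open scoped Pointwise
open Cfsg.Agent.S4106 (PiClass)

universe u

variable {G : Type u} [Group G] [Finite G]

section

variable {τ : Finset ℕ} (hτ : ∀ q ∈ τ, q.Prime) {K : Subgroup G} (hK : Group.IsNilpotent K)
  (hc : Nat.card K = part τ (Nat.card G)) {o : ℕ} [ho : Fact o.Prime] (hoτ : o ∉ τ)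

include hτ hK hc hoτ

/-- if `C₀` is `l`-nilpotent (in the sense of Burnside) for all `l ∈ τ` then `K` centralizes a Sylow
`o`-subgroup of `C₀`. -/
theorem exists_syl_centralized {C₀ : Subgroup G} (hKC : K ≤ C₀)
    (hB : ∀ l ∈ τ, C₀ ⊓ normalizer (Sy K l : Set G) ≤ centralizer (Sy K l : Set G))
    (hb : ∀ l ∈ τ, ∀ O₁ : Subgroup G, IsSyl o O₁ C₀ → Sy K l ≤ normalizer (O₁ : Set G) →
      Sy K l ≤ centralizer (O₁ : Set G)) :
    ∃ O₁ : Subgroup G, IsSyl o O₁ C₀ ∧ K ≤ centralizer (O₁ : Set G) := by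
  classical
  have key : ∀ τ' : Finset ℕ, τ' ⊆ τ → ∃ O₁ : Subgroup G, IsSyl o O₁ C₀ ∧
      ∀ l ∈ τ', Sy K l ≤ centralizer (O₁ : Set G) := by
    intro τ'
    induction τ' using Finset.induction_on with
    | empty =>
      intro _
      obtain ⟨O₁, hO₁⟩ := exists_isSyl (p := o) C₀
      exact ⟨O₁, hO₁, fun l hl => absurd hl (Finset.notMem_empty l)⟩
    | insert l τ' hlτ' ih =>
      intro hsub
      have hlτ : l ∈ τ := hsub (Finset.mem_insert_self l τ')
      have hsub' : τ' ⊆ τ := fun x hx => hsub (Finset.mem_insert_of_mem hx)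
      have := Fact.mk (hτ l hlτ)
      have hlo : l ≠ o := fun h => hoτ (h ▸ hlτ)
      obtain ⟨O₁, hO₁, hcent⟩ := ih hsub'
      set D : Subgroup G := C₀ ⊓ centralizer (⋃ l' ∈ τ', (Sy K l' : Set G)) with hD
      have hmemD : ∀ x, x ∈ D ↔ x ∈ C₀ ∧ ∀ l' ∈ τ', ∀ y ∈ Sy K l', y * x = x * y := by
        intro x
        rw [hD, mem_inf, mem_centralizer_iff]
        simp only [Set.mem_iUnion, SetLike.mem_coe, exists_prop]
        constructor
        · rintro ⟨h1, h2⟩
          exact ⟨h1, fun l' hl' y hy => h2 y ⟨l', hl', hy⟩⟩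
        · rintro ⟨h1, h2⟩
          exact ⟨h1, fun y ⟨l', hl', hy⟩ => h2 l' hl' y hy⟩
      have hSD : Sy K l ≤ D := by
        intro x hx
        rw [hmemD]
        refine ⟨hKC (Sy_le K l hx), fun l' hl' y hy => ?_⟩
        have := Fact.mk (hτ l' (hsub' hl'))
        exact H12.Nil.commute hK (p := l') (q := l) (fun h => hlτ' (h ▸ hl')) hy hx
      have hOD : O₁ ≤ D := by
        intro x hx
        rw [hmemD]
        refine ⟨hO₁.1 hx, fun l' hl' y hy => ?_⟩
        exact (mem_centralizer_iff.1 (hcent l' hl' hy) x hx).symm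
      have hsylD : IsSyl l (Sy K l) D := (isSyl_Sy hτ hK hc hlτ).of_le hSD le_top
      have hOsylD : IsSyl o O₁ D := hO₁.of_le hOD inf_le_left
      obtain ⟨M, hMD, hMl, hMX, hMn⟩ := burnside hsylD
        ((inf_le_inf_right _ inf_le_left).trans (hB l hlτ))
      have hlO : ¬ l ∣ Nat.card O₁ := by
        obtain ⟨n, hn⟩ := IsPGroup.iff_card.1 hO₁.2.1
        rw [hn]
        intro hd
        exact hlo ((Nat.prime_dvd_prime_iff_eq (hτ l hlτ) ho.out).1
          ((hτ l hlτ).dvd_of_dvd_pow hd))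
      have hOM : O₁ ≤ M := hMX O₁ hOD hlO
      have hDM : D ≤ normalizer (M : Set G) := fun d hd => hMn d (le_normalizer hd)
      obtain ⟨T, hT⟩ := exists_isSyl (p := l) (D ⊓ normalizer (O₁ : Set G))
      have hTD : IsSyl l T D := isSyl_of_factor hMD inf_le_left
        (fun n hn => syl_frattini (hOsylD.of_le hOM hMD) hMD hDM hn) hMl hT
      obtain ⟨d, hd, hTd⟩ := hTD.exists_conj_eq hsylD
      refine ⟨O₁.map (MulAut.conj d).toMonoidHom, hO₁.conj_mem ((hmemD d).1 hd).1, ?_⟩
      have hnorm : Sy K l ≤ normalizer ((O₁.map (MulAut.conj d).toMonoidHom : Subgroup G) : Set G) := by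
        rw [← hTd, ← conj_normalizer]
        exact conj_mono (hT.1.trans inf_le_right) d
      intro l' hl'
      rcases Finset.mem_insert.1 hl' with rfl | hl'
      · exact hb l' hlτ _ (hO₁.conj_mem ((hmemD d).1 hd).1) hnorm
      · have h3 : O₁.map (MulAut.conj d).toMonoidHom ≤ D := by
          have := conj_mono hOD d
          rwa [conj_eq_of_mem hd] at this
        intro y hy
        rw [mem_centralizer_iff]
        intro x hx
        exact (((hmemD x).1 (h3 hx)).2 l' hl' y hy).symm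
  obtain ⟨O₁, hO₁, h⟩ := key τ (Finset.Subset.refl τ)
  exact ⟨O₁, hO₁, le_of_forall_Sy hτ hK hc h⟩

theorem exists_prime_mover (hNH : ¬ ∃ H : Subgroup G, Group.IsNilpotent H ∧
      Nat.card H = part (insert o τ) (Nat.card G)) {S₀ O : Subgroup G}
    (hS : IsSyl o S₀ (centralizer (K : Set G)))
    (hO : IsSyl o O ⊤) (hcard : Nat.card O = o * Nat.card S₀)
    (ha : ∀ T : Subgroup G, IsPGroup o T → T ≤ normalizer (S₀ : Set G) →
      T ≤ normalizer (K : Set G) → Nat.card T ≤ Nat.card S₀)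
    (hb : ∀ l ∈ τ, ∀ O₁ : Subgroup G, IsSyl o O₁ (centralizer (S₀ : Set G)) →
      Sy K l ≤ normalizer (O₁ : Set G) → Sy K l ≤ centralizer (O₁ : Set G)) :
    ∃ l ∈ τ, ∃ g ∈ centralizer (S₀ : Set G), g ∈ normalizer (Sy K l : Set G) ∧
      g ∉ centralizer (Sy K l : Set G) := by
  by_contra hcon
  have hB : ∀ l ∈ τ, centralizer (S₀ : Set G) ⊓ normalizer (Sy K l : Set G) ≤
      centralizer (Sy K l : Set G) := by
    intro l hl g hg
    by_contra hn
    exact hcon ⟨l, hl, g, hg.1, hg.2, hn⟩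
  obtain ⟨O₁, hO₁, hKO⟩ := exists_syl_centralized hτ hK hc hoτ (le_centralizer_iff.1 hS.1) hB hb
  obtain ⟨h, hh, hn, hnc⟩ := exists_mover hτ hK hc hoτ hS hO hcard ha hO₁
  obtain ⟨hsyl, -⟩ := sup_of_mover hS.2.1 hO hcard hO₁ hh hn hnc
  apply hNH
  apply nh_of_le_centralizer hτ hK hc hoτ hsyl
  rw [le_centralizer_iff]
  exact sup_le hS.1 (le_centralizer_iff.1 hKO)

omit hτ hK hc hoτ in
theorem isPGroup_zpowers_of_piClass {y : G} (hy : PiClass {o} (ConjClasses.mk y)) :
    IsPGroup o (zpowers y) := by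
  have h1 := piClass_mk.1 hy
  rw [IsPGroup.iff_card, Nat.card_zpowers]
  exact ⟨_, Nat.eq_prime_pow_of_unique_prime_dvd (orderOf_pos y).ne'
    (fun hq hd => Finset.mem_singleton.1 (h1 _ hq hd))⟩

omit hτ hK hc hoτ in
/-- an `o`-element centralized by a conjugate of `K` is conjugate into a Sylow subgroup of `C(K)`. -/
theorem mem_image_of_conj {S₀ : Subgroup G}
    (hS : IsSyl o S₀ (centralizer (K : Set G))) {y : G} (hy : PiClass {o} (ConjClasses.mk y)) {g : G}
    (hg : K.map (MulAut.conj g).toMonoidHom ≤ centralizer ({y} : Set G)) :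
    ConjClasses.mk y ∈ ConjClasses.mk '' (S₀ : Set G) := by
  have hp : IsPGroup o (zpowers y) := isPGroup_zpowers_of_piClass hy
  have h1 : (zpowers y).map (MulAut.conj g⁻¹).toMonoidHom ≤ centralizer (K : Set G) := by
    rw [← le_centralizer_iff]
    intro k hk
    rw [mem_centralizer_iff]
    intro x hx
    replace hx : x ∈ (zpowers y).map (MulAut.conj g⁻¹).toMonoidHom := hx
    rw [mem_conj, inv_inv] at hx
    have h2 := mem_centralizer_singleton_iff.1 (hg (conj_mem_conj.2 hk))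
    obtain ⟨n, hn⟩ := mem_zpowers_iff.1 hx
    have h3 : Commute (g * k * g⁻¹) (g * x * g⁻¹) := by
      rw [← hn]
      exact Commute.zpow_right h2 n
    have h4 : g * (k * x) * g⁻¹ = g * (x * k) * g⁻¹ := by
      calc g * (k * x) * g⁻¹ = (g * k * g⁻¹) * (g * x * g⁻¹) := by group
        _ = (g * x * g⁻¹) * (g * k * g⁻¹) := h3
        _ = g * (x * k) * g⁻¹ := by group
    exact (mul_left_cancel (mul_right_cancel h4)).symm
  obtain ⟨c, -, hc'⟩ := hS.exists_conj_le (isPGroup_conj hp g⁻¹) h1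
  refine ⟨c * (g⁻¹ * y * g) * c⁻¹, ?_, ?_⟩
  · apply hc'
    rw [conj_mem_conj]
    have := conj_mem_conj (H := zpowers y) (g := g⁻¹) (x := y)
    rw [inv_inv] at this
    exact this.2 (mem_zpowers y)
  · apply ConjClasses.mk_eq_mk_iff_isConj.2
    rw [isConj_comm, isConj_iff]
    exact ⟨c * g⁻¹, by group⟩

omit hoτ ho in
/-- the bound for centralizers of elements of `S₀` -/
theorem bound_of_mem {S₀ : Subgroup G} (hKS : K ≤ centralizer (S₀ : Set G)) {l : ℕ} (hl : l ∈ τ) {g : G}
    (hg : g ∈ centralizer (S₀ : Set G)) (hgn : g ∈ normalizer (Sy K l : Set G))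
    (hgc : g ∉ centralizer (Sy K l : Set G)) {x : G} (hx : x ∈ S₀) :
    2 * l * kk τ (centralizer ({x} : Set G)) ≤ (l + 1) * Nat.card K := by
  classical
  have := Fact.mk (hτ l hl)
  have hle : centralizer (S₀ : Set G) ≤ centralizer ({x} : Set G) :=
    centralizer_le (Set.singleton_subset_iff.2 hx)
  set L := centralizer ({x} : Set G) with hL
  have hKL : K ≤ L := hKS.trans hle
  have h1 : IsSyl l (Sy K l) L := (isSyl_Sy hτ hK hc hl).of_le ((Sy_le K l).trans hKL) le_top
  have h2 := two_mul_kk_le_rel h1 (hle hg) hgn hgc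
  have h3 : τ = {l} ∪ τ.erase l := by
    rw [← Finset.insert_eq, Finset.insert_erase hl]
  have hdisj : Disjoint ({l} : Finset ℕ) (τ.erase l) := by simp
  have h4 : kk τ L ≤ kk {l} L * part (τ.erase l) (Nat.card L) := by
    conv_lhs => rw [h3]
    exact kk_union_le_mul (by simpa using hτ l hl) (fun q hq => hτ q (Finset.mem_of_mem_erase hq)) hdisj
  have h5 : Nat.card K = Nat.card (Sy K l) * part (τ.erase l) (Nat.card L) := by
    rw [hall_of_le hτ hc hKL, card_isSyl h1, ← part_union hdisj, ← h3]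
  calc 2 * l * kk τ L ≤ 2 * l * (kk {l} L * part (τ.erase l) (Nat.card L)) :=
        Nat.mul_le_mul_left _ h4
    _ = (2 * l * kk {l} L) * part (τ.erase l) (Nat.card L) := by ring
    _ ≤ ((l + 1) * Nat.card (Sy K l)) * part (τ.erase l) (Nat.card L) :=
        Nat.mul_le_mul_right _ h2
    _ = (l + 1) * Nat.card K := by rw [h5]; ring

end

/-- an `r`-group acting on a `q`-group `Q`, `q < r`, and centralizing a subgroup of index `q`
centralizes `Q` -/
theorem centralizes_of_lt {q r : ℕ} [hq : Fact q.Prime] [hr : Fact r.Prime] (hqr : q < r)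
    {T Q S₀ : Subgroup G} (hT : IsPGroup r T) (hQ : IsPGroup q Q) (hSQ : S₀ ≤ Q)
    (hcard : Nat.card Q = q * Nat.card S₀) (hTS : T ≤ centralizer (S₀ : Set G))
    (hTQ : T ≤ normalizer (Q : Set G)) : T ≤ centralizer (Q : Set G) := by
  classical
  intro t ht
  by_contra hnc
  have hD : Q ⊓ centralizer ({t} : Set G) = S₀ := by
    symm
    by_contra hne
    have hle : S₀ ≤ Q ⊓ centralizer ({t} : Set G) := by
      refine le_inf hSQ ?_
      intro x hx
      rw [mem_centralizer_singleton_iff]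
      exact (mem_centralizer_iff.1 (hTS ht) x hx)
    have h2 := mul_card_le_of_lt (hQ.to_le inf_le_left) (lt_of_le_of_ne hle hne)
    have h3 : Q ⊓ centralizer ({t} : Set G) = Q :=
      eq_of_le_of_card_ge inf_le_left (by rw [hcard]; exact h2)
    apply hnc
    rw [mem_centralizer_iff]
    intro x hx
    have h4 : x ∈ Q ⊓ centralizer ({t} : Set G) := by rw [h3]; exact hx
    exact mem_centralizer_singleton_iff.1 h4.2
  have htS : ∀ x, x ∈ S₀ → t * x = x * t := fun x hx => (mem_centralizer_iff.1 (hTS ht) x hx).symm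
  let α := {x : G // x ∈ Q ∧ x ∉ S₀}
  have := Fintype.ofFinite α
  have hmem : ∀ x : G, x ∈ Q ∧ x ∉ S₀ → t * x * t⁻¹ ∈ Q ∧ t * x * t⁻¹ ∉ S₀ := by
    rintro x ⟨hx, hxS⟩
    refine ⟨(mem_normalizer_iff.1 (hTQ ht) x).1 hx, fun hxS' => hxS ?_⟩
    have h6 := htS _ hxS'
    have h7 : x = t * x * t⁻¹ := by
      have : t⁻¹ * (t * (t * x * t⁻¹)) = t⁻¹ * (t * x * t⁻¹ * t) := by rw [h6]
      have h8 : t⁻¹ * (t * (t * x * t⁻¹)) = t * x * t⁻¹ := by group
      have h9 : t⁻¹ * (t * x * t⁻¹ * t) = x := by group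
      rw [h8, h9] at this
      exact this.symm
    rw [h7]; exact hxS'
  let f : Function.End α := fun x => ⟨t * x.1 * t⁻¹, hmem x.1 x.2⟩
  have hf : ∀ (n : ℕ) (x : α), ((f ^ n) x : α).1 = t ^ n * x.1 * (t ^ n)⁻¹ := by
    intro n
    induction n with
    | zero => intro x; simp [Function.End.one_def]
    | succ n ih =>
      intro x
      rw [pow_succ']
      change (f ((f ^ n) x)).1 = _
      change t * ((f ^ n) x).1 * t⁻¹ = _
      rw [ih x, pow_succ']
      group
  obtain ⟨k, hk⟩ := hT ⟨t, ht⟩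
  have hk' : t ^ r ^ k = 1 := congrArg Subtype.val hk
  have hf1 : f ^ r ^ k = 1 := by
    funext x
    apply Subtype.ext
    rw [hf, hk']
    simp [Function.End.one_def]
  have hfix := Equiv.Perm.card_fixedPoints_modEq (α := α) (f := f) (p := r) (n := k) hf1
  have hempty : IsEmpty (Function.fixedPoints f) := by
    constructor
    rintro ⟨⟨x, hx, hxS⟩, hxf⟩
    have h5 : t * x * t⁻¹ = x := congrArg Subtype.val hxf
    apply hxS
    rw [← hD]
    refine ⟨hx, mem_centralizer_singleton_iff.2 ?_⟩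
    exact (mul_inv_eq_iff_eq_mul.1 h5).symm
  rw [Fintype.card_eq_zero (α := Function.fixedPoints f)] at hfix
  have hd : r ∣ Fintype.card α := (Nat.modEq_zero_iff_dvd).1 hfix
  have h5 : Nat.card α + Nat.card S₀ = Nat.card Q := by
    have := Set.ncard_sdiff_add_ncard_of_subset (s := (S₀ : Set G)) (t := (Q : Set G)) hSQ (Set.toFinite _)
    exact this
  have h6 : Fintype.card α = (q - 1) * Nat.card S₀ := by
    rw [← Nat.card_eq_fintype_card]
    have hq1 := hq.out.one_lt
    obtain ⟨q', rfl⟩ : ∃ q', q = q' + 1 := ⟨q - 1, by omega⟩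
    rw [hcard] at h5
    simp only [Nat.add_sub_cancel]
    nlinarith
  rw [h6] at hd
  rcases hr.out.dvd_mul.1 hd with h | h
  · have := Nat.le_of_dvd (by have := hq.out.one_lt; omega) h
    omega
  · have h7 : r ∣ Nat.card Q := by rw [hcard]; exact h.mul_left _
    obtain ⟨n, hn⟩ := IsPGroup.iff_card.1 hQ
    rw [hn] at h7
    have := (Nat.prime_dvd_prime_iff_eq hr.out hq.out).1 (hr.out.dvd_of_dvd_pow h7)
    omega

end H71.PiHall
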