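import Cfsg.Agent.Lib.H71.PiHall3

set_option autoImplicit false

/-! If the number of classes of `ρ`-elements is more than `|G|_ρ / p` then there is a nilpotent Hall
`ρ`-subgroup. -/

namespace H71.PiHall

open Subgroup H71.PiCount H38.Basic H12.Nil
open scoped Pointwise
open Cfsg.Agent.S4106 (PiClass)

universe u

section Arith

theorem arith_two_zero {q r a A B k n₁ n₂ : ℕ} (hq : 2 ≤ q) (hqr : q + 1 ≤ r) (h0 : q * q * a ≤ A)
    (h1 : n₁ ≤ a) (h2 : n₁ + n₂ ≤ A) (h : r * k ≤ n₁ * (r * B) + n₂ * B) : q * k ≤ A * B := by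
  obtain ⟨r', rfl⟩ : ∃ r', r = r' + 1 := ⟨r - 1, by omega⟩
  have hqr' : q ≤ r' := by omega
  have e1 : (r' + 1) * k ≤ r' * a * B + A * B := by
    calc (r' + 1) * k ≤ n₁ * ((r' + 1) * B) + n₂ * B := h
      _ = r' * n₁ * B + (n₁ + n₂) * B := by ring
      _ ≤ r' * a * B + A * B := by
          gcongr
  have e2 : q * (r' + 1) * (q * k) ≤ q * (r' + 1) * (A * B) := by
    calc q * (r' + 1) * (q * k) = q * q * ((r' + 1) * k) := by ring
      _ ≤ q * q * (r' * a * B + A * B) := Nat.mul_le_mul_left _ e1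
      _ = r' * (q * q * a) * B + q * q * (A * B) := by ring
      _ ≤ r' * A * B + q * q * (A * B) := by gcongr
      _ = (r' + q * q) * (A * B) := by ring
      _ ≤ q * (r' + 1) * (A * B) := by
          apply Nat.mul_le_mul_right
          obtain ⟨q', rfl⟩ : ∃ q', q = q' + 1 := ⟨q - 1, by omega⟩
          nlinarith
  exact Nat.le_of_mul_le_mul_left e2 (by positivity)

theorem arith_two_i {q r b' A B C N k kr n₁ n₂ : ℕ} (hq : 2 ≤ q) (hqr : q + 1 ≤ r)
    (h1 : n₁ ≤ b') (h2 : r * b' ≤ B) (h3 : n₁ + n₂ = kr) (h4 : kr ≤ N) (h5 : q * N ≤ B + (q - 1) * C)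
    (h6 : r * C ≤ B) (h : q * k ≤ n₁ * (q * A) + n₂ * A) : q * k ≤ A * B := by
  obtain ⟨q', rfl⟩ : ∃ q', q = q' + 1 := ⟨q - 1, by omega⟩
  simp only [Nat.add_sub_cancel] at h5
  have e1 : (q' + 1) * k ≤ q' * n₁ * A + kr * A := by
    calc (q' + 1) * k ≤ n₁ * ((q' + 1) * A) + n₂ * A := h
      _ = q' * n₁ * A + (n₁ + n₂) * A := by ring
      _ = q' * n₁ * A + kr * A := by rw [h3]
  have e3 : r * n₁ ≤ B := (Nat.mul_le_mul_left r h1).trans h2
  have e4 : r * ((q' + 1) * kr) ≤ (r + q') * B := by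
    calc r * ((q' + 1) * kr) ≤ r * ((q' + 1) * N) := by gcongr
      _ ≤ r * (B + q' * C) := by gcongr
      _ = r * B + q' * (r * C) := by ring
      _ ≤ r * B + q' * B := by gcongr
      _ = (r + q') * B := by ring
  have e2 : (q' + 1) * r * ((q' + 1) * k) ≤ (q' + 1) * r * (A * B) := by
    calc (q' + 1) * r * ((q' + 1) * k) ≤ (q' + 1) * r * (q' * n₁ * A + kr * A) := by gcongr
      _ = (q' + 1) * q' * (r * n₁) * A + r * ((q' + 1) * kr) * A := by ring
      _ ≤ (q' + 1) * q' * B * A + (r + q') * B * A := by gcongr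
      _ = ((q' + 1) * q' + (r + q')) * (A * B) := by ring
      _ ≤ (q' + 1) * r * (A * B) := by
          apply Nat.mul_le_mul_right
          nlinarith
  exact Nat.le_of_mul_le_mul_left e2 (Nat.mul_pos (by omega) (by omega))

theorem arith_two_ii {q r a A B k n₁ n₂ : ℕ} (hqr : q < r) (hA : A = q * a)
    (h1 : n₁ ≤ a) (h2 : 2 * n₂ + a ≤ A) (h : 2 * r * k ≤ n₁ * ((r + 1) * B) + n₂ * (2 * B)) :
    q * k ≤ A * B := by
  have e1 : 2 * r * k ≤ (a * r + A) * B := by
    calc 2 * r * k ≤ n₁ * ((r + 1) * B) + n₂ * (2 * B) := h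
      _ ≤ a * ((r + 1) * B) + n₂ * (2 * B) := by gcongr
      _ = (a * r + (2 * n₂ + a)) * B := by ring
      _ ≤ (a * r + A) * B := by gcongr
  have e2 : 2 * r * (q * k) ≤ 2 * r * (A * B) := by
    calc 2 * r * (q * k) = q * (2 * r * k) := by ring
      _ ≤ q * ((a * r + A) * B) := by gcongr
      _ = (q * a * r + q * A) * B := by ring
      _ = (A * r + q * A) * B := by rw [← hA]
      _ ≤ (A * r + r * A) * B := by gcongr
      _ = 2 * r * (A * B) := by ring
  exact Nat.le_of_mul_le_mul_left e2 (by omega)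

theorem arith_ge_zero {p r a A B k kr n₁ n₂ : ℕ} (hp : 1 ≤ p) (hpr : p ≤ r) (hr : 2 ≤ r)
    (h0 : r * r * a ≤ A) (h1 : n₁ ≤ a) (h2 : n₁ + n₂ = kr) (h3 : 2 * r * kr ≤ (r + 1) * A)
    (h : p * k ≤ n₁ * (p * B) + n₂ * B) : p * k ≤ A * B := by
  obtain ⟨p', rfl⟩ : ∃ p', p = p' + 1 := ⟨p - 1, by omega⟩
  have e1 : (p' + 1) * k ≤ p' * a * B + kr * B := by
    calc (p' + 1) * k ≤ n₁ * ((p' + 1) * B) + n₂ * B := h
      _ = p' * n₁ * B + (n₁ + n₂) * B := by ring
      _ = p' * n₁ * B + kr * B := by rw [h2]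
      _ ≤ p' * a * B + kr * B := by gcongr
  have e2 : 2 * r * r * ((p' + 1) * k) ≤ 2 * r * r * (A * B) := by
    calc 2 * r * r * ((p' + 1) * k) ≤ 2 * r * r * (p' * a * B + kr * B) := by gcongr
      _ = 2 * p' * (r * r * a) * B + r * (2 * r * kr) * B := by ring
      _ ≤ 2 * p' * A * B + r * ((r + 1) * A) * B := by gcongr
      _ = (2 * p' + r * (r + 1)) * (A * B) := by ring
      _ ≤ 2 * r * r * (A * B) := by
          apply Nat.mul_le_mul_right
          obtain ⟨r', rfl⟩ : ∃ r', r = r' + 2 := ⟨r - 2, by omega⟩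
          nlinarith
  exact Nat.le_of_mul_le_mul_left e2 (by positivity)

theorem arith_ge_one {p r a A B k n₁ n₂ : ℕ} (hpr : p ≤ r) (hA : A = r * a)
    (h1 : n₁ ≤ a) (h2 : 2 * n₂ + a ≤ A) (h : 2 * p * k ≤ n₁ * ((p + 1) * B) + n₂ * (2 * B)) :
    p * k ≤ A * B := by
  have e1 : 2 * (p * k) ≤ 2 * (A * B) := by
    calc 2 * (p * k) = 2 * p * k := by ring
      _ ≤ n₁ * ((p + 1) * B) + n₂ * (2 * B) := h
      _ ≤ a * ((p + 1) * B) + n₂ * (2 * B) := by gcongr
      _ = (a * p + (2 * n₂ + a)) * B := by ring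
      _ ≤ (a * r + A) * B := by gcongr
      _ = (r * a + A) * B := by ring
      _ = (A + A) * B := by rw [← hA]
      _ = 2 * (A * B) := by ring
  exact Nat.le_of_mul_le_mul_left e1 (by norm_num)

end Arith

variable {G : Type u} [Group G] [Finite G]

/-- the order of a Sylow subgroup over a subgroup -/
theorem card_cases {q : ℕ} [hq : Fact q.Prime] {S O : Subgroup G} (hS : IsPGroup q S)
    (hO : IsPGroup q O) (h : q * Nat.card S ≤ Nat.card O) :
    Nat.card O = q * Nat.card S ∨ q * q * Nat.card S ≤ Nat.card O := by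
  obtain ⟨i, hi⟩ := IsPGroup.iff_card.1 hS
  obtain ⟨j, hj⟩ := IsPGroup.iff_card.1 hO
  rw [hi, hj] at h ⊢
  rw [← pow_succ'] at h
  have h1 : i + 1 ≤ j := (Nat.pow_le_pow_iff_right hq.out.one_lt).1 h
  rcases Nat.eq_or_lt_of_le h1 with h2 | h2
  · left; rw [← h2, pow_succ']
  · right
    have : q * q * q ^ i = q ^ (i + 2) := by ring
    rw [this]
    exact Nat.pow_le_pow_right hq.out.pos h2

theorem mul_card_le_of_card_lt {q : ℕ} [hq : Fact q.Prime] {S O : Subgroup G} (hS : IsPGroup q S)
    (hO : IsPGroup q O) (h : Nat.card S < Nat.card O) : q * Nat.card S ≤ Nat.card O := by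
  obtain ⟨i, hi⟩ := IsPGroup.iff_card.1 hS
  obtain ⟨j, hj⟩ := IsPGroup.iff_card.1 hO
  rw [hi, hj] at h ⊢
  rw [← pow_succ']
  exact Nat.pow_le_pow_right hq.out.pos ((Nat.pow_lt_pow_iff_right hq.out.one_lt).1 h)

theorem inter_le (s : Finset ℕ) (S : Subgroup G) :
    (cl s G ∩ ConjClasses.mk '' (S : Set G)).ncard ≤ Nat.card S :=
  (Set.ncard_le_ncard Set.inter_subset_right (Set.toFinite _)).trans (ncard_image_le _)

/-- an `o`-element `y` whose centralizer contains a Sylow `r`-subgroup `R` of `G` is conjugate into a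
Sylow subgroup of `C(R)` -/
theorem bound_off {q r : ℕ} [hq : Fact q.Prime] [hr : Fact r.Prime] {R S₀ : Subgroup G}
    (hR : IsSyl r R ⊤) (hS : IsSyl q S₀ (centralizer (R : Set G))) {y : G}
    (hy : ConjClasses.mk y ∉ ConjClasses.mk '' (S₀ : Set G)) (hyq : PiClass {q} (ConjClasses.mk y)) :
    r * kk {r} (centralizer ({y} : Set G)) ≤ Nat.card R := by
  have hrs : ∀ l ∈ ({r} : Finset ℕ), l.Prime := by simpa using hr.out
  by_cases h : part {r} (Nat.card (centralizer ({y} : Set G))) = part {r} (Nat.card G)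
  · exfalso
    apply hy
    obtain ⟨T, hT⟩ := exists_isSyl (p := r) (centralizer ({y} : Set G))
    have hT1 : IsSyl r T ⊤ := by
      apply isSyl_top_of_card hR hT.2.1
      rw [card_isSyl hT, h, card_isSyl_top hR]
    obtain ⟨g, -, hg⟩ := hR.exists_conj_eq hT1
    exact mem_image_of_conj hS hyq (g := g) (hg ▸ hT.1)
  · obtain ⟨q', hq', h1⟩ := exists_mul_part_le hrs Nat.card_pos.ne'
      (card_subgroup_dvd_card (centralizer ({y} : Set G))) h
    rw [Finset.mem_singleton] at hq'
    subst hq'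
    rw [card_isSyl_top hR]
    exact (Nat.mul_le_mul_left _ (kk_le_part hrs)).trans h1

theorem case_two {q r : ℕ} [hq : Fact q.Prime] [hr : Fact r.Prime] (hqr : q < r)
    (hNH : ¬ ∃ H : Subgroup G, Group.IsNilpotent H ∧
      Nat.card H = part (insert q {r}) (Nat.card G)) :
    q * kk (insert q {r}) G ≤ part (insert q {r}) (Nat.card G) := by
  classical
  have hrs : ∀ l ∈ ({r} : Finset ℕ), l.Prime := by simpa using hr.out
  have hqs : ∀ l ∈ ({q} : Finset ℕ), l.Prime := by simpa using hq.out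
  have hqr' : q ∉ ({r} : Finset ℕ) := by simp [hqr.ne]
  have hrq' : r ∉ ({q} : Finset ℕ) := by simp [hqr.ne']
  have hdisj : Disjoint ({q} : Finset ℕ) {r} := by simpa using hqr.ne
  have hdisj' : Disjoint ({r} : Finset ℕ) {q} := hdisj.symm
  have hq2 := hq.out.two_le
  obtain ⟨R, hR⟩ := exists_isSyl (p := r) (⊤ : Subgroup G)
  obtain ⟨O, hO⟩ := exists_isSyl (p := q) (⊤ : Subgroup G)
  have hRn : Group.IsNilpotent R := hR.2.1.isNilpotent
  have hRc := card_isSyl_top hR
  have hOn : Group.IsNilpotent O := hO.2.1.isNilpotent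
  have hOc := card_isSyl_top hO
  obtain ⟨S₀, hS⟩ := exists_isSyl (p := q) (centralizer (R : Set G))
  have hle : q * Nat.card S₀ ≤ Nat.card O := mul_card_le hrs hRn hRc hqr' hNH hS hO
  have htot : part (insert q {r}) (Nat.card G) = Nat.card O * Nat.card R := by
    rw [part_insert hqr', hOc, hRc, part_singleton, part_singleton]
  have hkq : kk {q} G ≤ Nat.card O := by rw [hOc]; exact kk_le_part hqs
  have hbig : ∀ y : G, ConjClasses.mk y ∉ ConjClasses.mk '' (S₀ : Set G) →
      PiClass {q} (ConjClasses.mk y) → r * kk {r} (centralizer ({y} : Set G)) ≤ Nat.card R :=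
    fun y hy hyq => bound_off hR hS hy hyq
  have hall : ∀ y : G, kk {r} (centralizer ({y} : Set G)) ≤ Nat.card R := by
    intro y
    rw [hRc]
    exact (kk_le_part hrs).trans (Nat.le_of_dvd (part_pos hrs _)
      (part_dvd_part _ Nat.card_pos.ne' (card_subgroup_dvd_card _)))
  have hins : (insert q {r} : Finset ℕ) = {q} ∪ {r} := Finset.insert_eq _ _
  have hins' : (insert q {r} : Finset ℕ) = {r} ∪ {q} := by rw [hins, Finset.union_comm]
  rw [htot]
  rcases card_cases hS.2.1 hO.2.1 hle with hcard | h0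
  · by_cases ha : ∀ T : Subgroup G, IsPGroup q T → T ≤ normalizer (S₀ : Set G) →
      T ≤ normalizer (R : Set G) → Nat.card T ≤ Nat.card S₀
    · -- (ii)
      obtain ⟨O₁, hO₁⟩ := exists_isSyl (p := q) (centralizer (S₀ : Set G))
      obtain ⟨h, hh, hn, hnc⟩ := exists_mover hrs hRn hRc hqr' hS hO hcard ha hO₁
      have hn2 := two_mul_ncard_diff_le hS.2.1 hO hcard hO₁ hh hn hnc
      have hb : ∀ l ∈ ({r} : Finset ℕ), ∀ O₁ : Subgroup G, IsSyl q O₁ (centralizer (S₀ : Set G)) →
          Sy R l ≤ normalizer (O₁ : Set G) → Sy R l ≤ centralizer (O₁ : Set G) := by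
        intro l hl O₁ hO₁ hnorm
        rw [Finset.mem_singleton] at hl
        subst hl
        obtain ⟨h, hh, hn, hnc⟩ := exists_mover hrs hRn hRc hqr' hS hO hcard ha hO₁
        obtain ⟨hsyl, hc2, -⟩ := sup_of_mover hS.2.1 hO hcard hO₁ hh hn hnc
        have hRS : Sy R l ≤ centralizer (S₀ : Set G) := (Sy_le R l).trans (le_centralizer_iff.1 hS.1)
        have h1 : Sy R l ≤ normalizer ((S₀ ⊔ O₁ : Subgroup G) : Set G) := by
          intro t ht
          rw [H38.Basic.mem_normalizer_iff', conj_sup,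
            H38.Basic.mem_normalizer_iff'.1 (centralizer_le_normalizer _ (hRS ht)),
            H38.Basic.mem_normalizer_iff'.1 (hnorm ht)]
        exact (centralizes_of_lt hqr (isPGroup_Sy R l) hsyl.2.1 le_sup_left hc2 hRS h1).trans
          (centralizer_le (fun x hx => (le_sup_right : O₁ ≤ S₀ ⊔ O₁) hx))
      obtain ⟨l, hl, g, hg, hgn, hgc⟩ :=
        exists_prime_mover hrs hRn hRc hqr' hNH hS hO hcard ha hb
      rw [Finset.mem_singleton] at hl
      subst hl
      have hmain := kk_union_le_two hqs hrs hdisj (S₀ : Set G) (2 * l) ((l + 1) * Nat.card R)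
        (2 * Nat.card R)
        (fun y hy _ => bound_of_mem hrs hRn hRc (le_centralizer_iff.1 hS.1)
          (Finset.mem_singleton_self l) hg hgn hgc hy)
        (fun y hy hyq => by
          have := hbig y hy hyq
          rw [mul_assoc]
          exact Nat.mul_le_mul_left 2 this)
      rw [← hins] at hmain
      exact arith_two_ii hqr hcard (inter_le _ _) hn2 hmain
    · -- (i)
      push Not at ha
      obtain ⟨T, hTq, hTS, hTR, hTc⟩ := ha
      have hTc2 : Nat.card O ≤ Nat.card T := by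
        rw [hcard]; exact mul_card_le_of_card_lt hS.2.1 hTq hTc
      have hT : IsSyl q T ⊤ := isSyl_top_of_card hO hTq hTc2
      have hTcard : Nat.card T = Nat.card O := hT.card_eq hO
      have hTn : Group.IsNilpotent T := hTq.isNilpotent
      have hTc' := card_isSyl_top hT
      have hNH' : ¬ ∃ H : Subgroup G, Group.IsNilpotent H ∧
          Nat.card H = part (insert r {q}) (Nat.card G) := by
        rwa [Finset.pair_comm]
      obtain ⟨S', hS'⟩ := exists_isSyl (p := r) (centralizer (T : Set G))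
      have hle' : r * Nat.card S' ≤ Nat.card R := mul_card_le hqs hTn hTc' hrq' hNH' hS' hR
      have hmain := kk_union_le_two hrs hqs hdisj' (S' : Set G) q (q * Nat.card O) (Nat.card O)
        (fun y hy _ => by
          rw [← hTcard, hTc']
          exact Nat.mul_le_mul_left _ ((kk_le_part hqs).trans (Nat.le_of_dvd (part_pos hqs _)
            (part_dvd_part _ Nat.card_pos.ne' (card_subgroup_dvd_card _)))))
        (fun y hy hyq => by
          rw [← hTcard]
          exact bound_off hT hS' hy hyq)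
      rw [← hins'] at hmain
      have hcount := mul_ncard_le_of_pGroup (q := q) (R : Set G) T hTq
        (fun t ht x hx => (mem_normalizer_iff.1 (hTR ht) x).1 hx)
      have hfix : {x ∈ (R : Set G) | ∀ t ∈ T, t * x = x * t} =
          ((R ⊓ centralizer (T : Set G) : Subgroup G) : Set G) := by
        ext x
        constructor
        · rintro ⟨hx, hxT⟩
          exact ⟨hx, mem_centralizer_iff.2 hxT⟩
        · rintro ⟨hx, hxT⟩
          exact ⟨hx, mem_centralizer_iff.1 hxT⟩
      rw [hfix] at hcount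
      have hlt : R ⊓ centralizer (T : Set G) < R := by
        refine lt_of_le_of_ne inf_le_left ?_
        intro he
        have h2 : R ≤ centralizer (T : Set G) := inf_eq_left.1 he
        exact hNH (nh_of_le_centralizer hrs hRn hRc hqr' hT h2)
      have h6 := mul_card_le_of_lt hR.2.1 hlt
      exact arith_two_i hq2 hqr (inter_le _ _) hle' (ncard_add_eq _ _) (kk_le_ncard hR) hcount h6
        hmain
  · -- case 0
    have hmain := kk_union_le_two hqs hrs hdisj (S₀ : Set G) r (r * Nat.card R) (Nat.card R)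
      (fun y _ _ => Nat.mul_le_mul_left _ (hall y)) hbig
    rw [← hins] at hmain
    exact arith_two_zero hq2 hqr h0 (inter_le _ _)
      ((ncard_add_eq _ _).trans_le hkq) hmain

theorem nh_of_card_le_one {ρ : Finset ℕ} (hρ : ∀ q ∈ ρ, q.Prime) (h : ρ.card ≤ 1) :
    ∃ H : Subgroup G, Group.IsNilpotent H ∧ Nat.card H = part ρ (Nat.card G) := by
  rcases Nat.lt_or_ge ρ.card 1 with h0 | h1
  · have : ρ = ∅ := Finset.card_eq_zero.1 (by omega)
    subst this
    refine ⟨⊥, inferInstance, ?_⟩
    rw [card_bot, part_empty]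
  · obtain ⟨q, rfl⟩ := Finset.card_eq_one.1 (le_antisymm h h1)
    have := Fact.mk (hρ q (Finset.mem_singleton_self q))
    obtain ⟨O, hO⟩ := exists_isSyl (p := q) (⊤ : Subgroup G)
    exact ⟨O, hO.2.1.isNilpotent, card_isSyl_top hO⟩

/-- the inductive step for at least three primes -/
theorem case_ge {p r : ℕ} {τ : Finset ℕ} [hr : Fact r.Prime] (hτ : ∀ q ∈ τ, q.Prime) (hrτ : r ∉ τ)
    (hp : ∀ q ∈ insert r τ, p ≤ q) (h2 : 2 ≤ τ.card)
    (ih : ∀ ρ : Finset ℕ, ρ ⊂ insert r τ → ∀ (H : Type u) [Group H] [Finite H],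
      (¬ ∃ X : Subgroup H, Group.IsNilpotent X ∧ Nat.card X = part ρ (Nat.card H)) →
      p * kk ρ H ≤ part ρ (Nat.card H))
    (hNH : ¬ ∃ H : Subgroup G, Group.IsNilpotent H ∧
      Nat.card H = part (insert r τ) (Nat.card G)) :
    p * kk (insert r τ) G ≤ part (insert r τ) (Nat.card G) := by
  classical
  by_contra hlt
  rw [not_le] at hlt
  have hprime : ∀ q ∈ insert r τ, q.Prime := by
    intro q hq
    rcases Finset.mem_insert.1 hq with rfl | hq
    · exact hr.out
    · exact hτ q hq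
  have hp1 : 1 ≤ p := by
    rcases Nat.eq_zero_or_pos p with rfl | h
    · omega
    · exact h
  have hpr : p ≤ r := hp r (Finset.mem_insert_self r τ)
  have hr2 := hr.out.two_le
  -- nilpotent Hall subgroups for proper subsets
  have hNHsub : ∀ ρ : Finset ℕ, ρ ⊂ insert r τ →
      ∃ X : Subgroup G, Group.IsNilpotent X ∧ Nat.card X = part ρ (Nat.card G) := by
    intro ρ hρ
    by_contra hn
    have h1 := ih ρ hρ G hn
    have hd : Disjoint ρ (insert r τ \ ρ) := Finset.disjoint_sdiff
    have h3 : ρ ∪ (insert r τ \ ρ) = insert r τ := Finset.union_sdiff_of_subset hρ.1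
    have hρp : ∀ q ∈ ρ, q.Prime := fun q hq => hprime q (hρ.1 hq)
    have hρp' : ∀ q ∈ insert r τ \ ρ, q.Prime := fun q hq => hprime q (Finset.mem_sdiff.1 hq).1
    have h4 := kk_union_le_mul (G := G) hρp hρp' hd
    rw [h3] at h4
    have h5 : part (insert r τ) (Nat.card G) =
        part ρ (Nat.card G) * part (insert r τ \ ρ) (Nat.card G) := by
      rw [← part_union hd, h3]
    have h6 : p * kk (insert r τ) G ≤ part (insert r τ) (Nat.card G) := by
      calc p * kk (insert r τ) G ≤ p * (kk ρ G * part (insert r τ \ ρ) (Nat.card G)) := by gcongr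
        _ = (p * kk ρ G) * part (insert r τ \ ρ) (Nat.card G) := by ring
        _ ≤ part ρ (Nat.card G) * part (insert r τ \ ρ) (Nat.card G) := by gcongr
        _ = _ := h5.symm
    omega
  have hτsub : τ ⊂ insert r τ := Finset.ssubset_insert hrτ
  obtain ⟨K, hK, hc⟩ := hNHsub τ hτsub
  -- every {l, r}-subgroup is nilpotent
  have hPP : PP τ r G := by
    intro l hl X hX
    have hsub : ({l, r} : Finset ℕ) ⊂ insert r τ := by
      rw [Finset.ssubset_iff_subset_ne]
      refine ⟨?_, ?_⟩
      · intro x hx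
        rcases Finset.mem_insert.1 hx with rfl | hx
        · exact Finset.mem_insert_of_mem hl
        · rw [Finset.mem_singleton] at hx
          subst hx
          exact Finset.mem_insert_self _ _
      · intro he
        have h3 : (insert r τ).card = τ.card + 1 := Finset.card_insert_of_notMem hrτ
        have h4 : ({l, r} : Finset ℕ).card ≤ 2 := Finset.card_le_two
        rw [he] at h4
        omega
    obtain ⟨Y, hY, hYc⟩ := hNHsub _ hsub
    have hpr' : ∀ q ∈ ({l, r} : Finset ℕ), q.Prime := fun q hq => hprime q (hsub.1 hq)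
    obtain ⟨g, hg⟩ := wielandt hpr' hY hYc (X := X) (fun q hq hqX => by
      rcases hX q hq hqX with rfl | rfl <;> simp)
    have hYg : Group.IsNilpotent (Y.map (MulAut.conj g).toMonoidHom) :=
      Group.nilpotent_of_mulEquiv (Y.equivMapOfInjective _ (MulAut.conj g).injective)
    exact H12.NilpHall.isNilpotent_of_le hYg hg
  obtain ⟨S₀, hS⟩ := exists_isSyl (p := r) (centralizer (K : Set G))
  obtain ⟨O, hO⟩ := exists_isSyl (p := r) (⊤ : Subgroup G)
  have hOc := card_isSyl_top hO
  have hle : r * Nat.card S₀ ≤ Nat.card O := mul_card_le hτ hK hc hrτ hNH hS hO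
  have htot : part (insert r τ) (Nat.card G) = Nat.card O * Nat.card K := by
    rw [part_insert hrτ, hOc, hc, part_singleton]
  -- the Sylow `r`-subgroup is moved
  have hmove : ∃ h, h ∈ normalizer (O : Set G) ∧ h ∉ centralizer (O : Set G) := by
    by_contra hcon
    have hle2 : (⊤ : Subgroup G) ⊓ normalizer (O : Set G) ≤ centralizer (O : Set G) := by
      intro h hh
      by_contra hn
      exact hcon ⟨h, hh.2, hn⟩
    obtain ⟨M, hMG, hMr, hMX, hMn⟩ := burnside hO hle2
    have hKM : K ≤ M := hMX K le_top (not_dvd_card_K hτ hK hc hrτ)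
    have hNM : (⊤ : Subgroup G) ≤ normalizer (M : Set G) := fun g _ => hMn g (le_normalizer (mem_top g))
    have hcM : Nat.card K = part τ (Nat.card M) := hall_of_le hτ hc hKM
    obtain ⟨T, hT⟩ := exists_isSyl (p := r) ((⊤ : Subgroup G) ⊓ normalizer (K : Set G))
    have hTN : IsSyl r T (⊤ : Subgroup G) :=
      isSyl_of_factor hMG inf_le_left (fun n hn => hall_frattini hτ hK hMG hNM hKM hcM hn) hMr hT
    exact hNH (nh_of_le_centralizer hτ hK hc hrτ hTN
      (le_centralizer_of_pp hτ hK hc hrτ hPP hT.2.1 (hT.1.trans inf_le_right)))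
  obtain ⟨h₀, hh₀n, hh₀c⟩ := hmove
  have hkr := two_mul_kk_le hO hh₀n hh₀c
  have hrs : ∀ l ∈ ({r} : Finset ℕ), l.Prime := by simpa using hr.out
  have hdisj : Disjoint ({r} : Finset ℕ) τ := by simpa using hrτ
  have hins : insert r τ = {r} ∪ τ := Finset.insert_eq _ _
  have hall : ∀ y : G, kk τ (centralizer ({y} : Set G)) ≤ Nat.card K := by
    intro y
    rw [hc]
    exact (kk_le_part hτ).trans (Nat.le_of_dvd (part_pos hτ _)
      (part_dvd_part _ Nat.card_pos.ne' (card_subgroup_dvd_card _)))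
  have hbig : ∀ y : G, ConjClasses.mk y ∉ ConjClasses.mk '' (S₀ : Set G) →
      PiClass {r} (ConjClasses.mk y) → p * kk τ (centralizer ({y} : Set G)) ≤ Nat.card K := by
    intro y hy hyr
    by_cases h : part τ (Nat.card (centralizer ({y} : Set G))) = part τ (Nat.card G)
    · by_cases hn : ∃ X : Subgroup (centralizer ({y} : Set G)), Group.IsNilpotent X ∧
          Nat.card X = part τ (Nat.card (centralizer ({y} : Set G)))
      · exfalso
        obtain ⟨X, hX, hXc⟩ := hn
        have h3 : Nat.card (X.map (centralizer ({y} : Set G)).subtype) = Nat.card K := by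
          rw [card_map_of_injective (subtype_injective _), hXc, h, hc]
        have hc' : Nat.card K = part τ (Nat.card (⊤ : Subgroup G)) := by rw [card_top]; exact hc
        obtain ⟨g, -, hg⟩ := hall_conj_in hτ hK hc' le_top le_top h3
        exact hy (mem_image_of_conj hS hyr (g := g) (hg ▸ map_subtype_le X))
      · rw [hc, ← h]
        exact ih τ hτsub _ hn
    · obtain ⟨q', hq', h1⟩ := exists_mul_part_le hτ Nat.card_pos.ne'
        (card_subgroup_dvd_card (centralizer ({y} : Set G))) h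
      rw [hc]
      calc p * kk τ (centralizer ({y} : Set G))
          ≤ q' * part τ (Nat.card (centralizer ({y} : Set G))) :=
            Nat.mul_le_mul (hp q' (Finset.mem_insert_of_mem hq')) (kk_le_part hτ)
        _ ≤ _ := h1
  rw [htot] at hlt
  apply absurd hlt
  rw [not_lt]
  rcases card_cases hS.2.1 hO.2.1 hle with hcard | h0
  · have ha : ∀ T : Subgroup G, IsPGroup r T → T ≤ normalizer (S₀ : Set G) →
        T ≤ normalizer (K : Set G) → Nat.card T ≤ Nat.card S₀ := by
      intro T hT _ hTK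
      apply hS.card_le hT
      exact le_centralizer_iff.1 (le_centralizer_of_pp hτ hK hc hrτ hPP hT hTK)
    obtain ⟨O₁, hO₁⟩ := exists_isSyl (p := r) (centralizer (S₀ : Set G))
    obtain ⟨h, hh, hn, hnc⟩ := exists_mover hτ hK hc hrτ hS hO hcard ha hO₁
    have hn2 := two_mul_ncard_diff_le hS.2.1 hO hcard hO₁ hh hn hnc
    have hb : ∀ l ∈ τ, ∀ O₁ : Subgroup G, IsSyl r O₁ (centralizer (S₀ : Set G)) →
        Sy K l ≤ normalizer (O₁ : Set G) → Sy K l ≤ centralizer (O₁ : Set G) := by
      intro l hl O₁ hO₁ hnorm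
      have := Fact.mk (hτ l hl)
      exact pp_comm (l := l) (o := r) (fun h => hrτ (h ▸ hl)) hPP hl (isPGroup_Sy K l) hO₁.2.1
        (Or.inr hnorm)
    obtain ⟨l, hl, g, hg, hgn, hgc⟩ :=
      exists_prime_mover hτ hK hc hrτ hNH hS hO hcard ha hb
    have hpl : p ≤ l := hp l (Finset.mem_insert_of_mem hl)
    have hl0 : 0 < l := (hτ l hl).pos
    have hbd : ∀ y ∈ (S₀ : Set G), PiClass {r} (ConjClasses.mk y) →
        2 * p * kk τ (centralizer ({y} : Set G)) ≤ (p + 1) * Nat.card K := by
      intro y hy _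
      have h1 := bound_of_mem hτ hK hc (le_centralizer_iff.1 hS.1) hl hg hgn hgc hy
      have h3 : l * (2 * p * kk τ (centralizer ({y} : Set G))) ≤ l * ((p + 1) * Nat.card K) := by
        calc l * (2 * p * kk τ (centralizer ({y} : Set G)))
            = p * (2 * l * kk τ (centralizer ({y} : Set G))) := by ring
          _ ≤ p * ((l + 1) * Nat.card K) := by gcongr
          _ = (l * p + p) * Nat.card K := by ring
          _ ≤ (l * p + l) * Nat.card K := by gcongr
          _ = l * ((p + 1) * Nat.card K) := by ring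
      exact Nat.le_of_mul_le_mul_left h3 hl0
    have hmain := kk_union_le_two hrs hτ hdisj (S₀ : Set G) (2 * p) ((p + 1) * Nat.card K)
      (2 * Nat.card K) hbd
      (fun y hy hyq => by
        have := hbig y hy hyq
        rw [mul_assoc]
        exact Nat.mul_le_mul_left 2 this)
    rw [← hins] at hmain
    exact arith_ge_one hpr hcard (inter_le _ _) hn2 hmain
  · have hmain := kk_union_le_two hrs hτ hdisj (S₀ : Set G) p (p * Nat.card K) (Nat.card K)
      (fun y _ _ => Nat.mul_le_mul_left _ (hall y)) hbig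
    rw [← hins] at hmain
    exact arith_ge_zero hp1 hpr hr2 h0 (inter_le _ _) (ncard_add_eq _ _) hkr hmain

/-- if `k_ρ(G) > |G|_ρ / p` then `G` has a nilpotent Hall `ρ`-subgroup -/
theorem main_bound (p : ℕ) (n : ℕ) : ∀ ρ : Finset ℕ, ρ.card = n → (∀ q ∈ ρ, q.Prime) →
    (∀ q ∈ ρ, p ≤ q) → ∀ (G : Type u) [Group G] [Finite G],
    (¬ ∃ H : Subgroup G, Group.IsNilpotent H ∧ Nat.card H = part ρ (Nat.card G)) →
    p * kk ρ G ≤ part ρ (Nat.card G) := by
  classical
  induction n using Nat.strong_induction_on with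
  | _ n ih =>
  intro ρ hn hρ hp G _ _ hNH
  rcases Nat.lt_or_ge ρ.card 2 with h2 | h2
  · exact absurd (nh_of_card_le_one hρ (by omega)) hNH
  · have hne : ρ.Nonempty := Finset.card_pos.1 (by omega)
    set r := ρ.max' hne with hr
    have hrρ : r ∈ ρ := ρ.max'_mem hne
    have := Fact.mk (hρ r hrρ)
    have hins : insert r (ρ.erase r) = ρ := Finset.insert_erase hrρ
    have hcard : (ρ.erase r).card + 1 = ρ.card := Finset.card_erase_add_one hrρ
    have hτ : ∀ q ∈ ρ.erase r, q.Prime := fun q hq => hρ q (Finset.mem_of_mem_erase hq)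
    rcases Nat.lt_or_ge 2 ρ.card with h3 | h3
    · have h1 := case_ge (G := G) (p := p) (r := r) (τ := ρ.erase r) hτ (Finset.notMem_erase r ρ)
        (by rw [hins]; exact hp) (by omega)
        (by
          rw [hins]
          intro ρ' hρ' H _ _ hH
          exact ih ρ'.card (by rw [← hn]; exact Finset.card_lt_card hρ') ρ' rfl
            (fun q hq => hρ q (hρ'.1 hq)) (fun q hq => hp q (hρ'.1 hq)) H hH)
        (by rw [hins]; exact hNH)
      rwa [hins] at h1
    · obtain ⟨q, hq⟩ := Finset.card_eq_one.1 (show (ρ.erase r).card = 1 by omega)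
      have hqmem : q ∈ ρ.erase r := by rw [hq]; exact Finset.mem_singleton_self q
      have hqρ : q ∈ ρ := Finset.mem_of_mem_erase hqmem
      have hqr : q < r := lt_of_le_of_ne (ρ.le_max' q hqρ) (Finset.ne_of_mem_erase hqmem)
      have := Fact.mk (hρ q hqρ)
      have hρ2 : insert q {r} = ρ := by rw [← hins, hq, Finset.pair_comm]
      have h1 := case_two (G := G) hqr (by rw [hρ2]; exact hNH)
      rw [hρ2] at h1
      exact (Nat.mul_le_mul_right _ (hp q hqρ)).trans h1

end H71.PiHall
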