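import Mathlib
import Cfsg.Agent.Lib.H54.RA0
import Cfsg.Agent.Lib.H54.QA4

/-! S3330, pieces C36 and CND (helper71). -/

set_option autoImplicit false
set_option maxRecDepth 100000

namespace H71.RC

open Equiv Subgroup H54.RA

theorem c3_3 : c3 ^ 3 = 1 := by decide +kernel
theorem d5_3 : d5 ^ 3 = 1 := by decide +kernel
theorem c3_ne : c3 ≠ 1 := by decide +kernel
theorem d5_ne : d5 ≠ 1 := by decide +kernel

section gen

variable {G : Type*} [Group G]

theorem cardCC (a b c : G) :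
    Nat.card (centralizer ({a} : Set G) ⊓ centralizer ({b} : Set G) : Subgroup G) =
      Nat.card (centralizer ({c * a * c⁻¹} : Set G) ⊓ centralizer ({c * b * c⁻¹} : Set G) : Subgroup G) := by
  have key : ∀ (x y q : G), q * y = y * q → (x * q * x⁻¹) * (x * y * x⁻¹) = (x * y * x⁻¹) * (x * q * x⁻¹) := by
    intro x y q hq
    calc (x * q * x⁻¹) * (x * y * x⁻¹) = x * (q * y) * x⁻¹ := by group
      _ = x * (y * q) * x⁻¹ := by rw [hq]
      _ = _ := by group
  refine Nat.card_congr ⟨fun q => ⟨c * q * c⁻¹, ?_⟩, fun q => ⟨c⁻¹ * q * c, ?_⟩, fun q => Subtype.ext ?_, fun q => Subtype.ext ?_⟩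
  · have h1 := mem_centralizer_singleton_iff.1 q.2.1
    have h2 := mem_centralizer_singleton_iff.1 q.2.2
    exact ⟨mem_centralizer_singleton_iff.2 (key c a q h1), mem_centralizer_singleton_iff.2 (key c b q h2)⟩
  · have h1 := mem_centralizer_singleton_iff.1 q.2.1
    have h2 := mem_centralizer_singleton_iff.1 q.2.2
    refine mem_inf.2 ⟨?_, ?_⟩
    · rw [mem_centralizer_singleton_iff]
      have := key c⁻¹ _ q h1
      rw [inv_inv, show c⁻¹ * (c * a * c⁻¹) * c = a by group] at this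
      exact this
    · rw [mem_centralizer_singleton_iff]
      have := key c⁻¹ _ q h2
      rw [inv_inv, show c⁻¹ * (c * b * c⁻¹) * c = b by group] at this
      exact this
  · show c⁻¹ * (c * (q : G) * c⁻¹) * c = q
    group
  · show c * (c⁻¹ * (q : G) * c) * c⁻¹ = q
    group

theorem cent_inv_eq (a : G) : centralizer ({a⁻¹} : Set G) = centralizer ({a} : Set G) := by
  ext q
  rw [mem_centralizer_singleton_iff, mem_centralizer_singleton_iff]
  constructor
  · intro h1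
    have := ((show Commute q a⁻¹ from h1).inv_right).eq
    rwa [inv_inv] at this
  · intro h1
    exact ((show Commute q a from h1).inv_right).eq

variable {ψ : PP →* G} {n : G}

theorem DD_eq (ψ : PP →* G) : DD ψ = ((zpowers c3).prod (zpowers d5)).map ψ := by
  apply le_antisymm
  · apply sup_le
    · rw [zpowers_le]
      exact ⟨(c3, 1), ⟨mem_zpowers c3, one_mem _⟩, rfl⟩
    · rw [zpowers_le]
      exact ⟨(1, d5), ⟨one_mem _, mem_zpowers d5⟩, rfl⟩
  · rintro _ ⟨⟨a, b⟩, ⟨ha, hb⟩, rfl⟩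
    obtain ⟨i, hi⟩ := mem_zpowers_iff.1 ha
    obtain ⟨j, hj⟩ := mem_zpowers_iff.1 hb
    have h1 : ((a, b) : PP) = ((c3, 1) : PP) ^ i * ((1, d5) : PP) ^ j := by
      apply Prod.ext
      · simp only [Prod.fst_mul, Prod.pow_fst, one_zpow, mul_one]
        exact hi.symm
      · simp only [Prod.snd_mul, Prod.pow_snd, one_zpow, one_mul]
        exact hj.symm
    rw [h1, map_mul, map_zpow, map_zpow]
    exact mul_mem_sup (zpow_mem (mem_zpowers _) i) (zpow_mem (mem_zpowers _) j)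

theorem mem_DD {x : G} (hx : x ∈ DD ψ) : ∃ (a : Perm (Fin 3)) (b : Perm (Fin 5)), (a = 1 ∨ a = c3 ∨ a = c3⁻¹) ∧
    (b = 1 ∨ b = d5 ∨ b = d5⁻¹) ∧ x = ψ (a, b) := by
  rw [DD_eq] at hx
  obtain ⟨⟨a, b⟩, ⟨ha, hb⟩, rfl⟩ := hx
  exact ⟨a, b, H54.QA.zp3 c3_3 ha, H54.QA.zp3 d5_3 hb, rfl⟩

theorem card_DD (h : RD ψ n) : Nat.card (DD ψ) = 9 := by
  rw [DD_eq, ← Nat.card_congr (((zpowers c3).prod (zpowers d5)).equivMapOfInjective ψ h.inj).toEquiv,
    Nat.card_congr (Subgroup.prodEquiv _ _).toEquiv, Nat.card_prod, Nat.card_zpowers, Nat.card_zpowers,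
    orderOf_eq_prime c3_3 c3_ne, orderOf_eq_prime d5_3 d5_ne]

end gen

variable {G : Type*} [Group G] [Finite G] {ψ : PP →* G} {n : G}

theorem c1 (h : RD ψ n) {g : G} (hg : g * ψ (c3, 1) = ψ (c3, 1) * g) : ∃ k, ψ k = g ∧ k * (c3, 1) = (c3, 1) * k := by
  obtain ⟨k, rfl⟩ := h.rng g (H54.QA.comm_norm hg)
  refine ⟨k, rfl, h.inj ?_⟩
  rw [map_mul, map_mul]
  exact hg

theorem card_C0 : Nat.card {k : PP // k * (c3, 1) = (c3, 1) * k ∧ k * (1, t5) = (1, t5) * k} = 36 := by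
  rw [Nat.card_eq_fintype_card]
  decide +kernel

theorem card_zt (h : RD ψ n) :
    Nat.card (centralizer ({ψ (c3, 1)} : Set G) ⊓ centralizer ({ψ (1, t5)} : Set G) : Subgroup G) = 36 := by
  rw [← card_C0]
  symm
  refine Nat.card_congr (Equiv.ofBijective (fun k => ⟨ψ k, ?_⟩) ⟨?_, ?_⟩)
  · obtain ⟨k, h1, h2⟩ := k
    refine mem_inf.2 ⟨?_, ?_⟩
    · rw [mem_centralizer_singleton_iff, ← map_mul, ← map_mul]
      exact congrArg ψ h1
    · rw [mem_centralizer_singleton_iff, ← map_mul, ← map_mul]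
      exact congrArg ψ h2
  · rintro ⟨k, hk⟩ ⟨k', hk'⟩ hkk
    exact Subtype.ext (h.inj (congrArg Subtype.val hkk))
  · rintro ⟨q, hq1, hq2⟩
    obtain ⟨k, rfl, hk⟩ := c1 h (mem_centralizer_singleton_iff.1 hq1)
    refine ⟨⟨k, hk, ?_⟩, rfl⟩
    apply h.inj
    rw [map_mul, map_mul]
    exact mem_centralizer_singleton_iff.1 hq2

theorem c36 {G : Type*} [Group G] [Finite G] {ψ : PP →* G} {n : G} (h : RD ψ n) {s x g : G} (hs : g * s * g⁻¹ = ψ (1, t5))
    (hx3 : x ^ 3 = 1) (hx1 : x ≠ 1) (hxs : x * s = s * x) :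
    Nat.card (centralizer ({x} : Set G) ⊓ centralizer ({s} : Set G) : Subgroup G) = 36 := by
  have : Fact (Nat.Prime 3) := ⟨Nat.prime_three⟩
  -- `D` is a Sylow `3`-subgroup of `C(t)`
  have hDt : DD ψ ≤ centralizer ({ψ (1, t5)} : Set G) := by
    intro y hy
    obtain ⟨a, b, ha, hb, rfl⟩ := mem_DD hy
    rw [mem_centralizer_singleton_iff, ← map_mul, ← map_mul]
    congr 1
    rcases hb with rfl | rfl | rfl
    · simp
    · apply Prod.ext
      · simp
      · show d5 * t5 = t5 * d5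
        decide +kernel
    · apply Prod.ext
      · simp
      · show d5⁻¹ * t5 = t5 * d5⁻¹
        decide +kernel
  have hDp : IsPGroup 3 (DD ψ) := IsPGroup.of_card (n := 2) (by rw [card_DD h]; norm_num)
  obtain ⟨P, h1, h2, h3, h4⟩ := H54.QA.exSyl (p := 3) _ _ hDt hDp
  have hP : P = DD ψ := by
    obtain ⟨k, hk⟩ := IsPGroup.iff_card.1 h3
    have hk2 : k ≤ 2 := by
      by_contra hc
      apply h.h27
      calc 27 = 3 ^ 3 := by norm_num
        _ ∣ 3 ^ k := pow_dvd_pow 3 (by omega)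
        _ = Nat.card P := hk.symm
        _ ∣ Nat.card G := card_subgroup_dvd_card P
    symm
    apply eq_of_le_of_card_ge h1
    rw [hk, card_DD h]
    calc 3 ^ k ≤ 3 ^ 2 := Nat.pow_le_pow_right (by norm_num) hk2
      _ = 9 := by norm_num
  rw [hP] at h4
  obtain ⟨y, hy⟩ : ∃ y, y = g * x * g⁻¹ := ⟨_, rfl⟩
  have hy3 : y ^ 3 = 1 := by rw [hy, conj_pow, hx3]; simp
  have hy1 : y ≠ 1 := by
    intro h1
    apply hx1
    rw [hy] at h1
    calc x = g⁻¹ * (g * x * g⁻¹) * g := by group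
      _ = 1 := by rw [h1]; group
  have hyt : y * ψ (1, t5) = ψ (1, t5) * y := by
    rw [← hs, hy]
    calc g * x * g⁻¹ * (g * s * g⁻¹) = g * (x * s) * g⁻¹ := by group
      _ = g * (s * x) * g⁻¹ := by rw [hxs]
      _ = _ := by group
  rw [cardCC x s g, ← hy, hs]
  have hyp : IsPGroup 3 (zpowers y) := IsPGroup.of_card (n := 1) (by rw [Nat.card_zpowers, H54.QA.ord3 hy3 hy1]; norm_num)
  obtain ⟨q, hq, hq2⟩ := H54.QA.conjP (p := 3) _ _ hDt hDp h4 (E := zpowers y)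
    (zpowers_le.2 (mem_centralizer_singleton_iff.2 hyt)) hyp
  have hqy := hq2 y (mem_zpowers y)
  rw [mem_centralizer_singleton_iff] at hq
  have hqt : q * ψ (1, t5) * q⁻¹ = ψ (1, t5) := by rw [hq]; group
  rw [cardCC y (ψ (1, t5)) q, hqt]
  obtain ⟨a, b, ha, hb, hab⟩ := mem_DD hqy
  rw [hab]
  have hne : ¬ (a = 1 ∧ b = 1) := by
    rintro ⟨rfl, rfl⟩
    apply hy1
    have e1 : q * y * q⁻¹ = 1 := by rw [hab]; exact map_one ψ
    calc y = q⁻¹ * (q * y * q⁻¹) * q := by group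
      _ = 1 := by rw [e1]; group
  have hinv : ∀ k : PP, centralizer ({ψ k⁻¹} : Set G) = centralizer ({ψ k} : Set G) := by
    intro k
    rw [map_inv, cent_inv_eq]
  have hz := card_zt h
  have hw : Nat.card (centralizer ({ψ (1, d5)} : Set G) ⊓ centralizer ({ψ (1, t5)} : Set G) : Subgroup G) = 36 := by
    have e2 := cardCC (ψ (c3, 1)) (ψ (1, t5)) n
    have e3 : n * ψ (1, t5) * n⁻¹ = ψ (1, t5) := by rw [h.nt]; group
    rw [h.n1, e3] at e2
    rw [← e2, hz]
  have hcd : Nat.card (centralizer ({ψ (c3, d5)} : Set G) ⊓ centralizer ({ψ (1, t5)} : Set G) : Subgroup G) = 36 := by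
    have e4 : centralizer ({ψ (c3, d5)} : Set G) ⊓ centralizer ({ψ (1, t5)} : Set G) = centralizer ({ψ (c3, d5)} : Set G) := by
      rw [inf_eq_left]
      intro r hr
      rw [mem_centralizer_singleton_iff] at hr ⊢
      exact h.cyt r hr
    rw [e4, h.cy]
  have hcd' : Nat.card (centralizer ({ψ (c3, d5⁻¹)} : Set G) ⊓ centralizer ({ψ (1, t5)} : Set G) : Subgroup G) = 36 := by
    have e2 := cardCC (ψ (c3, d5)) (ψ (1, t5)) (ψ (1, swap 1 2))
    have e5 : (1, swap 1 2) * (c3, d5) * (1, swap 1 2)⁻¹ = ((c3, d5⁻¹) : PP) := by decide +kernel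
    have e6 : (1, swap 1 2) * (1, t5) * (1, swap 1 2)⁻¹ = ((1, t5) : PP) := by decide +kernel
    rw [← map_inv, ← map_mul, ← map_mul, ← map_mul, ← map_mul, e5, e6] at e2
    rw [← e2, hcd]
  rcases ha with rfl | rfl | rfl <;> rcases hb with rfl | rfl | rfl
  · exact absurd ⟨rfl, rfl⟩ hne
  · exact hw
  · have := hinv (1, d5)
    rw [show ((1, d5)⁻¹ : PP) = (1, d5⁻¹) by decide +kernel] at this
    rw [this]; exact hw
  · exact hz
  · exact hcd
  · exact hcd'
  · have := hinv (c3, 1)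
    rw [show ((c3, 1)⁻¹ : PP) = (c3⁻¹, 1) by decide +kernel] at this
    rw [this]; exact hz
  · have := hinv (c3, d5⁻¹)
    rw [show ((c3, d5⁻¹)⁻¹ : PP) = (c3⁻¹, d5) by decide +kernel] at this
    rw [this]; exact hcd'
  · have := hinv (c3, d5)
    rw [show ((c3, d5)⁻¹ : PP) = (c3⁻¹, d5⁻¹) by decide +kernel] at this
    rw [this]; exact hcd

/-- `⟨c₃, 1⟩`-normalizing part of `N(D)` -/
def MK : Subgroup PP := (⊤ : Subgroup (Perm (Fin 3))).prod (normalizer (zpowers d5 : Set (Perm (Fin 5))))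

theorem norm_d5 {b : Perm (Fin 5)} (hb : b ∈ normalizer (zpowers d5 : Set (Perm (Fin 5)))) :
    b * d5 = d5 * b ∨ b * d5 = d5⁻¹ * b := by
  have h1 : b * d5 * b⁻¹ ∈ zpowers d5 := (mem_normalizer_iff.1 hb d5).1 (mem_zpowers d5)
  rcases H54.QA.zp3 d5_3 h1 with h2 | h2 | h2
  · exfalso
    apply d5_ne
    calc d5 = b⁻¹ * (b * d5 * b⁻¹) * b := by group
      _ = 1 := by rw [h2]; group
  · left; exact mul_inv_eq_iff_eq_mul.1 h2
  · right; exact mul_inv_eq_iff_eq_mul.1 h2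

theorem card_nd5 : Nat.card {b : Perm (Fin 5) // b * d5 = d5 * b ∨ b * d5 = d5⁻¹ * b} = 12 := by
  rw [Nat.card_eq_fintype_card]
  decide +kernel

theorem nd5_t5 : ∀ b : Perm (Fin 5), (b * d5 = d5 * b ∨ b * d5 = d5⁻¹ * b) → b * t5 = t5 * b := by
  decide +kernel

theorem mem_nd5 {b : Perm (Fin 5)} : b ∈ normalizer (zpowers d5 : Set (Perm (Fin 5))) ↔
    (b * d5 = d5 * b ∨ b * d5 = d5⁻¹ * b) := by
  refine ⟨norm_d5, fun hb => H54.QA.inv_norm ?_⟩
  rcases hb with hb | hb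
  · rw [hb, mul_inv_cancel_right]; exact mem_zpowers d5
  · rw [hb, mul_inv_cancel_right]; exact inv_mem (mem_zpowers d5)

theorem card_MK : Nat.card MK = 72 := by
  rw [MK, Nat.card_congr (Subgroup.prodEquiv _ _).toEquiv, Nat.card_prod, Subgroup.card_top,
    Nat.card_congr (Equiv.subtypeEquivRight (fun b => mem_nd5 (b := b))), card_nd5, Nat.card_perm,
    Nat.card_eq_fintype_card, Fintype.card_fin]
  rfl

theorem MK_le (ψ : PP →* G) : MK.map ψ ≤ normalizer (DD ψ : Set G) := by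
  rintro _ ⟨⟨a, b⟩, ⟨-, hb⟩, rfl⟩
  apply mem_normalizer_fintype
  intro y hy
  obtain ⟨c, d, hc, hd, rfl⟩ := mem_DD hy
  rw [← map_inv, ← map_mul, ← map_mul, DD_eq]
  refine ⟨_, ⟨?_, ?_⟩, rfl⟩
  · show a * c * a⁻¹ ∈ zpowers c3
    have : ∀ a : Perm (Fin 3), ∀ c : Perm (Fin 3), (c = 1 ∨ c = c3 ∨ c = c3⁻¹) →
        (a * c * a⁻¹ = 1 ∨ a * c * a⁻¹ = c3 ∨ a * c * a⁻¹ = c3⁻¹) := by decide +kernel
    rcases this a c hc with h1 | h1 | h1
    · rw [h1]; exact one_mem _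
    · rw [h1]; exact mem_zpowers _
    · rw [h1]; exact inv_mem (mem_zpowers _)
  · show b * d * b⁻¹ ∈ zpowers d5
    have hd' : d ∈ zpowers d5 := by
      rcases hd with rfl | rfl | rfl
      · exact one_mem _
      · exact mem_zpowers _
      · exact inv_mem (mem_zpowers _)
    exact (mem_normalizer_iff.1 hb d).1 hd'

theorem n_mem (h : RD ψ n) : n ∈ normalizer (DD ψ : Set G) := by
  apply mem_normalizer_fintype
  intro y hy
  obtain ⟨c, hc, d, hd, rfl⟩ : ∃ c ∈ zpowers (ψ (c3, 1)), ∃ d ∈ zpowers (ψ (1, d5)), y = c * d := by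
    obtain ⟨a, b, ha, hb, rfl⟩ := mem_DD hy
    refine ⟨ψ (a, 1), ?_, ψ (1, b), ?_, ?_⟩
    · rcases ha with rfl | rfl | rfl
      · rw [show ((1, 1) : PP) = 1 from rfl, map_one]; exact one_mem _
      · exact mem_zpowers _
      · rw [show ((c3⁻¹, 1) : PP) = (c3, 1)⁻¹ by decide +kernel, map_inv]; exact inv_mem (mem_zpowers _)
    · rcases hb with rfl | rfl | rfl
      · rw [show ((1, 1) : PP) = 1 from rfl, map_one]; exact one_mem _
      · exact mem_zpowers _
      · rw [show ((1, d5⁻¹) : PP) = (1, d5)⁻¹ by decide +kernel, map_inv]; exact inv_mem (mem_zpowers _)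
    · rw [← map_mul]; exact congrArg ψ (Prod.ext (by simp) (by simp))
  obtain ⟨i, rfl⟩ := mem_zpowers_iff.1 hc
  obtain ⟨j, rfl⟩ := mem_zpowers_iff.1 hd
  have e1 : n * (ψ (c3, 1) ^ i * ψ (1, d5) ^ j) * n⁻¹ = (n * ψ (c3, 1) * n⁻¹) ^ i * (n * ψ (1, d5) * n⁻¹) ^ j := by
    rw [conj_zpow, conj_zpow]; group
  rw [e1, h.n1, h.n2]
  exact mul_mem (zpow_mem ((le_sup_right : _ ≤ DD ψ) (mem_zpowers _)) i)
    (zpow_mem ((le_sup_left : _ ≤ DD ψ) (mem_zpowers _)) j)

/-- the centralizer of `z` is large -/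
theorem card_cz (h : RD ψ n) : 120 ∣ Nat.card (centralizer ({ψ (c3, 1)} : Set G)) := by
  have h1 : ((⊥ : Subgroup (Perm (Fin 3))).prod (⊤ : Subgroup (Perm (Fin 5)))).map ψ ≤ centralizer ({ψ (c3, 1)} : Set G) := by
    rintro _ ⟨⟨a, b⟩, ⟨ha, -⟩, rfl⟩
    have ha' : a = 1 := ha
    subst ha'
    rw [mem_centralizer_singleton_iff, ← map_mul, ← map_mul]
    exact congrArg ψ (Prod.ext (by simp) (by simp))
  have h2 := card_dvd_of_le h1
  rw [← Nat.card_congr (((⊥ : Subgroup (Perm (Fin 3))).prod (⊤ : Subgroup (Perm (Fin 5)))).equivMapOfInjective ψ h.inj).toEquiv,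
    Nat.card_congr (Subgroup.prodEquiv _ _).toEquiv, Nat.card_prod, Subgroup.card_bot, Subgroup.card_top,
    Nat.card_perm, Nat.card_eq_fintype_card, Fintype.card_fin] at h2
  exact h2

theorem norm_cases (h : RD ψ n) {x : G} (hx : x ∈ normalizer (DD ψ : Set G)) :
    x ∈ MK.map ψ ∨ n * x ∈ MK.map ψ := by
  -- elements normalizing `⟨z⟩` and `D`
  have key : ∀ y ∈ normalizer (DD ψ : Set G), y * ψ (c3, 1) * y⁻¹ ∈ zpowers (ψ (c3, 1)) → y ∈ MK.map ψ := by
    intro y hy hyz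
    obtain ⟨⟨a, b⟩, rfl⟩ := h.rng y (H54.QA.inv_norm hyz)
    refine ⟨(a, b), ⟨mem_top _, ?_⟩, rfl⟩
    have h1 : ψ (a, b) * ψ (1, d5) * (ψ (a, b))⁻¹ ∈ DD ψ :=
      (mem_normalizer_iff.1 hy _).1 ((le_sup_right : _ ≤ DD ψ) (mem_zpowers _))
    rw [← map_inv, ← map_mul, ← map_mul, DD_eq] at h1
    obtain ⟨k, ⟨hk1, hk2⟩, hk⟩ := h1
    have h2 := h.inj hk
    apply H54.QA.inv_norm
    have h3 : k.2 = b * d5 * b⁻¹ := by rw [h2]; rfl
    rw [← h3]
    exact hk2
  have h1 : x * ψ (c3, 1) * x⁻¹ ∈ DD ψ :=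
    (mem_normalizer_iff.1 hx _).1 ((le_sup_left : _ ≤ DD ψ) (mem_zpowers _))
  obtain ⟨a, b, ha, hb, hab⟩ := mem_DD h1
  have hcard := H54.QA.cardC hab
  have hz := card_cz h
  have hcy := h.cy
  have hcd' : Nat.card (centralizer ({ψ (c3, d5⁻¹)} : Set G)) = 36 := by
    have e5 : (1, swap 1 2) * (c3, d5) * (1, swap 1 2)⁻¹ = ((c3, d5⁻¹) : PP) := by decide +kernel
    have e2 : ψ (1, swap 1 2) * ψ (c3, d5) * (ψ (1, swap 1 2))⁻¹ = ψ (c3, d5⁻¹) := by
      rw [← map_inv, ← map_mul, ← map_mul, e5]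
    rw [← H54.QA.cardC e2, hcy]
  have hinv : ∀ k : PP, centralizer ({ψ k⁻¹} : Set G) = centralizer ({ψ k} : Set G) := by
    intro k
    rw [map_inv, cent_inv_eq]
  have hfalse : ∀ k : PP, Nat.card (centralizer ({ψ k} : Set G)) = 36 → x * ψ (c3, 1) * x⁻¹ = ψ k → False := by
    intro k hk hxk
    have := H54.QA.cardC hxk
    rw [hk] at this
    rw [this] at hz
    norm_num at hz
  have hzm : ∀ a : Perm (Fin 3), (a = 1 ∨ a = c3 ∨ a = c3⁻¹) → ψ (a, 1) ∈ zpowers (ψ (c3, 1)) := by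
    intro a ha
    rcases ha with rfl | rfl | rfl
    · rw [show ((1, 1) : PP) = 1 from rfl, map_one]; exact one_mem _
    · exact mem_zpowers _
    · rw [show ((c3⁻¹, 1) : PP) = (c3, 1)⁻¹ by decide +kernel, map_inv]; exact inv_mem (mem_zpowers _)
  by_cases hb1 : b = 1
  · left
    apply key x hx
    rw [hab, hb1]
    exact hzm a ha
  by_cases ha1 : a = 1
  · right
    apply key (n * x) (mul_mem (n_mem h) hx)
    have e1 : n * x * ψ (c3, 1) * (n * x)⁻¹ = n * (x * ψ (c3, 1) * x⁻¹) * n⁻¹ := by group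
    rw [e1, hab, ha1]
    rcases hb with rfl | rfl | rfl
    · exact absurd rfl hb1
    · rw [h.n2]; exact mem_zpowers _
    · rw [show ((1, d5⁻¹) : PP) = (1, d5)⁻¹ by decide +kernel, map_inv]
      have e2 : n * (ψ (1, d5))⁻¹ * n⁻¹ = (n * ψ (1, d5) * n⁻¹)⁻¹ := by group
      rw [e2, h.n2]
      exact inv_mem (mem_zpowers _)
  · exfalso
    rcases ha with ha | rfl | rfl
    · exact ha1 ha
    · rcases hb with hb | rfl | rfl
      · exact hb1 hb
      · exact hfalse _ hcy hab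
      · exact hfalse _ hcd' hab
    · rcases hb with hb | rfl | rfl
      · exact hb1 hb
      · have := hinv (c3, d5⁻¹)
        rw [show ((c3, d5⁻¹)⁻¹ : PP) = (c3⁻¹, d5) by decide +kernel] at this
        exact hfalse _ (by rw [this]; exact hcd') hab
      · have := hinv (c3, d5)
        rw [show ((c3, d5)⁻¹ : PP) = (c3⁻¹, d5⁻¹) by decide +kernel] at this
        exact hfalse _ (by rw [this]; exact hcy) hab

theorem n_not (h : RD ψ n) : n ∉ MK.map ψ := by
  rintro ⟨⟨a, b⟩, -, hk⟩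
  have h1 := h.n1
  rw [← hk, ← map_inv, ← map_mul, ← map_mul] at h1
  have h2 := congrArg Prod.snd (h.inj h1)
  have h3 : b * 1 * b⁻¹ = d5 := h2
  apply d5_ne
  rw [← h3]; group

theorem cnd (h : RD ψ n) : Nat.card (normalizer (DD ψ : Set G)) = 144 ∧
    ∀ g ∈ normalizer (DD ψ : Set G), g * ψ (1, t5) = ψ (1, t5) * g := by
  have hMK : ∀ y ∈ MK.map ψ, y * ψ (1, t5) = ψ (1, t5) * y := by
    rintro _ ⟨⟨a, b⟩, ⟨-, hb⟩, rfl⟩
    rw [← map_mul, ← map_mul]
    congr 1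
    apply Prod.ext
    · simp
    · exact nd5_t5 b (norm_d5 hb)
  constructor
  · have h1 : (MK.map ψ).relIndex (normalizer (DD ψ : Set G)) = 2 := by
      rw [relIndex_eq_two_iff]
      refine ⟨n, n_mem h, fun b hb => ?_⟩
      have hn1 : n⁻¹ = n := inv_eq_of_mul_eq_one_left h.nn
      by_cases hbM : b ∈ MK.map ψ
      · right
        refine ⟨hbM, fun hbn => n_not h ?_⟩
        have := mul_mem (inv_mem hbM) hbn
        rwa [inv_mul_cancel_left] at this
      · left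
        refine ⟨?_, hbM⟩
        rcases norm_cases h (inv_mem hb) with h2 | h2
        · exact absurd (by simpa using inv_mem h2) hbM
        · have := inv_mem h2
          rw [mul_inv_rev, inv_inv, hn1] at this
          exact this
    have h2 := relIndex_mul_relIndex ⊥ (MK.map ψ) (normalizer (DD ψ : Set G)) bot_le (MK_le ψ)
    rw [relIndex_bot_left, relIndex_bot_left, h1, ← Nat.card_congr (MK.equivMapOfInjective ψ h.inj).toEquiv, card_MK] at h2
    omega
  · intro g hg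
    rcases norm_cases h hg with h1 | h1
    · exact hMK g h1
    · have h2 := hMK _ h1
      have h3 := h.nt
      have h4 : n * (g * ψ (1, t5)) = n * (ψ (1, t5) * g) := by
        calc n * (g * ψ (1, t5)) = n * g * ψ (1, t5) := by group
          _ = ψ (1, t5) * (n * g) := h2
          _ = (ψ (1, t5) * n) * g := by group
          _ = (n * ψ (1, t5)) * g := by rw [h3]
          _ = n * (ψ (1, t5) * g) := by group
      exact mul_left_cancel h4

end H71.RC
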