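import Mathlib

set_option autoImplicit false

/-! Automorphisms of a split extension from compatible automorphisms of the two factors. -/

namespace H71.SdpAut

/-- compatible automorphisms of a normal subgroup and of a complement extend to the group -/
theorem exists_aut {G : Type*} [Group G] {N H : Subgroup G} [hN : N.Normal] (hc : N.IsComplement' H)
    (s : N ≃* N) (κ : H ≃* H)
    (hcomp : ∀ (h : H) (n : N), (s (MulAut.conjNormal (h : G) n) : G) = (κ h : G) * s n * (κ h : G)⁻¹) :
    ∃ α : G ≃* G, (∀ n : N, α n = s n) ∧ (∀ h : H, α h = κ h) := by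
  let e := SemidirectProduct.mulEquivSubgroup hc
  have he : ∀ x, e x = (x.1 : G) * (x.2 : G) := fun x => rfl
  let c := SemidirectProduct.congr (φ₁ := (N.normalizerMonoidHom).comp (Subgroup.inclusion (N.normalizer_eq_top ▸ le_top)))
    (φ₂ := (N.normalizerMonoidHom).comp (Subgroup.inclusion (N.normalizer_eq_top ▸ le_top))) s κ (by
      intro h
      ext n
      exact hcomp h n)
  have hcdef : ∀ x, c x = ⟨s x.1, κ x.2⟩ := fun x => rfl
  refine ⟨e.symm.trans (c.trans e), ?_, ?_⟩
  · intro n
    have h1 : e.symm (n : G) = ⟨n, 1⟩ := by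
      rw [MulEquiv.symm_apply_eq, he]; simp
    rw [MulEquiv.trans_apply, MulEquiv.trans_apply, h1, hcdef, he]; simp
  · intro h
    have h1 : e.symm (h : G) = ⟨1, h⟩ := by
      rw [MulEquiv.symm_apply_eq, he]; simp
    rw [MulEquiv.trans_apply, MulEquiv.trans_apply, h1, hcdef, he]; simp

end H71.SdpAut
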