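import Mathlib
import Cfsg.Prelude.Def_OddOrderLocal
import Cfsg.Agent.Lib.H71.Basic2
import Cfsg.Agent.Lib.H1.Cores
import Cfsg.Agent.S4116

/-!
# TI Hall subgroups in separable groups

`part_one`: a non-normal TI Hall subgroup `H` of a `π(H)`-separable group satisfies `G = O N_G(H)` and
`O H ⊴ G` with `O = O_{π'}(G)`.
-/

set_option autoImplicit false

namespace H71.SepTI

open Subgroup

theorem coprime_of_primes {n h i : ℕ} (hn : ∀ q : ℕ, q.Prime → q ∣ n → q ∣ h) (hi : h.Coprime i) : n.Coprime i := by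
  apply Nat.coprime_of_dvd
  intro q hq hqn hqi
  exact Nat.Prime.not_coprime_iff_dvd.mpr ⟨q, hq, hn q hq hqn, hqi⟩ hi

variable {G : Type*} [Group G] [Finite G]

theorem card_mul_relIndex' {A B : Subgroup G} (h : A ≤ B) : Nat.card A * A.relIndex B = Nat.card B := by
  have := Subgroup.relIndex_mul_relIndex ⊥ A B bot_le h
  rwa [Subgroup.relIndex_bot_left, Subgroup.relIndex_bot_left] at this

theorem part_one (H : Subgroup G) (hTI : Cfsg.IsTISubset (H : Set G)) (hnn : ¬ H.Normal)
    (hHall : (Nat.card H).Coprime H.index)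
    (hsep : ∃ (n : ℕ) (M : Fin (n + 1) → Subgroup G), M 0 = ⊥ ∧ M (Fin.last n) = ⊤ ∧ Monotone M ∧ (∀ i, (M i).Normal) ∧
      ∀ i : Fin n, (∀ q : ℕ, q.Prime → q ∣ (M i.castSucc).relIndex (M i.succ) → q ∣ Nat.card H) ∨
        ((M i.castSucc).relIndex (M i.succ)).Coprime (Nat.card H))
    (O : Subgroup G) [O.Normal] (hOc : (Nat.card O).Coprime (Nat.card H))
    (hOm : ∀ K : Subgroup G, K.Normal → (Nat.card K).Coprime (Nat.card H) → K ≤ O) :
    O ⊔ normalizer (H : Set G) = ⊤ ∧ (O ⊔ H).Normal := by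
  classical
  obtain ⟨n, M, hM0, hMl, hMm, hMn, hMi⟩ := hsep
  have hHbot : H ≠ ⊥ := by
    rintro rfl
    exact hnn inferInstance
  have hex : ∃ i : Fin n, M i.castSucc ≤ O ∧ ¬ M i.succ ≤ O := by
    by_contra hcon
    push Not at hcon
    have hall : ∀ i : Fin (n + 1), M i ≤ O := by
      intro i
      induction i using Fin.induction with
      | zero => rw [hM0]; exact bot_le
      | succ i ih => exact hcon i ih
    have h1 : O = ⊤ := by rw [eq_top_iff, ← hMl]; exact hall _
    apply hHbot
    rw [← Subgroup.card_eq_one]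
    rw [h1, Subgroup.card_top] at hOc
    exact Nat.eq_one_of_dvd_coprimes hOc (Subgroup.card_subgroup_dvd_card H) dvd_rfl
  obtain ⟨i, hi1, hi2⟩ := hex
  have hn1 := hMn i.succ
  set L := O ⊔ M i.succ with hL
  have hLn : L.Normal := inferInstance
  have hOL : O ≤ L := le_sup_left
  have hOLr : O.relIndex L ∣ (M i.castSucc).relIndex (M i.succ) := by
    have h1 : O.relIndex L = O.relIndex (M i.succ) := by
      rw [hL, sup_comm]; exact Subgroup.relIndex_sup_right _ _
    rw [h1]
    exact Subgroup.relIndex_dvd_of_le_left _ hi1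
  -- the index is a `π`-number
  have hπ : ∀ q : ℕ, q.Prime → q ∣ O.relIndex L → q ∣ Nat.card H := by
    rcases hMi i with h | h
    · exact fun q hq h1 => h q hq (h1.trans hOLr)
    · exfalso
      apply hi2
      refine le_trans le_sup_right (hOm L hLn ?_)
      rw [← card_mul_relIndex' hOL]
      exact Nat.Coprime.mul_left hOc (Nat.Coprime.coprime_dvd_left hOLr h)
  have hOH : O ⊓ H = ⊥ := (Subgroup.disjoint_of_coprime_natCard hOc).eq_bot
  -- `L ≤ O ⊔ H`
  have hLle : L ≤ O ⊔ H := by
    have h1 : O ⊔ H ≤ L ⊔ H := sup_le_sup_right hOL H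
    have h2 : O.relIndex (L ⊔ H) = O.relIndex L * L.relIndex H := by
      rw [← Subgroup.relIndex_mul_relIndex O L (L ⊔ H) hOL le_sup_left]
      congr 1
      rw [sup_comm]; exact Subgroup.relIndex_sup_right _ _
    have h3 : ∀ q : ℕ, q.Prime → q ∣ O.relIndex (L ⊔ H) → q ∣ Nat.card H := by
      intro q hq hqd
      rw [h2] at hqd
      rcases hq.dvd_mul.mp hqd with h | h
      · exact hπ q hq h
      · exact h.trans (Subgroup.relIndex_dvd_card _ _)
    have h4 : O.relIndex (L ⊔ H) ∣ Nat.card H := by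
      have h5 : O.relIndex (L ⊔ H) ∣ Nat.card H * H.index := by
        rw [Subgroup.card_mul_index]
        exact (Dvd.intro_left _ (card_mul_relIndex' (hOL.trans le_sup_left))).trans (Subgroup.card_subgroup_dvd_card _)
      exact Nat.Coprime.dvd_of_dvd_mul_right (coprime_of_primes h3 hHall) h5
    have h5 : Nat.card (L ⊔ H : Subgroup G) ≤ Nat.card (O ⊔ H : Subgroup G) := by
      rw [← card_mul_relIndex' (hOL.trans (le_sup_left : L ≤ L ⊔ H)), ← card_mul_relIndex' (le_sup_left : O ≤ O ⊔ H)]
      apply Nat.mul_le_mul_left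
      have h6 : O.relIndex (O ⊔ H) = Nat.card H := by
        have h7 : O.relIndex (H ⊔ O) = O.relIndex H := Subgroup.relIndex_sup_right _ _
        rw [sup_comm, h7]
        have := Subgroup.inf_relIndex_right O H
        rw [hOH, Subgroup.relIndex_bot_left] at this
        exact this.symm
      rw [h6]
      exact Nat.le_of_dvd Nat.card_pos h4
    have h6 : O ⊔ H = L ⊔ H := Subgroup.eq_of_le_of_card_ge h1 h5
    rw [h6]; exact le_sup_left
  have hLeq : L = O ⊔ (H ⊓ L) := by
    apply le_antisymm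
    · intro x hx
      obtain ⟨a, ha, b, hb, rfl⟩ := Subgroup.mem_sup_of_normal_left.mp (hLle hx)
      refine Subgroup.mul_mem_sup ha ⟨hb, ?_⟩
      have := L.mul_mem (L.inv_mem (hOL ha)) hx
      rwa [inv_mul_cancel_left] at this
    · exact sup_le hOL inf_le_right
  have hH0 : H ⊓ L ≠ ⊥ := by
    intro h
    rw [h, sup_bot_eq] at hLeq
    exact hi2 (hLeq ▸ le_sup_right)
  -- `H ⊓ L` is a TI Hall subgroup of `L`
  have hTI' : Cfsg.IsTISubset ((H.subgroupOf L : Subgroup L) : Set L) := by
    intro g hg x hx hgx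
    by_contra hx1
    apply hg
    have hgN : (g : G) ∈ normalizer (H : Set G) := by
      by_contra hcon
      have := hTI g hcon x hx (by simpa [Subgroup.mem_subgroupOf] using hgx)
      exact hx1 (Subtype.ext this)
    apply Subgroup.mem_normalizer_fintype
    intro y hy
    have := (Subgroup.mem_normalizer_iff.mp hgN (y : G)).mp hy
    simpa [Subgroup.mem_subgroupOf] using this
  have hHall' : (Nat.card (H.subgroupOf L)).Coprime (H.subgroupOf L).index := by
    have e1 : Nat.card (H.subgroupOf L) = Nat.card (H ⊓ L : Subgroup G) := by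
      rw [← Subgroup.subgroupOf_map_subtype, Subgroup.card_map_of_injective L.subtype_injective]
    have e2 : Nat.card (H ⊓ L : Subgroup G) * (H ⊓ L).relIndex L = Nat.card L := card_mul_relIndex' inf_le_right
    have e3 : O.relIndex L = Nat.card (H ⊓ L : Subgroup G) := by
      conv_lhs => rw [hLeq]
      have h7 : O.relIndex ((H ⊓ L) ⊔ O) = O.relIndex (H ⊓ L) := Subgroup.relIndex_sup_right _ _
      rw [sup_comm, h7]
      have := Subgroup.inf_relIndex_right O (H ⊓ L)
      rw [← inf_assoc, hOH, bot_inf_eq, Subgroup.relIndex_bot_left] at this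
      exact this.symm
    have e4 := card_mul_relIndex' hOL
    rw [e3] at e4
    have e5 : (H ⊓ L).relIndex L = Nat.card O := by
      have : Nat.card (H ⊓ L : Subgroup G) * (H ⊓ L).relIndex L = Nat.card (H ⊓ L : Subgroup G) * Nat.card O := by
        rw [e2, ← e4, mul_comm]
      exact Nat.eq_of_mul_eq_mul_left Nat.card_pos this
    have e6 : (H.subgroupOf L).index = Nat.card O := by
      have := Subgroup.inf_relIndex_right H L
      rw [e5] at this
      exact this.symm
    rw [e1, e6]
    exact (hOc.coprime_dvd_right (Subgroup.card_dvd_of_le inf_le_left)).symm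
  have htop : O ⊔ normalizer (H : Set G) = ⊤ := by
    rw [eq_top_iff]
    intro g _
    have hgL : (H ⊓ L).map (MulAut.conj g).toMonoidHom ≤ L := by
      rintro _ ⟨x, hx, rfl⟩
      exact hLn.conj_mem x hx.2 g
    obtain ⟨l, hl⟩ := Cfsg.Agent.S4116.result (H.subgroupOf L) hHall' hTI' (((H ⊓ L).map (MulAut.conj g).toMonoidHom).subgroupOf L) (by
      intro q hq hqd
      refine hqd.trans ?_
      have e1 : Nat.card (H.subgroupOf L) = Nat.card (H ⊓ L : Subgroup G) := by
        rw [← Subgroup.subgroupOf_map_subtype, Subgroup.card_map_of_injective L.subtype_injective]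
      rw [e1, Nat.card_congr (Subgroup.subgroupOfEquivOfLe hgL).toEquiv,
        Subgroup.card_map_of_injective (MulAut.conj g).injective])
    obtain ⟨⟨x, hx⟩, hx1⟩ := Subgroup.ne_bot_iff_exists_ne_one.mp hH0
    have hx1' : x ≠ 1 := fun h => hx1 (Subtype.ext h)
    have hgx : g * x * g⁻¹ ∈ L := hLn.conj_mem x hx.2 g
    have h1 : (⟨g * x * g⁻¹, hgx⟩ : L) ∈ (H.subgroupOf L).map (MulAut.conj l).toMonoidHom := by
      apply hl
      exact ⟨x, hx, rfl⟩
    obtain ⟨y, hy, hyl⟩ := h1
    have h2 : (l : G) * y * (l : G)⁻¹ = g * x * g⁻¹ := by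
      have := congrArg Subtype.val hyl
      simpa using this
    have h3 : ((l : G)⁻¹ * g) * x * ((l : G)⁻¹ * g)⁻¹ ∈ H := by
      have : ((l : G)⁻¹ * g) * x * ((l : G)⁻¹ * g)⁻¹ = y := by
        calc ((l : G)⁻¹ * g) * x * ((l : G)⁻¹ * g)⁻¹ = (l : G)⁻¹ * (g * x * g⁻¹) * l := by group
          _ = (l : G)⁻¹ * ((l : G) * y * (l : G)⁻¹) * l := by rw [h2]
          _ = y := by group
      rw [this]; exact hy
    have h4 : (l : G)⁻¹ * g ∈ normalizer (H : Set G) := by
      by_contra hcon
      exact hx1' (hTI _ hcon x hx.1 h3)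
    have h5 : (l : G) ∈ O ⊔ normalizer (H : Set G) := by
      have h6 : L ≤ O ⊔ normalizer (H : Set G) := by
        rw [hLeq]
        exact sup_le_sup_left (inf_le_left.trans le_normalizer) O
      exact h6 l.2
    have : g = (l : G) * ((l : G)⁻¹ * g) := by group
    rw [this]
    exact mul_mem h5 ((le_sup_right : normalizer (H : Set G) ≤ _) h4)
  refine ⟨htop, ?_⟩
  rw [← Subgroup.normalizer_eq_top_iff, eq_top_iff, ← htop]
  apply sup_le
  · exact le_sup_left.trans le_normalizer
  · intro g hg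
    apply Subgroup.mem_normalizer_fintype
    intro y hy
    have hy' : y ∈ O ⊔ H := hy
    obtain ⟨a, ha, b, hb, rfl⟩ := Subgroup.mem_sup_of_normal_left.mp hy'
    have : g * (a * b) * g⁻¹ = (g * a * g⁻¹) * (g * b * g⁻¹) := by group
    rw [this]
    exact Subgroup.mul_mem_sup ((inferInstance : O.Normal).conj_mem a ha g)
      ((Subgroup.mem_normalizer_iff.mp hg b).mp hb)

end H71.SepTI
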