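import Mathlib
import Cfsg.Agent.Lib.H71.PChains
import Cfsg.Agent.Lib.H1.Hall

set_option autoImplicit false
open Cfsg

/-! The number of elements of `G` conjugating a `p`-subgroup `H` into `P M` along a chain of normal subgroups. -/

namespace H71.SubnormCount

open Subgroup

variable {G : Type*} [Group G] [Finite G]

/-- counting along cosets -/
theorem card_mul_eq (F F' D : Set G) (M : Subgroup G) (hD : ∀ d ∈ D, d ∈ M)
    (h1 : F ⊆ F') (h2 : ∀ g ∈ F', ∀ m ∈ M, g * m ∈ F') (h3 : ∀ g ∈ F', ∃ m ∈ M, g * m ∈ F)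
    (h4 : ∀ g ∈ F, ∀ m ∈ M, (g * m ∈ F ↔ m ∈ D)) :
    Nat.card F * Nat.card M = Nat.card F' * Nat.card D := by
  classical
  let C := {c : G ⧸ M // ∃ g ∈ F, (QuotientGroup.mk g : G ⧸ M) = c}
  choose r hrF hrc using fun c : C => c.2
  have e1 : Nat.card F = Nat.card C * Nat.card D := by
    rw [← Nat.card_prod]
    refine (Nat.card_congr (Equiv.ofBijective (fun x : C × D => (⟨r x.1 * x.2.1, ?_⟩ : F)) ⟨?_, ?_⟩)).symm
    · exact (h4 _ (hrF x.1) _ (hD _ x.2.2)).2 x.2.2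
    · rintro ⟨c1, d1⟩ ⟨c2, d2⟩ h
      have h5 : r c1 * d1.1 = r c2 * d2.1 := congrArg Subtype.val h
      have h6 : c1.1 = c2.1 := by
        rw [← hrc c1, ← hrc c2, QuotientGroup.eq]
        have : (r c1)⁻¹ * r c2 = d1.1 * d2.1⁻¹ := by
          rw [inv_mul_eq_iff_eq_mul, ← mul_assoc, h5, mul_assoc, mul_inv_cancel, mul_one]
        rw [this]
        exact M.mul_mem (hD _ d1.2) (M.inv_mem (hD _ d2.2))
      have h7 : c1 = c2 := Subtype.ext h6
      subst h7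
      rw [Subtype.ext (mul_left_cancel h5)]
    · rintro ⟨f, hf⟩
      let c : C := ⟨QuotientGroup.mk f, f, hf, rfl⟩
      have hm : (r c)⁻¹ * f ∈ M := by rw [← QuotientGroup.eq]; exact hrc c
      have hd : (r c)⁻¹ * f ∈ D := by
        rw [← h4 _ (hrF c) _ hm, mul_inv_cancel_left]; exact hf
      exact ⟨(c, ⟨_, hd⟩), Subtype.ext (mul_inv_cancel_left _ _)⟩
  have e2 : Nat.card F' = Nat.card C * Nat.card M := by
    rw [← Nat.card_prod]
    refine (Nat.card_congr (Equiv.ofBijective (fun x : C × M => (⟨r x.1 * x.2.1, ?_⟩ : F')) ⟨?_, ?_⟩)).symm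
    · exact h2 _ (h1 (hrF x.1)) _ x.2.2
    · rintro ⟨c1, d1⟩ ⟨c2, d2⟩ h
      have h5 : r c1 * d1.1 = r c2 * d2.1 := congrArg Subtype.val h
      have h6 : c1.1 = c2.1 := by
        rw [← hrc c1, ← hrc c2, QuotientGroup.eq]
        have : (r c1)⁻¹ * r c2 = d1.1 * d2.1⁻¹ := by
          rw [inv_mul_eq_iff_eq_mul, ← mul_assoc, h5, mul_assoc, mul_inv_cancel, mul_one]
        rw [this]
        exact M.mul_mem d1.2 (M.inv_mem d2.2)
      have h7 : c1 = c2 := Subtype.ext h6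
      subst h7
      rw [Subtype.ext (mul_left_cancel h5)]
    · rintro ⟨f, hf⟩
      obtain ⟨m, hm, hfm⟩ := h3 f hf
      let c : C := ⟨QuotientGroup.mk f, f * m, hfm, by rw [eq_comm, QuotientGroup.eq]; simpa using hm⟩
      have hm : (r c)⁻¹ * f ∈ M := by rw [← QuotientGroup.eq]; exact hrc c
      exact ⟨(c, ⟨_, hm⟩), Subtype.ext (mul_inv_cancel_left _ _)⟩
  rw [e1, e2]; ring

theorem mem_of_pow {p : ℕ} [Fact p.Prime] {M M' : Subgroup G} [M.Normal]
    (hc : (M.relIndex M').Coprime p) {x : G} (hx : x ∈ M') (hp : ∃ k : ℕ, x ^ p ^ k = 1) : x ∈ M := by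
  obtain ⟨k, hk⟩ := hp
  have h1 : orderOf (QuotientGroup.mk x : G ⧸ M) ∣ p ^ k := by
    apply orderOf_dvd_of_pow_eq_one
    rw [← QuotientGroup.mk_pow, hk, QuotientGroup.mk_one]
  have h2 : orderOf (QuotientGroup.mk x : G ⧸ M) ∣ M.relIndex M' := by
    apply orderOf_dvd_of_pow_eq_one
    rw [← QuotientGroup.mk_pow, QuotientGroup.eq_one_iff]
    exact Subgroup.pow_relIndex_mem M hx
  have h3 : orderOf (QuotientGroup.mk x : G ⧸ M) = 1 := Nat.eq_one_of_dvd_coprimes (hc.pow_right k) h2 h1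
  rw [orderOf_eq_one_iff, QuotientGroup.eq_one_iff] at h3
  exact h3

theorem sup_eq_of_pow {p : ℕ} [Fact p.Prime] (P : Sylow p G) {M M' : Subgroup G} [M.Normal] [M'.Normal]
    (hle : M ≤ M') {k : ℕ} (hk : M.relIndex M' = p ^ k) : (P : Subgroup G) ⊔ M = (P : Subgroup G) ⊔ M' := by
  have hp := Fact.out (p := p.Prime)
  have hle' : (P : Subgroup G) ⊔ M ≤ (P : Subgroup G) ⊔ M' := sup_le_sup_left hle _
  apply Subgroup.eq_of_le_of_card_ge hle'
  obtain ⟨t, ht⟩ := Subgroup.card_dvd_of_le hle'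
  have h1 := H1.Hall.card_sup_mul_card_inf (P : Subgroup G) M
  have h2 := H1.Hall.card_sup_mul_card_inf (P : Subgroup G) M'
  have h3 : Nat.card M * M.relIndex M' = Nat.card M' := by
    have := Subgroup.relIndex_mul_relIndex ⊥ M M' bot_le hle
    rwa [Subgroup.relIndex_bot_left, Subgroup.relIndex_bot_left] at this
  rw [hk] at h3
  -- `t * |P ∩ M'| = p ^ k * |P ∩ M|`
  have h4 : t * Nat.card ((P : Subgroup G) ⊓ M' : Subgroup G) = p ^ k * Nat.card ((P : Subgroup G) ⊓ M : Subgroup G) := by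
    have hpos : 0 < Nat.card ((P : Subgroup G) ⊔ M : Subgroup G) := Nat.card_pos
    apply Nat.eq_of_mul_eq_mul_left hpos
    calc _ = (Nat.card ((P : Subgroup G) ⊔ M : Subgroup G) * t) * Nat.card ((P : Subgroup G) ⊓ M' : Subgroup G) := by ring
      _ = Nat.card (P : Subgroup G) * Nat.card M' := by rw [← ht, h2]
      _ = (Nat.card (P : Subgroup G) * Nat.card M) * p ^ k := by rw [← h3]; ring
      _ = _ := by rw [← h1]; ring
  obtain ⟨a, ha⟩ := IsPGroup.iff_card.1 (P.isPGroup'.to_le (inf_le_left : (P : Subgroup G) ⊓ M ≤ P))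
  have h5 : t ∣ p ^ (k + a) := by
    rw [pow_add, ← ha, ← h4]; exact dvd_mul_right _ _
  have h6 : ¬ p ∣ t := by
    intro hpt
    have h7 : t ∣ (P : Subgroup G).index := by
      have e1 : Nat.card ((P : Subgroup G) ⊔ M' : Subgroup G) ∣ Nat.card G := Subgroup.card_subgroup_dvd_card _
      have e2 : Nat.card (P : Subgroup G) ∣ Nat.card ((P : Subgroup G) ⊔ M : Subgroup G) := Subgroup.card_dvd_of_le le_sup_left
      rw [ht] at e1
      have e3 : Nat.card (P : Subgroup G) * t ∣ Nat.card (P : Subgroup G) * (P : Subgroup G).index := by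
        rw [Subgroup.card_mul_index]
        exact (Nat.mul_dvd_mul_right e2 t).trans e1
      exact Nat.dvd_of_mul_dvd_mul_left Nat.card_pos e3
    exact P.not_dvd_index (hpt.trans h7)
  have h7 : t = 1 := by
    have := (Nat.Coprime.pow_right (k + a) ((Nat.Prime.coprime_iff_not_dvd hp).2 h6).symm)
    exact Nat.eq_one_of_dvd_coprimes this dvd_rfl h5
  rw [ht, h7, mul_one]

theorem inf_le_of_coprime {p : ℕ} [Fact p.Prime] (P : Sylow p G) {M M' : Subgroup G} [M.Normal]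
    (hc : (M.relIndex M').Coprime p) : (P : Subgroup G) ⊓ M' ≤ M := by
  rintro x ⟨hxP, hxM⟩
  obtain ⟨k, hk⟩ := P.isPGroup' ⟨x, hxP⟩
  exact mem_of_pow hc hxM ⟨k, congrArg Subtype.val hk⟩

theorem sup_inf_of_coprime {p : ℕ} [Fact p.Prime] (P : Sylow p G) {M M' : Subgroup G} [M.Normal]
    (hle : M ≤ M') (hc : (M.relIndex M').Coprime p) {x : G} (hx : x ∈ (P : Subgroup G) ⊔ M) (hx' : x ∈ M') : x ∈ M := by
  obtain ⟨a, ha, m, hm, rfl⟩ := Subgroup.mem_sup_of_normal_right.1 hx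
  have h1 : a ∈ M' := by
    have := M'.mul_mem hx' (M'.inv_mem (hle hm))
    simpa using this
  exact M.mul_mem (inf_le_of_coprime P hc ⟨ha, h1⟩) hm

theorem card_sup_of_coprime {p : ℕ} [Fact p.Prime] (P : Sylow p G) {M M' : Subgroup G} [M.Normal] [M'.Normal]
    (hle : M ≤ M') (hc : (M.relIndex M').Coprime p) :
    Nat.card ((P : Subgroup G) ⊔ M' : Subgroup G) * Nat.card M = Nat.card ((P : Subgroup G) ⊔ M : Subgroup G) * Nat.card M' := by
  have h1 := H1.Hall.card_sup_mul_card_inf (P : Subgroup G) M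
  have h2 := H1.Hall.card_sup_mul_card_inf (P : Subgroup G) M'
  have h3 : (P : Subgroup G) ⊓ M' = (P : Subgroup G) ⊓ M :=
    le_antisymm (le_inf inf_le_left (inf_le_of_coprime P hc)) (inf_le_inf_left _ hle)
  rw [h3] at h2
  have hpos : 0 < Nat.card ((P : Subgroup G) ⊓ M : Subgroup G) := Nat.card_pos
  apply Nat.eq_of_mul_eq_mul_left hpos
  calc _ = (Nat.card ((P : Subgroup G) ⊔ M' : Subgroup G) * Nat.card ((P : Subgroup G) ⊓ M : Subgroup G)) * Nat.card M := by ring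
    _ = (Nat.card (P : Subgroup G) * Nat.card M) * Nat.card M' := by rw [h2]; ring
    _ = _ := by rw [← h1]; ring

/-- the main counting step -/
theorem card_step {p : ℕ} [Fact p.Prime] (H : Subgroup G) (hH : IsPGroup p H) (P : Sylow p G)
    {M M' : Subgroup G} [M.Normal] [M'.Normal] (hle : M ≤ M') (hc : (M.relIndex M').Coprime p) :
    Nat.card {g : G // ∀ h ∈ H, g * h * g⁻¹ ∈ (P : Subgroup G) ⊔ M} * Nat.card M' =
      Nat.card {g : G // ∀ h ∈ H, g * h * g⁻¹ ∈ (P : Subgroup G) ⊔ M'} *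
        Nat.card {u : G // u ∈ M' ∧ ∀ h ∈ H, h * u * h⁻¹ * u⁻¹ ∈ M} := by
  have hM := ‹M.Normal›
  have hM' := ‹M'.Normal›
  refine card_mul_eq {g : G | ∀ h ∈ H, g * h * g⁻¹ ∈ (P : Subgroup G) ⊔ M}
    {g : G | ∀ h ∈ H, g * h * g⁻¹ ∈ (P : Subgroup G) ⊔ M'} {u : G | u ∈ M' ∧ ∀ h ∈ H, h * u * h⁻¹ * u⁻¹ ∈ M} M'
    (fun d hd => hd.1) ?_ ?_ ?_ ?_
  · intro g hg h hh
    exact sup_le_sup_left hle _ (hg h hh)
  · intro g hg m hm h hh
    have e : g * m * h * (g * m)⁻¹ = (g * (m * (h * m⁻¹ * h⁻¹)) * g⁻¹) * (g * h * g⁻¹) := by group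
    rw [e]
    refine Subgroup.mul_mem _ (Subgroup.mem_sup_right (hM'.conj_mem _ (M'.mul_mem hm (hM'.conj_mem _ (M'.inv_mem hm) h)) g)) (hg h hh)
  · intro g hg
    -- the subgroup `P M'` and its `p`-subgroup `g H g⁻¹`
    set X := (P : Subgroup G) ⊔ M' with hX
    have hHX : H.map (MulAut.conj g).toMonoidHom ≤ X := by
      rintro _ ⟨h, hh, rfl⟩
      exact hg h hh
    have hpg : IsPGroup p ((H.map (MulAut.conj g).toMonoidHom).subgroupOf X) := (hH.map _).comap_subtype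
    obtain ⟨Q, hQ⟩ := hpg.exists_le_sylow
    obtain ⟨x, hx⟩ := MulAction.exists_smul_eq X Q (P.subtype le_sup_left : Sylow p X)
    have key : ∀ h ∈ H, x.1 * (g * h * g⁻¹) * x.1⁻¹ ∈ (P : Subgroup G) := by
      intro h hh
      have h1 : (⟨g * h * g⁻¹, hg h hh⟩ : X) ∈ (Q : Subgroup X) := hQ (Subgroup.mem_subgroupOf.2 ⟨h, hh, rfl⟩)
      have h2 : x * ⟨g * h * g⁻¹, hg h hh⟩ * x⁻¹ ∈ ((x • Q : Sylow p X) : Subgroup X) := by
        rw [Sylow.coe_subgroup_smul, Subgroup.mem_pointwise_smul_iff_inv_smul_mem]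
        simpa [MulAut.smul_def, mul_assoc] using h1
      rw [hx] at h2
      exact Subgroup.mem_subgroupOf.1 h2
    obtain ⟨a, ha, m, hm, ham⟩ := Subgroup.mem_sup_of_normal_right.1 x.2
    refine ⟨g⁻¹ * m * g, ?_, ?_⟩
    · have := hM'.conj_mem m hm g⁻¹
      simpa using this
    · intro h hh
      have h3 := key h hh
      rw [← ham] at h3
      have e : g * (g⁻¹ * m * g) * h * (g * (g⁻¹ * m * g))⁻¹ = a⁻¹ * (a * m * (g * h * g⁻¹) * (a * m)⁻¹) * a := by group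
      rw [e]
      exact Subgroup.mem_sup_left ((P : Subgroup G).mul_mem ((P : Subgroup G).mul_mem ((P : Subgroup G).inv_mem ha) h3) ha)
  · intro g hg m hm
    constructor
    · intro hgm
      refine ⟨hm, fun h hh => ?_⟩
      have h1 := Subgroup.mul_mem _ (hg h hh) (Subgroup.inv_mem _ (hgm h hh))
      have e : g * h * g⁻¹ * (g * m * h * (g * m)⁻¹)⁻¹ = g * (h * m * h⁻¹ * m⁻¹) * g⁻¹ := by group
      rw [e] at h1
      have h2 : g * (h * m * h⁻¹ * m⁻¹) * g⁻¹ ∈ M' :=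
        hM'.conj_mem _ (M'.mul_mem (hM'.conj_mem _ hm h) (M'.inv_mem hm)) g
      have h3 := sup_inf_of_coprime P hle hc h1 h2
      have := hM.conj_mem _ h3 g⁻¹
      have e2 : g⁻¹ * (g * (h * m * h⁻¹ * m⁻¹) * g⁻¹) * g⁻¹⁻¹ = h * m * h⁻¹ * m⁻¹ := by group
      rwa [e2] at this
    · rintro ⟨-, h1⟩ h hh
      have h2 := M.inv_mem (h1 h hh)
      have e : g * m * h * (g * m)⁻¹ = (g * (h * m * h⁻¹ * m⁻¹)⁻¹ * g⁻¹) * (g * h * g⁻¹) := by group
      rw [e]
      exact Subgroup.mul_mem _ (Subgroup.mem_sup_right (hM.conj_mem _ h2 g)) (hg h hh)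

theorem dvd_card (H M M' : Subgroup G) [M.Normal] [M'.Normal] (hle : M ≤ M') :
    Nat.card M ∣ Nat.card {u : G // u ∈ M' ∧ ∀ h ∈ H, h * u * h⁻¹ * u⁻¹ ∈ M} := by
  have hM := ‹M.Normal›
  set D : Subgroup G := M' ⊓ (centralizer (H.map (QuotientGroup.mk' M) : Set (G ⧸ M))).comap (QuotientGroup.mk' M) with hD
  have h1 : ∀ u : G, u ∈ D ↔ (u ∈ M' ∧ ∀ h ∈ H, h * u * h⁻¹ * u⁻¹ ∈ M) := by
    intro u
    rw [hD, Subgroup.mem_inf, Subgroup.mem_comap, Subgroup.mem_centralizer_iff]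
    refine and_congr Iff.rfl ?_
    constructor
    · intro h2 h hh
      have h3 := h2 (QuotientGroup.mk h) ⟨h, hh, rfl⟩
      rw [← QuotientGroup.eq_one_iff]
      have h4 : (QuotientGroup.mk h : G ⧸ M) * QuotientGroup.mk u = QuotientGroup.mk u * QuotientGroup.mk h := h3
      rw [QuotientGroup.mk_mul, QuotientGroup.mk_mul, QuotientGroup.mk_mul, h4, QuotientGroup.mk_inv, QuotientGroup.mk_inv]
      group
    · rintro h2 _ ⟨h, hh, rfl⟩
      have h3 := h2 h hh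
      rw [← QuotientGroup.eq_one_iff] at h3
      rw [QuotientGroup.mk_mul, QuotientGroup.mk_mul, QuotientGroup.mk_mul, QuotientGroup.mk_inv, QuotientGroup.mk_inv,
        mul_inv_eq_one, mul_inv_eq_iff_eq_mul] at h3
      exact h3
  have h2 : M ≤ D := by
    intro m hm
    rw [h1]
    exact ⟨hle hm, fun h _ => M.mul_mem (hM.conj_mem m hm h) (M.inv_mem hm)⟩
  have h3 : Nat.card {u : G // u ∈ M' ∧ ∀ h ∈ H, h * u * h⁻¹ * u⁻¹ ∈ M} = Nat.card D :=
    Nat.card_congr (Equiv.subtypeEquivRight fun u => (h1 u).symm)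
  rw [h3]
  exact Subgroup.card_dvd_of_le h2

/-- the ratio form of one step -/
theorem ratio_step {p : ℕ} [Fact p.Prime] (H : Subgroup G) (hH : IsPGroup p H) (P : Sylow p G)
    {M M' : Subgroup G} [M.Normal] [M'.Normal] (hle : M ≤ M')
    (hf : (∃ m : ℕ, M.relIndex M' = p ^ m) ∨ (M.relIndex M').Coprime p) :
    (Nat.card {g : G // ∀ h ∈ H, g * h * g⁻¹ ∈ (P : Subgroup G) ⊔ M} : ℚ) / Nat.card ((P : Subgroup G) ⊔ M : Subgroup G) =
      (if (M.relIndex M').Coprime p then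
          ((Nat.card {u : G // u ∈ M' ∧ ∀ h ∈ H, h * u * h⁻¹ * u⁻¹ ∈ M} / Nat.card M : ℕ) : ℚ) else 1) *
      ((Nat.card {g : G // ∀ h ∈ H, g * h * g⁻¹ ∈ (P : Subgroup G) ⊔ M'} : ℚ) / Nat.card ((P : Subgroup G) ⊔ M' : Subgroup G)) := by
  split_ifs with hc
  · have h1 := card_step H hH P hle hc
    have h2 := card_sup_of_coprime P hle hc
    rw [Nat.cast_div (dvd_card H M M' hle) (by exact_mod_cast Nat.card_pos.ne')]
    have p1 : (0 : ℚ) < Nat.card M := by exact_mod_cast Nat.card_pos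
    have p2 : (0 : ℚ) < Nat.card M' := by exact_mod_cast Nat.card_pos
    have p3 : (0 : ℚ) < Nat.card ((P : Subgroup G) ⊔ M : Subgroup G) := by exact_mod_cast Nat.card_pos
    have p4 : (0 : ℚ) < Nat.card ((P : Subgroup G) ⊔ M' : Subgroup G) := by exact_mod_cast Nat.card_pos
    have h1' : (Nat.card {g : G // ∀ h ∈ H, g * h * g⁻¹ ∈ (P : Subgroup G) ⊔ M} : ℚ) * Nat.card M' =
      Nat.card {g : G // ∀ h ∈ H, g * h * g⁻¹ ∈ (P : Subgroup G) ⊔ M'} *
        Nat.card {u : G // u ∈ M' ∧ ∀ h ∈ H, h * u * h⁻¹ * u⁻¹ ∈ M} := by exact_mod_cast h1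
    have h2' : (Nat.card ((P : Subgroup G) ⊔ M' : Subgroup G) : ℚ) * Nat.card M =
      Nat.card ((P : Subgroup G) ⊔ M : Subgroup G) * Nat.card M' := by exact_mod_cast h2
    rw [div_mul_div_comm, div_eq_div_iff p3.ne' (mul_pos p1 p4).ne']
    calc _ = (Nat.card {g : G // ∀ h ∈ H, g * h * g⁻¹ ∈ (P : Subgroup G) ⊔ M} : ℚ) * (Nat.card ((P : Subgroup G) ⊔ M' : Subgroup G) * Nat.card M) := by ring
      _ = ((Nat.card {g : G // ∀ h ∈ H, g * h * g⁻¹ ∈ (P : Subgroup G) ⊔ M} : ℚ) * Nat.card M') * Nat.card ((P : Subgroup G) ⊔ M : Subgroup G) := by rw [h2']; ring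
      _ = _ := by rw [h1']; ring
  · obtain ⟨k, hk⟩ := hf.resolve_right hc
    rw [sup_eq_of_pow P hle hk, one_mul]

theorem prod_telescope (n : ℕ) (a : Fin (n + 1) → ℚ) (e : Fin n → ℚ) (h : ∀ i : Fin n, a i.castSucc = e i * a i.succ) :
    a 0 = (∏ i, e i) * a (Fin.last n) := by
  induction n with
  | zero => simp
  | succ n ih =>
    have h1 := ih (fun i => a i.succ) (fun i => e i.succ) (fun i => h i.succ)
    rw [Fin.prod_univ_succ]
    have h2 := h 0
    simp only [Fin.castSucc_zero] at h2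
    rw [h2, mul_assoc]
    congr 1

/-- elements conjugating `H` into `P`, counted by Sylow subgroups containing `H` -/
theorem card_into {p : ℕ} [Fact p.Prime] (H : Subgroup G) (P : Sylow p G) :
    Nat.card {g : G // ∀ h ∈ H, g * h * g⁻¹ ∈ (P : Subgroup G)} =
      Nat.card {Q : Sylow p G // H ≤ (Q : Subgroup G)} * Nat.card (Subgroup.normalizer ((P : Subgroup G) : Set G)) := by
  rw [← Nat.card_prod]
  have hex : ∀ Q : Sylow p G, ∃ g : G, g • Q = P := fun Q => MulAction.exists_smul_eq G Q P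
  choose f hf using hex
  have hiff : ∀ (g : G) (Q : Sylow p G), g • Q = P → ((∀ h ∈ H, g * h * g⁻¹ ∈ (P : Subgroup G)) ↔ H ≤ (Q : Subgroup G)) := by
    intro g Q h
    rw [← h, Sylow.coe_subgroup_smul]
    constructor
    · intro h1 x hx
      have := h1 x hx
      rw [Subgroup.mem_pointwise_smul_iff_inv_smul_mem] at this
      simpa [MulAut.smul_def, mul_assoc] using this
    · intro h1 y hy
      rw [Subgroup.mem_pointwise_smul_iff_inv_smul_mem]
      simpa [MulAut.smul_def, mul_assoc] using h1 hy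
  refine (Nat.card_congr ?_).symm
  refine Equiv.ofBijective (fun x => ⟨x.2.1 * f x.1.1, ?_⟩) ⟨?_, ?_⟩
  · refine (hiff _ x.1.1 ?_).2 x.1.2
    rw [mul_smul, hf]
    exact Sylow.smul_eq_iff_mem_normalizer.2 x.2.2
  · rintro ⟨Q1, n1⟩ ⟨Q2, n2⟩ h
    have h2 : n1.1 * f Q1.1 = n2.1 * f Q2.1 := congrArg Subtype.val h
    have h3 : Q1.1 = Q2.1 := by
      have a1 : (n1.1 * f Q1.1) • Q1.1 = P := by
        rw [mul_smul, hf]; exact Sylow.smul_eq_iff_mem_normalizer.2 n1.2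
      have a2 : (n2.1 * f Q2.1) • Q2.1 = P := by
        rw [mul_smul, hf]; exact Sylow.smul_eq_iff_mem_normalizer.2 n2.2
      rw [h2] at a1
      exact smul_left_cancel _ (a1.trans a2.symm)
    have h4 : Q1 = Q2 := Subtype.ext h3
    subst h4
    have h5 : n1.1 = n2.1 := mul_right_cancel h2
    rw [Subtype.ext h5]
  · rintro ⟨g, hg⟩
    have hQ : g • (g⁻¹ • P) = P := smul_inv_smul g P
    have hHQ : H ≤ ((g⁻¹ • P : Sylow p G) : Subgroup G) := (hiff g _ hQ).1 hg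
    have hn : g * (f (g⁻¹ • P))⁻¹ ∈ Subgroup.normalizer ((P : Subgroup G) : Set G) := by
      refine Sylow.smul_eq_iff_mem_normalizer.1 ?_
      rw [mul_smul]
      have : (f (g⁻¹ • P))⁻¹ • P = g⁻¹ • P := by
        rw [inv_smul_eq_iff, hf]
      rw [this, hQ]
    exact ⟨⟨⟨g⁻¹ • P, hHQ⟩, ⟨_, hn⟩⟩, Subtype.ext (by simp)⟩

/-- the product formula along a chain of normal subgroups with `p`- or `p'`-factors -/
theorem card_into_eq_prod (p : ℕ) [Fact p.Prime] (H : Subgroup G) (hH : IsPGroup p H) (P : Sylow p G)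
    (n : ℕ) (M : Fin (n + 1) → Subgroup G) (h0 : M 0 = ⊥) (hn : M (Fin.last n) = ⊤) (hmono : Monotone M)
    (hnormal : ∀ i, (M i).Normal)
    (hfac : ∀ i : Fin n, (∃ m : ℕ, (M i.castSucc).relIndex (M i.succ) = p ^ m) ∨ ((M i.castSucc).relIndex (M i.succ)).Coprime p) :
    Nat.card {g : G // ∀ h ∈ H, g * h * g⁻¹ ∈ (P : Subgroup G)} =
      Nat.card (P : Subgroup G) *
        ∏ i : Fin n, (if ((M i.castSucc).relIndex (M i.succ)).Coprime p then
          Nat.card {u : G // u ∈ M i.succ ∧ ∀ h ∈ H, h * u * h⁻¹ * u⁻¹ ∈ M i.castSucc} / Nat.card (M i.castSucc)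
          else 1) := by
  have h1 := prod_telescope n
    (fun i => (Nat.card {g : G // ∀ h ∈ H, g * h * g⁻¹ ∈ (P : Subgroup G) ⊔ M i} : ℚ) / Nat.card ((P : Subgroup G) ⊔ M i : Subgroup G))
    (fun i => (if ((M i.castSucc).relIndex (M i.succ)).Coprime p then
          ((Nat.card {u : G // u ∈ M i.succ ∧ ∀ h ∈ H, h * u * h⁻¹ * u⁻¹ ∈ M i.castSucc} / Nat.card (M i.castSucc) : ℕ) : ℚ) else 1))
    (by
      intro i
      haveI := hnormal i.castSucc
      haveI := hnormal i.succ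
      exact ratio_step H hH P (hmono (Fin.castSucc_lt_succ (i := i)).le) (hfac i))
  simp only [h0, hn, sup_bot_eq, sup_top_eq] at h1
  have h2 : (Nat.card {g : G // ∀ h ∈ H, g * h * g⁻¹ ∈ (⊤ : Subgroup G)} : ℚ) / Nat.card (⊤ : Subgroup G) = 1 := by
    have e : Nat.card {g : G // ∀ h ∈ H, g * h * g⁻¹ ∈ (⊤ : Subgroup G)} = Nat.card (⊤ : Subgroup G) :=
      Nat.card_congr (Equiv.subtypeEquivRight fun g => by simp)
    rw [e, div_self]
    exact_mod_cast Nat.card_pos.ne'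
  rw [h2, mul_one, div_eq_iff (by exact_mod_cast Nat.card_pos.ne')] at h1
  rw [mul_comm]
  exact_mod_cast h1

end H71.SubnormCount
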